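import Mathlib
import Cfsg.Agent.H27.Mt0

/-! Martineau's theorem, piece `bil`: no non-zero invariant bilinear map on two natural modules. -/

set_option autoImplicit false
namespace Cfsg.Agent.H27.Mt
open Matrix Cfsg.Agent.H13

universe u
variable {G : Type*} [Group G] {F : Type} [Field F] (S : SzData G F) {E : Type*} [AddCommGroup E] [Module F E]
  {π : G →* (E →ₗ[F] E)}

/-- standard basis vectors -/
def bil_e (i : Fin 4) : Fin 4 → F := Pi.single i 1

theorem bil_exp {M : Type*} [AddCommGroup M] [Module F M] (L : (Fin 4 → F) →ₗ[F] M) (x : Fin 4 → F) :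
    L x = x 0 • L (bil_e 0) + x 1 • L (bil_e 1) + x 2 • L (bil_e 2) + x 3 • L (bil_e 3) := by
  have : x = x 0 • bil_e 0 + x 1 • bil_e 1 + x 2 • bil_e 2 + x 3 • bil_e 3 := by
    ext i
    fin_cases i <;> simp [bil_e]
  conv_lhs => rw [this]
  simp only [map_add, map_smul]

theorem bil_zero {M : Type*} [AddCommGroup M] [Module F M] (L : (Fin 4 → F) →ₗ[F] M) (h0 : L (bil_e 0) = 0)
    (h1 : L (bil_e 1) = 0) (h2 : L (bil_e 2) = 0) (h3 : L (bil_e 3) = 0) : L = 0 := by
  refine LinearMap.ext fun x => ?_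
  rw [bil_exp L x, h0, h1, h2, h3]
  simp

/-- the nilpotent part of `u 0 b` -/
def bil_A (τ : F →+* F) (b : F) (x : Fin 4 → F) : Fin 4 → F :=
  (τ b * x 2 + τ (S.θ b) * x 3) • bil_e 0 + (τ b * x 3) • bil_e 1

theorem bil_nat (τ : F →+* F) (b : F) (x : Fin 4 → F) : nat S τ (S.u 0 b) x = x + bil_A S τ b x := by
  rw [nat_u]
  ext i
  fin_cases i <;> simp [bil_A, bil_e, szf, add_assoc]

theorem bil_nat2 (τ : F →+* F) (b c : F) (x : Fin 4 → F) :
    nat S τ (S.u 0 b) (nat S τ (S.u 0 c) x) = x + bil_A S τ b x + bil_A S τ c x := by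
  rw [bil_nat, bil_nat]
  ext i
  fin_cases i <;> simp [bil_A, bil_e] <;> ring

theorem bil_key (h1 : I1 S π) {τ₁ τ₂ : F →+* F} (β : (Fin 4 → F) →ₗ[F] (Fin 4 → F) →ₗ[F] E)
    (hβ : ∀ g x y, β (nat S τ₁ g x) (nat S τ₂ g y) = π g (β x y)) (b c : F) (x y : Fin 4 → F) :
    β (bil_A S τ₁ b x) (bil_A S τ₂ c y) + β (bil_A S τ₁ c x) (bil_A S τ₂ b y) = 0 := by
  have := h1 b c (β x y)
  rw [D_apply, D_apply, map_sub, ← hβ, ← hβ, ← hβ, bil_nat2, bil_nat2, bil_nat, bil_nat, bil_nat, bil_nat] at this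
  simp only [map_add, LinearMap.add_apply] at this
  rw [← this]
  abel

theorem bil_w (τ : F →+* F) : nat S τ S.w (bil_e 0) = bil_e 3 ∧ nat S τ S.w (bil_e 1) = bil_e 2 ∧
    nat S τ S.w (bil_e 2) = bil_e 1 ∧ nat S τ S.w (bil_e 3) = bil_e 0 := by
  refine ⟨?_, ?_, ?_, ?_⟩ <;> rw [nat_w] <;> ext i <;> fin_cases i <;> simp [bil_e]

theorem bil_four (_π : G →* (E →ₗ[F] E)) (S : SzData G F) (x : E) : 4 • x = 0 := by
  haveI := S.charP
  have two : (2 : F) = 0 := CharP.cast_eq_zero F 2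
  have : (4 : ℕ) • x = ((2 : F) * 2) • x := by
    rw [← Nat.cast_smul_eq_nsmul F]
    norm_num
  rw [this, two, mul_zero, zero_smul]

theorem bil_usq : S.u 1 0 ^ 2 = S.u 0 1 := by
  rw [pow_two, S.u_sq]
  simp

theorem bil_fix (h : Nz π) {z : E} (h1 : π (S.u 0 1) z = z) (h2 : π (S.w * S.u 0 1 * S.w) z = z) : z = 0 := by
  have h3 : π ((S.w * S.u 1 0 ^ 2) ^ 2) z = z := by
    rw [bil_usq, pow_two, ← mul_assoc, map_mul, Module.End.mul_apply, h1, h2]
  have h4 : S.w * S.u 1 0 ^ 2 = (S.w * S.u 1 0 ^ 2) ^ 2 * (S.w * S.u 1 0 ^ 2) ^ 2 * (S.w * S.u 1 0 ^ 2) ^ 2 := by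
    rw [← pow_add, ← pow_add, show 2 + 2 + 2 = 5 + 1 by rfl, pow_succ _ 5, (five S).1, one_mul]
  refine h.fix (bil_four π S) (g := S.w * S.u 1 0 ^ 2) (by rw [orderOf_five]; decide) (five S).2.2.2.2 ?_
  rw [h4, map_mul, map_mul, Module.End.mul_apply, Module.End.mul_apply, h3, h3, h3]

theorem bil_ne (h : Nz π) (h1 : I1 S π) {τ₁ τ₂ : F →+* F} (hne : τ₁ ≠ τ₂)
    (β : (Fin 4 → F) →ₗ[F] (Fin 4 → F) →ₗ[F] E)
    (hβ : ∀ g x y, β (nat S τ₁ g x) (nat S τ₂ g y) = π g (β x y)) : β = 0 := by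
  haveI := S.charP
  have two : (2 : F) = 0 := CharP.cast_eq_zero F 2
  obtain ⟨b, hb⟩ : ∃ b, τ₁ b ≠ τ₂ b := by
    by_contra hc
    push Not at hc
    exact hne (RingHom.ext hc)
  have hδ : τ₁ b + τ₂ b ≠ 0 := fun e => hb (by linear_combination e - τ₂ b * two)
  have can : ∀ z : E, τ₁ b • z + τ₂ b • z = 0 → z = 0 := fun z hz => by
    rw [← add_smul] at hz
    exact (smul_eq_zero.1 hz).resolve_left hδ
  have K := bil_key S h1 β hβ b 1
  have z00 : β (bil_e 0) (bil_e 0) = 0 := by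
    have := K (bil_e 2) (bil_e 2)
    apply can
    simpa [bil_A, bil_e] using this
  have z10 : β (bil_e 1) (bil_e 0) = 0 := by
    have := K (bil_e 3) (bil_e 2)
    apply can
    simp only [bil_A, map_add, map_smul, LinearMap.add_apply, LinearMap.smul_apply, z00] at this
    simpa [bil_e] using this
  have z01 : β (bil_e 0) (bil_e 1) = 0 := by
    have := K (bil_e 2) (bil_e 3)
    apply can
    simp only [bil_A, map_add, map_smul, LinearMap.add_apply, LinearMap.smul_apply, z00] at this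
    simpa [bil_e] using this
  have z11 : β (bil_e 1) (bil_e 1) = 0 := by
    have := K (bil_e 3) (bil_e 3)
    apply can
    simp only [bil_A, map_add, map_smul, LinearMap.add_apply, LinearMap.smul_apply, z00, z01, z10] at this
    simpa [bil_e] using this
  obtain ⟨a0, a1, a2, a3⟩ := bil_w S τ₁
  obtain ⟨b0, b1, b2, b3⟩ := bil_w S τ₂
  have z33 : β (bil_e 3) (bil_e 3) = 0 := by
    have := hβ S.w (bil_e 0) (bil_e 0)
    rwa [a0, b0, z00, map_zero] at this
  have z23 : β (bil_e 2) (bil_e 3) = 0 := by rw [← a1, ← b0, hβ, z10, map_zero]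
  have z32 : β (bil_e 3) (bil_e 2) = 0 := by rw [← a0, ← b1, hβ, z01, map_zero]
  have z22 : β (bil_e 2) (bil_e 2) = 0 := by
    have := hβ S.w (bil_e 1) (bil_e 1)
    rwa [a1, b1, z11, map_zero] at this
  have main : ∀ x y : Fin 4 → F, x 2 = 0 → x 3 = 0 → y 0 = 0 → y 1 = 0 → β x y = 0 := by
    intro x y x2 x3 y0 y1
    apply bil_fix S h
    · rw [← hβ, bil_nat, bil_nat, bil_exp β x]
      simp [bil_A, x2, x3, bil_exp β x, z00, z01, z10, z11]
    · rw [← hβ, nat_mul, nat_mul, nat_mul, nat_mul, bil_nat, bil_nat, nat_add, nat_add, ← nat_mul, ← nat_mul,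
        S.w_mul_w, nat_one, nat_one]
      have e1 : bil_A S τ₂ 1 (nat S τ₂ S.w y) = 0 := by simp [bil_A, nat_w, y0, y1]
      rw [e1, bil_A, nat_add, nat_smul, nat_smul, a0, a1]
      have e2 : nat S τ₂ S.w 0 = 0 := by simp [nat]
      rw [e2, add_zero, map_add, map_add, map_smul, map_smul, LinearMap.add_apply, LinearMap.add_apply,
        LinearMap.smul_apply, LinearMap.smul_apply, bil_exp (β (bil_e 3)) y, bil_exp (β (bil_e 2)) y,
        y0, y1, z33, z32, z23, z22]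
      simp
  have z02 : β (bil_e 0) (bil_e 2) = 0 := main _ _ (by simp [bil_e]) (by simp [bil_e]) (by simp [bil_e]) (by simp [bil_e])
  have z03 : β (bil_e 0) (bil_e 3) = 0 := main _ _ (by simp [bil_e]) (by simp [bil_e]) (by simp [bil_e]) (by simp [bil_e])
  have z12 : β (bil_e 1) (bil_e 2) = 0 := main _ _ (by simp [bil_e]) (by simp [bil_e]) (by simp [bil_e]) (by simp [bil_e])
  have z13 : β (bil_e 1) (bil_e 3) = 0 := main _ _ (by simp [bil_e]) (by simp [bil_e]) (by simp [bil_e]) (by simp [bil_e])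
  have z31 : β (bil_e 3) (bil_e 1) = 0 := by rw [← a0, ← b2, hβ, z02, map_zero]
  have z30 : β (bil_e 3) (bil_e 0) = 0 := by
    have := hβ S.w (bil_e 0) (bil_e 3)
    rwa [a0, b3, z03, map_zero] at this
  have z21 : β (bil_e 2) (bil_e 1) = 0 := by
    have := hβ S.w (bil_e 1) (bil_e 2)
    rwa [a1, b2, z12, map_zero] at this
  have z20 : β (bil_e 2) (bil_e 0) = 0 := by rw [← a1, ← b3, hβ, z13, map_zero]
  exact bil_zero β (bil_zero _ z00 z01 z02 z03) (bil_zero _ z10 z11 z12 z13) (bil_zero _ z20 z21 z22 z23)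
    (bil_zero _ z30 z31 z32 z33)

theorem bil_span {M : Type*} [AddCommGroup M] [Module F M] (τ : F →+* F) (L : (Fin 4 → F) →ₗ[F] M)
    (hL : ∀ a b, L (nat S τ (S.u a b) (bil_e 3)) = 0) : L = 0 := by
  haveI := S.charP
  have two : (2 : F) = 0 := CharP.cast_eq_zero F 2
  have K : ∀ a b, τ (szf S.θ a b) • L (bil_e 0) + τ b • L (bil_e 1) + τ a • L (bil_e 2) + L (bil_e 3) = 0 := by
    intro a b
    have := hL a b
    rw [bil_exp L, nat_u] at this
    simpa [bil_e] using this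
  have z3 : L (bil_e 3) = 0 := by simpa [szf] using K 0 0
  obtain ⟨ω, h0, h1⟩ := S.exists_ne_zero_one
  have hω : τ (S.θ ω) - τ ω ≠ 0 := by
    rw [← map_sub, map_ne_zero, sub_ne_zero, Ne, S.θ_eq_self_iff]
    tauto
  have k1 : L (bil_e 0) + L (bil_e 1) = 0 := by simpa [szf, z3] using K 0 1
  have k2 : τ (S.θ ω) • L (bil_e 0) + τ ω • L (bil_e 1) = 0 := by simpa [szf, z3] using K 0 ω
  have z0 : L (bil_e 0) = 0 := by
    refine (smul_eq_zero.1 ?_).resolve_left hω
    linear_combination (norm := module) k2 - τ ω • k1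
  have z1 : L (bil_e 1) = 0 := by simpa [z0] using k1
  have z2 : L (bil_e 2) = 0 := by simpa [z0, z3] using K 1 0
  exact bil_zero L z0 z1 z2 z3

theorem bil_eq (h : Nz π) {τ : F →+* F} (β : (Fin 4 → F) →ₗ[F] (Fin 4 → F) →ₗ[F] E)
    (hβ : ∀ g x y, β (nat S τ g x) (nat S τ g y) = π g (β x y)) : β = 0 := by
  haveI := S.finiteF
  obtain ⟨ω, h0, h1⟩ := S.exists_ne_zero_one
  have z03 : β (bil_e 0) (bil_e 3) = 0 := by
    refine h.fix (bil_four π S) (g := S.h (Units.mk0 ω h0)) ?_ ?_ ?_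
    · rw [orderOf_injective _ S.h_injective]
      refine Odd.of_dvd_nat S.odd_q_sub_one ?_
      rw [← S.card_units]
      exact orderOf_dvd_natCard _
    · intro e
      have := S.h_injective (e.trans (map_one S.h).symm)
      exact h1 (by simpa using congrArg Units.val this)
    · set c := τ (ω ^ 2 ^ S.m * ω) with hc
      have hc0 : c ≠ 0 := by
        rw [hc, map_ne_zero]
        exact mul_ne_zero (pow_ne_zero _ h0) h0
      have e0 : nat S τ (S.h (Units.mk0 ω h0)) (bil_e 0) = c • bil_e 0 := by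
        rw [nat_h]
        ext i
        fin_cases i <;> simp [bil_e, hc]
      have e3 : nat S τ (S.h (Units.mk0 ω h0)) (bil_e 3) = c⁻¹ • bil_e 3 := by
        rw [nat_h]
        ext i
        fin_cases i <;> simp [bil_e, hc]
      rw [← hβ, e0, e3, map_smul, map_smul, LinearMap.smul_apply, smul_smul, inv_mul_cancel₀ hc0, one_smul]
  have z0 : β (bil_e 0) = 0 := by
    refine bil_span S τ _ fun a b => ?_
    have e0 : nat S τ (S.u a b) (bil_e 0) = bil_e 0 := by
      rw [nat_u]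
      ext i
      fin_cases i <;> simp [bil_e]
    have := hβ (S.u a b) (bil_e 0) (bil_e 3)
    rwa [e0, z03, map_zero] at this
  refine bil_span S τ _ fun a b => ?_
  refine LinearMap.ext fun y => ?_
  have := hβ (S.u a b * S.w) (bil_e 0) (nat S τ (S.u a b * S.w)⁻¹ y)
  rw [← nat_mul, mul_inv_cancel, nat_one, z0, nat_mul, (bil_w S τ).1] at this
  simpa using this

theorem bil : Bil.{u} S := by
  intro E _ _ π h h1 τ₁ τ₂ β hβ
  by_cases hne : τ₁ = τ₂
  · subst hne
    exact bil_eq S h β hβ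
  · exact bil_ne S h h1 hne β hβ

end Cfsg.Agent.H27.Mt
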