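import Mathlib
import Cfsg.Agent.H9.Mod1
import Cfsg.Agent.H9.TB3

/-!
Irreducible Brauer characters and decomposition numbers.
-/

set_option autoImplicit false
set_option linter.unusedSectionVars false

namespace Cfsg.Agent.H9

open MonoidAlgebra Cfsg Module Polynomial Finset
open Cfsg.Agent.H8 (locRing resField res rd eB fB fC up red Zen IsBlockUnion chiL)
open Cfsg.Agent.H7 (ip)
open scoped ComplexConjugate

universe v

section Alg

variable {k : Type*} [Field k] {A : Type v} [Ring A] [Algebra k A] {b : A}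

theorem simple_induction
    {P : ∀ (X : Type v) [AddCommGroup X] [Module k X] [Module A X] [IsScalarTower k A X], Prop}
    (h0 : ∀ (X : Type v) [AddCommGroup X] [Module k X] [Module A X] [IsScalarTower k A X]
      [Subsingleton X], P X)
    (h1 : ∀ (X : Type v) [AddCommGroup X] [Module k X] [Module A X] [IsScalarTower k A X]
      [FiniteDimensional k X] (T : Submodule A X), IsSimpleModule A T → (∀ x : T, b • x = x) →
        P (X ⧸ T) → P X)
    (n : ℕ) : ∀ (X : Type v) [AddCommGroup X] [Module k X] [Module A X] [IsScalarTower k A X]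
      [FiniteDimensional k X], finrank k X = n → (∀ x : X, b • x = x) → P X := by
  induction n using Nat.strong_induction_on with
  | _ n ih =>
  intro X _ _ _ _ _ hn hb
  have : IsArtinian A X := isArtinian_of_tower k inferInstance
  rcases eq_bot_or_exists_atom_le (⊤ : Submodule A X) with h | ⟨T, hT, -⟩
  · have : Subsingleton X := (Submodule.subsingleton_iff A).1 (subsingleton_of_bot_eq_top h.symm)
    exact h0 X
  have := isSimpleModule_iff_isAtom.2 hT
  have : FiniteDimensional k T :=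
    FiniteDimensional.of_injective (T.subtype.restrictScalars k) Subtype.val_injective
  have : FiniteDimensional k (X ⧸ T) :=
    Module.Finite.of_surjective (T.mkQ.restrictScalars k) T.mkQ_surjective
  refine h1 X T inferInstance (fun x => Subtype.ext (hb x)) (ih _ ?_ _ rfl fun z => ?_)
  · have h2 := rk_add (k := k) (mul_one (1 : A)) T
    have := IsSimpleModule.nontrivial A T
    have := finrank_pos (R := k) (M := T)
    simp only [rk_one] at h2
    omega
  · obtain ⟨x, rfl⟩ := T.mkQ_surjective z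
    rw [← map_smul, hb]

theorem exists_family (b : A) : ∃ (ι : Type v) (I : ι → Ideal A),
    (∀ i, (I i).IsMaximal ∧ ∀ x : A ⧸ I i, b • x = x) ∧
    (∀ i j, i ≠ j → IsEmpty ((A ⧸ I i) ≃ₗ[A] A ⧸ I j)) ∧ ∀ (U : Type v) [AddCommGroup U]
      [Module A U] [IsSimpleModule A U], (∀ x : U, b • x = x) → ∃ i, Nonempty (U ≃ₗ[A] A ⧸ I i) := by
  let T := {I : Ideal A // I.IsMaximal ∧ ∀ x : A ⧸ I, b • x = x}
  let s : Setoid T := ⟨fun I J => Nonempty ((A ⧸ I.1) ≃ₗ[A] A ⧸ J.1), fun _ => ⟨.refl _ _⟩,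
    fun ⟨φ⟩ => ⟨φ.symm⟩, fun ⟨φ⟩ ⟨ψ⟩ => ⟨φ.trans ψ⟩⟩
  refine ⟨Quotient s, fun i => i.out.1, fun i => i.out.2,
    fun i j h => ⟨fun φ => h (Quotient.out_equiv_out.1 ⟨φ⟩)⟩, fun U _ _ hU hb => ?_⟩
  obtain ⟨I, hI, ⟨φ⟩⟩ := isSimpleModule_iff_quot_maximal.1 hU
  let t : T := ⟨I, hI, fun x => by
    obtain ⟨z, rfl⟩ := φ.surjective x
    rw [← map_smul, hb]⟩
  obtain ⟨ψ⟩ := Quotient.mk_out (s := s) t
  exact ⟨⟦t⟧, ⟨φ.trans ψ.symm⟩⟩

theorem rk_eq_sum {ι : Type*} [Fintype ι] [DecidableEq ι] (S : ι → Type*) [∀ i, AddCommGroup (S i)]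
    [∀ i, Module k (S i)] [∀ i, Module A (S i)] [∀ i, IsScalarTower k A (S i)] {e : ι → A}
    (he : ∀ i, e i * e i = e i) (h1 : ∀ j i, rk k (e j) (S i) = if i = j then 1 else 0)
    (h2 : ∀ (U : Type v) [AddCommGroup U] [Module A U] [IsSimpleModule A U],
      (∀ x : U, b • x = x) → ∃ i, Nonempty (U ≃ₗ[A] S i)) {y : A} (hy : y * y = y)
    (X : Type v) [AddCommGroup X] [Module k X] [Module A X] [IsScalarTower k A X]
    [FiniteDimensional k X] (hX : ∀ x : X, b • x = x) :
    rk k y X = ∑ i, rk k y (S i) * rk k (e i) X := by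
  generalize hr : (fun i => rk k y (S i)) = r
  replace hr := congrFun hr
  simp only [hr]
  refine simple_induction (k := k) (b := b) (P := fun X => rk k y X = ∑ i, r i * rk k (e i) X)
    (fun X _ _ _ _ _ => ?_) (fun X _ _ _ _ _ U hU hb h => ?_) _ X rfl hX
  · have h3 : ∀ y : A, rk k y X = 0 := fun y => finrank_zero_of_subsingleton
    simp only [h3, mul_zero, sum_const_zero]
  obtain ⟨j, ⟨φ⟩⟩ := h2 U hb
  simp only [rk_add hy U, h, fun i => rk_add (k := k) (he i) U, fun y => rk_equiv (k := k) y φ, h1,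
    mul_add, sum_add_distrib, hr]
  simp

end Alg

variable {M : Ideal AlgInt} [hMm : M.IsMaximal] {p : ℕ} [hp : Fact p.Prime] [hM : PMod M p]
variable {G : Type v} [Group G] [Finite G] {B : Set (IrrCharacter G)}

omit hp hM in
theorem exists_idem_family (hB : IsBlockUnion M B) {ι : Type*} [Finite ι] [DecidableEq ι]
    (S : ι → Type*) [∀ i, AddCommGroup (S i)] [∀ i, Module (resField M) (S i)]
    [∀ i, Module (resField M)[G] (S i)] [∀ i, IsScalarTower (resField M) (resField M)[G] (S i)]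
    [∀ i, FiniteDimensional (resField M) (S i)] [∀ i, IsSimpleModule (resField M)[G] (S i)]
    (hb : ∀ i (x : S i), eB M B • x = x)
    (hne : ∀ i j, i ≠ j → IsEmpty (S i ≃ₗ[(resField M)[G]] S j)) (j : ι) :
    ∃ e : (locRing M)[G], e * e = e ∧ fB M B * e = e ∧
      ∀ i, rk (resField M) (red M e) (S i) = if i = j then 1 else 0 := by
  have := Fintype.ofFinite ι
  let ρ := fun i => Algebra.lsmul (resField M) (resField M) (S i) (A := (resField M)[G])
  have h2 : ∀ s : Finset ι, j ∉ s → ∃ a : (resField M)[G], ρ j a = 1 ∧ ∀ i ∈ s, ρ i a = 0 := by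
    intro s
    induction s using Finset.induction_on with
    | empty => exact fun _ => ⟨1, map_one _, by simp⟩
    | insert i s hi ih =>
      intro hj
      obtain ⟨a, h3, h4⟩ := ih fun h => hj (mem_insert_of_mem h)
      obtain ⟨b, h5, h6⟩ := exists_sep (resField M) (hne j i fun h => hj (h ▸ mem_insert_self _ _))
      refine ⟨a * b, by rw [map_mul, h3, one_mul]; exact LinearMap.ext h5, fun l hl => ?_⟩
      rcases mem_insert.1 hl with rfl | hl
      · rw [map_mul, show ρ l b = 0 from LinearMap.ext h6, mul_zero]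
      · rw [map_mul, h4 l hl, zero_mul]
  obtain ⟨a, h3, h4⟩ := h2 (univ.erase j) (notMem_erase _ _)
  have := IsSimpleModule.nontrivial (resField M)[G] (S j)
  obtain ⟨w, hw⟩ := exists_ne (0 : S j)
  obtain ⟨φ, hφ⟩ := Module.Projective.exists_dual_eq_one (resField M) hw
  obtain ⟨r, hr⟩ := exists_smul_eq (resField M)[G] (φ.smulRight w)
  obtain ⟨e, g, h5, h6, h7, h8⟩ := exists_idem_lift (eB M B * (r * a))
  have h9 : ∀ i (f : Module.End (resField M) (S i)), f * f = f → ρ i (eB M B * (r * a)) = f →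
      rk (resField M) (red M e) (S i) = finrank (resField M) (LinearMap.range f) :=
    fun i f h9 h10 => by
      rw [rk, h6, ← aeval_algHom_apply, h10, aeval_idem h9, h7, h8, zero_smul, zero_add, one_smul]
  refine ⟨e, h5, fB_mul_of_red hB h5 ?_, fun i => ?_⟩
  · obtain ⟨q, hq⟩ := X_dvd_iff.2 ((coeff_zero_eq_eval_zero _).trans h7)
    rw [h6, hq, map_mul, aeval_X, ← mul_assoc, ← mul_assoc, H8.eB_mul_self hB]
  split_ifs with hi
  · subst hi
    rw [h9 i (φ.smulRight w) (LinearMap.ext fun x => by simp [hφ]) (by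
      rw [map_mul, map_mul, h3, show ρ i (eB M B) = 1 from LinearMap.ext (hb i), one_mul, mul_one]
      exact LinearMap.ext hr), LinearMap.range_smulRight_apply (fun h => by simp [h] at hφ),
      finrank_span_singleton hw]
  · rw [h9 i 0 (mul_zero _) (by
      rw [map_mul, map_mul, h4 i (mem_erase.2 ⟨hi, mem_univ _⟩), mul_zero, mul_zero])]
    simp

omit hp hM in
theorem rk_span_eq_sum (hB : IsBlockUnion M B) {y y' : (locRing M)[G]} (hy : y * y = y)
    (hy' : y' * y' = y') (h : fB M B * y' = y') :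
    (rk (resField M) (red M y) (Submodule.span (resField M)[G] {red M y'}) : ℂ) =
      ∑ χ ∈ bs B, chiL (χ : G → ℂ) (up M y') * chiL (χ : G → ℂ) (up M y) := by
  rw [rk_span, finrank_sand hy hy', ← blockPart_projChar hB h, blockPart_eq_bs,
    H8.chiL_sum (bs B) _ _ _ (fun g => Finset.sum_apply _ _ _)]
  exact sum_congr rfl fun χ _ => by rw [ip_projChar _ (H8.irr_isChar χ)]

/-- Idempotents of the simple modules of a block. -/
theorem exists_simples (hB : IsBlockUnion M B) : ∃ (ι : Type v) (_ : Fintype ι) (_ : DecidableEq ι)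
    (e : ι → (locRing M)[G]) (r : (locRing M)[G] → ι → ℕ), Fintype.card ι ≤ blockRank p B ∧
    (∀ i, e i * e i = e i ∧ fB M B * e i = e i) ∧ (∀ i, r 1 i ≠ 0) ∧
    ∀ y : (locRing M)[G], y * y = y → ∀ χ ∈ B,
      chiL (χ : G → ℂ) (up M y) = ∑ i, r y i * chiL (χ : G → ℂ) (up M (e i)) := by
  classical
  obtain ⟨ι, I, i1, h3, i2⟩ := exists_family (eB M B)
  have h1 : ∀ i, IsSimpleModule (resField M)[G] ((resField M)[G] ⧸ I i) := fun i =>
    isSimpleModule_iff_quot_maximal.2 ⟨_, (i1 i).1, ⟨.refl _ _⟩⟩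
  have h2 : ∀ i, FiniteDimensional (resField M) ((resField M)[G] ⧸ I i) := fun i =>
    Module.Finite.of_surjective ((I i).mkQ.restrictScalars _) (I i).mkQ_surjective
  have : Finite ι := by
    by_contra h
    have := not_finite_iff_infinite.1 h
    let f := (Fin.valEmbedding (n := blockRank p B + 1)).trans (Infinite.natEmbedding ι)
    simpa using card_le_blockRank (p := p) hB (fun i => (resField M)[G] ⧸ I (f i))
      (fun i => (i1 (f i)).2) fun i j h => h3 _ _ (f.injective.ne h)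
  have := Fintype.ofFinite ι
  have h0 := card_le_blockRank (p := p) hB _ (fun i => (i1 i).2) h3
  choose e h4 h5 h6 using exists_idem_family hB _ (fun i => (i1 i).2) h3
  have h7 := fun y => rk_eq_sum (y := y) _ (fun i => by rw [← map_mul, h4]) h6 i2
  let S := fun i => (resField M)[G] ⧸ I i
  have hz := H8.Zen_comm (H8.fB_mem_Zen (M := M) B)
  refine ⟨ι, inferInstance, inferInstance, e, fun y i => rk (resField M) (red M y) (S i),
    Nat.card_eq_fintype_card (α := ι) ▸ h0,
    fun i => ⟨h4 i, h5 i⟩, fun i => ?_, fun y hy => ?_⟩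
  · have := IsSimpleModule.nontrivial (resField M)[G] (S i)
    simp only [map_one, rk_one]
    exact finrank_pos.ne'
  choose c hc using fun (z : (locRing M)[G]) (hz : z * z = z) (χ : IrrCharacter G) =>
    exists_nat_chiL (e := up M z) (by rw [← map_mul, hz]) (H8.irr_isChar χ)
  let x : IrrCharacter G → ℤ := fun χ =>
    c y hy χ - ∑ i, (rk (resField M) (red M y) (S i) : ℤ) * c (e i) (h4 i) χ
  have h8 : ∀ z : (locRing M)[G], z * z = z → fB M B * z = z →
      ∑ χ ∈ bs B, chiL (χ : G → ℂ) (up M z) * x χ = 0 := fun z h8 h9 => by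
    have : FiniteDimensional (resField M) (Submodule.span (resField M)[G] {red M z}) :=
      FiniteDimensional.of_injective ((Submodule.subtype _).restrictScalars _) Subtype.val_injective
    have h10 := congrArg (Nat.cast : ℕ → ℂ) (h7 (red M y) (by rw [← map_mul, hy])
      (Submodule.span (resField M)[G] {red M z}) fun ⟨x, hx⟩ => by
        obtain ⟨a, rfl⟩ := Submodule.mem_span_singleton.1 hx
        refine Subtype.ext ?_
        simp only [SetLike.mk_smul_mk, smul_eq_mul]
        rw [← mul_assoc, H8.Zen_comm (H8.eB_mem_Zen B), mul_assoc, ← H8.red_fB, ← map_mul, h9])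
    push_cast at h10
    simp only [rk_span_eq_sum hB hy h8 h9, rk_span_eq_sum hB (h4 _) h8 h9, mul_sum] at h10
    simp only [x, ← hc, Int.cast_sub, Int.cast_sum, Int.cast_mul, Int.cast_natCast, mul_sub, mul_sum,
      sum_sub_distrib, h10, mul_left_comm (chiL _ (up M z))]
    rw [sum_comm, sub_self]
  have h9 : ∑ χ ∈ bs B, x χ * x χ = 0 := by
    have h9 := h8 (fB M B * y) (by rw [mul_assoc, ← mul_assoc y, ← hz y, mul_assoc, hy, ← mul_assoc,
      H8.fB_mul_self hB]) (by rw [← mul_assoc, H8.fB_mul_self hB])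
    rw [sum_congr rfl fun χ hχ => by
      rw [map_mul, H8.up_fB hB, H8.chiL_fC_mul, if_pos (mem_bs.1 hχ)]] at h9
    apply Int.cast_injective (α := ℂ)
    conv_lhs => enter [1, 2, χ, 1]; simp only [x]
    simp only [← hc, Int.cast_sub, Int.cast_sum, Int.cast_mul, Int.cast_natCast, sub_mul, sum_mul,
      sum_sub_distrib, h9, mul_assoc]
    rw [sum_comm]
    simp only [← mul_sum, h8 _ (h4 _) (h5 _)]
    simp
  intro χ hχ
  have h10 := congrArg (Int.cast : ℤ → ℂ) (mul_self_eq_zero.1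
    ((sum_eq_zero_iff_of_nonneg fun _ _ => mul_self_nonneg _).1 h9 χ (mem_bs.2 hχ)))
  simpa only [x, ← hc, Int.cast_sub, Int.cast_sum, Int.cast_mul, Int.cast_natCast, Int.cast_zero,
    sub_eq_zero] using h10

omit hMm hp hM in
theorem chiL_add_left (θ φ : G → ℂ) (a : ℂ[G]) : chiL (θ + φ) a = chiL θ a + chiL φ a := by
  have := Fintype.ofFinite G
  simp [H8.chiL_apply, mul_add, sum_add_distrib]

omit hMm hp hM in
theorem chiL_smul_left (c : ℂ) (θ : G → ℂ) (a : ℂ[G]) : chiL (c • θ) a = c * chiL θ a := by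
  have := Fintype.ofFinite G
  simp [H8.chiL_apply, mul_sum, mul_left_comm]

theorem eq_zero_of_idem {θ : G → ℂ} (h : ∀ y : (locRing M)[G], y * y = y → chiL θ (up M y) = 0)
    {g : G} (hg : ¬ p ∣ orderOf g) : θ g = 0 := by
  have := H8.finite_lin (Q := Subgroup.zpowers g)
  have := Fintype.ofFinite (Subgroup.zpowers g →* ℂˣ)
  have := Fintype.ofFinite (Subgroup.zpowers g)
  simpa using apply_eq_coef (f := fun x : Subgroup.zpowers g => θ x) (c := 0)
    (fun x y => Subtype.ext (H3.comm_of_mem_zpowers x.2 y.2)) (fun μ => by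
      obtain ⟨y, h1, h2⟩ := exists_idem_ip (M := M) (p := p) (Nat.card_zpowers g ▸ hg)
        (Subgroup.zpowers g).subtype μ
      exact (h2 θ).trans ((h y h1).trans Int.cast_zero.symm)) ⟨g, Subgroup.mem_zpowers g⟩

variable (p B) in
/-- Irreducible Brauer characters `φ i` of degree `m i`, with decomposition numbers `d`. -/
structure IBr {ι : Type*} [Fintype ι] (d : IrrCharacter G → ι → ℕ) (φ : ι → G → ℂ) (m : ι → ℕ) :
    Prop where
  card : Fintype.card ι = blockRank p B
  bg : ∀ i, BG B (φ i)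
  deg : ∀ i, φ i 1 = m i
  pos : ∀ i, m i ≠ 0
  dec : ∀ χ ∈ B, ∀ g, ¬ p ∣ orderOf g → (χ : G → ℂ) g = ∑ i, d χ i * φ i g
  van : ∀ i g, p ∣ orderOf g → ∑ χ ∈ bs B, d χ i * (χ : G → ℂ) g = 0
  nz : ∀ i, ∃ χ ∈ B, d χ i ≠ 0

theorem of_mem_span (hB : IsBlockUnion M B) {θ : G → ℂ}
    (hθ : θ ∈ Submodule.span ℂ ((fun χ : IrrCharacter G => pRegularPart p (χ : G → ℂ)) '' B)) :
    IsClassFunction G θ ∧ blockPart B θ = θ ∧ pRegularPart p θ = θ ∧ ∃ c : IrrCharacter G → ℂ,
      ∀ y : (locRing M)[G], y * y = y →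
        chiL θ (up M y) = ∑ χ ∈ bs B, c χ * chiL (χ : G → ℂ) (up M y) := by
  have h : IsClassFunction G θ ∧ blockPart B θ = θ ∧ pRegularPart p θ = θ := by
    induction hθ using Submodule.span_induction with
    | mem _ h =>
      obtain ⟨χ, hχ, rfl⟩ := h
      exact ⟨cf_reg (H7.irr_cf χ.2), by rw [← reg_blockPart hB, H8.blockPart_of_mem hχ], reg_reg _⟩
    | zero => exact ⟨fun _ _ => rfl, blockPart_zero _, (regL p).map_zero⟩
    | add x y _ _ hx hy => exact ⟨H7.cf_add hx.1 hy.1, by rw [H8.blockPart_add, hx.2.1, hy.2.1],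
        ((regL p).map_add x y).trans (congrArg₂ _ hx.2.2 hy.2.2)⟩
    | smul c x _ hx => exact ⟨H7.cf_smul c hx.1, by rw [H8.blockPart_smul, hx.2.1],
        ((regL p).map_smul c x).trans (congrArg _ hx.2.2)⟩
  exact ⟨h.1, h.2.1, h.2.2, _, fun y _ => H8.chiL_sum (bs B) _ _ _ (fun g =>
    (congrFun (h.2.1.symm.trans (blockPart_eq_bs B θ)) g).trans (Finset.sum_apply _ _ _)) _⟩

theorem exists_dual (hB : IsBlockUnion M B) {ι : Type*} [Fintype ι] [DecidableEq ι]
    {e : ι → (locRing M)[G]} {r : (locRing M)[G] → ι → ℕ} (h1 : Fintype.card ι ≤ blockRank p B)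
    (h2 : ∀ i, e i * e i = e i) (h4 : ∀ y : (locRing M)[G], y * y = y → ∀ χ ∈ B,
      chiL (χ : G → ℂ) (up M y) = ∑ i, r y i * chiL (χ : G → ℂ) (up M (e i))) :
    Fintype.card ι = blockRank p B ∧ ∃ ψ : ι → G → ℂ, (∀ j, (IsClassFunction G (ψ j) ∧
      blockPart B (ψ j) = ψ j ∧ pRegularPart p (ψ j) = ψ j) ∧ chiL (ψ j) (up M (e j)) = 1 ∧
      ∀ y : (locRing M)[G], y * y = y → chiL (ψ j) (up M y) = r y j) ∧ ∀ χ ∈ B, ∀ g,
        ¬ p ∣ orderOf g → (χ : G → ℂ) g = ∑ i, chiL (χ : G → ℂ) (up M (e i)) * ψ i g := by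
  let V := Submodule.span ℂ ((fun χ : IrrCharacter G => pRegularPart p (χ : G → ℂ)) '' B)
  have hV : ∀ θ : V, ∀ y : (locRing M)[G], y * y = y →
      chiL θ (up M y) = ∑ i, r y i * chiL θ (up M (e i)) := fun θ y hy => by
    obtain ⟨c, hc⟩ := (of_mem_span hB θ.2).2.2.2
    simp only [hc y hy, hc _ (h2 _), mul_sum]
    rw [sum_comm]
    refine sum_congr rfl fun χ hχ => ?_
    rw [h4 y hy χ (mem_bs.1 hχ), mul_sum]
    exact sum_congr rfl fun _ _ => mul_left_comm _ _ _
  let T : V →ₗ[ℂ] ι → ℂ := ⟨⟨fun θ i => chiL θ.1 (up M (e i)), fun x y => funext fun _ =>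
    chiL_add_left x.1 y.1 _⟩, fun c x => funext fun _ => chiL_smul_left c x.1 _⟩
  have hT : Function.Injective T := (injective_iff_map_eq_zero T).2 fun θ h => Subtype.ext
    ((of_mem_span hB θ.2).2.2.1.symm.trans (reg_eq_zero_iff.2 fun g =>
      eq_zero_of_idem (M := M) fun y hy => by
        rw [hV θ y hy]
        exact sum_eq_zero fun i _ => mul_eq_zero_of_right _ (congrFun h i)))
  have h0 : finrank ℂ (ι → ℂ) = Fintype.card ι := finrank_fintype_fun_eq_card ℂ
  have h5 : Fintype.card ι = blockRank p B :=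
    le_antisymm h1 (h0 ▸ LinearMap.finrank_le_finrank_of_injective hT)
  choose ψ hψ using fun j => (LinearMap.injective_iff_surjective_of_finrank_eq_finrank
    (h0.trans h5).symm).1 hT (Pi.single j 1)
  refine ⟨h5, fun j => ψ j, fun j => ⟨?_, (congrFun (hψ j) j).trans (Pi.single_eq_same _ _),
    fun y hy => ?_⟩, fun χ hχ g hg => ?_⟩
  · have := of_mem_span hB (ψ j).2
    exact ⟨this.1, this.2.1, this.2.2.1⟩
  · have h6 : ∀ i, chiL (ψ j).1 (up M (e i)) = (Pi.single j 1 : ι → ℂ) i := congrFun (hψ j)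
    rw [hV _ y hy]
    simp [h6, Pi.single_apply]
  · have h11 : (⟨_, Submodule.subset_span ⟨χ, hχ, rfl⟩⟩ : V) =
        ∑ i, chiL (χ : G → ℂ) (up M (e i)) • ψ i := hT (by
      simp only [map_sum, map_smul, hψ]
      funext i
      exact (chiL_congr_reg (M := M) (p := p) (h2 i) (cf_reg (H7.irr_cf χ.2)) (H7.irr_cf χ.2)
        fun g => reg_of_not).trans (by simp [Pi.single_apply]))
    have h12 := congrFun (congrArg Subtype.val h11) g
    rw [Submodule.coe_sum, Finset.sum_apply] at h12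
    exact (reg_of_not hg).symm.trans h12

theorem exists_IBr (hB : IsBlockUnion M B) :
    ∃ (ι : Type v) (_ : Fintype ι) (d : _) (φ : ι → G → ℂ) (m : _), IBr p B d φ m := by
  obtain ⟨ι, _, _, e, r, h1, h2, h3, h4⟩ := exists_simples (p := p) hB
  obtain ⟨h5, ψ, hψ, h6⟩ := exists_dual hB h1 (fun i => (h2 i).1) h4
  choose η h7 h8 using fun j => exists_gen_of_idem (M := M) (p := p) (hψ j).1.1
    fun y hy => ⟨r y j, ((hψ j).2.2 y hy).trans (Int.cast_natCast _).symm⟩
  have h9 : ∀ j g, ¬ p ∣ orderOf g → blockPart B (η j) g = ψ j g := fun j => reg_eq_iff.1 (by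
    rw [reg_blockPart hB, reg_eq_iff.2 (h8 j), (hψ j).1.2.2, (hψ j).1.2.1])
  choose d hd using fun (χ : IrrCharacter G) i =>
    exists_nat_chiL (e := up M (e i)) (by rw [← map_mul, (h2 i).1]) (H8.irr_isChar χ)
  have h10 : ∀ i g, projChar (up M (e i)) g = ∑ χ ∈ bs B, d χ i * (χ : G → ℂ) g := fun i g => by
    rw [← blockPart_projChar hB (h2 i).2, blockPart_eq_bs, Finset.sum_apply]
    exact sum_congr rfl fun χ _ => by rw [ip_projChar _ (H8.irr_isChar χ), hd]; rfl
  refine ⟨ι, inferInstance, d, fun j => blockPart B (η j), r 1, h5, fun j => BG.blockPart (h7 j),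
    fun j => ?_, h3, fun χ hχ g hg => ?_, fun i g hg => ?_, fun i => ?_⟩
  · rw [h9 j 1 not_dvd_orderOf_one, ← (hψ j).2.2 1 (mul_one 1), map_one, H8.chiL_one]
  · simp only [h6 χ hχ g hg, h9 _ g hg, hd]
  · rw [← h10, projChar_eq_zero (h2 i).1 hg]
  · by_contra! h11
    obtain ⟨n, hn⟩ := (BG.blockPart (b := B) (h7 i)).eq_sum
    have h12 := chiL_congr_reg (h2 i).1 (H8.isClassFunction_blockPart B _) (hψ i).1.1 (h9 i)
    rw [hn, H8.chiL_sum (bs B) _ _ _ (fun g => Finset.sum_apply _ _ _), sum_eq_zero fun χ hχ => by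
      rw [hd, h11 χ (mem_bs.1 hχ), Nat.cast_zero, mul_zero], (hψ i).2.1] at h12
    exact zero_ne_one h12

end Cfsg.Agent.H9
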