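import Mathlib
import Cfsg.Agent.H9.IBr
import Cfsg.Agent.H9.Nak
import Cfsg.Agent.H7.OneBlock

/-!
Degrees of Brauer characters, and the Okuyama-Tsushima theorem on blocks with equal degrees.
-/

set_option autoImplicit false
set_option linter.unusedSectionVars false

namespace Cfsg.Agent.H9

open MonoidAlgebra Cfsg Module Finset
open Cfsg.Agent.H8 (locRing resField res rd eB fB fC up red Zen IsBlockUnion chiL)
open Cfsg.Agent.H7 (ip)

local notation "𝐂" Q => Subgroup.centralizer (SetLike.coe Q)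
local notation "𝐍" Q => Subgroup.normalizer (SetLike.coe Q)

universe v

variable {M : Ideal AlgInt} [hMm : M.IsMaximal] {p : ℕ} [hp : Fact p.Prime] [hM : PMod M p]
variable {G : Type v} [Group G] [Finite G] {B : Set (IrrCharacter G)}

namespace IBr

variable {ι : Type*} [Fintype ι] {d : IrrCharacter G → ι → ℕ} {φ : ι → G → ℂ} {m : ι → ℕ}
  (h : IBr p B d φ m)
include h

theorem dvd_m {g : ℕ} (hg : ∀ χ ∈ B, g ∣ charDegree (χ : G → ℂ)) (i : ι) : g ∣ m i := by
  obtain ⟨n, hn⟩ := (h.bg i).eq_sum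
  have h1 := (h.deg i).symm.trans (congrFun hn 1)
  simp only [Finset.sum_apply, Pi.smul_apply, smul_eq_mul, H8.irr_one_eq] at h1
  have h2 : (m i : ℤ) = ∑ χ ∈ bs B, n χ * charDegree (χ : G → ℂ) := by exact_mod_cast h1
  exact Int.natCast_dvd_natCast.1 (h2 ▸ dvd_sum fun χ hχ =>
    (Int.natCast_dvd_natCast.2 (hg χ (mem_bs.1 hχ))).mul_left _)

theorem deg_eq {χ : IrrCharacter G} (hχ : χ ∈ B) : charDegree (χ : G → ℂ) = ∑ i, d χ i * m i := by
  have := h.dec χ hχ 1 not_dvd_orderOf_one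
  simp only [h.deg, H8.irr_one_eq] at this
  exact_mod_cast this

theorem pow_dvd (i : ι) :
    p ^ (Nat.card G).factorization p ∣ ∑ χ ∈ bs B, d χ i * charDegree (χ : G → ℂ) := by
  have h1 := H7.char_sum (bs B) fun χ _ => H7.char_natCast_smul (d χ i) (H8.irr_isChar χ)
  have h2 := H7.char_one_eq h1
  have h3 := H7.pow_dvd_deg_of_vanish (p := p) h1 fun g hg => by simpa using h.van i g hg
  simp only [Finset.sum_apply, Pi.smul_apply, smul_eq_mul, H8.irr_one_eq] at h2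
  rwa [← show _ = charDegree _ by exact_mod_cast h2] at h3

theorem exists_sum_sq {g u : ℕ} (hg : ∀ χ ∈ B, g ∣ charDegree (χ : G → ℂ)) (hu : u ∣ g)
    (hp' : ¬ p ∣ u) : ∃ w, blockRank p B ≤ w ∧ ∑ χ ∈ bs B, charDegree (χ : G → ℂ) ^ 2 =
      g * (p ^ (Nat.card G).factorization p * u) * w := by
  choose a ha using h.dvd_m hg
  choose b hb using fun i => (((Nat.Prime.coprime_iff_not_dvd hp.out).2 hp').pow_left
    _).mul_dvd_of_dvd_of_dvd (h.pow_dvd i) (dvd_sum fun χ hχ =>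
      (hu.trans (hg χ (mem_bs.1 hχ))).mul_left _)
  refine ⟨∑ i, a i * b i, ?_, ?_⟩
  · rw [← h.card, ← card_univ, card_eq_sum_ones]
    refine sum_le_sum fun i _ => Nat.pos_of_ne_zero (mul_ne_zero (fun h0 => h.pos i (by
      rw [ha, h0, mul_zero])) fun h0 => ?_)
    obtain ⟨χ, hχ, h1⟩ := h.nz i
    have h2 := hb i
    rw [h0, mul_zero, sum_eq_zero_iff] at h2
    exact mul_ne_zero h1 (H8.charDegree_irr_ne_zero χ) (h2 χ (mem_bs.2 hχ))
  · rw [sum_congr rfl (g := fun χ => (∑ i, d χ i * m i) * charDegree (χ : G → ℂ)) fun χ hχ => by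
      rw [sq, ← h.deg_eq (mem_bs.1 hχ)]]
    simp only [sum_mul, mul_sum]
    rw [sum_comm]
    refine sum_congr rfl fun i _ => ?_
    rw [mul_mul_mul_comm, ← ha, ← hb, mul_sum]
    exact sum_congr rfl fun _ _ => by ring

end IBr

omit hMm hp hM in
theorem sum_eq_one_iff_of_nat {ι : Type*} [Fintype ι] [DecidableEq ι] {f : ι → ℕ} (h : ∑ i, f i = 1) :
    ∃ i ∈ (univ : Finset ι), f i = 1 ∧ ∀ j, j ≠ i → f j = 0 := by
  obtain ⟨i, hi, h1⟩ := exists_ne_zero_of_sum_ne_zero (h ▸ one_ne_zero)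
  rw [← add_sum_erase _ _ hi] at h
  exact ⟨i, hi, by omega, fun j hj => sum_eq_zero_iff.1 (by omega) j (mem_erase.2 ⟨hj, mem_univ _⟩)⟩

theorem uni_of_deg (hB : IsPBlock M B) (h0 : ∀ χ ∈ B, blockHeight p B (χ : G → ℂ) = 0) {n : ℕ}
    (hn : ∀ χ ∈ B, charDegree (χ : G → ℂ) = n) : Uni M p B := by
  classical
  obtain ⟨ι, _, d, φ, m, h⟩ := exists_IBr (p := p) (H8.isBlockUnion_of_block hB)
  choose a ha using h.dvd_m fun χ hχ => (hn χ hχ).symm.dvd
  have h1 : ∀ χ ∈ B, ∃ i, d χ i = 1 ∧ ∀ j, j ≠ i → d χ j = 0 := fun χ hχ => by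
    have h2 := h.deg_eq hχ
    simp only [ha, mul_left_comm _ n, ← mul_sum, hn χ hχ] at h2
    obtain ⟨i, -, h3, h4⟩ := sum_eq_one_iff_of_nat (f := fun i => d χ i * a i) (by
      simpa [hn χ hχ ▸ H8.charDegree_irr_ne_zero χ] using h2.symm)
    exact ⟨i, Nat.eq_one_of_mul_eq_one_right h3, fun j hj => (mul_eq_zero.1 (h4 j hj)).resolve_right
      fun h5 => h.pos j (by rw [ha, h5, mul_zero])⟩
  have h2 : ∀ χ ∈ B, ∀ i, d χ i ≠ 0 → ∀ g, ¬ p ∣ orderOf g → (χ : G → ℂ) g = φ i g :=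
    fun χ hχ i hi g hg => by
      obtain ⟨j, h3, h4⟩ := h1 χ hχ
      obtain rfl : i = j := by_contra fun h5 => hi (h4 i h5)
      rw [h.dec χ hχ g hg, sum_eq_single i (fun j _ hj => by simp [h4 j hj]) (by simp), h3]
      simp
  refine ⟨hB, fun χ hχ ψ hψ g hg => ?_⟩
  obtain ⟨i, h3, -⟩ := h1 χ hχ
  rw [h2 χ hχ i (by omega) g hg, h2 ψ hψ i (fun h4 => ?_) g hg]
  have h5 : rip p (∑ ξ ∈ bs B, (d ξ i : ℂ) • (ξ : G → ℂ)) ψ = 0 := by
    rw [rip, reg_eq_self_iff.2 fun g hg => by simpa using h.van i g hg, H7.ip_sum_left]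
    exact sum_eq_zero fun ξ _ => by
      rw [H7.ip_smul_left, ip_irr_irr]
      split_ifs with h5 <;> simp [h5, h4]
  rw [rip_sum_left, sum_congr rfl (g := fun ξ => (d ξ i : ℂ) * rip p (χ : G → ℂ) ψ) fun ξ hξ => by
    rw [rip_smul_left]
    by_cases h6 : d ξ i = 0
    · simp [h6]
    · rw [rip_congr (θ' := χ) (fun g hg => by rw [h2 ξ (mem_bs.1 hξ) i h6 g hg,
        h2 χ hχ i (by omega) g hg]) fun _ _ => rfl], ← sum_mul, mul_eq_zero, ← Nat.cast_sum,
    Nat.cast_eq_zero, sum_eq_zero_iff] at h5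
  rcases h5 with h5 | h5
  · exact one_ne_zero (h3 ▸ h5 χ (mem_bs.2 hχ))
  · refine mZ_ne_zero (p := p) hB hχ hψ (h0 ψ hψ) (Int.cast_injective (α := ℂ) ?_)
    rw [mZ_spec hχ (H6.isGen_of_irr ψ.2), h5, mul_zero, Int.cast_zero]

theorem exists_socle {F A : Type*} [Field F] [Ring A] [Algebra F A] [FiniteDimensional F A]
    {K N : Set A} (hK : ∀ z ∈ K, ∀ n ∈ N, z * n ∈ K)
    (hN : ∀ n ∈ N, IsNilpotent n ∧ ∀ a, n * a = a * n) (r : ℕ) : ∀ z ∈ K, z ≠ 0 →
      finrank F (LinearMap.range (LinearMap.mulLeft F z)) = r → ∃ s ∈ K, s ≠ 0 ∧ ∀ n ∈ N, s * n = 0 := by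
  induction r using Nat.strong_induction_on with
  | _ r ih =>
  intro z hz h0 hr
  by_contra! h
  obtain ⟨n, hn, h1⟩ := h z hz h0
  refine (ih _ (hr ▸ Submodule.finrank_lt_finrank_of_lt (lt_of_le_of_ne
    (fun _ ⟨a, ha⟩ => ⟨n * a, (mul_assoc _ _ _).symm.trans ha⟩) fun h2 => ?_)) _ (hK z hz n hn) h1
    rfl).elim fun s ⟨h2, h3, h4⟩ => (h s h2 h3).elim fun n h5 => h5.2 (h4 n h5.1)
  obtain ⟨a, ha⟩ : z ∈ LinearMap.range (LinearMap.mulLeft F (z * n)) := h2 ▸ ⟨1, mul_one z⟩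
  obtain ⟨k, hk⟩ := Commute.isNilpotent_mul_right ((hN n hn).2 a) (hN n hn).1
  have h3 : ∀ j, z * (n * a) ^ j = z := fun j => by
    induction j with
    | zero => simp
    | succ j ih => rw [pow_succ, ← mul_assoc, ih, ← mul_assoc]; exact ha
  exact h0 (by rw [← h3 k, hk, mul_zero])

variable (M B) in
/-- The centre of the block algebra. -/
noncomputable def zB : Submodule (resField M) (resField M)[G] :=
  (Zen (resField M) G).toSubmodule ⊓ LinearMap.eqLocus (LinearMap.mulRight _ (eB M B)) LinearMap.id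

omit hp hM in
theorem mem_zB {z : (resField M)[G]} : z ∈ zB M B ↔ z ∈ Zen (resField M) G ∧ z * eB M B = z :=
  Iff.rfl

omit hp hM in
theorem mul_eB_mem_zB (hB : IsBlockUnion M B) {z : (resField M)[G]} (hz : z ∈ Zen (resField M) G) :
    z * eB M B ∈ zB M B := mem_zB.2 ⟨(Zen _ G).mul_mem hz (H8.eB_mem_Zen _),
      (mul_assoc _ _ _).trans (congrArg _ (H8.eB_mul_self hB))⟩

omit hp hM in
theorem finrank_zB_le (hB : IsBlockUnion M B) : finrank (resField M) (zB M B) ≤ Nat.card B := by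
  let b := finBasis (resField M) (zB M B)
  simpa using card_le_card_of_li hB (fun i => (mem_zB.1 (b i).2).1) (fun i => (mem_zB.1 (b i).2).2)
    (b.linearIndependent.map' (zB M B).subtype (Submodule.ker_subtype _))

omit hp hM in
theorem finrank_zB (hB : IsBlockUnion M B) : finrank (resField M) (zB M B) = Nat.card B := by
  classical
  have := Fintype.ofFinite (ConjClasses G)
  have := H8.finite_irr (G := G)
  have h1 : LinearIndependent (resField M) fun K : ConjClasses G =>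
      (⟨H8.classSum (resField M) K.out, by
        rw [← mul_one (H8.classSum _ _), ← add_sub_cancel (eB M B) 1, ← H8.eB_compl hB, mul_add]
        exact Submodule.add_mem_sup (mul_eB_mem_zB hB (H8.classSum_mem_Zen _))
          (mul_eB_mem_zB hB.compl (H8.classSum_mem_Zen _))⟩ :
        (zB M B ⊔ zB M Bᶜ : Submodule _ _)) := by
    refine Fintype.linearIndependent_iff.2 fun c hc K => ?_
    have h1 := congrArg (fun z => z.1.coeff K.out) hc
    simp only [Submodule.coe_sum, Submodule.coe_smul, H8.coeff_sum_apply, coeff_smul_apply,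
      H8.coeff_classSum, ← ConjClasses.mk_eq_mk_iff_isConj, H8.mk_out_conjClasses] at h1
    simpa using h1
  have h2 := h1.fintype_card_le_finrank.trans (Submodule.finrank_add_le_finrank_add_finrank _ _)
  have h3 := finrank_zB_le hB
  have h4 := finrank_zB_le hB.compl
  have h5 := Set.ncard_add_ncard_compl B
  rw [H6.card_irr_eq_card_conjClasses, Nat.card_eq_fintype_card] at h5
  simp only [Nat.card_coe_set_eq] at h3 h4 ⊢
  omega

omit hMm hp hM in
theorem eq_zero_of_coeff_mul {F : Type*} [Field F] {z : F[G]} (h : ∀ a, (z * a).coeff 1 = 0) :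
    z = 0 := ext_coeff fun g => by
  rw [← coeff_single_inv_mul, coeff_one_comm, h]; rfl

/-- The centre of a block all of whose characters agree on the `p`-regular elements has a simple
socle. -/
theorem Uni.socle (h : Uni M p B) : ∃ i : (resField M)[G], ∀ s ∈ zB M B,
    (∀ n ∈ zB M B, IsNilpotent n → s * n = 0) → (s * i).coeff 1 = 0 → s = 0 := by
  obtain ⟨i, h1, -, ⟨n, u, w, h2⟩, h3, -⟩ := exists_morita (p := p) h.blk h.rank
  have h4 : ∀ z ∈ zB M B, z * i = 0 → z = 0 := fun z hz h4 => by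
    rw [← (mem_zB.1 hz).2, ← h2, mul_sum]
    exact sum_eq_zero fun r _ => by
      rw [mul_assoc (u r), ← mul_assoc, H8.Zen_comm (mem_zB.1 hz).1, mul_assoc, ← mul_assoc z, h4,
        zero_mul, mul_zero]
  let μ : zB M B →ₗ[resField M] LinearMap.range (sand (R := resField M) i i) :=
    ((sand i i) ∘ₗ (zB M B).subtype).codRestrict _ fun z => ⟨_, rfl⟩
  have h5 : ∀ z : zB M B, (μ z : (resField M)[G]) = z * i := fun z => by
    change i * (z * i) = _
    rw [← mul_assoc, ← H8.Zen_comm (mem_zB.1 z.2).1, mul_assoc, h1]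
  have h6 := (LinearMap.injective_iff_surjective_of_finrank_eq_finrank (f := μ) (by
    rw [finrank_zB h.ub, h3, h.card])).1 ((injective_iff_map_eq_zero _).2 fun z hz =>
      Subtype.ext (h4 z z.2 (by rw [← h5, hz]; rfl)))
  refine ⟨i, fun s hs h7 h8 => h4 s hs (eq_zero_of_coeff_mul fun a => ?_)⟩
  obtain ⟨z, hz⟩ := h6 ⟨_, a, rfl⟩
  have h9 : i * (a * i) = z * i := (congrArg Subtype.val hz).symm.trans (h5 z)
  have h10 := h7 _ (mul_eB_mem_zB h.ub (sub_mem (mem_zB.1 z.2).1 (Subalgebra.algebraMap_mem _ _)))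
    ((isBlk_eB h.blk).lam_spec le_rfl (mem_fix_top_iff.2 (mem_zB.1 z.2).1))
  rw [← H8.Zen_comm (H8.eB_mem_Zen B), ← mul_assoc, (mem_zB.1 hs).2, mul_sub, sub_eq_zero] at h10
  rw [show s * i * a = i * (s * (i * a)) by
      rw [← mul_assoc, ← H8.Zen_comm (mem_zB.1 hs).1, ← mul_assoc, mul_assoc s i i, h1],
    coeff_one_comm, mul_assoc, mul_assoc, h9, ← mul_assoc, h10, ← Algebra.commutes,
    ← Algebra.smul_def, smul_mul_assoc, coeff_smul_apply, h8, smul_zero]

variable (M) in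
/-- The element representing the trace form of a class function. -/
noncomputable def sC (ξ : G → ℂ) : (resField M)[G] := ofFun fun g => rd M (ξ g⁻¹)

omit hp hM in
theorem coeff_sC_mul (ξ : G → ℂ) (a : (resField M)[G]) : (sC M ξ * a).coeff 1 = chiK M ξ a := by
  have := Fintype.ofFinite G
  rw [coeff_one_comm, coeff_mul_sum, chiK_apply]
  simp [sC]

omit hp hM in
theorem sC_mem (hB : IsBlockUnion M B) {χ : IrrCharacter G} (hχ : χ ∈ B) :
    sC M (χ : G → ℂ) ∈ zB M B := by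
  classical
  refine mem_zB.2 ⟨H8.mem_Zen_iff.2 fun x g => ?_, sub_eq_zero.1 (eq_zero_of_coeff_mul fun a => ?_)⟩
  · simp only [sC, coeff_ofFun, conj_inv, H8.irr_isClassFunction χ _ x]
  have h1 := fun g => H8.mem_locRing_of_isIntegral M (H8.char_isIntegral (H8.irr_isChar χ) g)
  rw [sub_mul, coeff_sub, Finsupp.sub_apply, mul_assoc, coeff_sC_mul, coeff_sC_mul, ← red_lft a,
    ← H8.red_fB, ← map_mul, (chiK_red h1 _).2, (chiK_red h1 _).2, map_mul, H8.up_fB hB,
    H8.chiL_fC_mul, if_pos hχ, sub_self]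

namespace AbD

variable {D : Subgroup G} {e : (resField M)[G]} (h : AbD p B D e)
include h

omit hM in
theorem br_mul_ne {z : (resField M)[G]} [CharP (resField M) p] (hz : z ∈ zB M B) (h0 : br D z ≠ 0) :
    br D z * e ≠ 0 := by
  have h1 := mem_fix_top_iff.2 (mem_zB.1 hz).1
  obtain ⟨f, hf, h2⟩ := exists_prim_mul_ne_zero (le_refl (⊤ ⊓ 𝐂 D)) h0
  have h3 : br D (eB M B) * f = f := hf.mul_eq_of_ne (fix_mono le_rfl (le_inf le_top
    (inf_le_right.trans (Subgroup.centralizer_le_normalizer _))) (br_mem_fix (eB_mem_fix B)))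
    (by rw [← br_mul_fix le_top h.max.isP (eB_mem_fix B) (eB_mem_fix B), H8.eB_mul_self h.ub])
    fun h3 => h2 (by
      rw [← (mem_zB.1 hz).2, H8.Zen_comm (mem_zB.1 hz).1, br_mul_fix le_top h.max.isP (eB_mem_fix B)
        h1, ← mul_assoc, comm_of_inv hf.mem.2 (br_mem_fix (eB_mem_fix B)).1, h3, zero_mul])
  obtain ⟨t, -, ht⟩ := h.max.exists_conj le_top ⟨⟨le_top.trans top_le_normalizer_top, h.max.isP, hf⟩, h3⟩
  have h4 : cg t D = D := Subgroup.eq_of_le_of_card_ge ht.le (card_cg t D).ge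
  rw [h4] at ht
  rw [← ht.eq_of_self, ← h1.2 t trivial, ← h4, ← cj_br, ← map_mul, ← comm_of_inv hf.mem.2
    (br_mem_fix h1).1]
  exact fun h5 => h2 ((cj t).map_eq_zero_iff.1 h5)

theorem br_inj (hU : Uni M p B) {z : (resField M)[G]} (hz : z ∈ zB M B) (h0 : br D z * e = 0) :
    z = 0 := by
  by_contra h1
  obtain ⟨s, ⟨h2, h3⟩, h4, h5⟩ := exists_socle (F := resField M)
    (K := {z | z ∈ zB M B ∧ br D z * e = 0}) (N := {n | n ∈ zB M B ∧ IsNilpotent n})
    (fun z ⟨h2, h3⟩ n ⟨h4, _⟩ => ⟨mem_zB.2 ⟨(Zen _ G).mul_mem (mem_zB.1 h2).1 (mem_zB.1 h4).1,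
      by rw [mul_assoc, (mem_zB.1 h4).2]⟩, by
        rw [H8.Zen_comm (mem_zB.1 h2).1, br_mul_fix le_top h.max.isP (mem_fix_top_iff.2
          (mem_zB.1 h4).1) (mem_fix_top_iff.2 (mem_zB.1 h2).1), mul_assoc, h3, mul_zero]⟩)
    (fun n hn => ⟨hn.2, H8.Zen_comm (mem_zB.1 hn.1).1⟩) _ z ⟨hz, h0⟩ h1 rfl
  obtain ⟨i, hi⟩ := hU.socle
  obtain ⟨χ, hχ⟩ := H8.block_nonempty h.blk
  obtain ⟨y, hy, hyD⟩ := H8.isDefectGroup_iff_sylIn.1 h.isDefectGroup
  have h6 := sC_mem h.ub hχ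
  have h7 : ∀ n ∈ zB M B, IsNilpotent n → sC M (χ : G → ℂ) * n = 0 := fun n hn h7 =>
    eq_zero_of_coeff_mul fun a => by
      rw [mul_assoc, coeff_sC_mul, chiK_nilpotent (H8.irr_isChar χ)
        (Commute.isNilpotent_mul_right (H8.Zen_comm (mem_zB.1 hn).1 a) h7)]
  have h8 := h.br_mul_ne h6 fun h8 => H8.rd_mul_ne_zero_of_height hM.out h.blk hy hχ (hU.height hχ)
    (x := 1) ⟨0, by simp⟩ (Commute.one_left _) (by
      have h9 := congrArg (·.coeff y⁻¹) h8
      simp only [coeff_trunc_of_mem _ (inv_mem (show y ∈ 𝐂 D from fun x hx =>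
        Subgroup.mem_centralizer_singleton_iff.1 (hyD.le hx)))] at h9
      simpa [sC] using h9)
  have h9 : (s * i).coeff 1 ≠ 0 := fun h9 => h4 (hi s h2 (fun n h6 h7 => h5 n ⟨h6, h7⟩) h9)
  have h10 := hi (sC M (χ : G → ℂ) - ((sC M (χ : G → ℂ) * i).coeff 1 / (s * i).coeff 1) • s)
    (sub_mem h6 (Submodule.smul_mem _ _ h2)) (fun n h6 h8 => by
      rw [sub_mul, smul_mul_assoc, h7 n h6 h8, h5 n ⟨h6, h8⟩, smul_zero, sub_zero]) (by
      rw [sub_mul, smul_mul_assoc, coeff_sub, Finsupp.sub_apply, coeff_smul_apply, smul_eq_mul,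
        div_mul_cancel₀ _ h9, sub_self])
  exact h8 (by rw [sub_eq_zero.1 h10, map_smul, smul_mul_assoc, h3, smul_zero])

theorem le_of_uni (hU : Uni M p B) : pstab ⊤ D e ≤ 𝐂 D := by
  have he : IsBlk (𝐂 D) e := by simpa using h.pair.blk
  have h1 : em _ (𝐂 D).subtype (eB M (bl p D e D)) = e := (h.eI_bl le_rfl).trans (loc_self h.pair)
  have h2 : ∀ a ∈ fix (𝐂 D) (𝐂 D), H8.resSub (resField M) (𝐂 D) (a * e) ∈ zB M (bl p D e D) :=
    fun a ha => mem_zB.2 ⟨resSub_mem_Zen_of_fix (mul_mem ha he.mem), em_injective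
      (𝐂 D).subtype_injective (by
        rw [map_mul, em_resSub (mul_mem ha he.mem).1, h1, mul_assoc, he.idem])⟩
  have h3 : ∀ z : zB M B, br D (z : (resField M)[G]) ∈ fix (𝐂 D) (𝐍 D) := fun z => by
    simpa using br_mem_fix (Q := D) (mem_fix_top_iff.2 (mem_zB.1 z.2).1)
  let β : zB M B →ₗ[resField M] zB M (bl p D e D) := (H8.resSub _ (𝐂 D) ∘ₗ LinearMap.mulRight _ e ∘ₗ
    br D ∘ₗ (zB M B).subtype).codRestrict _ fun z =>
      h2 _ (fix_mono le_rfl (Subgroup.centralizer_le_normalizer _) (h3 z))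
  have h4 : ∀ z, em _ (𝐂 D).subtype (β z : (resField M)[𝐂 D]) = br D (z : (resField M)[G]) * e :=
    fun z => em_resSub ((h3 z).1.mul he.supp)
  have h5 := (LinearMap.injective_iff_surjective_of_finrank_eq_finrank (f := β) (by
    rw [finrank_zB h.ub, finrank_zB (h.abD_bl le_rfl).ub, hU.card, ← h.card_D,
      (rank_one_aux _ (h.abD_bl le_rfl) (fun x _ y hy => Subtype.ext (x.2 _ hy)) rfl).2,
      Nat.card_congr (Subgroup.subgroupOfEquivOfLe h.ab).toEquiv])).1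
    ((injective_iff_map_eq_zero _).2 fun z hz => Subtype.ext (h.br_inj hU z.2 (by
      rw [← h4, hz]; simp)))
  intro t ht u hu
  have h6 : single u 1 ∈ fix (R := resField M) (𝐂 D) (𝐂 D) := ⟨supp_single (h.ab hu) _, fun x hx => by
    rw [cj_single, ← hx u hu, mul_inv_cancel_right]⟩
  obtain ⟨z, hz⟩ := h5 ⟨_, h2 _ h6⟩
  have h7 := h4 z
  rw [hz, em_resSub (h6.1.mul he.supp)] at h7
  have h8 := congrArg (cj t) h7
  rw [map_mul, map_mul, (h3 z).2 t (mem_pstab.1 ht).2.1, (mem_pstab.1 ht).2.2, ← h7, cj_single] at h8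
  have h9 : u⁻¹ * (t * u * t⁻¹) ∈ D :=
    mul_mem (inv_mem hu) ((Subgroup.mem_normalizer_iff.1 (mem_pstab.1 ht).2.1 u).1 hu)
  obtain ⟨g, hg⟩ : ∃ g, e.coeff g ≠ 0 := by
    by_contra! h9
    exact he.ne_zero (ext_coeff h9)
  have h10 : e.coeff (u⁻¹ * (t * u * t⁻¹) * g) ≠ 0 := by
    have := congrArg (·.coeff (t * u * t⁻¹ * g)) h8
    simp only [coeff_single_mul_apply, inv_mul_cancel_left, one_mul] at this
    rwa [mul_assoc, ← this]
  have h11 := H8.pPart_mul (h.pelt h9) (not_dvd_of_idem he.mem he.idem hg)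
    (show _ from by_contra (fun h12 => hg (he.supp g h12)) _ h9)
  rwa [H8.pPart_eq_one_iff.2 (not_dvd_of_idem he.mem he.idem h10), eq_comm, inv_mul_eq_one,
    eq_mul_inv_iff_mul_eq] at h11

end AbD

end Cfsg.Agent.H9
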