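import Cfsg.Agent.H7.Bf0
import Cfsg.Agent.H2.Cores

/-! Sylow `2`-subgroups of type `M₁₂`: the core of the centralizer of the central involution is trivial. -/

set_option autoImplicit false
namespace Cfsg.Agent.H7.Bf
open Subgroup Cfsg.Agent.H19.Gt Cfsg.Agent.H1.G2
universe u
variable {G : Type u} {K : Type*} [Group G] [Finite G] [CommGroup K] {τ : K × K →* G} {u v : G} {z : K}
  {S : Sylow 2 G}

theorem b8b_th (g a : G) {x : G} (hx : x ∈ centralizerPPrimeCore 2 a) :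
    g * x * g⁻¹ ∈ centralizerPPrimeCore 2 (g * a * g⁻¹) := by
  have h1 : (centralizerPPrimeCore 2 a).map (MulAut.conj g).toMonoidHom ≤ centralizerPPrimeCore 2 (g * a * g⁻¹) := by
    refine H2.le_pPrimeCore_map_subtype ?_ (fun c hc => mem_normalizer_fintype ?_) ?_
    · rintro _ ⟨_, ⟨⟨y, hy⟩, -, rfl⟩, rfl⟩
      rw [mem_centralizer_singleton_iff] at hy ⊢
      change g * y * g⁻¹ * _ = _ * (g * y * g⁻¹)
      rw [conj_mul, conj_mul, hy]
    · rintro _ ⟨_, ⟨y, hy, rfl⟩, rfl⟩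
      have hc' : g⁻¹ * c * g ∈ centralizer ({a} : Set G) := by
        rw [mem_centralizer_singleton_iff] at hc ⊢
        calc _ = g⁻¹ * (c * (g * a * g⁻¹)) * g := by group
          _ = _ := by rw [hc]; group
      refine ⟨_, ⟨_, (pPrimeCore_normal 2 _).conj_mem y hy ⟨_, hc'⟩, rfl⟩, ?_⟩
      simp [mul_assoc]
    · rw [card_map_of_injective (MulAut.conj g).injective, centralizerPPrimeCore,
        card_map_of_injective (subtype_injective _)]
      exact H2.pPrimeCore_coprime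
  exact h1 ⟨x, hx, rfl⟩

theorem b8b_W {A B : Subgroup G} {g : G} (h : ∀ a ∈ A, g * a * g⁻¹ ∈ B) :
    ∀ w ∈ signalizerClosure A (centralizerPPrimeCore 2), g * w * g⁻¹ ∈ signalizerClosure B (centralizerPPrimeCore 2) := by
  have : signalizerClosure A (centralizerPPrimeCore 2) ≤
      (signalizerClosure B (centralizerPPrimeCore 2)).comap (MulAut.conj g).toMonoidHom := by
    refine iSup_le fun a x hx => ?_
    exact mem_iSup_of_mem (S := fun a : {a : G // a ∈ B ∧ a ≠ 1} => centralizerPPrimeCore 2 (a : G))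
      ⟨g * a * g⁻¹, h a a.2.1, fun e => a.2.2 (conj_eq_one_iff.1 e)⟩ (b8b_th g a hx)
  exact fun w hw => this hw

theorem b8b_syl (S : Sylow 2 G) (N : Subgroup G) (hS : (S : Subgroup G) ≤ N) (P : Subgroup G) (hP : P ≤ N)
    (hp : ∀ x ∈ P, x * x = 1) : ∃ k ∈ N, ∀ x ∈ P, k * x * k⁻¹ ∈ (S : Subgroup G) := by
  have h1 : IsPGroup 2 (P.subgroupOf N) := fun x => ⟨1, Subtype.ext (Subtype.ext (by
    change ((x : N) : G) ^ 2 ^ 1 = 1
    rw [pow_one, pow_two]; exact hp _ x.2))⟩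
  obtain ⟨Q, hQ⟩ := h1.exists_le_sylow
  obtain ⟨k, hk⟩ := MulAction.exists_smul_eq N Q (S.subtype hS)
  refine ⟨k, k.2, fun x hx => ?_⟩
  have : (k * ⟨x, hP hx⟩ * k⁻¹ : N) ∈ (k • Q : Sylow 2 N) := by
    rw [← SetLike.mem_coe, Sylow.coe_smul]
    exact ⟨_, hQ hx, rfl⟩
  rw [hk] at this
  exact this

/-- adjoining a commuting involution -/
def b8b_ext (V : Subgroup G) (x : G) (hx : ∀ a ∈ V, x * a = a * x) (xx : x * x = 1) : Subgroup G where
  carrier := {s | s ∈ V ∨ s * x ∈ V}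
  one_mem' := .inl V.one_mem
  mul_mem' := by
    rintro a b (ha | ha) (hb | hb)
    · exact .inl (V.mul_mem ha hb)
    · exact .inr (by rw [mul_assoc]; exact V.mul_mem ha hb)
    · exact .inr (by rw [mul_assoc, ← hx b hb, ← mul_assoc]; exact V.mul_mem ha hb)
    · refine .inl ?_
      have := V.mul_mem ha hb
      rwa [mul_assoc, hx _ hb, mul_assoc b, xx, mul_one] at this
  inv_mem' := by
    rintro a (ha | ha)
    · exact .inl (V.inv_mem ha)
    · refine .inr ?_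
      have h1 := hx _ (V.inv_mem ha)
      have h2 : (a * x)⁻¹ = a⁻¹ * x := by
        rw [mul_inv_rev, inv_eq_of_mul_eq_one_right xx, ← mul_assoc, xx, one_mul] at h1
        rw [mul_inv_rev, inv_eq_of_mul_eq_one_right xx]
        calc x * a⁻¹ = x * a⁻¹ * (x * x) := by rw [xx, mul_one]
          _ = _ := by rw [← mul_assoc, ← h1]
      rw [← h2]
      exact V.inv_mem ha

theorem b8b_card {V : Subgroup G} {x : G} (hx : ∀ a ∈ V, x * a = a * x) (xx : x * x = 1) (hV : x ∉ V) :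
    Nat.card (b8b_ext V x hx xx) = Nat.card V * 2 := by
  have hle : V ≤ b8b_ext V x hx xx := fun a ha => .inl ha
  have h2 : (V.subgroupOf (b8b_ext V x hx xx)).index = 2 := by
    refine index_eq_two_iff.2 ⟨⟨x, .inr (by rw [xx]; exact V.one_mem)⟩, fun b => ?_⟩
    simp only [mem_subgroupOf, coe_mul]
    by_cases hb : (b : G) ∈ V
    · exact .inr ⟨hb, fun e => hV ((V.mul_mem_cancel_left hb).1 e)⟩
    · exact .inl ⟨b.2.resolve_left hb, hb⟩
  rw [← card_mul_index (V.subgroupOf _), h2, Nat.card_congr (subgroupOfEquivOfLe hle).toEquiv]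

theorem b8b [IsSimpleGroup G] (h : Tw S τ u v z) (hW : HW (τ (z, z)))
    (hF : ∀ c, c * τ (z, z) = τ (z, z) * c → ∃ o ∈ centralizerPPrimeCore 2 (τ (z, z)),
      ∀ m ∈ h.gz.M, o * c * m * (o * c)⁻¹ ∈ h.gz.M)
    (hA : ∀ M : Subgroup G, τ (z, z) ∈ M → (∀ g : G, g * τ (z, z) * g⁻¹ ∈ M → g ∈ M) →
      (∀ g : G, Commute (τ (z, z)) (g * τ (z, z) * g⁻¹) → g * τ (z, z) * g⁻¹ ≠ τ (z, z) →
        centralizer ({τ (z, z) * (g * τ (z, z) * g⁻¹)} : Set G) ≤ M) → M = ⊤) :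
    centralizerPPrimeCore 2 (τ (z, z)) = ⊥ := by
  have gz := h.gz
  have g0 := gz.toGs
  haveI := gz.fin
  haveI : Fact (Nat.Prime 2) := ⟨Nat.prime_two⟩
  let V : Subgroup G := ((zpowers z).prod (zpowers z)).map τ
  have oz : orderOf z = 2 := orderOf_eq_prime (by rw [pow_two, gz.zz]) gz.z1
  have cV : Nat.card V = 4 := by
    rw [card_map_of_injective g0.inj, Nat.card_congr (prodEquiv _ _).toEquiv, Nat.card_prod, Nat.card_zpowers, oz]
  have zp : ∀ c ∈ zpowers z, c * c = 1 := by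
    rintro _ ⟨k, rfl⟩
    rw [← mul_zpow, gz.zz, one_zpow]
  have mV : ∀ s ∈ V, ∃ c d, c * c = 1 ∧ d * d = 1 ∧ s = τ (c, d) := by
    rintro _ ⟨⟨c, d⟩, ⟨hc, hd⟩, rfl⟩
    exact ⟨c, d, zp c hc, zp d hd, rfl⟩
  have tV : τ (z, z) ∈ V := ⟨(z, z), ⟨mem_zpowers z, mem_zpowers z⟩, rfl⟩
  have yV : τ (z, 1) ∈ V := ⟨(z, 1), ⟨mem_zpowers z, one_mem _⟩, rfl⟩
  have yV' : τ (1, z) ∈ V := ⟨(1, z), ⟨one_mem _, mem_zpowers z⟩, rfl⟩
  have sq : ∀ c : K, c * c = 1 → IsSquare c := fun c hc => by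
    rcases gz.inv2 hc with rfl | rfl
    exacts [IsSquare.one, gz.zsq]
  have ns : ∀ c a : K, c * c = 1 → ¬ IsSquare a → ¬ IsSquare (c * a) := fun c a hc ha e => ha (by
    have := (sq c hc).mul e
    rwa [← mul_assoc, hc, one_mul] at this)
  have hx : ∀ a b, ∀ s ∈ V, τ (a, b) * u * s = s * (τ (a, b) * u) := fun a b s hs => by
    obtain ⟨c, d, hc, hd, rfl⟩ := mV s hs
    exact (g0.cu.2 ⟨hc, hd⟩).symm
  have xx : ∀ a b, τ (a, b) * u * (τ (a, b) * u) = 1 := fun a b => by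
    rw [mul_assoc, g0.ut', g0.uu, mul_one, tm]; simp [t1]
  let A : K → K → Subgroup G := fun a b => b8b_ext V _ (hx a b) (xx a b)
  have mA : ∀ a b, ∀ s ∈ A a b, ∃ c d, c * c = 1 ∧ d * d = 1 ∧ (s = τ (c, d) ∨ s = τ (c * a, d * b) * u) := by
    rintro a b s (hs | hs) <;> obtain ⟨c, d, hc, hd, e⟩ := mV _ hs
    · exact ⟨c, d, hc, hd, .inl e⟩
    · refine ⟨c, d, hc, hd, .inr ?_⟩
      rw [← tm', ← e, mul_assoc, xx, mul_one]
  have cA : ∀ a b, Nat.card (A a b) = 8 := fun a b => by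
    rw [b8b_card _ _ fun e => ?_, cV]
    obtain ⟨c, d, -, -, e⟩ := mV _ e
    exact gz.ne_u _ _ _ _ e
  have sA : ∀ a b, ∀ s ∈ A a b, s * s = 1 := fun a b s hs => by
    obtain ⟨c, d, hc, hd, rfl | rfl⟩ := mA a b s hs
    · rw [tm, hc, hd, t1]
    · exact xx _ _
  have pA : ∀ a b, (¬ IsSquare a ∨ ¬ IsSquare b) → ∀ s ∈ A a b, s ≠ 1 → IsConj s (τ (z, z)) := by
    intro a b hab s hs s1
    obtain ⟨c, d, hc, hd, rfl | rfl⟩ := mA a b s hs
    · refine (h.cl _ (g0.tS _ _)).2 ?_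
      rcases gz.inv2 hc with rfl | rfl <;> rcases gz.inv2 hd with rfl | rfl
      · exact absurd (t1 τ) s1
      · exact .inr (.inr (.inl rfl))
      · exact .inr (.inl rfl)
      · exact .inl rfl
    · exact (h.cl _ (mul_mem (g0.tS _ _) g0.uS)).2
        (.inr (.inr (.inr ⟨_, _, hab.imp (ns c a hc) (ns d b hd), rfl⟩)))
  have K1 := fun a b hab => hW (A a b) V (sA a b) (cA a b) (fun s hs => .inl hs) cV (pA a b hab)
  set W := signalizerClosure V (centralizerPPrimeCore 2) with hWd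
  have K2 : ∀ a b, (¬ IsSquare a ∨ ¬ IsSquare b) → ∀ g, (∀ s ∈ A a b, g * s * g⁻¹ ∈ (S : Subgroup G)) →
      g ∈ normalizer (W : Set G) := by
    intro a b hab g hg
    let B := (A a b).map (MulAut.conj g).toMonoidHom
    have cB : Nat.card B = 8 := by rw [card_map_of_injective (MulAut.conj g).injective, cA]
    have mB : ∀ s ∈ B, s ∈ V ∨ ∃ c d, (¬ IsSquare c ∨ ¬ IsSquare d) ∧ s = τ (c, d) * u := by
      rintro _ ⟨s, hs, rfl⟩
      change g * s * g⁻¹ ∈ V ∨ ∃ c d, _ ∧ g * s * g⁻¹ = _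
      by_cases s1 : s = 1
      · left; rw [s1, mul_one, mul_inv_cancel]; exact one_mem _
      rcases (h.cl _ (hg s hs)).1 ((isConj_iff.2 ⟨g, rfl⟩).symm.trans (pA a b hab s hs s1)) with e | e | e | e
      exacts [.inl (e ▸ tV), .inl (e ▸ yV), .inl (e ▸ yV'), .inr e]
    have nB : ¬ B ≤ V := fun e => by have := card_le_of_le e; omega
    obtain ⟨b0, hb0, hb0V⟩ := SetLike.not_le_iff_exists.1 nB
    obtain ⟨c, d, hcd, rfl⟩ := (mB b0 hb0).resolve_left hb0V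
    have hle : B ≤ A c d := fun s hs => by
      rcases mB s hs with e | ⟨p, q, -, rfl⟩
      · exact .inl e
      · refine .inr ((mB _ (mul_mem hs hb0)).resolve_right ?_)
        rintro ⟨r, r', -, e⟩
        rw [mul_assoc, g0.ut', g0.uu, mul_one, tm] at e
        exact gz.ne_u _ _ _ _ e.symm
    refine mem_normalizer_fintype fun w hw => ?_
    rw [SetLike.mem_coe, ← (K1 a b hab).2] at hw
    rw [SetLike.mem_coe, ← (K1 c d hcd).2]
    exact b8b_W (fun s hs => hle ⟨s, hs, rfl⟩) w hw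
  obtain ⟨ρ, hρ, -⟩ := gz.rho
  have nρ : ¬ IsSquare ρ := by
    rintro ⟨σ, rfl⟩
    have := pow_card_eq_one' (x := σ)
    rw [h.four] at this
    exact gz.z1 (by rw [← hρ, ← this]; simp only [pow_succ, pow_zero, one_mul, mul_assoc])
  have tW : centralizerPPrimeCore 2 (τ (z, z)) ≤ W :=
    le_iSup (fun a : {a : G // a ∈ V ∧ a ≠ 1} => centralizerPPrimeCore 2 (a : G)) ⟨_, tV, gz.t_ne⟩
  have K3 : ∀ c, c * τ (z, z) = τ (z, z) * c → c ∈ normalizer (W : Set G) := fun c hc => by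
    obtain ⟨o, ho, hn⟩ := hF c hc
    have := K2 ρ ρ (.inl nρ) (o * c) fun s hs => gz.M_le (hn s (by
      obtain ⟨p, q, hp, hq, rfl | rfl⟩ := mA _ _ s hs
      · exact ⟨p, q, (sq p hp).mul (sq q hq), .inl rfl⟩
      · exact ⟨_, _, by rw [mul_mul_mul_comm]; exact ((sq p hp).mul (sq q hq)).mul ⟨ρ, rfl⟩, .inr (.inl rfl)⟩))
    exact (mul_mem_cancel_left (le_normalizer (tW ho))).1 this
  have SC : (S : Subgroup G) ≤ centralizer {τ (z, z)} := fun s hs => mem_centralizer_singleton_iff.2 (gz.t_cen hs)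
  have K4 : ∀ s ∈ (S : Subgroup G), IsConj s (τ (z, z)) → ∃ g ∈ normalizer (W : Set G), g * s * g⁻¹ = τ (z, z) := by
    intro s hs hc
    obtain ⟨a, b, hab, hsA⟩ : ∃ a b, (¬ IsSquare a ∨ ¬ IsSquare b) ∧ s ∈ A a b := by
      rcases (h.cl s hs).1 hc with rfl | rfl | rfl | ⟨a, b, hab, rfl⟩
      exacts [⟨ρ, ρ, .inl nρ, .inl tV⟩, ⟨ρ, ρ, .inl nρ, .inl yV⟩, ⟨ρ, ρ, .inl nρ, .inl yV'⟩,
        ⟨a, b, hab, .inr (by rw [xx]; exact one_mem _)⟩]
    obtain ⟨g, hg⟩ := isConj_iff.1 hc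
    obtain ⟨k, hk, e⟩ := b8b_syl S _ SC ((A a b).map (MulAut.conj g).toMonoidHom) (by
      rintro _ ⟨r, hr, rfl⟩
      rw [mem_centralizer_singleton_iff, ← hg]
      change g * r * g⁻¹ * _ = _ * (g * r * g⁻¹)
      have : r * s = s * r := by
        have h1 := sA a b _ (mul_mem hr hsA)
        rw [← inv_eq_of_mul_eq_one_right h1, mul_inv_rev, inv_eq_of_mul_eq_one_right (sA a b r hr),
          inv_eq_of_mul_eq_one_right (sA a b s hsA)]
      rw [conj_mul, conj_mul, this]) (by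
      rintro _ ⟨r, hr, rfl⟩
      change g * r * g⁻¹ * (g * r * g⁻¹) = 1
      rw [conj_mul, sA a b r hr, mul_one, mul_inv_cancel])
    refine ⟨k * g, K2 a b hab _ fun r hr => ?_, ?_⟩
    · have : k * (g * r * g⁻¹) * k⁻¹ ∈ (S : Subgroup G) := e _ ⟨r, hr, rfl⟩
      simpa only [mul_inv_rev, mul_assoc] using this
    · rw [mul_inv_rev, ← mul_assoc, mul_assoc k, mul_assoc k, hg, mem_centralizer_singleton_iff.1 hk,
        mul_inv_cancel_right]
  have zsq : ∀ g : G, ∀ x ∈ zpowers (g * τ (z, z) * g⁻¹), x * x = 1 := by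
    rintro g _ ⟨k, rfl⟩
    change (g * τ (z, z) * g⁻¹) ^ k * (g * τ (z, z) * g⁻¹) ^ k = 1
    rw [← (Commute.refl _).mul_zpow, conj_mul, gz.tt, mul_one, mul_inv_cancel, one_zpow]
  have hN : normalizer (W : Set G) = ⊤ := by
    refine hA _ (K3 _ rfl) (fun g hg => ?_) fun g hc hne c hcc => ?_
    · obtain ⟨k, hk, e⟩ := b8b_syl S _ (fun s hs => K3 s (gz.t_cen hs)) _ ((zpowers_le).2 hg) (zsq g)
      obtain ⟨g1, hg1, e1⟩ := K4 _ (e _ (mem_zpowers _)) (isConj_iff.2 ⟨(k * g)⁻¹, by group⟩)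
      have := K3 (g1 * k * g) (by rw [← mul_inv_eq_iff_eq_mul]; nth_rewrite 2 [← e1]; group)
      exact (mul_mem_cancel_left (mul_mem hg1 hk)).1 this
    · obtain ⟨k, hk, e⟩ := b8b_syl S _ SC _ ((zpowers_le).2 (mem_centralizer_singleton_iff.2 hc.symm.eq)) (zsq g)
      rw [mem_centralizer_singleton_iff] at hk hcc
      have hs := e _ (mem_zpowers _)
      have kt : k * τ (z, z) * k⁻¹ = τ (z, z) := by rw [hk, mul_inv_cancel_right]
      have hB : InB τ u z (τ (z, z) * (k * (g * τ (z, z) * g⁻¹) * k⁻¹)) := by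
        rcases (h.cl _ hs).1 (isConj_iff.2 ⟨(k * g)⁻¹, by group⟩) with e1 | e1 | e1 | ⟨a, b, hab, e1⟩
        · exact absurd (conj_injective (e1.trans kt.symm)) hne
        · rw [e1, tm, gz.zz, mul_one]; exact .inr (.inr (.inl rfl))
        · rw [e1, tm, gz.zz, mul_one]; exact .inr (.inl rfl)
        · rw [e1, tm']; exact .inr (.inr (.inr ⟨_, _, hab.imp (ns z a gz.zz) (ns z b gz.zz), rfl⟩))
      have hs2 := mul_mem (g0.tS z z) hs
      obtain ⟨g1, hg1, e1⟩ := K4 _ hs2 ((h.cl _ hs2).2 hB)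
      have e2 : g1 * k * (τ (z, z) * (g * τ (z, z) * g⁻¹)) * (g1 * k)⁻¹ = τ (z, z) := by
        calc _ = g1 * (k * τ (z, z) * k⁻¹ * (k * (g * τ (z, z) * g⁻¹) * k⁻¹)) * g1⁻¹ := by group
          _ = _ := by rw [kt, e1]
      have hr := mul_mem hg1 (K3 k hk)
      have := K3 (g1 * k * c * (g1 * k)⁻¹) (by
        have e3 := congrArg (fun s => g1 * k * s * (g1 * k)⁻¹) hcc
        simp only [← conj_mul, e2] at e3
        exact e3)
      simpa [mul_assoc] using mul_mem (mul_mem (inv_mem hr) this) hr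
  have hWn : W.Normal := normalizer_eq_top_iff.1 hN
  rcases hWn.eq_bot_or_eq_top with e | e
  · exact le_bot_iff.1 (e ▸ tW)
  · have ho := (K1 ρ ρ (.inl nρ)).1
    rw [(K1 ρ ρ (.inl nρ)).2, e, card_top] at ho
    have : orderOf (τ (z, z)) = 2 := orderOf_eq_prime (by rw [pow_two, gz.tt]) gz.t_ne
    exact absurd (this ▸ orderOf_dvd_natCard (τ (z, z))) ho.not_two_dvd_nat

end Cfsg.Agent.H7.Bf
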