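import Mathlib
import Cfsg.Agent.H7.Cod
import Cfsg.Agent.H7.Deg
import Cfsg.Agent.H7.GlInv

/-!
Groups with an element `u` such that `χ(1) - χ(u) = 4` or `χ(u) = 0` for all nonprincipal `χ`: characters.
-/

set_option autoImplicit false
set_option linter.unusedSectionVars false

namespace Cfsg.Agent.H9.Bl

open Cfsg Finset Cfsg.Agent.H7
open scoped ComplexConjugate

variable {G : Type*} [Group G] [Finite G] {u : G} {φ χ θ η : G → ℂ}

theorem lin_eq_one (hp : commutator G = ⊤) (h : IsCharacter G φ) (h1 : φ 1 = 1) : φ = 1 := by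
  obtain ⟨μ, rfl⟩ := exists_hom_of_char_one h h1
  exact funext fun g => congrArg Units.val
    (Abelianization.commutator_subset_ker μ (hp ▸ Subgroup.mem_top g))

theorem alt_three (hp : commutator G = ⊤) (h : IsCharacter G χ) (h3 : χ 1 = 3) (g : G) :
    χ (g * g) = χ g ^ 2 - 2 * conj (χ g) := by
  rw [← char_inv h]
  obtain ⟨n, ρ, rfl⟩ := h
  obtain rfl : n = 3 := by exact_mod_cast (by simpa using h3 : (n : ℂ) = 3)
  have h1 : ∀ x, ρ.character x = (LinearMap.toMatrix' (ρ x)).trace := fun x =>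
    (LinearMap.trace_eq_matrix_trace ℂ (Pi.basisFun ℂ _) _).trans (by simp)
  have h2 : (LinearMap.toMatrix' (ρ g)).det = 1 := by
    rw [LinearMap.det_toMatrix']
    exact congrArg Units.val (Abelianization.commutator_subset_ker
      (LinearMap.det.comp ρ).toHomUnits (hp ▸ Subgroup.mem_top g))
  have h4 : LinearMap.toMatrix' (ρ g⁻¹) = (LinearMap.toMatrix' (ρ g)).adjugate := by
    rw [← Matrix.inv_eq_right_inv (A := LinearMap.toMatrix' (ρ g)) (B := LinearMap.toMatrix' (ρ g⁻¹)) (by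
      rw [← LinearMap.toMatrix'_mul, ← map_mul, mul_inv_cancel, map_one, LinearMap.toMatrix'_one]),
      Matrix.inv_def, h2]
    simp
  rw [h1, h1, h1, h4, map_mul, LinearMap.toMatrix'_mul, Matrix.adjugate_fin_three]
  simp [Matrix.trace_fin_three, Matrix.mul_apply, Fin.sum_univ_three]
  ring

structure Hy (u : G) : Prop where
  perf : commutator G = ⊤
  ne : u ≠ 1
  hyp : ∀ χ, IsIrrCharacter G χ → χ ≠ 1 → χ 1 - χ u = 4 ∨ χ u = 0

structure T3 (u : G) (χ : G → ℂ) : Prop where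
  irr : IsIrrCharacter G χ
  one : χ 1 = 3
  val : χ u = -1

theorem T3.ne (h : T3 u χ) : χ ≠ 1 := fun e => by have := h.one; norm_num [e] at this

theorem ne_of_one {a b : ℕ} (ha : χ 1 = a) (hb : θ 1 = b) (h : a ≠ b) : χ ≠ θ := fun e =>
  h (by rw [e, hb] at ha; exact_mod_cast ha.symm)

namespace Hy

variable (h : Hy u)
include h

theorem not_ker (hφ : IsCharacter G φ) (h0 : φ 1 ≠ 0) (h1 : ip φ 1 = 0) : φ u ≠ φ 1 := fun e => by
  obtain ⟨η, h2, h3⟩ := exists_irr_ip_ne_zero (char_cf hφ) fun c => h0 (by simp [c])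
  have h4 := H6.apply_eq_of_mem_charKer (charKer_le_of_ip hφ h2 h3 ((H6.mem_charKer_iff hφ).2 e))
  obtain c | c := h.hyp η h2 fun c => h3 (c ▸ h1)
  · norm_num [h4] at c
  · exact irr_one_ne_zero h2 (h4 ▸ c)

theorem two (hη : IsIrrCharacter G η) (h2 : η 1 = 2) : η u = 0 := by
  refine (h.hyp η hη (ne_of_one (a := 2) (b := 1) h2 (by simp) (by simp))).resolve_left fun e => ?_
  have h3 : ip (η * star η) 1 = 1 := by rw [ip_mul_right, one_mul, star_star, ip_irr_self hη]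
  refine h.not_ker (char_sub_irr (char_mul (irr_char hη) (char_star (irr_char hη))) irr_one
    (h3.trans_ne one_ne_zero)) (by norm_num [h2]) (by rw [ip_sub_left, h3, ip_irr_self irr_one, sub_self]) ?_
  simp [h2, show η u = -2 by linear_combination h2 - e]

theorem neg (hη : IsIrrCharacter G η) (h0 : (η u).re < 0) : T3 u η := by
  have h1 : η ≠ 1 := fun e => by norm_num [e] at h0
  have h2 := (h.hyp η hη h1).resolve_right fun e => by simp [e] at h0
  obtain ⟨d, d0, hd⟩ := irr_one_pos hη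
  have h3 : η u = d - 4 := by linear_combination hd - h2
  have h4 : d < 4 := by
    rw [h3] at h0
    exact_mod_cast (by simpa using h0 : (d : ℝ) < 4)
  interval_cases d
  · exact absurd (lin_eq_one h.perf (irr_char hη) (by simpa using hd)) h1
  · simp [h.two hη hd] at h0
  · exact ⟨hη, hd, by rw [h3]; norm_num⟩

theorem exists_T3 (hφ : IsCharacter G φ) (h0 : (φ u).re < 0) : ∃ η, T3 u η ∧ ip φ η ≠ 0 := by
  by_contra! h1
  rw [cf_expand (char_cf hφ), Finset.sum_apply, Complex.re_sum] at h0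
  refine h0.not_ge (sum_nonneg fun η hη => ?_)
  obtain ⟨n, hn⟩ := ip_char_nat hφ (irr_char (mem_irrSet.1 hη))
  by_cases c : (η u).re < 0
  · simp [h1 η (h.neg (mem_irrSet.1 hη) c)]
  · simpa [hn] using mul_nonneg n.cast_nonneg (not_lt.1 c)

theorem three_le (hφ : IsCharacter G φ) (hu : φ (u * u) = φ 1) (h1 : ip φ 1 = 0) (hη : IsIrrCharacter G η)
    (h2 : ip φ η ≠ 0) : ∃ d : ℕ, 3 ≤ d ∧ η 1 = d := by
  obtain ⟨d, d0, hd⟩ := irr_one_pos hη
  refine ⟨d, by_contra fun c => ?_, hd⟩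
  have h3 : d < 3 := by omega
  interval_cases d
  · exact h2 (lin_eq_one h.perf (irr_char hη) (by simpa using hd) ▸ h1)
  · have h4 := congrFun (lin_eq_one h.perf (H6.isCharacter_altSq (irr_char hη)) (by norm_num [hd])) u
    rw [H6.apply_eq_of_mem_charKer (charKer_le_of_ip hφ hη h2 ((H6.mem_charKer_iff hφ).2 hu)), hd,
      h.two hη hd] at h4
    norm_num at h4

/-- a constituent and the rest -/
theorem split (hφ : IsCharacter G φ) (hu : φ (u * u) = φ 1) (h1 : ip φ 1 = 0) (h0 : φ 1 ≠ 0) :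
    IsIrrCharacter G φ ∨ ∃ (η : G → ℂ) (a b : ℕ), IsIrrCharacter G η ∧ IsCharacter G (φ - η) ∧
      (φ - η) (u * u) = (φ - η) 1 ∧ ip (φ - η) 1 = 0 ∧ 3 ≤ a ∧ 3 ≤ b ∧ η 1 = a ∧ (φ - η) 1 = b := by
  obtain ⟨η, h2, h3⟩ := exists_irr_ip_ne_zero (char_cf hφ) fun c => h0 (by simp [c])
  obtain ⟨a, h4, ha⟩ := h.three_le hφ hu h1 h2 h3
  by_cases c : φ - η = 0
  · exact Or.inl (sub_eq_zero.1 c ▸ h2)
  have h5 := char_sub_irr hφ h2 h3
  have h6 : (φ - η) (u * u) = (φ - η) 1 := by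
    rw [Pi.sub_apply, hu, H6.apply_eq_of_mem_charKer (charKer_le_of_ip hφ h2 h3
      ((H6.mem_charKer_iff hφ).2 hu)), Pi.sub_apply]
  have h7 : ip (φ - η) 1 = 0 := by
    rw [ip_sub_left, h1, ip_irr_ne h2 irr_one fun e => h3 (e ▸ h1), sub_zero]
  obtain ⟨θ, h8, h9⟩ := exists_irr_ip_ne_zero (char_cf h5) c
  obtain ⟨b, h10, hb⟩ := h.three_le h5 h6 h7 h8 h9
  obtain ⟨n, hn⟩ := ip_char_nat h5 (irr_char h8)
  obtain ⟨m, hm⟩ := char_one_nat h5
  have := degree_le_of_ip h5 h8 hn hm hb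
  have : n ≠ 0 := fun e => h9 (by simp [hn, e])
  exact Or.inr ⟨η, a, m, h2, h5, h6, h7, h4, by nlinarith [Nat.pos_of_ne_zero this], ha, hm⟩

theorem irr_of_small (hφ : IsCharacter G φ) (hu : φ (u * u) = φ 1) (h1 : ip φ 1 = 0) {d : ℕ} (hd : φ 1 = d)
    (d0 : d ≠ 0) (d5 : d ≤ 5) : IsIrrCharacter G φ := by
  refine (h.split hφ hu h1 (by simpa [hd] using d0)).resolve_right ?_
  rintro ⟨η, a, b, -, -, -, -, h2, h3, ha, hb⟩
  rw [Pi.sub_apply, ha, hd, sub_eq_iff_eq_add] at hb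
  have : d = b + a := by exact_mod_cast hb
  omega

theorem sq (hχ : T3 u χ) : χ (u * u) = 3 := by
  rw [alt_three h.perf (irr_char hχ.irr) hχ.one, hχ.val]; norm_num

theorem char_sym (hχ : T3 u χ) : IsCharacter G (χ * χ - star χ) := by
  convert H6.isCharacter_symSq (irr_char hχ.irr) using 1
  ext g
  simp [alt_three h.perf (irr_char hχ.irr) hχ.one]
  ring

theorem real (hχ : T3 u χ) : star χ = χ := by
  by_contra h0
  have c := irr_char hχ.irr
  have c' := irr_star hχ.irr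
  have s1 : star χ ≠ 1 := fun e => hχ.ne (by simpa using congrArg star e)
  have h1 := h.char_sym hχ
  set σ := χ * χ - star χ with hσ
  have σ1 : σ 1 = (6 : ℕ) := by norm_num [hσ, hχ.one]
  have h2 : IsIrrCharacter G σ := by
    refine (h.split h1 (by norm_num [hσ, hχ.one, h.sq hχ]) (by
      rw [ip_sub_left, ip_mul_right, one_mul, ip_irr_ne hχ.irr c' (Ne.symm h0), ip_irr_ne c' irr_one s1,
        sub_zero]) (by norm_num [σ1])).resolve_right ?_
    rintro ⟨η, a, b, k1, k2, k3, k4, k5, k6, ha, hb⟩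
    have k7 : 6 = b + a := by
      rw [Pi.sub_apply, ha, σ1, sub_eq_iff_eq_add] at hb
      exact_mod_cast hb
    obtain rfl : a = 3 := by omega
    obtain rfl : b = 3 := by omega
    have k8 := h.hyp _ k1 (ne_of_one (b := 1) ha (by simp) (by simp))
    have k9 := h.hyp _ (h.irr_of_small k2 k3 k4 hb (by simp) (by simp)) (ne_of_one (b := 1) hb (by simp) (by simp))
    rw [hb, Pi.sub_apply, show σ u = 2 by norm_num [hσ, hχ.val]] at k9
    rw [ha] at k8
    push_cast at k8 k9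
    obtain k8 | k8 := k8 <;> obtain k9 | k9 := k9
    · exact absurd (show (4 : ℂ) = 0 by linear_combination -k8 - k9) (by norm_num)
    · exact absurd (show (3 : ℂ) = 0 by linear_combination k9 - k8) (by norm_num)
    · exact absurd (show (3 : ℂ) = 0 by linear_combination k8 - k9) (by norm_num)
    · exact absurd (show (2 : ℂ) = 0 by linear_combination k8 + k9) (by norm_num)
  have h3 : ip (χ * star χ) 1 = 1 := by rw [ip_mul_right, one_mul, star_star, ip_irr_self hχ.irr]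
  have h4 : IsIrrCharacter G (χ * star χ - 1) := by
    refine irr_of_ip_one (char_sub_irr (char_mul c (char_star c)) irr_one (h3.trans_ne one_ne_zero)) ?_
    have k1 : σ ≠ star χ := ne_of_one (b := 3) σ1 (by simp [hχ.one]) (by simp)
    have k2 : ip (χ * star χ) (χ * star χ) = ip (σ + star χ) (σ + star χ) := by
      rw [hσ, sub_add_cancel, ip_mul_right, ip_mul_right, star_star, mul_right_comm]
    rw [ip_sub_left, ip_sub_right, ip_sub_right, k2, h3, ip_natCast_comm (h3.trans Nat.cast_one.symm),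
      ip_add_left, ip_add_right, ip_add_right, ip_irr_self h2, ip_irr_self c', ip_irr_self irr_one,
      ip_irr_ne h2 c' k1, ip_irr_ne c' h2 k1.symm]
    norm_num
  have h5 := char_mul h1 c
  obtain ⟨θ, t1, t2⟩ := h.exists_T3 h5 (by norm_num [hσ, hχ.val])
  obtain ⟨η, t3, t4⟩ := h.exists_T3 (char_sub_irr h5 t1.irr t2) (by norm_num [hσ, hχ.val, t1.val])
  obtain ⟨n, hn⟩ := ip_char_nat (char_sub_irr h5 t1.irr t2) (irr_char t3.irr)
  have n0 : n ≠ 0 := fun e => t4 (by simp [hn, e])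
  rw [ip_sub_left, sub_eq_iff_eq_add, ip_mul_right] at hn
  by_cases e : θ = η
  · rw [e, ip_irr_self t3.irr, ← Nat.cast_succ] at hn
    have := degree_le_of_ip (a := 9) (char_mul (irr_char t3.irr) (char_star c)) h2 (ip_natCast_comm hn)
      (by norm_num [t3.one, hχ.one]) σ1
    omega
  have k0 := ip_irr_ne t1.irr t3.irr e
  rw [ip_mul_right] at t2
  have k1 := ip_ne_zero_of_common (char_mul (irr_char t1.irr) (char_star c))
    (char_mul (irr_char t3.irr) (char_star c)) h2 (ip_ne_zero_comm.1 t2)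
    (ip_ne_zero_comm.1 (by simpa [hn, k0] using n0))
  have k2 : ip (θ * star η) 1 = 0 := by rwa [ip_mul_right, one_mul, star_star]
  have k3 : ip (θ * star η) (χ * star χ - 1) ≠ 0 := by
    rw [ip_sub_right, k2, sub_zero, ip_mul_right, star_star]
    rwa [ip_mul_right, star_star, show η * star χ * χ = χ * star χ * η by ring] at k1
  have k4 := lin_eq_one h.perf (char_sub_irr (char_mul (irr_char t1.irr) (char_star (irr_char t3.irr))) h4 k3)
    (by norm_num [t1.one, t3.one, hχ.one])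
  have k5 := congrArg (ip · 1) k4
  simp only [ip_sub_left, k2, h3, ip_irr_self irr_one] at k5
  norm_num at k5

end Hy

/-- the character of degree five -/
def xi (χ : G → ℂ) : G → ℂ := χ * χ - χ - 1

theorem mul_self_eq (χ : G → ℂ) : χ * χ = 1 + χ + xi χ := by rw [xi]; ring

namespace Hy

variable (h : Hy u) (hχ : T3 u χ)
include h hχ

theorem xi_one : xi χ 1 = (5 : ℕ) := by norm_num [xi, hχ.one]

theorem xi_val : xi χ u = 1 := by norm_num [xi, hχ.val]

theorem xi_star : star (xi χ) = xi χ := by simp [xi, h.real hχ]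

theorem ip_move (φ ψ : G → ℂ) : ip (φ * χ) ψ = ip φ (ψ * χ) := by rw [ip_mul_right, h.real hχ]

theorem xi_irr : IsIrrCharacter G (xi χ) := by
  have h1 := h.char_sym hχ
  rw [h.real hχ] at h1
  have h2 : ip (χ * χ - χ) 1 = 1 := by
    rw [ip_sub_left, h.ip_move hχ, one_mul, ip_irr_self hχ.irr, ip_irr_ne hχ.irr irr_one hχ.ne, sub_zero]
  exact h.irr_of_small (char_sub_irr h1 irr_one (h2.trans_ne one_ne_zero)) (by norm_num [xi, hχ.one, h.sq hχ])
    (by rw [xi, ip_sub_left, h2, ip_irr_self irr_one, sub_self]) (h.xi_one hχ) (by simp) le_rfl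

theorem xi_ne : xi χ ≠ 1 := ne_of_one (b := 1) (h.xi_one hχ) (by simp) (by simp)

theorem xi_ne' (hθ : T3 u θ) : xi χ ≠ θ := ne_of_one (b := 3) (h.xi_one hχ) hθ.one (by simp)

theorem alt_xi : xi χ * χ - xi χ = fun g => (xi χ g ^ 2 - xi χ (g * g)) / 2 := by
  ext g
  have h1 := alt_three h.perf (irr_char hχ.irr) hχ.one g
  rw [show conj (χ g) = χ g from congrFun (h.real hχ) g] at h1
  simp [xi, h1]
  ring

theorem ip_xi : ip (xi χ * χ) χ = 1 := by
  rw [h.ip_move hχ, mul_self_eq, ip_add_right, ip_add_right, ip_irr_self (h.xi_irr hχ),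
    ip_irr_ne (h.xi_irr hχ) irr_one (h.xi_ne hχ), ip_irr_ne (h.xi_irr hχ) hχ.irr (h.xi_ne' hχ hχ)]
  simp

theorem ip_prod (hθ : T3 u θ) (e : χ ≠ θ) : ip (θ * χ) (θ * χ) = 1 + ip (xi χ) (xi θ) := by
  have h1 : ip (θ * χ) (θ * χ) = ip (χ * χ) (θ * θ) := by
    rw [h.ip_move hχ χ, mul_comm θ χ, h.ip_move hθ, mul_right_comm θ θ, mul_comm θ χ]
  have h2 := h.xi_irr hχ
  have h3 := h.xi_irr hθ
  rw [h1, mul_self_eq, mul_self_eq]
  simp only [ip_add_left, ip_add_right, ip_irr_self irr_one, ip_irr_ne hχ.irr irr_one hχ.ne,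
    ip_irr_ne irr_one hθ.irr hθ.ne.symm, ip_irr_ne hχ.irr hθ.irr e, ip_irr_ne h2 irr_one (h.xi_ne hχ),
    ip_irr_ne irr_one h3 (h.xi_ne hθ).symm, ip_irr_ne h2 hθ.irr (h.xi_ne' hχ hθ),
    ip_irr_ne hχ.irr h3 (h.xi_ne' hθ hχ).symm, add_zero, zero_add]

theorem xi_eq (hθ : T3 u θ) (e : χ ≠ θ) : xi χ = xi θ := by
  by_contra c
  have h1 := h.ip_prod hχ hθ e
  rw [ip_irr_ne (h.xi_irr hχ) (h.xi_irr hθ) c, add_zero] at h1
  have h2 := h.hyp _ (irr_of_ip_one (char_mul (irr_char hθ.irr) (irr_char hχ.irr)) h1)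
    (ne_of_one (a := 9) (b := 1) (by norm_num [hχ.one, hθ.one]) (by simp) (by simp))
  norm_num [hχ.one, hθ.one, hχ.val, hθ.val] at h2

theorem xi_mul (hθ : T3 u θ) (e : χ ≠ θ) : xi χ * θ = xi χ * χ := by
  have h1 := h.alt_xi hθ
  rw [← h.xi_eq hχ hθ e, ← h.alt_xi hχ] at h1
  exact sub_left_injective h1

theorem exists_rho : ∃ θ ρ, T3 u θ ∧ χ ≠ θ ∧ IsIrrCharacter G ρ ∧ ρ 1 = (4 : ℕ) ∧
    xi χ * χ = χ + xi χ + θ + ρ ∧ θ * χ = xi χ + ρ := by
  have h1 := h.xi_irr hχ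
  have h2 : IsCharacter G (xi χ * χ - xi χ) := h.alt_xi hχ ▸ H6.isCharacter_altSq (irr_char h1)
  have h3 : ip (xi χ * χ - xi χ) χ = 1 := by
    rw [ip_sub_left, h.ip_xi hχ, ip_irr_ne h1 hχ.irr (h.xi_ne' hχ hχ), sub_zero]
  have h4 := char_sub_irr h2 hχ.irr (h3.trans_ne one_ne_zero)
  obtain ⟨θ, hθ, h5⟩ := h.exists_T3 h4 (by norm_num [h.xi_val hχ, hχ.val])
  have e : χ ≠ θ := fun e => h5 (by rw [← e, ip_sub_left, h3, ip_irr_self hχ.irr, sub_self])
  have h6 := h.irr_of_small (d := 4) (char_sub_irr h4 hθ.irr h5)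
    (by norm_num [xi, hχ.one, hθ.one, h.sq hχ, h.sq hθ]) (by
      simp only [ip_sub_left, h.ip_move hχ, one_mul, ip_irr_ne h1 hχ.irr (h.xi_ne' hχ hχ),
        ip_irr_ne h1 irr_one (h.xi_ne hχ), ip_irr_ne hχ.irr irr_one hχ.ne, ip_irr_ne hθ.irr irr_one hθ.ne,
        sub_zero]) (by norm_num [xi, hχ.one, hθ.one]) (by simp) (by simp)
  set ρ := xi χ * χ - xi χ - χ - θ with hρ
  have ρ1 : ρ 1 = (4 : ℕ) := by norm_num [hρ, xi, hχ.one, hθ.one]
  have h7 : xi χ * χ = χ + xi χ + θ + ρ := by rw [hρ]; ring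
  have h8 : ip (θ * χ) (xi χ) ≠ 0 := by
    rw [h.ip_move hχ, h7]
    simp [ip_add_right, ip_irr_ne hθ.irr hχ.irr e.symm, ip_irr_ne hθ.irr h1 (h.xi_ne' hχ hθ).symm,
      ip_irr_self hθ.irr, ip_irr_ne hθ.irr h6 (ne_of_one (a := 3) hθ.one ρ1 (by simp))]
  have h9 := h.irr_of_small (d := 4) (char_sub_irr (char_mul (irr_char hθ.irr) (irr_char hχ.irr)) h1 h8)
    (by norm_num [xi, hχ.one, hθ.one, h.sq hχ, h.sq hθ]) (by
      rw [ip_sub_left, h.ip_move hχ, one_mul, ip_irr_ne hθ.irr hχ.irr e.symm,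
        ip_irr_ne h1 irr_one (h.xi_ne hχ), sub_zero]) (by norm_num [xi, hχ.one, hθ.one]) (by simp) (by simp)
  set τ := θ * χ - xi χ with hτ
  have τ1 : τ 1 = (4 : ℕ) := by norm_num [hτ, xi, hχ.one, hθ.one]
  have h10 : τ * χ = θ + xi χ + τ := by
    rw [hτ]
    linear_combination θ * mul_self_eq χ + h.xi_mul hχ hθ e
  have h11 : ip (τ * χ) (xi χ) = 1 := by
    simp [h10, ip_add_left, ip_irr_ne hθ.irr h1 (h.xi_ne' hχ hθ).symm, ip_irr_self h1,
      ip_irr_ne h9 h1 (ne_of_one τ1 (h.xi_one hχ) (by simp))]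
  rw [h.ip_move hχ, h7] at h11
  simp only [ip_add_right, ip_irr_ne h9 h1 (ne_of_one τ1 (h.xi_one hχ) (by simp)), zero_add,
    ip_irr_ne h9 hχ.irr (ne_of_one (b := 3) τ1 hχ.one (by simp)),
    ip_irr_ne h9 hθ.irr (ne_of_one (b := 3) τ1 hθ.one (by simp))] at h11
  exact ⟨θ, ρ, hθ, e, h6, ρ1, h7, by
    rw [← irr_eq_of_ip_ne_zero h9 h6 (h11.trans_ne one_ne_zero), hτ]; ring⟩

theorem index_ker : (H6.charKer χ).index = 60 := by
  classical
  have := Fintype.ofFinite G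
  obtain ⟨θ, ρ, hθ, e, h1, ρ1, h2, h3⟩ := h.exists_rho hχ
  have h4 : ∀ g, (1 + (3 : ℂ) • χ + (3 : ℂ) • θ + (4 : ℂ) • ρ + (5 : ℂ) • xi χ) g =
      if g ∈ H6.charKer χ then 60 else 0 := fun g => by
    have k1 := congrFun (mul_self_eq χ) g
    have k2 := congrFun h2 g
    have k3 := congrFun h3 g
    have k4 := congrFun (h.xi_mul hχ hθ e) g
    simp only [H6.mem_charKer_iff_irr hχ.irr, hχ.one, Pi.add_apply, Pi.mul_apply, Pi.one_apply,
      Pi.smul_apply, smul_eq_mul] at *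
    split_ifs with c
    · rw [c] at k1 k2 k3 ⊢
      linear_combination (-49 / 4) * k1 - 15 / 4 * k2 - 1 / 4 * k3
    · refine (mul_eq_zero.1 ?_).resolve_left (sub_ne_zero.2 c)
      linear_combination (3 + 4 * θ g) * k1 + 5 * k2 + (3 - 4 * χ g + 4) * k3 + 4 * k4
  have h5 : ip (1 + (3 : ℂ) • χ + (3 : ℂ) • θ + (4 : ℂ) • ρ + (5 : ℂ) • xi χ) 1 = 1 := by
    simp [ip_add_left, ip_smul_left, ip_irr_self irr_one, ip_irr_ne hχ.irr irr_one hχ.ne,
      ip_irr_ne hθ.irr irr_one hθ.ne, ip_irr_ne (h.xi_irr hχ) irr_one (h.xi_ne hχ),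
      ip_irr_ne h1 irr_one (ne_of_one (b := 1) ρ1 (by simp) (by simp))]
  rw [ip_def] at h5
  simp only [h4, Pi.one_apply, map_one, mul_one, ← sum_filter, sum_const, nsmul_eq_mul] at h5
  rw [← Fintype.card_subtype, ← Nat.card_eq_fintype_card, inv_mul_eq_one₀ (card_ne_zero' G),
    ← (H6.charKer χ).card_mul_index] at h5
  exact Nat.eq_of_mul_eq_mul_left Nat.card_pos (by exact_mod_cast h5)

omit hχ in
theorem main : ∃ K : Subgroup G, K.Normal ∧ K.index = 60 ∧ u ∉ K ∧ u * u ∈ K ∧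
    Nat.card (Subgroup.centralizer {u}) = 4 := by
  classical
  have h1 := sum_irr_mul_conj_of_not (G := G) (g := u) (h := 1) (by simpa using h.ne)
  have h2 := sum_irr_mul_conj_self u
  have h0 : ∀ η ∈ irrSet G, ¬ T3 u η → 0 ≤ (η u * conj (η 1)).re := fun η hη c => by
    obtain ⟨d, -, hd⟩ := irr_one_pos (mem_irrSet.1 hη)
    simpa [hd] using mul_nonneg (not_lt.1 (mt (h.neg (mem_irrSet.1 hη)) c)) d.cast_nonneg
  obtain ⟨χ, hχ⟩ : ∃ χ, T3 u χ := by
    by_contra! c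
    have := single_le_sum (fun η hη => h0 η hη (c η)) one_mem_irrSet
    rw [← Complex.re_sum, h1] at this
    norm_num at this
  obtain ⟨θ, ρ, hθ, e, h3, ρ1, h4, -⟩ := h.exists_rho hχ
  refine ⟨_, H6.charKer_normal (irr_cf hχ.irr), h.index_ker hχ, by
    norm_num [H6.mem_charKer_iff_irr hχ.irr, hχ.one, hχ.val],
    (H6.mem_charKer_iff_irr hχ.irr).2 ((h.sq hχ).trans hχ.one.symm), ?_⟩
  have h5 : ({1, χ, θ, xi χ} : Finset (G → ℂ)) ⊆ irrSet G := by
    simp [insert_subset_iff, mem_irrSet, irr_one, hχ.irr, hθ.irr, h.xi_irr hχ]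
  have h6 : ∀ F : (G → ℂ) → ℂ, ∑ η ∈ ({1, χ, θ, xi χ} : Finset (G → ℂ)), F η =
      F 1 + (F χ + (F θ + F (xi χ))) := fun F => by
    rw [sum_insert (by simp [hχ.ne.symm, hθ.ne.symm, (h.xi_ne hχ).symm]),
      sum_insert (by simp [e, (h.xi_ne' hχ hχ).symm]), sum_pair (h.xi_ne' hχ hθ).symm]
  rw [← sum_sdiff h5, h6] at h1 h2
  have h7 := (sum_eq_zero_iff_of_nonneg (s := irrSet G \ {1, χ, θ, xi χ}) fun η hη => h0 η (mem_sdiff.1 hη).1
    fun c => by
      simp only [mem_sdiff, mem_insert, mem_singleton, not_or] at hη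
      have k := h.ip_xi c
      rw [← h.xi_eq hχ c (Ne.symm hη.2.2.1), h.xi_mul hχ c (Ne.symm hη.2.2.1), h4] at k
      simp [ip_add_left, ip_irr_ne hχ.irr c.irr (Ne.symm hη.2.2.1), ip_irr_ne hθ.irr c.irr (Ne.symm hη.2.2.2.1),
        ip_irr_ne (h.xi_irr hχ) c.irr (h.xi_ne' hχ c),
        ip_irr_ne h3 c.irr (ne_of_one (b := 3) ρ1 c.one (by simp))] at k).1 (by
    rw [← Complex.re_sum, eq_neg_of_add_eq_zero_left h1]
    norm_num [hχ.one, hχ.val, hθ.one, hθ.val, h.xi_one hχ, h.xi_val hχ])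
  rw [sum_eq_zero fun η hη => ?_] at h2
  · norm_num [hχ.val, hθ.val, h.xi_val hχ] at h2
    exact_mod_cast h2.symm
  have k1 := h7 η hη
  simp only [mem_sdiff, mem_insert, not_or, mem_irrSet] at hη
  obtain ⟨d, d0, hd⟩ := irr_one_pos hη.1
  obtain k | k := h.hyp η hη.1 hη.2.1
  · rw [show η u = d - 4 by linear_combination hd - k] at k1 ⊢
    have : (d : ℝ) - 4 = 0 := by simpa [hd, d0.ne'] using k1
    rw [show (d : ℂ) - 4 = 0 by exact_mod_cast this, zero_mul]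
  · rw [k, zero_mul]

end Hy

end Cfsg.Agent.H9.Bl
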