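import Mathlib
import Cfsg.Agent.L0.GLn1

/-! Commutators in `SL_n`, part 1: cyclic operators, gluing. -/

set_option autoImplicit false
set_option linter.unusedSectionVars false
set_option linter.unusedVariables false

namespace Cfsg.Agent.H9.Cmt

open Module LinearMap Polynomial

variable {K : Type*} [Field K] {V W U : Type*} [AddCommGroup V] [Module K V] [FiniteDimensional K V]
  [AddCommGroup W] [Module K W] [FiniteDimensional K W] [AddCommGroup U] [Module K U] [FiniteDimensional K U]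

def Gen (b : End K V) (v : V) : Prop := ∀ x, ∃ p : K[X], aeval b p v = x

def IsCyc (b : End K V) : Prop := ∃ v, Gen b v

structure Cyc (b : End K V) (h : K[X]) : Prop where
  mon : h.Monic
  deg : h.natDegree = finrank K V
  ann : aeval b h = 0
  gen : IsCyc b

def Iso (b : End K V) (c : End K W) : Prop := ∃ e : V ≃ₗ[K] W, ∀ x, e (b x) = c (e x)

noncomputable def ev (b : End K V) (v : V) : K[X] →ₗ[K] V := LinearMap.applyₗ v ∘ₗ (aeval b).toLinearMap

theorem ev_apply (b : End K V) (v : V) (p : K[X]) : ev b v p = aeval b p v := rfl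

theorem ev_mul (b : End K V) (v : V) (p q : K[X]) : ev b v (p * q) = aeval b p (ev b v q) := by
  simp [ev_apply]

theorem ev_X (b : End K V) (v : V) (q : K[X]) : ev b v (X * q) = b (ev b v q) := by
  simp [ev_apply]

theorem comm_aeval {b : End K V} {c : End K W} (i : W →ₗ[K] V) (h : ∀ x, b (i x) = i (c x)) (p : K[X]) (x : W) :
    aeval b p (i x) = i (aeval c p x) := by
  induction p using Polynomial.induction_on with
  | C a => simp [Algebra.algebraMap_eq_smul_one]
  | add p q hp hq => simp [hp, hq]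
  | monomial n a ih =>
    rw [pow_succ', mul_left_comm, map_mul, map_mul (aeval c), aeval_X, aeval_X, End.mul_apply, End.mul_apply, ih, h]

theorem ev_mod {b : End K V} {h : K[X]} (ha : aeval b h = 0) (v : V) (p : K[X]) : ev b v (p %ₘ h) = ev b v p := by
  rw [ev_apply, ev_apply, aeval_modByMonic_eq_self_of_root ha]

theorem Cyc.dvd {b : End K V} {h p : K[X]} {v : V} (hc : Cyc b h) (hv : Gen b v) (hp : ev b v p = 0) : h ∣ p := by
  let f := ev b v ∘ₗ (degreeLT K h.natDegree).subtype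
  have hm : ∀ q : K[X], q %ₘ h ∈ degreeLT K h.natDegree := fun q => by
    rw [mem_degreeLT, ← degree_eq_natDegree hc.mon.ne_zero]; exact degree_modByMonic_lt q hc.mon
  have hs : Function.Surjective f := fun x => by
    obtain ⟨q, rfl⟩ := hv x
    exact ⟨⟨_, hm q⟩, ev_mod hc.ann v q⟩
  have hd : finrank K (degreeLT K h.natDegree) = finrank K V := by
    rw [(degreeLTEquiv K h.natDegree).finrank_eq, ← hc.deg]; simp
  have := (degreeLTEquiv K h.natDegree).symm.finiteDimensional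
  have hi := (injective_iff_surjective_of_finrank_eq_finrank hd).2 hs
  have : (⟨_, hm p⟩ : degreeLT K h.natDegree) = 0 := hi (by
    rw [map_zero]; exact (ev_mod hc.ann v p).trans hp)
  exact (modByMonic_eq_zero_iff_dvd hc.mon).1 (congrArg Subtype.val this)

theorem Cyc.iso {b : End K V} {c : End K W} {h : K[X]} (hb : Cyc b h) (hc : Cyc c h) : Iso b c := by
  obtain ⟨v, hv⟩ := hb.gen
  obtain ⟨w, hw⟩ := hc.gen
  have k : ker (ev b v) = ker (ev c w) := by
    ext p
    simp only [mem_ker]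
    constructor
    · intro e; obtain ⟨q, rfl⟩ := hb.dvd hv e; rw [mul_comm, ev_mul, ev_apply, hc.ann]; simp
    · intro e; obtain ⟨q, rfl⟩ := hc.dvd hw e; rw [mul_comm, ev_mul, ev_apply, hb.ann]; simp
  let e := ((ev b v).quotKerEquivOfSurjective hv).symm ≪≫ₗ Submodule.quotEquivOfEq _ _ k ≪≫ₗ
    (ev c w).quotKerEquivOfSurjective hw
  have he : ∀ p, e (ev b v p) = ev c w p := fun p => by
    have : ((ev b v).quotKerEquivOfSurjective hv).symm (ev b v p) = Submodule.Quotient.mk p := by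
      rw [LinearEquiv.symm_apply_eq]; rfl
    simp only [e, LinearEquiv.trans_apply, this]; rfl
  refine ⟨e, fun x => ?_⟩
  obtain ⟨p, rfl⟩ := hv x
  rw [← ev_apply, ← ev_X, he, he, ev_X]

theorem IsCyc.cyc {b : End K V} (h : IsCyc b) : Cyc b b.charpoly :=
  ⟨b.charpoly_monic, b.charpoly_natDegree, b.aeval_self_charpoly, h⟩

theorem Cyc.det {b : End K V} {h : K[X]} (hb : Cyc b h) : LinearMap.det b = (-1) ^ finrank K V * h.coeff 0 := by
  obtain ⟨v, hv⟩ := hb.gen
  have : h ∣ b.charpoly := hb.dvd hv (by rw [ev_apply, b.aeval_self_charpoly]; rfl)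
  rw [LinearMap.det_eq_sign_charpoly_coeff,
    eq_of_monic_of_dvd_of_natDegree_le hb.mon b.charpoly_monic this (by rw [b.charpoly_natDegree, hb.deg])]

theorem Iso.symm {b : End K V} {c : End K W} (h : Iso b c) : Iso c b := by
  obtain ⟨e, he⟩ := h
  exact ⟨e.symm, fun x => by rw [e.symm_apply_eq, he, e.apply_symm_apply]⟩

theorem Iso.trans {b : End K V} {c : End K W} {d : End K U} (h : Iso b c) (h' : Iso c d) : Iso b d := by
  obtain ⟨e, he⟩ := h
  obtain ⟨f, hf⟩ := h'
  exact ⟨e ≪≫ₗ f, fun x => by simp [he, hf]⟩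

theorem Iso.refl (b : End K V) : Iso b b := ⟨LinearEquiv.refl _ _, fun _ => rfl⟩

theorem Iso.finrank {b : End K V} {c : End K W} (h : Iso b c) : finrank K V = finrank K W := h.choose.finrank_eq

theorem Iso.det {b : End K V} {c : End K W} (h : Iso b c) : LinearMap.det b = LinearMap.det c := by
  obtain ⟨e, he⟩ := h
  rw [← LinearMap.det_conj b e]
  congr 1; ext x; simp [he]

theorem Iso.cyc {b : End K V} {c : End K W} {h : K[X]} (hi : Iso b c) (hb : Cyc b h) : Cyc c h := by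
  obtain ⟨e, he⟩ := hi
  have k := comm_aeval (b := c) (c := b) e.toLinearMap (fun x => (he x).symm)
  obtain ⟨v, hv⟩ := hb.gen
  refine ⟨hb.mon, hb.deg.trans e.finrank_eq, LinearMap.ext fun x => ?_, e v, fun x => ?_⟩
  · obtain ⟨y, rfl⟩ := e.surjective x
    simpa [hb.ann] using k h y
  · obtain ⟨p, hp⟩ := hv (e.symm x)
    exact ⟨p, by simpa [hp] using k p v⟩

theorem Iso.prod {V' W' : Type*} [AddCommGroup V'] [Module K V'] [FiniteDimensional K V'] [AddCommGroup W']
    [Module K W'] [FiniteDimensional K W'] {b : End K V} {c : End K W} {b' : End K V'} {c' : End K W'}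
    (h : Iso b c) (h' : Iso b' c') : Iso (b.prodMap b' : End K (V × V')) (c.prodMap c' : End K (W × W')) := by
  obtain ⟨e, he⟩ := h
  obtain ⟨f, hf⟩ := h'
  exact ⟨e.prodCongr f, fun x => by simp [he, hf]⟩

theorem iso_comm (b : End K V) (c : End K W) : Iso (b.prodMap c : End K (V × W)) (c.prodMap b : End K (W × V)) :=
  ⟨LinearEquiv.prodComm _ _ _, fun _ => rfl⟩

theorem iso_assoc (b : End K V) (c : End K W) (d : End K U) :
    Iso ((b.prodMap c).prodMap d : End K ((V × W) × U)) (b.prodMap (c.prodMap d) : End K (V × W × U)) :=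
  ⟨LinearEquiv.prodAssoc _ _ _ _, fun _ => rfl⟩

theorem iso_zero (b : End K V) (c : End K W) (h : finrank K W = 0) : Iso (b.prodMap c : End K (V × W)) b := by
  have := (finrank_zero_iff (R := K)).1 h
  haveI : Unique W := ⟨⟨0⟩, fun _ => Subsingleton.elim _ _⟩
  exact ⟨LinearEquiv.prodUnique, fun _ => rfl⟩

/-- `g` is a commutator of operators with determinants `α, β`. -/
def T (g : End K V) (α β : K) : Prop :=
  ∃ a b : End K V, LinearMap.det a = α ∧ LinearMap.det b = β ∧ a * b = g * b * a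

theorem Iso.T {g : End K V} {g' : End K W} {α β : K} (hi : Iso g g') (h : T g α β) : T g' α β := by
  obtain ⟨e, he⟩ := hi
  obtain ⟨a, b, ha, hb, h⟩ := h
  refine ⟨e ∘ₗ a ∘ₗ e.symm, e ∘ₗ b ∘ₗ e.symm, (LinearMap.det_conj a e).trans ha, (LinearMap.det_conj b e).trans hb,
    LinearMap.ext fun x => ?_⟩
  have := congrArg (fun f : End K V => e (f (e.symm x))) h
  simpa [he] using this

theorem T.prod {g : End K V} {g' : End K W} {α β α' β' : K} (h : T g α β) (h' : T g' α' β') :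
    T (g.prodMap g' : End K (V × W)) (α * α') (β * β') := by
  obtain ⟨a, b, ha, hb, h⟩ := h
  obtain ⟨a', b', ha', hb', h'⟩ := h'
  refine ⟨a.prodMap a', b.prodMap b', by rw [det_prodMap, ha, ha'], by rw [det_prodMap, hb, hb'], ?_⟩
  rw [prodMap_mul, prodMap_mul, prodMap_mul, h, h']

theorem T.inv {g gi : End K V} {α β : K} (e : g * gi = 1) (h : T gi α β) : T g β α := by
  obtain ⟨a, b, ha, hb, h⟩ := h
  exact ⟨b, a, hb, ha, by rw [mul_assoc, h, ← mul_assoc, ← mul_assoc, e, one_mul]⟩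

theorem T.mv1 {g : End K V} {α β : K} (h : T g α β) : T g α (β * α) := by
  obtain ⟨a, b, ha, hb, h⟩ := h
  exact ⟨a, b * a, ha, by rw [map_mul, ha, hb], by rw [← mul_assoc, h, mul_assoc g]⟩

theorem T.mv2 {g : End K V} {α β : K} (h : T g α β) : T g (α * β) β := by
  obtain ⟨a, b, ha, hb, h⟩ := h
  exact ⟨a * b, b, by rw [map_mul, ha, hb], hb, by rw [← mul_assoc, ← h]⟩

/-- Extension lemma, internal form. -/
theorem ext_int {b : End K V} {u r : K[X]} (S : Submodule K V) {w y : V} (hu : u.Monic) (hr : r.Monic)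
    (hd : r.natDegree + u.natDegree = finrank K V) (hw : ∀ x ∈ S, ∃ p : K[X], aeval b p w = x)
    (h1 : ∀ x ∈ S, aeval b u x = 0) (h2 : ∀ x, aeval b r x ∈ S) (h3 : ∀ x, ∃ p : K[X], x - aeval b p y ∈ S)
    (h4 : aeval b r y = w) : Cyc b (r * u) := by
  refine ⟨hr.mul hu, by rw [hr.natDegree_mul hu, hd], LinearMap.ext fun x => ?_, y, fun x => ?_⟩
  · rw [mul_comm, map_mul]; exact h1 _ (h2 x)
  · obtain ⟨p, hp⟩ := h3 x
    obtain ⟨q, hq⟩ := hw _ hp
    exact ⟨q * r + p, by simp [h4, hq]⟩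

theorem aeval_mem {b : End K V} {S : Submodule K V} (hS : ∀ x ∈ S, b x ∈ S) (p : K[X]) : ∀ x ∈ S, aeval b p x ∈ S := by
  induction p using Polynomial.induction_on with
  | C a => intro x hx; simpa [Algebra.algebraMap_eq_smul_one] using S.smul_mem a hx
  | add p q hp hq => intro x hx; simpa using S.add_mem (hp x hx) (hq x hx)
  | monomial n a ih => intro x hx; rw [pow_succ', mul_left_comm, map_mul, aeval_X]; exact hS _ (ih x hx)

theorem ext_cop {b : End K V} {u r : K[X]} (S : Submodule K V) {w y : V} (hu : u.Monic) (hr : r.Monic)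
    (hd : r.natDegree + u.natDegree = finrank K V) (hS : ∀ x ∈ S, b x ∈ S) (hw0 : w ∈ S)
    (hw : ∀ x ∈ S, ∃ p : K[X], aeval b p w = x)
    (h1 : ∀ x ∈ S, aeval b u x = 0) (h2 : ∀ x, aeval b r x ∈ S) (h3 : ∀ x, ∃ p : K[X], x - aeval b p y ∈ S)
    (h4 : IsCoprime r u) : Cyc b (r * u) := by
  obtain ⟨s, t, hst⟩ := h4
  have m : w - aeval b r y ∈ S := S.sub_mem hw0 (h2 y)
  refine ext_int S (y := y + aeval b s (w - aeval b r y)) hu hr hd hw h1 h2 (fun x => ?_) ?_
  · obtain ⟨p, hp⟩ := h3 x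
    refine ⟨p, ?_⟩
    rw [map_add, ← sub_sub]
    exact S.sub_mem hp (aeval_mem hS _ _ (aeval_mem hS _ _ m))
  · have := congrArg (fun p => aeval b p (w - aeval b r y)) hst
    simp only [map_add, map_one, End.one_apply, LinearMap.add_apply, map_mul (aeval b) t, End.mul_apply, h1 _ m,
      map_zero, add_zero] at this
    rw [map_add, ← End.mul_apply _ (aeval b s), ← map_mul, mul_comm r, this, add_sub_cancel]

/-- Extension lemma, external form. -/
theorem ext_ext {b : End K V} {c : End K W} {d : End K U} {u r : K[X]} (i : W →ₗ[K] V) (π : V →ₗ[K] U)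
    (hi : ∀ x, b (i x) = i (c x)) (hπ : ∀ x, d (π x) = π (b x)) (hk : ∀ x, π x = 0 → x ∈ range i)
    (hs : Function.Surjective π) (hd : finrank K U + finrank K W = finrank K V) (hc : Cyc c u) (hr : Cyc d r)
    (h4 : IsCoprime r u ∨ ∃ y w, Gen d (π y) ∧ Gen c w ∧ aeval b r y = i w) : Cyc b (r * u) := by
  have k1 : ∀ {w}, Gen c w → ∀ x ∈ range i, ∃ p : K[X], aeval b p (i w) = x := by
    rintro w hw _ ⟨x, rfl⟩
    obtain ⟨p, rfl⟩ := hw x
    exact ⟨p, comm_aeval i hi p w⟩
  have k2 : ∀ x ∈ range i, aeval b u x = 0 := by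
    rintro _ ⟨x, rfl⟩; rw [comm_aeval i hi, hc.ann]; simp
  have k3 : ∀ x, aeval b r x ∈ range i := fun x => hk _ (by rw [← comm_aeval π hπ, hr.ann]; rfl)
  have k4 : ∀ {y}, Gen d (π y) → ∀ x, ∃ p : K[X], x - aeval b p y ∈ range i := fun {y} hy x => by
    obtain ⟨p, hp⟩ := hy (π x)
    exact ⟨p, hk _ (by rw [map_sub, ← comm_aeval π hπ, hp, sub_self])⟩
  have hd' : r.natDegree + u.natDegree = finrank K V := by rw [hr.deg, hc.deg, hd]
  rcases h4 with h4 | ⟨y, w, hy, hw, h4⟩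
  · obtain ⟨w, hw⟩ := hc.gen
    obtain ⟨y, hy⟩ := hr.gen
    obtain ⟨y, rfl⟩ := hs y
    exact ext_cop (range i) hc.mon hr.mon hd' (by rintro _ ⟨x, rfl⟩; exact ⟨_, (hi x).symm⟩) ⟨w, rfl⟩ (k1 hw) k2 k3
      (k4 hy) h4
  · exact ext_int (range i) hc.mon hr.mon hd' (k1 hw) k2 k3 (k4 hy) h4

/-- Block lower triangular operator. -/
def blk (b : End K V) (Y : V →ₗ[K] W) (c : End K W) : End K (V × W) :=
  (b ∘ₗ fst K V W).prod (Y ∘ₗ fst K V W + c ∘ₗ snd K V W)

theorem blk_apply (b : End K V) (Y : V →ₗ[K] W) (c : End K W) (x : V × W) : blk b Y c x = (b x.1, Y x.1 + c x.2) := rfl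

theorem blk_cyc {b : End K V} {Y : V →ₗ[K] W} {c : End K W} {r u : K[X]} (hb : Cyc b r) (hc : Cyc c u)
    (h4 : IsCoprime r u ∨ ∃ y w, Gen b y ∧ Gen c w ∧ aeval (blk b Y c) r (y, 0) = (0, w)) : Cyc (blk b Y c) (r * u) := by
  refine ext_ext (inr K V W) (fst K V W) (fun x => by simp [blk_apply]) (fun x => rfl)
    (fun x hx => ⟨x.2, Prod.ext hx.symm rfl⟩) Prod.fst_surjective (finrank_prod).symm hc hb (h4.imp_right ?_)
  rintro ⟨y, w, h1, h2, h3⟩
  exact ⟨(y, 0), w, h1, h2, h3⟩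

theorem prod_cyc {b : End K V} {c : End K W} {r u : K[X]} (hb : Cyc b r) (hc : Cyc c u) (h4 : IsCoprime r u) :
    Cyc (b.prodMap c : End K (V × W)) (r * u) := by
  have : (b.prodMap c : End K (V × W)) = blk b 0 c := LinearMap.ext fun x => by simp [blk_apply, Prod.ext_iff]
  rw [this]; exact blk_cyc hb hc (Or.inl h4)

theorem glue_cyc {b : End K V} {c : End K W} {r u : K[X]} (hb : Cyc b r) (hc : Cyc c u) (h0 : finrank K V ≠ 0) :
    ∃ Y : V →ₗ[K] W, Cyc (blk b Y c) (r * u) := by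
  obtain ⟨v, hv⟩ := hb.gen
  obtain ⟨w, hw⟩ := hc.gen
  obtain ⟨k, hk⟩ := Nat.exists_eq_succ_of_ne_zero h0
  let L : K[X] →ₗ[K] K := lcoeff K k ∘ₗ modByMonicHom r
  have hL : ker (ev b v) ≤ ker L := fun p hp => by
    simp [L, (modByMonic_eq_zero_iff_dvd hb.mon).2 (hb.dvd hv hp)]
  let φ : V →ₗ[K] K := (ker (ev b v)).liftQ L hL ∘ₗ ((ev b v).quotKerEquivOfSurjective hv).symm.toLinearMap
  have hφ : ∀ p : K[X], p.natDegree ≤ k → φ (ev b v p) = p.coeff k := fun p hp => by
    have : ((ev b v).quotKerEquivOfSurjective hv).symm (ev b v p) = Submodule.Quotient.mk p := by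
      rw [LinearEquiv.symm_apply_eq]; rfl
    simp only [φ, LinearMap.comp_apply, LinearEquiv.coe_coe, this, Submodule.liftQ_apply, L, modByMonicHom_apply,
      lcoeff_apply]
    rw [(modByMonic_eq_self_iff hb.mon).2]
    rw [degree_eq_natDegree hb.mon.ne_zero, hb.deg, hk]
    exact lt_of_le_of_lt degree_le_natDegree (by exact_mod_cast Nat.lt_succ_of_le hp)
  refine ⟨φ.smulRight w, blk_cyc hb hc (Or.inr ⟨v, w, hv, hw, ?_⟩)⟩
  set B := blk b (φ.smulRight w) c
  have k1 : ∀ i ≤ k, (B ^ i) (v, 0) = (ev b v (X ^ i), 0) := by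
    intro i hi
    induction i with
    | zero => simp [ev_apply]
    | succ i ih =>
      rw [pow_succ', End.mul_apply, ih (by omega), blk_apply, pow_succ', ev_X, smulRight_apply, hφ _ (by simp; omega),
        coeff_X_pow, if_neg (by omega)]
      simp
  have k2 : ∀ p : K[X], p.natDegree ≤ k → aeval B p (v, 0) = (ev b v p, 0) := fun p hp => by
    rw [aeval_eq_sum_range, LinearMap.sum_apply]
    conv_rhs => rw [p.as_sum_range_C_mul_X_pow]
    rw [map_sum]
    refine Eq.trans (Finset.sum_congr rfl fun i hi => ?_) (map_sum (inl K V W) _ _).symm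
    rw [LinearMap.smul_apply, k1 i (by have := Finset.mem_range.1 hi; omega), ← smul_eq_C_mul, map_smul, map_smul]
    rfl
  have hdk : r.divX.natDegree ≤ k := by rw [natDegree_divX_eq_natDegree_tsub_one, hb.deg, hk]; simp
  have e := X_mul_divX_add r
  have e0 : b (ev b v r.divX) + r.coeff 0 • v = 0 := by
    have : ev b v r = 0 := by rw [ev_apply, hb.ann]; rfl
    rw [← e, map_add, ev_X] at this
    simpa [ev_apply, Algebra.algebraMap_eq_smul_one] using this
  conv_lhs => rw [← e]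
  rw [map_add, map_mul, aeval_X, LinearMap.add_apply, End.mul_apply, k2 _ hdk, blk_apply, smulRight_apply, hφ _ hdk,
    coeff_divX, ← Nat.succ_eq_add_one, ← hk, ← hb.deg, hb.mon.coeff_natDegree]
  simpa [Algebra.algebraMap_eq_smul_one] using e0

/-- Realizable pair of polynomials. -/
def Rz (g : End K V) (u w : K[X]) : Prop := ∃ b : End K V, Cyc b u ∧ Cyc (g * b) w

theorem Rz.inv {g gi : End K V} {u w : K[X]} (e : g * gi = 1) (h : Rz gi u w) : Rz g w u := by
  obtain ⟨b, h1, h2⟩ := h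
  exact ⟨_, h2, by rwa [← mul_assoc, e, one_mul]⟩

theorem Rz.glue {g : End K V} {g' : End K W} {u w u' w' : K[X]} (h : Rz g u w) (h' : Rz g' u' w')
    (hg : LinearMap.det g' ≠ 0) (h0 : finrank K V ≠ 0) (hc : IsCoprime u u' ∨ IsCoprime w w') :
    Rz (g.prodMap g' : End K (V × W)) (u * u') (w * w') := by
  obtain ⟨b, h1, h2⟩ := h
  obtain ⟨b', h1', h2'⟩ := h'
  have k : ∀ Y, (g.prodMap g' : End K (V × W)) * blk b Y b' = blk (g * b) (g' ∘ₗ Y) (g' * b') := fun Y =>
    LinearMap.ext fun x => by simp [blk_apply]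
  rcases hc with hc | hc
  · obtain ⟨Y, hY⟩ := glue_cyc h2 h2' h0
    obtain ⟨gi, hi⟩ := ((LinearMap.isUnit_iff_isUnit_det _).2 hg.isUnit).exists_right_inv
    refine ⟨blk b (gi ∘ₗ Y) b', blk_cyc h1 h1' (Or.inl hc), ?_⟩
    rwa [k, ← LinearMap.comp_assoc, show g' ∘ₗ gi = 1 from hi, End.one_eq_id, LinearMap.id_comp]
  · obtain ⟨Y, hY⟩ := glue_cyc h1 h1' h0
    exact ⟨_, hY, by rw [k]; exact blk_cyc h2 h2' (Or.inl hc)⟩

theorem Rz.T {g : End K V} {u : K[X]} (h : Rz g u u) : ∃ α ≠ 0, T g α ((-1) ^ finrank K V * u.coeff 0) := by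
  obtain ⟨b, h1, h2⟩ := h
  obtain ⟨e, he⟩ := h1.iso h2
  exact ⟨_, e.isUnit_det'.ne_zero, e, b, rfl, h1.det, LinearMap.ext fun x => he x⟩

theorem model {h : K[X]} (hm : h.Monic) [FiniteDimensional K (AdjoinRoot h)] :
    Cyc (LinearMap.mulLeft K (AdjoinRoot.root h)) h := by
  have k : ∀ (p : K[X]) x, aeval (LinearMap.mulLeft K (AdjoinRoot.root h)) p x = AdjoinRoot.mk h p * x := fun p x => by
    rw [← AdjoinRoot.aeval_eq, show LinearMap.mulLeft K (AdjoinRoot.root h) = Algebra.lmul K _ (AdjoinRoot.root h) from rfl,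
      aeval_algHom_apply]; rfl
  refine ⟨hm, (AdjoinRoot.powerBasis' hm).finrank.symm, LinearMap.ext fun x => by simp [k], 1, fun x => ?_⟩
  obtain ⟨p, rfl⟩ := AdjoinRoot.mk_surjective x
  exact ⟨p, by simp [k]⟩

theorem Rz.T' {g : End K V} {R : End K W} {r u : K[X]} (h : Rz g (r * u) (r * u)) (hR : Cyc R r) (hu : u.Monic)
    (hc : IsCoprime r u) : ∃ α ≠ 0, ∀ z : End K W, z * R = R * z →
      Cmt.T g (α * LinearMap.det z) ((-1) ^ finrank K V * (r * u).coeff 0) := by
  obtain ⟨b, h1, h2⟩ := h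
  obtain ⟨e, he⟩ := h1.iso h2
  have := (AdjoinRoot.powerBasis' hu).finite
  obtain ⟨f, hf⟩ := (prod_cyc hR (model hu) hc).iso h1
  refine ⟨_, e.isUnit_det'.ne_zero, fun z hz => ⟨e.toLinearMap *
    (f.toLinearMap ∘ₗ (z.prodMap (1 : End K (AdjoinRoot u))) ∘ₗ f.symm.toLinearMap), b,
    by rw [map_mul, LinearMap.det_conj, det_prodMap, map_one, mul_one], h1.det, LinearMap.ext fun x => ?_⟩⟩
  obtain ⟨x, rfl⟩ := f.surjective x
  have := congrArg (· x.1) hz
  simp only [End.mul_apply] at this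
  simp only [End.mul_apply, LinearEquiv.coe_coe, LinearMap.comp_apply, ← hf, f.symm_apply_apply]
  rw [← End.mul_apply g, ← he, ← hf]
  simp [this]

theorem cyc_one (β : K) : Cyc (β • (1 : End K K)) (X - C β) :=
  ⟨monic_X_sub_C β, by simp, by simp [Algebra.algebraMap_eq_smul_one], 1, fun x => ⟨C x, by
    simp [Algebra.algebraMap_eq_smul_one]⟩⟩

theorem Rz.T1 {g : End K V} {β : K} {u : K[X]} (h : Rz g ((X - C β) * u) ((X - C β) * u)) (hu : u.Monic)
    (hc : IsCoprime (X - C β) u) {α : K} (hα : α ≠ 0) : Cmt.T g α ((-1) ^ finrank K V * ((X - C β) * u).coeff 0) := by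
  obtain ⟨α₀, h0, h⟩ := h.T' (cyc_one β) hu hc
  have := h ((α₀⁻¹ * α) • 1) (by simp [smul_smul, mul_comm])
  rwa [LinearMap.det_smul, map_one, finrank_self, pow_one, mul_one, mul_inv_cancel_left₀ h0] at this

theorem IsCyc.inv {g gi : End K V} (h : IsCyc g) (e : g * gi = 1) : IsCyc gi := by
  obtain ⟨v, hv⟩ := h
  have h0 : gi.charpoly.coeff 0 ≠ 0 := fun h0 => by
    have := congrArg LinearMap.det e
    rw [map_mul, map_one, LinearMap.det_eq_sign_charpoly_coeff gi, h0] at this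
    simp at this
  have e1 := gi.aeval_self_charpoly
  rw [← X_mul_divX_add gi.charpoly, map_add, map_mul, aeval_X, aeval_C, Algebra.algebraMap_eq_smul_one] at e1
  have e2 : aeval gi (C (-(gi.charpoly.coeff 0)⁻¹) * gi.charpoly.divX) = g := by
    have := congrArg (g * ·) e1
    simp only [mul_add, ← mul_assoc, e, one_mul, mul_zero, mul_smul_comm, mul_one] at this
    rw [map_mul, aeval_C, eq_neg_of_add_eq_zero_left this, Algebra.algebraMap_eq_smul_one]
    simp [smul_smul, h0]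
  refine ⟨v, fun x => ?_⟩
  obtain ⟨p, hp⟩ := hv x
  exact ⟨p.comp _, by rw [aeval_comp, e2, hp]⟩

end Cfsg.Agent.H9.Cmt
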