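import Mathlib
import Cfsg.Agent.H9.Cmt1

/-! Commutators in `SL_n`, part 2: cyclic operators times triangular ones. -/

set_option autoImplicit false
set_option linter.unusedSectionVars false
set_option linter.unusedVariables false

namespace Cfsg.Agent.H9.Cmt

open Module LinearMap Polynomial

variable {K : Type*} [Field K] {V W U : Type*} [AddCommGroup V] [Module K V] [FiniteDimensional K V]
  [AddCommGroup W] [Module K W] [FiniteDimensional K W] [AddCommGroup U] [Module K U] [FiniteDimensional K U]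

theorem Cyc.lt {b : End K V} {h : K[X]} {v : V} (hc : Cyc b h) (hv : Gen b v) (x : V) :
    ∃ p ∈ degreeLT K (finrank K V), ev b v p = x := by
  obtain ⟨q, rfl⟩ := hv x
  refine ⟨q %ₘ h, ?_, ev_mod hc.ann v q⟩
  rw [mem_degreeLT, ← hc.deg, ← degree_eq_natDegree hc.mon.ne_zero]; exact degree_modByMonic_lt q hc.mon

theorem spanS (S : Polynomial.Sequence K) (L : K[X] →ₗ[K] V) (j : ℕ) :
    (degreeLT K j).map L = Submodule.span K ((fun i => L (S i)) '' Set.Iio j) := by
  rw [← S.span_degreeLT fun i _ => (leadingCoeff_ne_zero.2 (S.ne_zero i)).isUnit, Submodule.map_span, Set.image_image]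

theorem peel {p q : K[X]} {j : ℕ} (hp : p ∈ degreeLT K (j + 1)) (hq : q ∈ degreeLT K (j + 1)) (h : q.coeff j ≠ 0) :
    p - (p.coeff j / q.coeff j) • q ∈ degreeLT K j := by
  rw [mem_degreeLT, degree_lt_iff_coeff_zero] at *
  intro m hm
  rcases eq_or_lt_of_le hm with rfl | h'
  · simp [h]
  · simp [hp m h', hq m h']

theorem core (S : Polynomial.Sequence K) {g : End K V} {χ h : K[X]} {v : V} (hc : Cyc g χ) (hv : Gen g v)
    (hm : h.Monic) (hd : h.natDegree = finrank K V) :
    ∃ c : End K V, Cyc c h ∧ (∀ i, i + 1 < finrank K V → c (ev g v (S i)) = ev g v (S (i + 1))) ∧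
      ∀ j, j + 1 = finrank K V → c (ev g v (S j)) = -∑ i ∈ Finset.range (j + 1), h.coeff i • ev g v (S i) := by
  have := (AdjoinRoot.powerBasis' hm).finite
  let B : Basis (Fin h.natDegree) K V := basisOfTopLeSpanOfCardEqFinrank (fun i => ev g v (S i)) (fun x _ => by
    obtain ⟨p, hp, rfl⟩ := hc.lt hv x
    have := Submodule.mem_map_of_mem (f := ev g v) hp
    rw [spanS S] at this
    refine Submodule.span_mono ?_ this
    rintro _ ⟨i, hi, rfl⟩
    exact ⟨⟨i, hd ▸ hi⟩, rfl⟩) (by simp [hd])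
  let e : AdjoinRoot h ≃ₗ[K] V := (AdjoinRoot.powerBasis' hm).basis.equiv B (Equiv.refl _)
  have he : ∀ i, i < finrank K V → e (AdjoinRoot.root h ^ i) = ev g v (S i) := fun i hi => by
    have := (AdjoinRoot.powerBasis' hm).basis.equiv_apply (i := ⟨i, hi.trans_eq hd.symm⟩) B (Equiv.refl _)
    rw [PowerBasis.basis_eq_pow] at this
    simp only [B, coe_basisOfTopLeSpanOfCardEqFinrank] at this
    exact this
  refine ⟨e.toLinearMap ∘ₗ LinearMap.mulLeft K (AdjoinRoot.root h) ∘ₗ e.symm.toLinearMap,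
    Iso.cyc ⟨e, fun x => by simp⟩ (model hm), fun i hi => ?_, fun j hj => ?_⟩
  · rw [← he i (by omega), ← he _ hi]; simp [pow_succ']
  · rw [← he j (by omega), Finset.sum_congr rfl fun i hi => by rw [← he i (hj ▸ Finset.mem_range.1 hi), ← map_smul],
      ← map_sum, ← map_neg]
    simp only [LinearMap.comp_apply, LinearEquiv.coe_coe, e.symm_apply_apply, mulLeft_apply, ← pow_succ']
    congr 1
    have := congrArg (aeval (AdjoinRoot.root h)) hm.as_sum
    rw [AdjoinRoot.aeval_eq, AdjoinRoot.mk_self, hd, ← hj, map_add, map_sum, eq_comm] at this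
    simpa [eq_neg_iff_add_eq_zero, Algebra.smul_def] using this

theorem tri_inv {b : End K V} {F : ℕ → V} {d : K} {j : ℕ} (h0 : F 0 = 0) (h : ∀ i < j, b (F (i + 1)) = d • F (i + 1) + F i) :
    ∀ x ∈ Submodule.span K ((fun i => F (i + 1)) '' Set.Iio j), b x ∈ Submodule.span K ((fun i => F (i + 1)) '' Set.Iio j) := by
  intro x hx
  refine Submodule.mem_comap.1 (Submodule.span_le.2 ?_ hx)
  rintro _ ⟨i, hi, rfl⟩
  simp only [SetLike.mem_coe, Submodule.mem_comap, h i hi]
  refine Submodule.add_mem _ (Submodule.smul_mem _ _ (Submodule.subset_span ⟨i, hi, rfl⟩)) ?_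
  rcases i with _ | i
  · simp [h0]
  · exact Submodule.subset_span ⟨i, lt_trans (Nat.lt_succ_self i) hi, rfl⟩

theorem tri_cyc {b : End K V} {F : ℕ → V} {d : K} {j : ℕ} {r : K[X]} {y : V} (h0 : F 0 = 0)
    (h : ∀ i < j, b (F (i + 1)) = d • F (i + 1) + F i) (hr : r.Monic) (hd : r.natDegree + j = finrank K V)
    (h2 : aeval b r y ∈ Submodule.span K ((fun i => F (i + 1)) '' Set.Iio j))
    (h3 : ∀ x, ∃ p : K[X], x - aeval b p y ∈ Submodule.span K ((fun i => F (i + 1)) '' Set.Iio j))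
    (h4 : r.eval d ≠ 0) : Cyc b (r * (X - C d) ^ j) := by
  have k : ∀ i < j, aeval b (X - C d) (F (i + 1)) = F i := fun i hi => by
    simp [h i hi, Algebra.algebraMap_eq_smul_one]
  have inv := tri_inv h0 h
  refine ext_cop (w := F j) (y := y) _ ((monic_X_sub_C d).pow j) hr (by simpa using hd) inv ?_ (fun x hx => ?_)
    (fun x hx => ?_) (fun x => ?_) h3 ?_
  · rcases j with _ | j
    · simp [h0]
    · exact Submodule.subset_span ⟨j, Nat.lt_succ_self j, rfl⟩
  · refine (Submodule.span_le (p := range (ev b (F j)))).2 ?_ hx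
    have : ∀ t i, i + t = j → F i ∈ range (ev b (F j)) := by
      intro t
      induction t with
      | zero => rintro i rfl; exact ⟨1, by simp [ev_apply]⟩
      | succ t ih =>
        intro i hi
        obtain ⟨p, hp⟩ := ih (i + 1) (by omega)
        exact ⟨(X - C d) * p, by rw [ev_mul, hp, k i (by omega)]⟩
    rintro _ ⟨i, hi, rfl⟩
    exact this (j - (i + 1)) _ (by have : i < j := hi; omega)
  · refine (Submodule.span_le (p := ker (aeval b ((X - C d) ^ j)))).2 ?_ hx
    have : ∀ i ≤ j, aeval b ((X - C d) ^ i) (F i) = 0 := by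
      intro i hi
      induction i with
      | zero => simp [h0]
      | succ i ih => rw [pow_succ, map_mul, End.mul_apply, k i hi, ih (by omega)]
    rintro _ ⟨i, hi, rfl⟩
    obtain ⟨t, rfl⟩ := Nat.exists_eq_add_of_lt hi
    simp only [SetLike.mem_coe, mem_ker]
    rw [show i + t + 1 = t + (i + 1) by ring, pow_add, map_mul, End.mul_apply, this _ (by omega), map_zero]
  · obtain ⟨p, hp⟩ := h3 x
    have := Submodule.add_mem _ (aeval_mem inv r _ hp) (aeval_mem inv p _ h2)
    rwa [map_sub, ← End.mul_apply _ (aeval b p), ← End.mul_apply _ (aeval b r), ← map_mul, ← map_mul, mul_comm r,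
      sub_add_cancel] at this
  · refine IsCoprime.pow_right ?_
    exact ((irreducible_X_sub_C d).coprime_iff_not_dvd.2 (by rwa [dvd_iff_isRoot])).symm

noncomputable def PP (d : K) : ℕ → K[X]
  | 0 => 0
  | 1 => 1
  | i + 2 => X * (C d * PP d (i + 1) + PP d i)

theorem PP_spec (d : K) (i : ℕ) : PP d i ∈ degreeLT K i ∧ PP d (i + 1) ∈ degreeLT K (i + 1) ∧
    (PP d (i + 1)).coeff i = d ^ i := by
  induction i with
  | zero => simp [PP, mem_degreeLT]
  | succ i ih =>
    obtain ⟨h1, h2, h3⟩ := ih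
    refine ⟨h2, ?_, ?_⟩
    · rw [mem_degreeLT, degree_lt_iff_coeff_zero] at *
      intro m hm
      obtain ⟨m, rfl⟩ := Nat.exists_eq_add_of_le' (show 1 ≤ m by omega)
      simp [PP, coeff_X_mul, h1 m (by omega), h2 m (by omega)]
    · rw [mem_degreeLT, degree_lt_iff_coeff_zero] at h1
      simp [PP, coeff_X_mul, h3, h1 i le_rfl, pow_succ']

theorem deg_of {p : K[X]} {i : ℕ} (h : p ∈ degreeLT K (i + 1)) (h' : p.coeff i ≠ 0) : p.degree = i :=
  degree_eq_of_le_of_coeff_ne_zero (by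
    rw [mem_degreeLT, degree_lt_iff_coeff_zero] at h
    exact (degree_le_iff_coeff_zero _ _).2 fun m hm => h m (by exact_mod_cast hm)) h'

noncomputable def PS {d : K} (hd : d ≠ 0) : Polynomial.Sequence K :=
  ⟨fun i => PP d (i + 1), fun i => deg_of (PP_spec d i).2.1 (by rw [(PP_spec d i).2.2]; exact pow_ne_zero _ hd)⟩

theorem inv_gen {g gi : End K V} {χ : K[X]} (hc : Cyc g χ) (e : gi * g = 1) (h0 : χ.coeff 0 ≠ 0) (v : V) {j : ℕ}
    (hj : finrank K V = j + 1) : ∃ D ∈ degreeLT K (j + 1), D.coeff j = -(χ.coeff 0)⁻¹ ∧ gi v = ev g v D := by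
  refine ⟨(-(χ.coeff 0)⁻¹) • χ.divX, Submodule.smul_mem _ _ ?_, ?_, ?_⟩
  · rw [mem_degreeLT, degree_lt_iff_coeff_zero]
    intro m hm
    rw [coeff_divX, coeff_eq_zero_of_natDegree_lt (by rw [hc.deg]; omega)]
  · rw [coeff_smul, coeff_divX, ← hj, ← hc.deg, hc.mon.coeff_natDegree]; simp
  · have : ev g v χ = 0 := by rw [ev_apply, hc.ann]; rfl
    rw [← X_mul_divX_add χ, map_add, ev_X] at this
    have := congrArg gi this
    rw [map_add, ← End.mul_apply, e, End.one_apply, map_zero, ev_apply g v (C _), aeval_C,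
      Algebra.algebraMap_eq_smul_one] at this
    rw [map_smul, eq_neg_of_add_eq_zero_left this]
    simp [smul_smul, h0]

theorem exists_inv {g : End K V} (h : LinearMap.det g ≠ 0) : ∃ gi, g * gi = 1 ∧ gi * g = 1 :=
  isUnit_iff_exists.1 ((LinearMap.isUnit_iff_isUnit_det _).2 h.isUnit)

theorem lemB {g : End K V} (hg : IsCyc g) {j : ℕ} (hj : finrank K V = j + 1) {d d' : K} (hd : d ≠ 0) (hd' : d ≠ d')
    (h0 : LinearMap.det g ≠ 0) {h : K[X]} (hm : h.Monic) (hh : h.natDegree = j + 1)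
    (hdet : (-1) ^ (j + 1) * h.coeff 0 = LinearMap.det g * (d ^ j * d')) : Rz g ((X - C d') * (X - C d) ^ j) h := by
  have hc := hg.cyc
  obtain ⟨v, hv⟩ := hg
  obtain ⟨gi, e1, e2⟩ := exists_inv h0
  have c0 := hc.det
  rw [hj] at c0
  set χ := g.charpoly
  have x0 : χ.coeff 0 ≠ 0 := fun e => h0 (by rw [c0, e, mul_zero])
  rw [c0, mul_assoc, mul_right_inj' (pow_ne_zero _ (by simp))] at hdet
  obtain ⟨c, c1, c2, c3⟩ := core (PS hd) hc hv hm (hh.trans hj.symm)
  obtain ⟨D, D1, D2, D3⟩ := inv_gen hc e2 x0 v hj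
  let F : ℕ → V := fun i => ev g v (PP d i)
  have k : ∀ x, gi (g x) = x := fun x => by rw [← End.mul_apply, e2]; rfl
  have F0 : F 0 = 0 := by simp [F, PP]
  have F1 : F 1 = v := by simp [F, PP, ev_apply]
  have c2' : ∀ i < j, c (F (i + 1)) = F (i + 2) := fun i hi => c2 i (by omega)
  have hF : ∀ i < j, (gi * c) (F (i + 1)) = d • F (i + 1) + F i := fun i hi => by
    rw [End.mul_apply, c2' i hi]
    simp only [F, PP, ev_X, k, map_add, ← smul_eq_C_mul, map_smul]
  have sp := spanS (PS hd) (ev g v) j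
  have pj := PP_spec d j
  refine ⟨gi * c, tri_cyc (y := F (j + 1)) F0 hF (monic_X_sub_C _) (by simp [hj, add_comm]) ?_ (fun x => ?_)
    (by simpa [sub_eq_zero] using hd'), by rwa [← mul_assoc, e1, one_mul]⟩
  · have m1 := Submodule.mem_map_of_mem (f := ev g v) (peel D1 pj.2.1 (by rw [pj.2.2]; exact pow_ne_zero _ hd))
    rw [sp, map_sub, map_smul, ← D3, D2, pj.2.2] at m1
    have m2 : ∑ i ∈ Finset.range j, h.coeff (i + 1) • gi (F (i + 2)) ∈
        Submodule.span K ((fun i => F (i + 1)) '' Set.Iio j) := Submodule.sum_mem _ fun i hi => by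
      rw [← c2' i (Finset.mem_range.1 hi)]
      exact Submodule.smul_mem _ _ (tri_inv F0 hF _ (Submodule.subset_span ⟨i, Finset.mem_range.1 hi, rfl⟩))
    have c3' : c (F (j + 1)) = -∑ i ∈ Finset.range (j + 1), h.coeff i • F (i + 1) := c3 j hj.symm
    refine (congrArg (· ∈ _) ?_).mp (Submodule.sub_mem _ (Submodule.smul_mem _ (-h.coeff 0) m1) m2)
    symm
    simp only [map_sub, aeval_X, aeval_C, LinearMap.sub_apply, End.mul_apply, c3', Finset.sum_range_succ', map_neg,
      map_add, map_sum, map_smul, zero_add, F1, Algebra.algebraMap_eq_smul_one, LinearMap.smul_apply, End.one_apply]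
    have : d' = h.coeff 0 * ((χ.coeff 0)⁻¹ / d ^ j) := by rw [hdet]; field_simp
    rw [this]
    change _ = _ • (_ - _ • F (j + 1)) - _
    module
  · obtain ⟨p, hp, rfl⟩ := hc.lt hv x
    rw [hj] at hp
    have m1 := Submodule.mem_map_of_mem (f := ev g v) (peel hp pj.2.1 (by rw [pj.2.2]; exact pow_ne_zero _ hd))
    rw [sp, map_sub, map_smul] at m1
    exact ⟨C _, by rw [aeval_C, Algebra.algebraMap_eq_smul_one]; exact m1⟩

theorem lemA {g : End K V} (hg : IsCyc g) {j : ℕ} (hj : finrank K V = j + 3) {d t δ : K} (hd : d ≠ 0)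
    (hd' : d ^ 2 - t * d + δ ≠ 0) (h0 : LinearMap.det g ≠ 0) {h : K[X]} (hm : h.Monic) (hh : h.natDegree = j + 3)
    (hdet : (-1) ^ (j + 3) * h.coeff 0 = LinearMap.det g * (d ^ (j + 1) * δ)) :
    Rz g ((X ^ 2 - C t * X + C δ) * (X - C d) ^ (j + 1)) h := by
  have hc := hg.cyc
  obtain ⟨v, hv⟩ := hg
  obtain ⟨gi, e1, e2⟩ := exists_inv h0
  have c0 := hc.det
  rw [hj] at c0
  set χ := g.charpoly
  have x0 : χ.coeff 0 ≠ 0 := fun e => h0 (by rw [c0, e, mul_zero])
  rw [c0, mul_assoc, mul_right_inj' (pow_ne_zero _ (by simp))] at hdet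
  obtain ⟨D, D1, D2, D3⟩ := inv_gen hc e2 x0 v hj
  let F : ℕ → V := fun i => ev g v (PP d i)
  have pj := PP_spec d (j + 1)
  have dj : d ^ (j + 1) ≠ 0 := pow_ne_zero _ hd
  have xp : X * PP d (j + 2) ∈ degreeLT K (j + 3) := by
    have := pj.2.1
    rw [mem_degreeLT, degree_lt_iff_coeff_zero] at *
    intro m hm
    obtain ⟨m, rfl⟩ := Nat.exists_eq_add_of_le' (show 1 ≤ m by omega)
    rw [coeff_X_mul, this m (by omega)]
  have xc : (X * PP d (j + 2)).coeff (j + 2) = d ^ (j + 1) := by rw [coeff_X_mul, pj.2.2]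
  have sp := spanS (PS hd) (ev g v) (j + 1)
  obtain ⟨α, hα⟩ : ∃ α, α = -(χ.coeff 0)⁻¹ / d ^ (j + 1) := ⟨_, rfl⟩
  have α0 : α ≠ 0 := by rw [hα]; simp [x0, dj]
  obtain ⟨α', m1⟩ : ∃ α' : K, gi v - α • g (F (j + 2)) - α' • F (j + 2) ∈
      Submodule.span K ((fun i => F (i + 1)) '' Set.Iio (j + 1)) := by
    have := Submodule.mem_map_of_mem (f := ev g v) (peel (peel D1 xp (by rwa [xc])) pj.2.1 (by rwa [pj.2.2]))
    rw [sp, map_sub, map_sub, map_smul, map_smul, ← D3, D2, xc, ← hα, ev_X] at this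
    exact ⟨_, this⟩
  obtain ⟨σ, hσ⟩ : ∃ σ, α * σ = 1 + α' - α * h.coeff (j + 2) - t + δ := ⟨_, mul_div_cancel₀ _ α0⟩
  let Q : K[X] := X * PP d (j + 2) + (σ • PP d (j + 2) + 1)
  have low : σ • PP d (j + 2) + 1 ∈ degreeLT K (j + 2) :=
    Submodule.add_mem _ (Submodule.smul_mem _ _ pj.2.1) (by rw [mem_degreeLT, degree_one]; exact_mod_cast Nat.succ_pos _)
  have Q1 : Q ∈ degreeLT K (j + 3) := Submodule.add_mem _ xp (degreeLT_mono (by omega) low)
  have Q2 : Q.coeff (j + 2) ≠ 0 := by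
    rw [mem_degreeLT, degree_lt_iff_coeff_zero] at low
    rwa [coeff_add, low _ le_rfl, xc, add_zero]
  let S : Polynomial.Sequence K := ⟨fun i => if i = j + 2 then Q else PP d (i + 1), fun i => by
    split_ifs with hi
    · rw [hi]; exact deg_of Q1 Q2
    · exact (PS hd).degree_eq i⟩
  have S1 : ∀ i < j + 2, S i = PP d (i + 1) := fun i hi => if_neg hi.ne
  have S2 : S (j + 2) = Q := if_pos rfl
  obtain ⟨c, c1, c2, c3⟩ := core S hc hv hm (hh.trans hj.symm)
  have k : ∀ x, gi (g x) = x := fun x => by rw [← End.mul_apply, e2]; rfl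
  have F0 : F 0 = 0 := by simp [F, PP]
  have F1 : F 1 = v := by simp [F, PP, ev_apply]
  have c2' : ∀ i < j + 1, c (F (i + 1)) = F (i + 2) := fun i hi => by
    have := c2 i (by omega); rwa [S1 _ (by omega), S1 _ (by omega)] at this
  have hF : ∀ i < j + 1, (gi * c) (F (i + 1)) = d • F (i + 1) + F i := fun i hi => by
    rw [End.mul_apply, c2' i hi]
    simp only [F, PP, ev_X, k, map_add, ← smul_eq_C_mul, map_smul]
  have inv := tri_inv F0 hF
  set y := F (j + 2) with hy
  have eQ : ev g v Q = g y + (σ • y + v) := by simp [Q, ev_X, hy, F, ev_apply g v 1]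
  have cy : c y = ev g v Q := by have := c2 (j + 1) (by omega); rwa [S1 _ (by omega), S2] at this
  have mi : ∀ i < j + 1, gi (F (i + 2)) ∈ Submodule.span K ((fun i => F (i + 1)) '' Set.Iio (j + 1)) := fun i hi => by
    rw [← c2' i hi]; exact inv _ (Submodule.subset_span ⟨i, hi, rfl⟩)
  have mv : v ∈ Submodule.span K ((fun i => F (i + 1)) '' Set.Iio (j + 1)) :=
    Submodule.subset_span ⟨0, Nat.succ_pos j, F1⟩
  have ez : gi (c y) = y + (σ • gi y + gi v) := by rw [cy, eQ, map_add, map_add, map_smul, k]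
  have m2 : gi (c y) - α • c y - (1 + α' - α * σ) • y ∈ Submodule.span K ((fun i => F (i + 1)) '' Set.Iio (j + 1)) := by
    convert Submodule.sub_mem _ (Submodule.add_mem _ m1 (Submodule.smul_mem _ σ (mi j (Nat.lt_succ_self j))))
      (Submodule.smul_mem _ α mv) using 1
    rw [ez, cy, eQ]; module
  refine ⟨gi * c, tri_cyc (y := y) F0 hF (by monicity!) ?_ ?_ (fun x => ?_)
    (by simpa using hd'), by rwa [← mul_assoc, e1, one_mul]⟩
  · rw [hj, show (X ^ 2 - C t * X + C δ : K[X]).natDegree = 2 by compute_degree!]; ring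
  · have m3 : ∑ i ∈ Finset.range (j + 1), h.coeff (i + 1) • gi (F (i + 2)) ∈
        Submodule.span K ((fun i => F (i + 1)) '' Set.Iio (j + 1)) :=
      Submodule.sum_mem _ fun i hi => Submodule.smul_mem _ _ (mi i (Finset.mem_range.1 hi))
    have c3' := c3 (j + 2) hj.symm
    rw [Finset.sum_range_succ, S2, Finset.sum_range_succ', S1 0 (by omega), Finset.sum_congr rfl fun i hi => by
      rw [S1 _ (by have := Finset.mem_range.1 hi; omega)], ← cy] at c3'
    change c (c y) = -(∑ i ∈ Finset.range (j + 1), h.coeff (i + 1) • F (i + 2) + _ • F 1 + _) at c3'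
    convert Submodule.sub_mem _ (Submodule.sub_mem _ (inv _ m2) (Submodule.smul_mem _ α m3))
      (Submodule.smul_mem _ (δ * σ) (mi j (Nat.lt_succ_self j))) using 1
    simp only [map_sub, aeval_X, aeval_C, LinearMap.sub_apply, End.mul_apply, c3', map_neg, map_mul, pow_two,
      map_add, map_sum, map_smul, F1, Algebra.algebraMap_eq_smul_one, LinearMap.smul_apply, End.one_apply,
      LinearMap.add_apply]
    have e3 : δ = -(α * h.coeff 0) := by rw [hα, hdet]; field_simp
    have e4 : t = 1 + α' - α * h.coeff (j + 2) + δ - α * σ := by rw [hσ]; ring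
    have e5 : gi v = gi (c y) - y - σ • gi y := by rw [ez]; module
    rw [e5, e4, e3, ← hy]
    module
  · obtain ⟨p, hp, rfl⟩ := hc.lt hv x
    rw [hj] at hp
    have m4 := Submodule.mem_map_of_mem (f := ev g v) (peel (peel hp Q1 Q2) pj.2.1 (by rwa [pj.2.2]))
    rw [sp, map_sub, map_sub, map_smul, map_smul, ← cy] at m4
    obtain ⟨a, a', m4⟩ : ∃ a a' : K, ev g v p - a • c y - a' • y ∈
      Submodule.span K ((fun i => F (i + 1)) '' Set.Iio (j + 1)) := ⟨_, _, m4⟩
    refine ⟨C (a / α) * X + C (a' - a / α * (1 + α' - α * σ)), ?_⟩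
    convert Submodule.sub_mem _ m4 (Submodule.smul_mem _ (a / α) m2) using 1
    simp only [map_add, map_mul (aeval _), aeval_C, aeval_X, Algebra.algebraMap_eq_smul_one, LinearMap.add_apply,
      End.mul_apply, LinearMap.smul_apply, End.one_apply]
    obtain ⟨a, rfl⟩ : ∃ a', a = a' * α := ⟨a / α, by field_simp⟩
    rw [mul_div_cancel_right₀ _ α0]
    module

end Cfsg.Agent.H9.Cmt
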