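import Mathlib
import Cfsg.Agent.H9.Cmt2
import Cfsg.Agent.H27.Lev2

/-! Commutators in `SL_n`, part 3: fields with at least four elements. -/

set_option autoImplicit false
set_option linter.unusedSectionVars false
set_option linter.unusedVariables false

namespace Cfsg.Agent.H9.Cmt

open Module LinearMap Polynomial Cfsg.Agent.H27.Lev

variable {K : Type*} [Field K] {V W U : Type*} [AddCommGroup V] [Module K V] [FiniteDimensional K V]
  [AddCommGroup W] [Module K W] [FiniteDimensional K W] [AddCommGroup U] [Module K U] [FiniteDimensional K U]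

theorem cop_lin {u : K[X]} {β : K} (h : u.eval β ≠ 0) : IsCoprime (X - C β) u :=
  (irreducible_X_sub_C β).coprime_iff_not_dvd.2 (by rwa [dvd_iff_isRoot])

theorem step {A : End K V} {x : V} {φ : Dual K V} (q1 : φ x = 1) (q2 : φ (A x) = 1) {A' : End K (ker φ)}
    (hA' : ∀ h, (A' h : V) = A h - φ (A h) • A x) {u w : K[X]} {β : K} (hu : u.eval β ≠ 0) (hw : w.eval β ≠ 0)
    (h : Rz A' u w) : Rz A ((X - C β) * u) ((X - C β) * w) := by
  obtain ⟨b', h1, h2⟩ := h
  have φ0 : φ ≠ 0 := fun e => by simp [e] at q1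
  have hH := Module.Dual.finrank_ker_add_one_of_ne_zero φ0
  let b : End K V := (ker φ).subtype ∘ₗ b' ∘ₗ pj q1 + (β • φ - φ ∘ₗ A ∘ₗ (ker φ).subtype ∘ₗ b' ∘ₗ pj q1).smulRight x
  have hb : ∀ v, b v = b' (pj q1 v) + (β * φ v - φ (A (b' (pj q1 v)))) • x := fun v => rfl
  have hc : ∀ v, A (b v) = A' (b' (pj q1 v)) + (β * φ v) • A x := fun v => by
    rw [hb, hA', map_add, map_smul]; module
  have p0 : ∀ t : K, pj q1 (t • x) = 0 := fun t => by simpa using pj_add q1 0 t
  refine ⟨b, ?_, ?_⟩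
  · rw [mul_comm]
    refine ext_ext (toSpanSingleton K V x) (pj q1) (fun t => ?_) (fun v => by rw [hb, pj_add]) (fun v hv => ?_)
      (fun w => ⟨w, pj_ker q1 w⟩) (by simpa using hH) (cyc_one β) h1 (Or.inl (cop_lin hu).symm)
    · simp [hb, p0, q1]
    · exact ⟨φ v, (sub_eq_zero.1 (congrArg Subtype.val hv)).symm⟩
  · refine ext_ext (ker φ).subtype φ (fun t => ?_) (fun v => ?_) (fun v hv => ⟨⟨v, hv⟩, rfl⟩)
      (fun t => ⟨t • x, by simp [q1]⟩) (by simpa [add_comm] using hH) h2 (cyc_one β) (Or.inl (cop_lin hw))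
    · simp [hc, pj_ker, mem_ker.1 t.2]
    · simp [hc, q2, mem_ker.1 (Subtype.prop _)]

theorem exists_cyc {h : K[X]} (hm : h.Monic) (hd : h.natDegree = finrank K V) : ∃ b : End K V, Cyc b h := by
  have := (AdjoinRoot.powerBasis' hm).finite
  let e : AdjoinRoot h ≃ₗ[K] V := LinearEquiv.ofFinrankEq _ _ ((AdjoinRoot.powerBasis' hm).finrank.trans hd)
  exact ⟨e.toLinearMap ∘ₗ LinearMap.mulLeft K (AdjoinRoot.root h) ∘ₗ e.symm.toLinearMap,
    Iso.cyc ⟨e, fun x => by simp⟩ (model hm)⟩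

theorem reg_cyc {B : End K V} {m : ℕ} (hV : finrank K V = m + 1) (h0 : (B - 1) ^ (m + 1) = 0) (h1 : (B - 1) ^ m ≠ 0) :
    IsCyc B := by
  obtain ⟨v, hv⟩ := DFunLike.ne_iff.1 h1
  let f := ev B v ∘ₗ (degreeLT K (m + 1)).subtype
  have hd : finrank K (degreeLT K (m + 1)) = finrank K V := by
    rw [(degreeLTEquiv K (m + 1)).finrank_eq, hV]; simp
  have := (degreeLTEquiv K (m + 1)).symm.finiteDimensional
  have hi : Function.Injective f := (injective_iff_map_eq_zero f).2 fun p hp => by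
    by_contra p0
    have p0' : (p : K[X]) ≠ 0 := fun e => p0 (Subtype.ext e)
    obtain ⟨q, hq, hq'⟩ := exists_eq_pow_rootMultiplicity_mul_and_not_dvd p.1 p0' 1
    set i := rootMultiplicity 1 p.1
    have hi : i ≤ m := by
      have h1 : ((X - C (1 : K)) ^ i).natDegree ≤ p.1.natDegree := natDegree_le_of_dvd ⟨q, hq⟩ p0'
      have h2 : p.1.natDegree < m + 1 := (natDegree_lt_iff_degree_lt p0').2 (mem_degreeLT.1 p.2)
      rw [natDegree_pow, natDegree_X_sub_C] at h1; omega
    obtain ⟨s, t, hst⟩ : IsCoprime ((X - C (1 : K)) ^ (m + 1)) q :=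
      ((irreducible_X_sub_C 1).coprime_iff_not_dvd.2 hq').pow_left
    have e : ev B v p.1 = 0 := hp
    have e1 : ev B v ((X - C 1) ^ (m + 1)) = 0 := by simp [ev_apply, h0]
    have e2 : ((X - C 1) ^ m : K[X]) = s * (X - C 1) ^ m * (X - C 1) ^ (m + 1) + t * (X - C 1) ^ (m - i) * p.1 := by
      have e3 : ((X - C 1) ^ m : K[X]) = (X - C 1) ^ (m - i) * (X - C 1) ^ i := by rw [← pow_add, Nat.sub_add_cancel hi]
      linear_combination (-(X - C 1) ^ m) * hst + t * q * e3 - t * (X - C 1) ^ (m - i) * hq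
    have := congrArg (ev B v) e2
    rw [map_add, ev_mul, ev_mul _ _ _ p.1, e, e1] at this
    exact hv (by simpa [ev_apply] using this)
  refine ⟨v, fun x => ?_⟩
  obtain ⟨p, hp⟩ := (injective_iff_surjective_of_finrank_eq_finrank hd).1 hi x
  exact ⟨p, hp⟩

def Gd (A : End K V) : Prop := LinearMap.det A = 1 ∧ ((∀ l : K, A ≠ l • 1) ∨ A = 1)

theorem base (h4 : Big K) {A : End K V} (h : Gd A) : Rz A ((X - C 1) ^ finrank K V) ((X - C 1) ^ finrank K V) := by
  have hm : ((X - C 1 : K[X]) ^ finrank K V).Monic := (monic_X_sub_C _).pow _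
  have hd : ((X - C 1 : K[X]) ^ finrank K V).natDegree = finrank K V := by
    rw [natDegree_pow, natDegree_X_sub_C, mul_one]
  obtain ⟨h1, ns | rfl⟩ := h
  · obtain ⟨m, hV⟩ : ∃ m, finrank K V = m + 1 := Nat.exists_eq_succ_of_ne_zero fun e => by
      have := (finrank_zero_iff (R := K)).1 e
      exact ns 1 (Subsingleton.elim _ _)
    obtain ⟨B, D, rfl, b1, b2, c1, c2⟩ := all h4 hV h1 ns
    obtain ⟨Di, e1, e2⟩ := exists_inv (g := D) fun e => by simp [e] at h1
    refine ⟨Di, ⟨hm, hd, ?_, (reg_cyc hV c1 c2).inv e1⟩, ?_⟩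
    · have : Di - 1 = -Di * (D - 1) := by rw [mul_sub, neg_mul, e2, neg_mul, mul_one]; abel
      have c : Commute (-Di) (D - 1) := ((show Commute Di D from e2.trans e1.symm).sub_right (Commute.one_right _)).neg_left
      simp only [map_pow, map_sub, aeval_X, map_one, hV, this, c.mul_pow, c1, mul_zero]
    · rw [mul_assoc, e1, mul_one]
      exact ⟨hm, hd, by simp [hV, b1], reg_cyc hV b1 b2⟩
  · obtain ⟨b, hb⟩ := exists_cyc hm hd
    exact ⟨b, hb, by rwa [one_mul]⟩

theorem pivot (h4 : Big K) {A : End K V} (h : Gd A) (hV : finrank K V ≠ 0) :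
    ∃ (x : V) (φ : Dual K V) (A' : End K (ker φ)), φ x = 1 ∧ φ (A x) = 1 ∧
      (∀ h, (A' h : V) = A h - φ (A h) • A x) ∧ Gd A' ∧ finrank K (ker φ) + 1 = finrank K V := by
  have := Module.nontrivial_of_finrank_pos (Nat.pos_of_ne_zero hV)
  obtain ⟨c, hc⟩ := exists_ne (0 : V)
  obtain ⟨r, hr⟩ := Projective.exists_dual_eq_one K hc
  have fr : ∀ (x : V) (φ : Dual K V), φ x = 1 → finrank K (ker φ) + 1 = finrank K V := fun x φ q1 =>
    Module.Dual.finrank_ker_add_one_of_ne_zero fun e => by simp [e] at q1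
  obtain ⟨hA, ns | rfl⟩ := h
  · by_cases nt : ∀ w z, A ≠ transvection w z
    · obtain ⟨x, φ, q1, q2, -, -, -, -, q8⟩ := exists_pivot h4 hA ns nt c (r := r) (fun e => by simp [e] at hr)
      let A' : End K (ker φ) := pj q1 ∘ₗ (A - (φ ∘ₗ A).smulRight (A x)) ∘ₗ (ker φ).subtype
      have hA' : ∀ h, (A' h : V) = A h - φ (A h) • A x := fun h => by simp [A', pj_coe, q2]; module
      let y : ker φ := ⟨A x - x, by simp [q1, q2]⟩
      let r' : Dual K (ker φ) := φ ∘ₗ A ∘ₗ (ker φ).subtype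
      have e0 : A = eB q1 A' (x + y) * eC q1 1 r' :=
        LinearMap.ext fun v => by
          rw [End.mul_apply, eC_apply, eB_apply, pj_add, End.one_apply, hA']
          simp only [map_add, map_smul, q1, mem_ker.1 (Subtype.prop _), y, r', LinearMap.comp_apply,
            Submodule.subtype_apply, pj_coe, map_sub A, map_sub φ, smul_eq_mul]
          module
      have hd : LinearMap.det A' = 1 := by
        have e1 : eC q1 1 r' = transvection (r' ∘ₗ pj q1) x := LinearMap.ext fun v => by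
          simp only [eC_apply, transvection.apply, End.one_apply, pj_coe, LinearMap.comp_apply]; module
        have e2 : ker φ ≤ (ker φ).comap (eB q1 A' (x + y)) := fun v hv => by
          simp [eB_apply, mem_ker.1 hv, mem_ker.1 (Subtype.prop _)]
        have e3 : (eB q1 A' (x + y)).restrict e2 = A' := LinearMap.ext fun w => Subtype.ext (by
          simp [eB_apply, pj_ker, mem_ker.1 (Subtype.prop _)])
        have e4 : (ker φ).mapQ (ker φ) (eB q1 A' (x + y)) e2 = LinearMap.id := by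
          ext v
          refine (Submodule.Quotient.eq _).2 ?_
          simp [eB_apply, mem_ker.1 (Subtype.prop _), q1]
        have e5 : pj q1 x = 0 := by simpa using pj_add q1 0 1
        rw [e0, map_mul, e1, det_eq_det_mul_det _ _ e2, e3, e4] at hA
        simpa [e5] using hA
      refine ⟨x, φ, A', q1, q2, hA', ⟨hd, ?_⟩, fr x φ q1⟩
      rcases q8 A' hA' hd with h | h
      · right
        rcases Nat.le_one_iff_eq_zero_or_eq_one.1 h with h | h
        · have := (finrank_zero_iff (R := K)).1 h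
          exact Subsingleton.elim _ _
        · obtain ⟨l, e⟩ := (LinearMap.existsUnique_eq_smul_id_of_finrank_eq_one h A').exists
          obtain rfl : l = 1 := by simpa [e, h] using hd
          exact e.trans (one_smul _ _)
      · exact Or.inl h.1
    · simp only [not_forall, not_not] at nt
      obtain ⟨w, z, rfl⟩ := nt
      have wz : w z = 0 := by simpa using hA
      have w0 : w ≠ 0 := fun e => ns 1 (LinearMap.ext fun v => by simp [e, transvection.apply])
      obtain ⟨x, hx⟩ := DFunLike.ne_iff.1 w0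
      have q1 : w ((w x)⁻¹ • x) = 1 := by simpa using inv_mul_cancel₀ hx
      exact ⟨_, w, 1, q1, by simp only [transvection.apply, map_add, map_smul w _ z, wz, q1, smul_zero, add_zero],
        fun h => by simp [transvection.apply, mem_ker.1 h.2], ⟨map_one _, Or.inr rfl⟩, fr _ w q1⟩
  · exact ⟨c, r, 1, hr, hr, fun h => by simp [mem_ker.1 h.2], ⟨map_one _, Or.inr rfl⟩, fr c r hr⟩

theorem nonscalar (h4 : Big K) {A : End K V} (h : Gd A) (hV : 2 ≤ finrank K V) : T A 1 1 := by
  obtain ⟨β, b0, b1, b2⟩ := h4 0 1 (-1)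
  have b3 : β⁻¹ ≠ 1 := fun e => b1 (inv_eq_one.1 e)
  have b4 : β ≠ β⁻¹ := fun e => by
    have : β * β = 1 := by nth_rw 2 [e]; exact mul_inv_cancel₀ b0
    exact (mul_self_eq_one_iff.1 this).elim b1 b2
  obtain ⟨x, φ, A', q1, q2, q3, q4, q5⟩ := pivot h4 h (by omega)
  obtain ⟨x', φ', A'', p1, p2, p3, p4, p5⟩ := pivot h4 q4 (by omega)
  have k : ((X - C β⁻¹) * (X - C 1) ^ finrank K (ker φ')).eval β ≠ 0 := by simp [sub_eq_zero, b4, b1]
  have k' : ((X - C 1) ^ finrank K (ker φ') : K[X]).eval β⁻¹ ≠ 0 := by simp [sub_eq_zero, b3]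
  have := (step q1 q2 q3 k k (step p1 p2 p3 k' k' (base h4 p4))).T1
    ((monic_X_sub_C _).mul ((monic_X_sub_C _).pow _)) (cop_lin k) one_ne_zero
  convert this using 1
  rw [coeff_zero_eq_eval_zero, ← q5, ← p5]
  simp [pow_succ, b0, ← mul_pow]

theorem Rz.Tirr [Finite K] {g : End K V} {r u : K[X]} (h : Rz g (r * u) (r * u)) (hr : Irreducible r) (hm : r.Monic)
    (hu : u.Monic) (hc : IsCoprime r u) {α : K} (hα : α ≠ 0) : Cmt.T g α ((-1) ^ finrank K V * (r * u).coeff 0) := by
  have := (AdjoinRoot.powerBasis' hm).finite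
  have : Fact (Irreducible r) := ⟨hr⟩
  have : Finite (AdjoinRoot r) := Module.finite_of_finite K
  obtain ⟨α₀, h0, h⟩ := h.T' (model hm) hu hc
  obtain ⟨y, hy⟩ := FiniteField.norm_surjective K (AdjoinRoot r) (α₀⁻¹ * α)
  have := h (LinearMap.mulLeft K y) (LinearMap.ext fun x => by simp [mul_left_comm])
  rwa [show LinearMap.det (LinearMap.mulLeft K y) = Algebra.norm K y from rfl, hy, mul_inv_cancel_left₀ h0] at this

theorem iso_smul (l : K) (h : finrank K V = finrank K W) : Iso (l • 1 : End K V) (l • 1 : End K W) :=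
  ⟨LinearEquiv.ofFinrankEq _ _ h, fun x => by simp⟩

theorem scalar0 [Finite K] {l : K} {d : ℕ} (hd : (d : K) ≠ 0) (hl : l ^ d = 1) (hV : finrank K V = d) :
    T (l • 1 : End K V) 1 1 := by
  have d0 : d ≠ 0 := fun e => hd (by simp [e])
  have l0 : l ≠ 0 := fun e => by simp [e, d0] at hl
  have hm : (X ^ d - C ((-1) ^ (d + 1)) : K[X]).Monic := monic_X_pow_sub_C _ d0
  have hs := separable_X_pow_sub_C ((-1 : K) ^ (d + 1)) hd (by simp)
  have hn : (X ^ d - C ((-1) ^ (d + 1)) : K[X]).natDegree = finrank K V := by rw [natDegree_X_pow_sub_C, hV]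
  obtain ⟨r, r1, r2, u, hu⟩ := exists_monic_irreducible_factor _ (not_isUnit_of_natDegree_pos _
    (by rw [hn, hV]; omega) : ¬IsUnit (X ^ d - C ((-1) ^ (d + 1)) : K[X]))
  obtain ⟨b, hb⟩ := exists_cyc hm hn
  have hz : Rz (l • 1 : End K V) (r * u) (r * u) := by
    rw [← hu]
    refine ⟨b, hb, hm, hn, ?_, ?_⟩
    · simpa [_root_.smul_pow, hl] using hb.ann
    · obtain ⟨v, hv⟩ := hb.gen
      refine ⟨v, fun x => ?_⟩
      obtain ⟨p, hp⟩ := hv x
      exact ⟨p.comp (C l⁻¹ * X), by simpa [aeval_comp, Algebra.algebraMap_eq_smul_one, smul_smul, l0] using hp⟩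
  have := hz.Tirr r2 r1 (r1.of_mul_monic_left (hu ▸ hm)) (hu ▸ hs).isCoprime one_ne_zero
  convert this using 1
  rw [← hu, hV, coeff_zero_eq_eval_zero]
  simp [d0, pow_succ, ← mul_pow]

theorem scalar [Finite K] {l : K} (hV : finrank K V ≠ 0) (hl : l ^ finrank K V = 1) : T (l • 1 : End K V) 1 1 := by
  have d0 : orderOf l ≠ 0 := (isOfFinOrder_iff_pow_eq_one.2 ⟨_, Nat.pos_of_ne_zero hV, hl⟩).orderOf_pos.ne'
  have : NeZero (orderOf l) := ⟨d0⟩
  have hd := (IsPrimitiveRoot.orderOf l).neZero'.ne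
  obtain ⟨e, he⟩ := orderOf_dvd_of_pow_eq_one hl
  have : ∀ e, T (l • 1 : End K (Fin (orderOf l * e) → K)) 1 1 := by
    intro e
    induction e with
    | zero => exact ⟨1, 1, map_one _, map_one _, LinearMap.ext fun x => funext fun i => absurd i.2 (by simp)⟩
    | succ e ih =>
      have := ih.prod (scalar0 (V := Fin (orderOf l) → K) hd (pow_orderOf_eq_one l) (by simp))
      rw [mul_one, show (l • 1 : End K (Fin (orderOf l * e) → K)).prodMap (l • 1 : End K (Fin (orderOf l) → K)) =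
        (l • 1 : End K _) from LinearMap.ext fun x => rfl] at this
      exact (iso_smul l (by simp [mul_add])).T this
  exact (iso_smul l (by simp [he])).T (this e)

theorem big [Finite K] (h4 : Big K) {A : End K V} (h : LinearMap.det A = 1) (hV : 2 ≤ finrank K V) : T A 1 1 := by
  by_cases ns : ∀ l : K, A ≠ l • 1
  · exact nonscalar h4 ⟨h, Or.inl ns⟩ hV
  · simp only [not_forall, not_not] at ns
    obtain ⟨l, rfl⟩ := ns
    exact scalar (by omega) (by simpa using h)

end Cfsg.Agent.H9.Cmt
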