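import Mathlib
import Cfsg.Agent.H9.Cmt3

/-! Commutators in `SL_n`, part 4: cyclic blocks. -/

set_option autoImplicit false
set_option linter.unusedSectionVars false
set_option linter.unusedVariables false

namespace Cfsg.Agent.H9.Cmt

open Module LinearMap Polynomial Matrix

variable {K : Type*} [Field K] {V W U : Type*} [AddCommGroup V] [Module K V] [FiniteDimensional K V]
  [AddCommGroup W] [Module K W] [FiniteDimensional K W] [AddCommGroup U] [Module K U] [FiniteDimensional K U]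

theorem std (c : End K W) {n : ℕ} (h : finrank K W = n) : ∃ c' : End K (Fin n → K), Iso c c' := by
  let e : W ≃ₗ[K] (Fin n → K) := LinearEquiv.ofFinrankEq _ _ (by simpa using h)
  exact ⟨e.toLinearMap ∘ₗ c ∘ₗ e.symm.toLinearMap, e, fun x => by simp⟩

theorem Iso.isCyc {b : End K V} {c : End K W} (hi : Iso b c) (hb : IsCyc b) : IsCyc c := (hi.cyc hb.cyc).gen

theorem decomp (g : End K V) (hV : finrank K V ≠ 0) : ∃ (k m : ℕ) (g₁ : End K (Fin (k + 1) → K))
    (g₂ : End K (Fin m → K)), IsCyc g₁ ∧ Iso g (g₁.prodMap g₂ : End K (_ × _)) := by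
  obtain ⟨m, p, hp, hm⟩ := L0.exists_mdl g
  have fin : ∀ i, FiniteDimensional K (AdjoinRoot (p i)) := fun i => L0.finite_adjoinRoot (hp i).ne_zero
  rcases m with _ | m
  · exact absurd (by simpa using hm.finrank_eq fun i => (hp i).ne_zero) hV
  obtain ⟨e, he⟩ := hm
  obtain ⟨k, hk⟩ := Nat.exists_eq_succ_of_ne_zero (hp 0).natDegree_pos.ne'
  have c := model (hp 0).monic
  obtain ⟨g₁, h₁⟩ := std (LinearMap.mulLeft K (AdjoinRoot.root (p 0))) (c.deg.symm.trans hk)
  let r : End K (∀ i : Fin m, AdjoinRoot (p i.succ)) :=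
    LinearMap.piMap fun i => LinearMap.mulLeft K (AdjoinRoot.root (p i.succ))
  obtain ⟨g₂, h₂⟩ := std r rfl
  refine ⟨k, _, g₁, g₂, h₁.isCyc c.gen, Iso.trans ⟨e ≪≫ₗ (Fin.consLinearEquiv K _).symm, fun x => ?_⟩ (h₁.prod h₂)⟩
  exact Prod.ext (he x 0) (funext fun i => he x i.succ)

theorem cyc2 (M : Matrix (Fin 2) (Fin 2) K) (h : M 1 0 ≠ 0) : Cyc (toLin' M) (X ^ 2 - C M.trace * X + C M.det) := by
  rw [← charpoly_fin_two, ← charpoly_toLin']
  refine IsCyc.cyc ⟨Pi.single 0 1, fun x => ⟨C (x 1 / M 1 0) * X + C (x 0 - x 1 / M 1 0 * M 0 0), ?_⟩⟩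
  ext i
  fin_cases i <;> simp [Algebra.algebraMap_eq_smul_one, h, mul_comm (M 0 0)]

theorem iso2 {g : End K V} (hg : IsCyc g) (hV : finrank K V = 2) :
    ∃ a : K, Iso g (toLin' !![0, -LinearMap.det g; 1, a]) := by
  let b := finBasisOfFinrankEq K V hV
  refine ⟨(toMatrix b b g).trace, hg.cyc.iso ?_⟩
  rw [← LinearMap.charpoly_toMatrix g b, charpoly_fin_two, det_toMatrix]
  simpa [det_fin_two, trace_fin_two] using
    cyc2 !![0, -LinearMap.det g; 1, (toMatrix b b g).trace] (by simp)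

theorem iso1 {g : End K V} (hV : finrank K V = 1) : Iso g (toLin' !![LinearMap.det g]) := by
  obtain ⟨l, rfl⟩ := (LinearMap.existsUnique_eq_smul_id_of_finrank_eq_one hV g).exists
  refine ⟨LinearEquiv.ofFinrankEq _ _ (by simpa using hV), fun x => ?_⟩
  ext i
  fin_cases i
  simp [hV, mulVec, dotProduct]

def bd {m n : ℕ} (G : Matrix (Fin m) (Fin m) K) (G' : Matrix (Fin n) (Fin n) K) : Matrix (Fin (m + n)) (Fin (m + n)) K :=
  (fromBlocks G 0 0 G').submatrix finSumFinEquiv.symm finSumFinEquiv.symm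

theorem iso_bd {m n : ℕ} (G : Matrix (Fin m) (Fin m) K) (G' : Matrix (Fin n) (Fin n) K) :
    Iso ((toLin' G).prodMap (toLin' G') : End K (_ × _)) (toLin' (bd G G')) := by
  refine ⟨(LinearEquiv.sumArrowLequivProdArrow _ _ K K).symm ≪≫ₗ LinearEquiv.funCongrLeft K K finSumFinEquiv.symm,
    fun x => ?_⟩
  rw [toLin'_apply, bd, submatrix_mulVec_equiv, fromBlocks_mulVec]
  ext i
  obtain ⟨i, rfl⟩ := finSumFinEquiv.surjective i
  rcases i with i | i <;> simp [Function.comp_def] <;> rfl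

theorem T_mat {n : ℕ} {G : Matrix (Fin n) (Fin n) K} (A B : Matrix (Fin n) (Fin n) K) {α β : K}
    (h : A.det = α ∧ B.det = β ∧ A * B = G * B * A) : T (toLin' G) α β :=
  ⟨toLin' A, toLin' B, by rw [det_toLin', h.1], by rw [det_toLin', h.2.1], by
    simp only [End.mul_eq_comp, ← toLin'_mul, h.2.2]⟩

theorem quad_monic (t δ : K) : (X ^ 2 - C t * X + C δ : K[X]).Monic := by monicity!

theorem quad_deg (t δ : K) : (X ^ 2 - C t * X + C δ : K[X]).natDegree = 2 := by compute_degree!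

theorem quad_irr {t δ : K} (h : ∀ x, x ^ 2 - t * x + δ ≠ 0) : Irreducible (X ^ 2 - C t * X + C δ : K[X]) :=
  irreducible_of_degree_le_three_of_not_isRoot (by rw [quad_deg]; simp) fun x => by simpa using h x

theorem quad_cop {t δ : K} (h : ∀ x, x ^ 2 - t * x + δ ≠ 0) (d : K) (k : ℕ) :
    IsCoprime (X ^ 2 - C t * X + C δ : K[X]) ((X - C d) ^ k) :=
  (cop_lin (by simpa using h d)).symm.pow_right

theorem lin_cop {d e : K} (h : d ≠ e) (k l : ℕ) : IsCoprime ((X - C d) ^ k : K[X]) ((X - C e) ^ l) :=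
  (cop_lin (by simpa [sub_eq_zero] using h)).pow

theorem pw_monic (d : K) (k : ℕ) : ((X - C d) ^ k : K[X]).Monic := (monic_X_sub_C d).pow k

theorem pw_deg (d : K) (k : ℕ) : ((X - C d) ^ k : K[X]).natDegree = k := by
  rw [natDegree_pow, natDegree_X_sub_C, mul_one]

theorem single3 [Finite K] {g : End K V} (hg : IsCyc g) {j : ℕ} (hj : finrank K V = j + 3) (h1 : LinearMap.det g = 1)
    {t δ α : K} (h : ∀ x, x ^ 2 - t * x + δ ≠ 0) (hα : α ≠ 0) : T g α δ := by
  have e : (-1) ^ (j + 3) * ((X ^ 2 - C t * X + C δ) * (X - C 1) ^ (j + 1) : K[X]).coeff 0 = δ := by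
    rw [coeff_zero_eq_eval_zero]; simp [pow_succ, mul_left_comm _ δ, ← mul_pow]
  have := (lemA hg hj one_ne_zero (h 1) (by simp [h1]) ((quad_monic t δ).mul (pw_monic 1 (j + 1)))
    (by rw [(quad_monic t δ).natDegree_mul (pw_monic _ _), quad_deg, pw_deg]; ring) (by rw [e, h1]; simp)).Tirr
    (quad_irr h) (quad_monic _ _) (pw_monic _ _) (quad_cop h _ _) hα
  rwa [hj, e] at this

theorem single1 (h2 : (1 : K) ≠ -1) {g : End K V} (hg : IsCyc g) {j : ℕ} (hj : finrank K V = j + 1)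
    (h1 : LinearMap.det g = 1) : T g 1 (-1) := by
  have e : (-1) ^ (j + 1) * ((X - C (-1)) * (X - C 1) ^ j : K[X]).coeff 0 = -1 := by
    rw [coeff_zero_eq_eval_zero]; simp [pow_succ, ← mul_pow]
  have := (lemB hg hj one_ne_zero h2 (by simp [h1]) ((monic_X_sub_C _).mul (pw_monic 1 j))
    (by rw [(monic_X_sub_C _).natDegree_mul (pw_monic _ _), natDegree_X_sub_C, pw_deg]; ring) (by simp only [e, h1]; simp)).T1
    (pw_monic _ _) (by simpa using lin_cop h2.symm 1 j) one_ne_zero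
  rwa [hj, e] at this

theorem det_inv_neg {g gi : End K V} (e : g * gi = 1) (h : LinearMap.det g = -1) : LinearMap.det gi = -1 := by
  have := congrArg LinearMap.det e
  rw [map_mul, map_one, h] at this
  linear_combination -this

theorem neg1 {d : K} (h0 : d ≠ 0) (h2 : d ≠ -d) {g : End K V} (hg : IsCyc g) {j : ℕ} (hj : finrank K V = j + 1)
    (h1 : LinearMap.det g = -1) : Rz g ((X - C d) ^ (j + 1)) ((X - C (-d)) * (X - C d) ^ j) := by
  obtain ⟨gi, e1, e2⟩ := exists_inv (g := g) (by simp [h1])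
  have h3 := det_inv_neg e1 h1
  refine Rz.inv e1 (lemB (hg.inv e1) hj h0 h2 (by simp [h3]) (pw_monic _ _) (pw_deg _ _) ?_)
  rw [coeff_zero_eq_eval_zero]; simp [h3, ← mul_pow, pow_succ d]

theorem pair3 [Finite K] (h2 : (1 : K) ≠ -1) {g : End K V} {g' : End K W} (hg : IsCyc g) (hg' : IsCyc g') {j i : ℕ}
    (hj : finrank K V = j + 1) (hi : finrank K W = i + 3) (h1 : LinearMap.det g = -1) (h1' : LinearMap.det g' = -1)
    {t δ α : K} (h : ∀ x, x ^ 2 - t * x + δ ≠ 0) (hα : α ≠ 0) :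
    T (g.prodMap g' : End K (V × W)) α ((-1) ^ (i + 1) * δ) := by
  have r1 := neg1 one_ne_zero h2 hg hj h1
  have m := (quad_monic t δ).mul ((monic_X_sub_C 1).mul (pw_monic (-1) i))
  have r2 := lemA hg' hi (d := -1) (by simp) (h _) (by simp [h1']) m
    (by rw [(quad_monic t δ).natDegree_mul ((monic_X_sub_C 1).mul (pw_monic (-1) i)), quad_deg,
      (monic_X_sub_C _).natDegree_mul (pw_monic _ _), pw_deg, natDegree_X_sub_C]; ring)
    (by rw [coeff_zero_eq_eval_zero]; simp [h1', pow_succ])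
  have r := r1.glue r2 (by simp [h1']) (by omega) (Or.inl ((quad_cop h _ _).symm.mul_right (lin_cop h2 _ _)))
  rw [mul_left_comm, show ∀ a b c : K[X], b * a ^ j * (c * (a * b ^ i)) = c * (a ^ (j + 1) * b ^ (i + 1)) from
    fun a b c => by ring] at r
  have := r.Tirr (quad_irr h) (quad_monic _ _) ((pw_monic _ _).mul (pw_monic _ _))
    ((quad_cop h _ _).mul_right (quad_cop h _ _)) hα
  convert this using 1
  rw [coeff_zero_eq_eval_zero, finrank_prod, hj, hi]
  simp only [eval_mul, eval_add, eval_sub, eval_pow, eval_X, eval_C, zero_sub, neg_neg, one_pow, pow_add, pow_one]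
  have : ((-1 : K) ^ j) * (-1) ^ j = 1 := by rw [← mul_pow]; simp
  linear_combination ((-1) ^ i * δ) * this

theorem pair1 (h2 : (1 : K) ≠ -1) {g : End K V} {g' : End K W} (hg : IsCyc g) (hg' : IsCyc g') {i : ℕ}
    (hj : finrank K V = 0 + 1) (hi : finrank K W = i + 1) (h1 : LinearMap.det g = -1) (h1' : LinearMap.det g' = -1)
    {α : K} (hα : α ≠ 0) : T (g.prodMap g' : End K (V × W)) α ((-1) ^ (i + 1)) := by
  have r1 := neg1 one_ne_zero h2 hg hj h1
  have r2 := neg1 (d := -1) (by simp) (by simpa using h2.symm) hg' hi h1'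
  have r := r1.glue r2 (by simp [h1']) (by omega) (Or.inl (lin_cop h2 _ _))
  rw [neg_neg, zero_add, pow_one, show ∀ a b : K[X], b * a ^ 0 * (a * b ^ i) = a * b ^ (i + 1) from
    fun a b => by ring] at r
  have := r.T1 (pw_monic _ _) (by simpa using lin_cop h2 1 (i + 1)) hα
  convert this using 1
  rw [coeff_zero_eq_eval_zero, finrank_prod, hj, hi]
  simp [pow_add]

theorem pair2 (h2 : (1 : K) ≠ -1) (h : ∀ x : K, x ^ 2 - 0 * x + 1 ≠ 0) {g : End K V} {g' : End K W} (hg : IsCyc g)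
    (hg' : IsCyc g') (hj : finrank K V = 1 + 1) (hi : finrank K W = 1 + 1) (h1 : LinearMap.det g = -1)
    (h1' : LinearMap.det g' = -1) : T (g.prodMap g' : End K (V × W)) 1 (-1) := by
  obtain ⟨gi, e1, e2⟩ := exists_inv (g := g) (by simp [h1])
  have h3 := det_inv_neg e1 h1
  have r1 := Rz.inv e1 (lemB (hg.inv e1) hj one_ne_zero h2 (by simp [h3]) (quad_monic 0 1) (quad_deg _ _) (by simp [h3]))
  have r2 := lemB hg' hi one_ne_zero h2 (by simp [h1']) (quad_monic 0 1) (quad_deg _ _) (by simp [h1'])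
  have c := quad_cop h (-1) 1
  rw [pow_one] at c
  have r := r1.glue r2 (by simp [h1']) (by omega) (Or.inl (c.mul_right (quad_cop h _ _)))
  rw [mul_comm (X ^ 2 - C 0 * X + C 1), mul_assoc] at r
  have := r.T1 ((pw_monic _ _).mul (quad_monic _ _)) (IsCoprime.mul_right (by simpa using lin_cop h2.symm 1 1) c.symm)
    one_ne_zero
  convert this using 1
  rw [coeff_zero_eq_eval_zero, finrank_prod, hj, hi]
  norm_num

end Cfsg.Agent.H9.Cmt
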