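import Mathlib
import Cfsg.Agent.H9.Cmt4

/-! Commutators in `SL_n`, part 5: the fields with two and three elements. -/

set_option autoImplicit false
set_option linter.unusedSectionVars false
set_option linter.unusedVariables false

namespace Cfsg.Agent.H9.Cmt

open Module LinearMap Polynomial Matrix

section gen

variable {K : Type*} [Field K] {V W U : Type*} [AddCommGroup V] [Module K V] [FiniteDimensional K V]
  [AddCommGroup W] [Module K W] [FiniteDimensional K W] [AddCommGroup U] [Module K U] [FiniteDimensional K U]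

theorem T_zero (g : End K V) (h : finrank K V = 0) : T g 1 1 := by
  have := (finrank_zero_iff (R := K)).1 h
  exact ⟨1, 1, map_one _, map_one _, Subsingleton.elim _ _⟩

theorem det_zero' (g : End K V) (h : finrank K V = 0) : LinearMap.det g = 1 := by
  have := (finrank_zero_iff (R := K)).1 h
  rw [Subsingleton.elim g 1, map_one]

theorem T_one {g : End K V} (h : finrank K V = 1) (h1 : LinearMap.det g = 1) : T g 1 1 :=
  (iso1 h).symm.T (T_mat 1 1 ⟨det_one, det_one, by rw [h1]; ext i j; fin_cases i; fin_cases j; simp⟩)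

theorem iso_lc (b : End K V) (c : End K W) (d : End K U) :
    Iso (b.prodMap (c.prodMap d) : End K (V × W × U)) (c.prodMap (b.prodMap d) : End K (W × V × U)) :=
  ((iso_assoc b c d).symm.trans ((iso_comm b c).prod (Iso.refl d))).trans (iso_assoc c b d)

theorem toN {g : End K V} (h : T g (-1) 1) : T g 1 (-1) := by simpa using h.mv1.mv2

theorem NN {g : End K V} {g' : End K W} (h : T g 1 (-1)) (h' : T g' 1 (-1)) :
    T (g.prodMap g' : End K (V × W)) 1 (-1) ∧ T (g.prodMap g' : End K (V × W)) 1 1 :=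
  ⟨by simpa using (h.prod h'.mv2.mv1).mv2, by simpa using h.prod h'⟩

end gen

section three

variable {V W : Type*} [AddCommGroup V] [Module (ZMod 3) V] [FiniteDimensional (ZMod 3) V]
  [AddCommGroup W] [Module (ZMod 3) W] [FiniteDimensional (ZMod 3) W]

theorem w3 (a b : ZMod 3) : T (toLin' (bd !![0, -(-1); 1, a] !![0, -(-1); 1, b])) 1 1 := by
  fin_cases a <;> fin_cases b
  · exact T_mat !![2,2,0,2;2,2,0,1;2,0,0,2;1,2,1,0] !![1,2,1,2;0,2,2,1;2,0,2,1;2,2,2,0] (by decide +kernel)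
  · exact T_mat !![0,1,0,0;2,0,1,2;0,0,2,1;2,0,1,1] !![1,2,2,2;2,2,2,2;0,1,2,0;0,1,1,2] (by decide +kernel)
  · exact T_mat !![0,0,1,1;1,1,2,0;0,2,1,2;1,2,2,1] !![1,0,2,0;2,0,2,0;0,2,1,1;0,2,0,2] (by decide +kernel)
  · exact T_mat !![1,0,1,2;2,2,0,0;0,0,0,1;0,0,1,0] !![2,1,0,2;1,2,1,0;1,0,1,0;1,0,0,2] (by decide +kernel)
  · exact T_mat !![0,0,1,0;0,0,0,2;2,2,0,1;1,2,1,2] !![2,0,0,0;1,2,1,0;2,2,1,2;1,1,0,1] (by decide +kernel)
  · exact T_mat !![2,2,1,2;1,2,0,0;0,1,2,0;1,0,2,2] !![1,2,0,0;2,0,1,0;2,0,2,0;1,2,0,2] (by decide +kernel)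
  · exact T_mat !![0,0,2,1;1,1,1,2;1,0,0,2;0,0,1,0] !![0,1,1,1;2,0,1,0;2,2,0,0;0,2,1,1] (by decide +kernel)
  · exact T_mat !![1,2,1,2;0,0,2,0;1,0,2,1;2,0,1,0] !![1,0,1,1;0,0,2,2;2,1,2,2;0,1,1,2] (by decide +kernel)
  · exact T_mat !![2,0,0,2;0,2,0,1;0,1,1,1;1,1,1,0] !![1,2,1,1;2,1,0,0;2,0,0,0;1,2,2,0] (by decide +kernel)

theorem h23 : (1 : ZMod 3) ≠ -1 := by decide

theorem pairB {g : End (ZMod 3) V} {g' : End (ZMod 3) W} (hg : IsCyc g) (hg' : IsCyc g') {j i : ℕ}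
    (hj : finrank (ZMod 3) V = j + 1) (hi : finrank (ZMod 3) W = i + 3) (h1 : LinearMap.det g = -1)
    (h1' : LinearMap.det g' = -1) {β : ZMod 3} (hβ : β ≠ 0) : T (g.prodMap g' : End (ZMod 3) (V × W)) 1 β := by
  have k : ∀ δ : ZMod 3, δ ≠ 0 → ∃ t, ∀ x, x ^ 2 - t * x + δ ≠ 0 := by decide
  obtain ⟨t, ht⟩ := k ((-1) ^ (i + 1) * β) (by simp [hβ])
  have := pair3 h23 hg hg' hj hi h1 h1' ht one_ne_zero
  rwa [← mul_assoc, ← mul_pow, neg_mul_neg, one_mul, one_pow, one_mul] at this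

theorem pairA {g : End (ZMod 3) V} {g' : End (ZMod 3) W} (hg : IsCyc g) (hg' : IsCyc g') {j i : ℕ}
    (hj : finrank (ZMod 3) V = j + 1) (hi : finrank (ZMod 3) W = i + 1) (h1 : LinearMap.det g = -1)
    (h1' : LinearMap.det g' = -1) : T (g.prodMap g' : End (ZMod 3) (V × W)) 1 (-1) ∧
      (j + i ≠ 0 → T (g.prodMap g' : End (ZMod 3) (V × W)) 1 1) := by
  have c := iso_comm g' g
  rcases i with _ | _ | i
  · rcases j with _ | _ | j
    · exact ⟨by simpa using pair1 h23 hg hg' hj hi h1 h1' one_ne_zero, fun h => (h rfl).elim⟩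
    · exact ⟨c.T (toN (by simpa using pair1 h23 hg' hg hi hj h1' h1 (show (-1 : ZMod 3) ≠ 0 by decide))), fun _ =>
        c.T (by simpa using pair1 h23 hg' hg hi hj h1' h1 one_ne_zero)⟩
    · exact ⟨c.T (pairB hg' hg hi hj h1' h1 (by decide)), fun _ => c.T (pairB hg' hg hi hj h1' h1 one_ne_zero)⟩
  · rcases j with _ | _ | j
    · exact ⟨toN (by simpa using pair1 h23 hg hg' hj hi h1 h1' (show (-1 : ZMod 3) ≠ 0 by decide)), fun _ =>
        by simpa using pair1 h23 hg hg' hj hi h1 h1' one_ne_zero⟩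
    · refine ⟨pair2 h23 (by decide) hg hg' hj hi h1 h1', fun _ => ?_⟩
      obtain ⟨a, ha⟩ := iso2 hg hj
      obtain ⟨b, hb⟩ := iso2 hg' hi
      rw [h1] at ha
      rw [h1'] at hb
      exact ((ha.prod hb).trans (iso_bd _ _)).symm.T (w3 a b)
    · exact ⟨c.T (pairB hg' hg hi hj h1' h1 (by decide)), fun _ => c.T (pairB hg' hg hi hj h1' h1 one_ne_zero)⟩
  · exact ⟨pairB hg hg' hj hi h1 h1' (by decide), fun _ => pairB hg hg' hj hi h1 h1' one_ne_zero⟩

theorem negsplit (n : ℕ) : ∀ g : End (ZMod 3) (Fin n → ZMod 3), LinearMap.det g = -1 →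
    ∃ (k m : ℕ) (g₁ : End (ZMod 3) (Fin (k + 1) → ZMod 3)) (g₂ : End (ZMod 3) (Fin m → ZMod 3)),
      IsCyc g₁ ∧ LinearMap.det g₁ = -1 ∧ Iso g (g₁.prodMap g₂ : End (ZMod 3) (_ × _)) := by
  induction n using Nat.strong_induction_on with
  | _ n ih =>
    intro g hg
    obtain ⟨k, m, g₁, g₂, h1, h2⟩ := decomp g fun e => h23 ((det_zero' g e).symm.trans hg)
    have hd := h2.det
    rw [hg, det_prodMap] at hd
    have k3 : ∀ a b : ZMod 3, -1 = a * b → a = -1 ∨ b = -1 := by decide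
    rcases k3 _ _ hd with h | h
    · exact ⟨k, m, g₁, g₂, h1, h, h2⟩
    · obtain ⟨k', m', g₃, g₄, h3, h4, h5⟩ := ih m (by have := h2.finrank; simp at this; omega) g₂ h
      obtain ⟨g₅, h6⟩ := std (g₁.prodMap g₄ : End (ZMod 3) (_ × _)) rfl
      exact ⟨k', _, g₃, g₅, h3, h4, ((h2.trans ((Iso.refl _).prod h5)).trans (iso_lc _ _ _)).trans ((Iso.refl _).prod h6)⟩

theorem main3 (n : ℕ) : ∀ g : End (ZMod 3) (Fin n → ZMod 3), LinearMap.det g = 1 → n ≠ 0 →
    T g 1 (-1) ∧ (3 ≤ n → T g 1 1) := by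
  induction n using Nat.strong_induction_on with
  | _ n ih =>
    intro g hg n0
    obtain ⟨k, m, g₁, g₂, h1, h2⟩ := decomp g (by simpa using n0)
    have hd := h2.det
    have hn : n = k + 1 + m := by simpa using h2.finrank
    rw [hg, det_prodMap] at hd
    have k3 : ∀ a b : ZMod 3, 1 = a * b → a = 1 ∧ b = 1 ∨ a = -1 ∧ b = -1 := by decide
    rcases k3 _ _ hd with ⟨h, h'⟩ | ⟨h, h'⟩
    · have n1 := single1 h23 h1 (j := k) (by simp) h
      by_cases m0 : m = 0
      · have i := (h2.trans (iso_zero g₁ g₂ (by simpa using m0))).symm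
        exact ⟨i.T n1, fun h3 => i.T (single3 h1 (j := k - 2) (by simp; omega) h (t := 0) (by decide) one_ne_zero)⟩
      · have := NN n1 (ih m (by omega) g₂ h' m0).1
        exact ⟨h2.symm.T this.1, fun _ => h2.symm.T this.2⟩
    · obtain ⟨k', m', g₃, g₄, h3, h4, h5⟩ := negsplit m g₂ h'
      have hm : m = k' + 1 + m' := by simpa using h5.finrank
      have i := ((h2.trans ((Iso.refl _).prod h5)).trans (iso_assoc _ _ _).symm).symm
      have p := pairA h1 h3 (j := k) (i := k') (by simp) (by simp) h h4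
      by_cases m0 : m' = 0
      · have i' := (iso_zero (g₁.prodMap g₃ : End (ZMod 3) (_ × _)) g₄ (by simpa using m0)).symm.trans i
        exact ⟨i'.T p.1, fun h3 => i'.T (p.2 (by omega))⟩
      · have h6 := h5.det
        rw [h', det_prodMap, h4] at h6
        have := NN p.1 (ih m' (by omega) g₄ (by linear_combination h6) m0).1
        exact ⟨i.T this.1, fun _ => i.T this.2⟩

end three

section two

variable {V W : Type*} [AddCommGroup V] [Module (ZMod 2) V] [FiniteDimensional (ZMod 2) V]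

noncomputable abbrev J2 : End (ZMod 2) (Fin 2 → ZMod 2) := toLin' !![0, -1; 1, 0]

theorem q2 : ∀ x : ZMod 2, x ^ 2 - 1 * x + 1 ≠ 0 := by decide

theorem wJJ : T (J2.prodMap J2 : End (ZMod 2) (_ × _)) 1 1 :=
  (iso_bd _ _).symm.T (T_mat !![1,0,1,1;0,0,1,0;0,1,0,0;0,1,0,1] !![0,1,0,1;1,1,0,1;0,1,1,1;1,1,1,0] (by decide +kernel))

theorem wJJJ : T (J2.prodMap (J2.prodMap J2) : End (ZMod 2) (_ × _ × _)) 1 1 :=
  (((Iso.refl _).prod (iso_bd _ _)).trans (iso_bd _ _)).symm.T (T_mat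
    !![0,1,0,0,1,1;0,0,1,1,1,0;1,1,1,1,0,0;0,0,0,0,1,1;0,0,1,0,1,1;0,0,1,0,1,0]
    !![0,0,0,1,0,0;1,0,0,0,1,0;0,1,1,1,1,0;0,0,1,1,0,1;0,1,0,0,0,0;1,0,1,0,1,0] (by decide +kernel))

theorem cyc_two {g : End (ZMod 2) V} (hg : IsCyc g) {j : ℕ} (hj : finrank (ZMod 2) V = j + 1)
    (h1 : LinearMap.det g = 1) : T (J2.prodMap g : End (ZMod 2) (_ × _)) 1 1 ∧ (¬ Iso g J2 → T g 1 1) := by
  rcases j with _ | _ | j
  · have i := iso1 (g := g) hj
    rw [h1] at i
    exact ⟨(((Iso.refl _).prod i).trans (iso_bd _ _)).symm.T (T_mat !![1,0,1;0,1,1;1,1,1] !![1,0,0;0,1,0;1,1,1]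
      (by decide +kernel)), fun _ => T_one hj h1⟩
  · obtain ⟨a, i⟩ := iso2 hg hj
    rw [h1] at i
    fin_cases a
    · exact ⟨((Iso.refl _).prod i).symm.T wJJ, fun h => (h i).elim⟩
    · exact ⟨(((Iso.refl _).prod i).trans (iso_bd _ _)).symm.T (T_mat !![0,1,1,1;1,1,1,1;0,1,1,0;0,0,1,0]
        !![0,0,1,0;0,0,1,1;1,0,1,1;1,1,0,0] (by decide +kernel)), fun _ =>
        i.symm.T (T_mat !![1,1;1,0] !![1,0;1,1] (by decide +kernel))⟩
  · refine ⟨?_, fun _ => single3 hg hj h1 q2 one_ne_zero⟩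
    have r1 : Rz J2 ((X - C 1) ^ 2) (X ^ 2 - C 1 * X + C 1) := by
      refine ⟨toLin' !![1, 0; 1, 1], ?_, ?_⟩
      · convert cyc2 (K := ZMod 2) !![1, 0; 1, 1] (by simp) using 1
        simp only [trace_fin_two, det_fin_two, map_add, map_one, of_apply, cons_val', cons_val_zero, cons_val_one,
          cons_val_fin_one, mul_one, sub_zero]
        ring
      · rw [End.mul_eq_comp, ← toLin'_mul]
        have := cyc2 (K := ZMod 2) (!![0, -1; 1, 0] * !![1, 0; 1, 1]) (by decide +kernel)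
        rwa [show Matrix.trace _ = (1 : ZMod 2) by decide +kernel, show Matrix.det _ = (1 : ZMod 2) by decide +kernel] at this
    have r2 := lemA hg hj one_ne_zero (q2 1) (by simp [h1]) (pw_monic 1 _) (pw_deg _ _)
      (by rw [coeff_zero_eq_eval_zero]; simp [h1, ← mul_pow])
    have r := r1.glue r2 (by simp [h1]) (by simp) (Or.inr (quad_cop q2 _ _))
    rw [mul_left_comm, ← pow_add, show 2 + (j + 1) = j + 3 by ring] at r
    obtain ⟨α, h0, h⟩ := r.T
    have k : ∀ a : ZMod 2, a ≠ 0 → a = 1 := by decide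
    rwa [k α h0, k (_ * _) (by rw [coeff_zero_eq_eval_zero]; simp)] at h

theorem main2 (n : ℕ) : ∀ g : End (ZMod 2) (Fin n → ZMod 2), LinearMap.det g = 1 →
    (n ≠ 0 → T (J2.prodMap g : End (ZMod 2) (_ × _)) 1 1) ∧ (¬ Iso g J2 → T g 1 1) := by
  induction n using Nat.strong_induction_on with
  | _ n ih =>
    intro g hg
    by_cases n0 : n = 0
    · exact ⟨fun h => (h n0).elim, fun _ => T_zero g (by simpa using n0)⟩
    obtain ⟨k, m, g₁, g₂, h1, h2⟩ := decomp g (by simpa using n0)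
    have hd := h2.det
    have hn : n = k + 1 + m := by simpa using h2.finrank
    rw [hg, det_prodMap] at hd
    have k2 : ∀ a b : ZMod 2, 1 = a * b → a = 1 ∧ b = 1 := by decide
    obtain ⟨h, h'⟩ := k2 _ _ hd
    obtain ⟨c1, c2⟩ := cyc_two h1 (j := k) (by simp) h
    obtain ⟨d1, d2⟩ := ih m (by omega) g₂ h'
    have i := ((Iso.refl J2).prod h2).symm
    refine ⟨fun _ => i.T ?_, fun hJ => h2.symm.T ?_⟩
    · by_cases a2 : Iso g₂ J2
      · by_cases a1 : Iso g₁ J2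
        · exact ((Iso.refl _).prod (a1.prod a2)).symm.T wJJJ
        · exact (((Iso.refl _).prod ((Iso.refl _).prod a2)).trans (iso_lc _ _ _)).symm.T
            (by simpa using (c2 a1).prod wJJ)
      · exact (iso_assoc _ _ _).T (by simpa using c1.prod (d2 a2))
    · by_cases a1 : Iso g₁ J2
      · exact (a1.prod (Iso.refl _)).symm.T (d1 fun m0 => hJ ((h2.trans (iso_zero g₁ g₂ (by simpa using m0))).trans a1))
      · by_cases a2 : Iso g₂ J2
        · exact (((Iso.refl _).prod a2).trans (iso_comm _ _)).symm.T c1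
        · simpa using (c2 a1).prod (d2 a2)

end two

theorem T.sl {K : Type*} [Field K] {n : ℕ} (g : SpecialLinearGroup (Fin n) K) (h : T (toLin' g.1) 1 1) :
    ∃ a b : SpecialLinearGroup (Fin n) K, g = a * b * a⁻¹ * b⁻¹ := by
  obtain ⟨a, b, ha, hb, h⟩ := h
  refine ⟨⟨toMatrix' a, by rw [det_toMatrix', ha]⟩, ⟨toMatrix' b, by rw [det_toMatrix', hb]⟩,
    eq_mul_inv_of_mul_eq (eq_mul_inv_of_mul_eq (Subtype.ext ?_))⟩
  change g.1 * toMatrix' b * toMatrix' a = toMatrix' a * toMatrix' b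
  rw [← toMatrix'_mul, h, toMatrix'_mul, toMatrix'_mul, toMatrix'_toLin']

theorem transfer {K L : Type*} [Field K] [Field L] (e : K ≃+* L) {n : ℕ}
    (h : ∀ g : SpecialLinearGroup (Fin n) K, ∃ a b : SpecialLinearGroup (Fin n) K, g = a * b * a⁻¹ * b⁻¹)
    (g : SpecialLinearGroup (Fin n) L) : ∃ a b : SpecialLinearGroup (Fin n) L, g = a * b * a⁻¹ * b⁻¹ := by
  obtain ⟨a, b, hab⟩ := h (SpecialLinearGroup.map e.symm.toRingHom g)
  refine ⟨SpecialLinearGroup.map e.toRingHom a, SpecialLinearGroup.map e.toRingHom b, ?_⟩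
  rw [← map_inv, ← map_inv, ← map_mul, ← map_mul, ← map_mul, ← hab]
  ext i j
  simp

theorem final {F : Type*} [Field F] [Fintype F] (n : ℕ) (hn : 2 ≤ n) (hex : n = 2 → 4 ≤ Fintype.card F)
    (g : SpecialLinearGroup (Fin n) F) : ∃ a b : SpecialLinearGroup (Fin n) F, g = a * b * a⁻¹ * b⁻¹ := by
  classical
  by_cases h4 : 4 ≤ Fintype.card F
  · refine T.sl g (big (fun a b c => ?_) (by rw [det_toLin', g.2]) (by simpa using hn))
    obtain ⟨t, -, ht⟩ := Finset.exists_mem_notMem_of_card_lt_card (s := {a, b, c}) (t := Finset.univ)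
      (lt_of_le_of_lt Finset.card_le_three h4)
    exact ⟨t, by simpa using ht⟩
  · have n3 : 3 ≤ n := by by_contra h; exact h4 (hex (by omega))
    have := Fintype.one_lt_card (α := F)
    obtain h | h : Fintype.card F = 2 ∨ Fintype.card F = 3 := by omega
    · refine transfer (ZMod.ringEquivOfPrime F Nat.prime_two h) (fun g => T.sl g ((main2 n _ (by
        rw [det_toLin', g.2])).2 fun i => ?_)) g
      have := i.finrank
      simp at this; omega
    · exact transfer (ZMod.ringEquivOfPrime F Nat.prime_three h) (fun g => T.sl g ((main3 n _ (by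
        rw [det_toLin', g.2]) (by omega)).2 n3)) g

end Cfsg.Agent.H9.Cmt
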