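import Mathlib
import Cfsg.Agent.H18.MaxUnif
import Cfsg.Agent.H3.Two
import Cfsg.Agent.H28.Cls

/-!
The `(p - 1)`-Engel congruence in groups of exponent `p`; powers in `p`-groups of maximal class.
-/

set_option autoImplicit false
set_option linter.unusedSectionVars false
set_option linter.unusedVariables false

namespace Cfsg.Agent.H9.Eng

open Cfsg Subgroup Cfsg.Agent.FT Cfsg.Agent.H3 Cfsg.Agent.H18
open scoped commutatorElement

section

variable {Γ : Type*} [Group Γ] (X Y : Γ)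

/-- commutator monomials in `X`, `Y` with total weight and weight in `Y` -/
inductive Mon : ℕ → ℕ → Γ → Prop
  | x : Mon 1 0 X
  | y : Mon 1 1 Y
  | inv {i j a} : Mon i j a → Mon i j a⁻¹
  | comm {i j a i' j' b} : Mon i j a → Mon i' j' b → Mon (i + i') (j + j') ⁅a, b⁆

/-- the subgroup generated by the monomials of the given weights -/
def W (U : ℕ → ℕ → Prop) : Subgroup Γ := closure {a | ∃ i j, U i j ∧ Mon X Y i j a}

/-- upward closed sets of weights -/
def Up (U : ℕ → ℕ → Prop) : Prop := ∀ i j i' j', U i j → i < i' → j ≤ j' → U i' j'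

variable {X Y} {U U' U'' : ℕ → ℕ → Prop} {i j : ℕ} {a : Γ}

theorem Mon.mem (h : Mon X Y i j a) (hU : U i j) : a ∈ W X Y U := subset_closure ⟨i, j, hU, h⟩

theorem Mon.le (h : Mon X Y i j a) :
    1 ≤ i ∧ j ≤ i ∧ (i = j → a ∈ ⟪Y⟫ ∧ (2 ≤ i → a = 1)) ∧ a ∈ γ[i - 1]((⊤ : Subgroup Γ)) := by
  induction h with
  | x => simp
  | y => simp
  | inv _ ih => exact ⟨ih.1, ih.2.1, fun e => ⟨inv_mem (ih.2.2.1 e).1, fun e' => by
      rw [(ih.2.2.1 e).2 e', inv_one]⟩, inv_mem ih.2.2.2⟩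
  | comm _ _ ih ih' =>
    refine ⟨by omega, by omega, fun e => ?_, (isFilt_lcs ⊤).comm_mem ih.2.2.2 ih'.2.2.2⟩
    obtain ⟨m, rfl⟩ := (ih.2.2.1 (by omega)).1
    obtain ⟨n, rfl⟩ := (ih'.2.2.1 (by omega)).1
    rw [commutatorElement_eq_one_iff_commute.2 (Commute.zpow_zpow_self Y m n)]
    simp

theorem W_le {K : Subgroup Γ} (h : ∀ i j a, U i j → Mon X Y i j a → a ∈ K) : W X Y U ≤ K :=
  (closure_le _).2 fun a ⟨i, j, h1, h2⟩ => h i j a h1 h2

theorem W_mono (h : ∀ i j, 1 ≤ i → U i j → U' i j) : W X Y U ≤ W X Y U' :=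
  W_le fun i j a h1 h2 => h2.mem (h i j h2.le.1 h1)

variable [Finite Γ] (gen : closure {X, Y} = ⊤)
include gen

theorem W_normal (h : Up U) : (W X Y U).Normal := by
  have : ∀ z k, Mon X Y 1 k z → z ∈ N(W X Y U) := fun z k hz => mem_normalizer_fintype fun a ha =>
    W_le (K := (W X Y U).comap (MulAut.conj z).toMonoidHom) (fun i j a h1 h2 => by
      have := mul_mem ((hz.comm h2).mem (h i j _ _ h1 (by omega) (by omega))) (h2.mem h1)
      rwa [commutatorElement_def, inv_mul_cancel_right] at this) ha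
  rw [← normalizer_eq_top_iff, eq_top_iff, ← gen, closure_le]
  rintro _ (rfl | rfl)
  exacts [this _ _ .x, this _ _ .y]

omit gen in
theorem cc {N : Subgroup Γ} [N.Normal] {S T : Set Γ} (h : ∀ s ∈ S, ∀ t ∈ T, ⁅s, t⁆ ∈ N) :
    ⁅closure S, closure T⁆ ≤ N := by
  have key : ∀ {A B : Set Γ}, (∀ a ∈ A, ∀ b ∈ B, ⁅a, b⁆ ∈ N) → ∀ b ∈ closure B, ∀ a ∈ A, ⁅b, a⁆ ∈ N := by
    intro A B h x hx t ht
    rw [← inv_mem_iff, commutatorElement_inv]
    induction hx using closure_induction with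
    | mem x hx => exact h t ht x hx
    | one => simp
    | mul x y _ _ h1 h2 =>
      rw [H3.comm_mul_right]; exact mul_mem h1 (Normal.conj_mem inferInstance _ h2 x)
    | inv x _ h1 =>
      have : ⁅t, x⁻¹⁆ = x⁻¹ * ⁅t, x⁆⁻¹ * x⁻¹⁻¹ := by simp only [commutatorElement_def]; group
      rw [this]; exact Normal.conj_mem inferInstance _ (inv_mem h1) _
  exact commutator_le.2 (key (A := closure T) (key h))

theorem W_comm (h : Up U'') (e : ∀ i j i' j', 1 ≤ i → 1 ≤ i' → U i j → U' i' j' → U'' (i + i') (j + j')) :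
    ⁅W X Y U, W X Y U'⁆ ≤ W X Y U'' :=
  haveI := W_normal gen h
  cc fun s ⟨i, j, h1, h2⟩ t ⟨i', j', h3, h4⟩ => (h2.comm h4).mem (e _ _ _ _ h2.le.1 h4.le.1 h1 h3)

theorem W_top : W X Y (fun _ _ => True) = ⊤ := by
  rw [eq_top_iff, ← gen, closure_le]
  rintro _ (rfl | rfl)
  exacts [Mon.x.mem trivial, Mon.y.mem trivial]

variable {σ : Γ →* Γ} {w : ℕ} (hx : σ X = X) (hy : σ Y = Y ^ w)
include hx hy

theorem Mon.eig (h : Mon X Y i j a) :
    σ a * (a ^ w ^ j)⁻¹ ∈ W X Y fun i' j' => i < i' ∧ j ≤ j' := by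
  have up : ∀ i j, Up fun i' j' => i < i' ∧ j ≤ j' := fun i j _ _ _ _ h1 h2 h3 => by omega
  induction h with
  | x => simp [hx]
  | y => simp [hy]
  | @inv i j a _ ih =>
    haveI := W_normal gen (up i j)
    have := Normal.conj_mem inferInstance _ (inv_mem ih) (σ a)⁻¹
    convert this using 1
    rw [map_inv, inv_pow]; group
  | @comm i j a i' j' b ha hb ih ih' =>
    haveI := W_normal gen (up (i + i') (j + j'))
    set K := W X Y fun k l => i + i' < k ∧ j + j' ≤ l
    have c : ∀ u v, ⁅u, v⁆ ∈ K → Commute (QuotientGroup.mk' K u) (QuotientGroup.mk' K v) := fun u v e => by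
      rw [← commutatorElement_eq_one_iff_commute, ← map_commutatorElement]
      exact (QuotientGroup.eq_one_iff _).2 e
    have a0 : a ∈ W X Y fun k l => i ≤ k ∧ j ≤ l := ha.mem ⟨le_rfl, le_rfl⟩
    have b0 : b ∈ W X Y fun k l => i' ≤ k ∧ j' ≤ l := hb.mem ⟨le_rfl, le_rfl⟩
    have b1 : σ b ∈ W X Y fun k l => i' ≤ k ∧ j' ≤ l := by
      simpa using mul_mem (W_mono (fun _ _ _ h => ⟨h.1.le, h.2⟩) ih') (pow_mem b0 (w ^ j'))
    have c1 := c _ _ (W_comm gen (up _ _) (fun _ _ _ _ _ _ h1 h2 => by omega)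
      (commutator_mem_commutator ih b1))
    have c2 := c _ _ (W_comm gen (up _ _) (fun _ _ _ _ _ _ h1 h2 => by omega)
      (commutator_mem_commutator (pow_mem a0 (w ^ j)) ih'))
    have c3 : ∀ u, Commute (QuotientGroup.mk' K u) ⁅QuotientGroup.mk' K a, QuotientGroup.mk' K b⁆ := fun u =>
      (map_commutatorElement (QuotientGroup.mk' K) a b) ▸ c u _ (W_comm gen (U' := fun k l => i + i' ≤ k ∧ j + j' ≤ l)
        (up _ _) (fun _ _ _ _ _ _ h1 h2 => by omega) (commutator_mem_commutator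
          ((W_top gen).ge (mem_top u)) ((ha.comm hb).mem ⟨le_rfl, le_rfl⟩)))
    have c4 : ∀ u, Commute (QuotientGroup.mk' K u) ⁅QuotientGroup.mk' K a ^ w ^ j, QuotientGroup.mk' K b ^ w ^ j'⁆ :=
      fun u => by rw [comm_pow_pow (c3 a) (c3 b)]; exact (c3 u).pow_right _
    rw [← QuotientGroup.eq_one_iff, ← QuotientGroup.mk'_apply, map_mul, map_inv, mul_inv_eq_one, map_pow,
      map_commutatorElement, map_commutatorElement, map_commutatorElement, pow_add,
      ← comm_pow_pow (c3 a) (c3 b)]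
    have c5 := c4 (σ a * (a ^ w ^ j)⁻¹)
    have c6 := c4 (σ b * (b ^ w ^ j')⁻¹)
    simp only [map_mul, map_inv, map_pow] at c1 c2 c5 c6
    generalize QuotientGroup.mk' K a ^ w ^ j = A at *
    generalize QuotientGroup.mk' K b ^ w ^ j' = B at *
    generalize QuotientGroup.mk' K (σ a) = A' at *
    generalize QuotientGroup.mk' K (σ b) = B' at *
    obtain ⟨α, rfl⟩ : ∃ α, A' = α * A := ⟨A' * A⁻¹, by group⟩
    obtain ⟨β, rfl⟩ : ∃ β, B' = β * B := ⟨B' * B⁻¹, by group⟩
    simp only [mul_inv_cancel_right] at c1 c2 c5 c6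
    have e1 : ⁅α * A, β * B⁆ = α * ⁅A, β * B⁆ * α⁻¹ * ⁅α, β * B⁆ := by
      simp only [commutatorElement_def]; group
    have e2 : ⁅A, β * B⁆ = ⁅A, β⁆ * (β * ⁅A, B⁆ * β⁻¹) := by
      simp only [commutatorElement_def]; group
    rw [e1, e2, commutatorElement_eq_one_iff_commute.2 c1, commutatorElement_eq_one_iff_commute.2 c2,
      c6.eq, mul_inv_cancel_right, one_mul, c5.eq, mul_inv_cancel_right, mul_one]

theorem W_map (h : Up U) (ha : a ∈ W X Y U) : σ a ∈ W X Y U :=
  W_le (K := (W X Y U).comap σ) (fun i j a h1 h2 => by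
    simpa using mul_mem (W_mono (fun _ _ _ e => h _ _ _ _ h1 e.1 e.2) (h2.eig gen hx hy))
      (pow_mem (h2.mem h1) (w ^ j))) ha

theorem W_step {m : ℕ} (hm : 2 ≤ m) (ha : a ∈ W X Y fun k l => i < k ∧ 2 ≤ l ∨ k = i ∧ m ≤ l) :
    σ a * (a ^ w ^ m)⁻¹ ∈ W X Y fun k l => i < k ∧ 2 ≤ l ∨ k = i ∧ m + 1 ≤ l := by
  have up : Up fun k l => i < k ∧ 2 ≤ l ∨ k = i ∧ m + 1 ≤ l := fun _ _ _ _ h1 h2 h3 => by omega
  haveI := W_normal gen up
  have hc := W_comm gen (U := fun k l => i < k ∧ 2 ≤ l ∨ k = i ∧ m ≤ l)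
    (U' := fun k l => i < k ∧ 2 ≤ l ∨ k = i ∧ m ≤ l) up fun _ _ _ _ _ _ h1 h2 => by omega
  set K := W X Y fun k l => i < k ∧ 2 ≤ l ∨ k = i ∧ m + 1 ≤ l
  have e : ∀ u v, u * v⁻¹ ∈ K ↔ QuotientGroup.mk' K u = QuotientGroup.mk' K v := fun u v => by
    rw [← QuotientGroup.eq_one_iff, ← QuotientGroup.mk'_apply, map_mul, map_inv, mul_inv_eq_one]
  induction ha using closure_induction with
  | mem a ha =>
    obtain ⟨k, l, h1, h2⟩ := ha
    by_cases h3 : k = i ∧ l = m
    · obtain ⟨rfl, rfl⟩ := h3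
      exact W_mono (fun _ _ _ e => by omega) (h2.eig gen hx hy)
    · have : a ∈ K := h2.mem (by omega)
      exact mul_mem (W_map gen hx hy up this) (inv_mem (pow_mem this _))
  | one => simp
  | mul a b ha hb h1 h2 =>
    rw [e] at h1 h2 ⊢
    have c : Commute (QuotientGroup.mk' K a) (QuotientGroup.mk' K b) := by
      rw [← commutatorElement_eq_one_iff_commute, ← map_commutatorElement]
      exact (QuotientGroup.eq_one_iff _).2 (hc (commutator_mem_commutator ha hb))
    rw [map_mul, map_mul, h1, h2, map_pow, map_pow, map_pow, map_mul, c.mul_pow]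
  | inv a ha h1 =>
    rw [e] at h1 ⊢
    rw [map_inv, map_inv, h1, inv_pow, map_inv]

theorem engel_aux {p : ℕ} (hp : p.Prime) (he : ∀ g : Γ, g ^ p = 1) (hc : γ[p]((⊤ : Subgroup Γ)) = ⊥)
    (hw : ∀ m, 2 ≤ m → m < p → ¬ w ≡ w ^ m [MOD p]) : (adj X)^[p - 1] Y = 1 := by
  have p2 := hp.two_le
  have h0 : ∀ i j a, Mon X Y i j a → p < i → a = 1 := fun i j a h hi =>
    mem_bot.1 (hc ▸ Subgroup.lowerCentralSeries_antitone _ (by omega) h.le.2.2.2)
  have h1 : ∀ k, Mon X Y (k + 1) 1 ((adj X)^[k] Y) := fun k => by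
    induction k with
    | zero => exact .y
    | succ k ih => rw [Function.iterate_succ_apply']; exact ih.inv.comm .x
  have h2 := (h1 (p - 1)).eig gen hx hy
  set u := (adj X)^[p - 1] Y
  have h3 : σ u = u ^ w := by
    have := W_le (K := ⊥) (fun i j a e h => mem_bot.2 (h0 i j a h (by omega))) h2
    rwa [mem_bot, mul_inv_eq_one, pow_one] at this
  have hF : IsFilt fun n => W X Y fun i j => n ≤ i + j :=
    ⟨fun n => W_mono fun _ _ _ h => by omega, fun m n => W_comm gen (fun _ _ _ _ h1 h2 h3 => by omega)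
      fun _ _ _ _ _ _ h1 h2 => by omega⟩
  have h4 := pow_norm hF hp (m := 1) le_rfl (Mon.x.mem le_rfl) (Mon.y.mem le_rfl)
    fun c _ => (he c).symm ▸ one_mem _
  simp only [he, inv_one, mul_one, inv_mem_iff] at h4
  have h5 : ∀ i, i ≤ p + 1 → u ∈ W X Y fun k l => i < k ∧ 2 ≤ l ∨ k = i ∧ 2 ≤ l := fun i hi => by
    induction i with
    | zero =>
      refine W_le (fun i j a e h => ?_) h4
      by_cases e' : p < i
      · rw [h0 i j a h e']; exact one_mem _
      · exact h.mem (by omega)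
    | succ i ih =>
      have h6 : ∀ m, 2 ≤ m → m ≤ p → u ∈ W X Y fun k l => i < k ∧ 2 ≤ l ∨ k = i ∧ m ≤ l := fun m h7 => by
        induction m, h7 using Nat.le_induction with
        | base => exact fun _ => ih (by omega)
        | succ m h7 ih' =>
          intro h8
          have h9 := W_step gen hx hy h7 (ih' (by omega))
          haveI := W_normal gen (U := fun k l => i < k ∧ 2 ≤ l ∨ k = i ∧ m + 1 ≤ l)
            fun _ _ _ _ h1 h2 h3 => by omega
          rw [h3, ← QuotientGroup.eq_one_iff, QuotientGroup.mk_mul, QuotientGroup.mk_inv, mul_inv_eq_one,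
            QuotientGroup.mk_pow, QuotientGroup.mk_pow, pow_eq_pow_iff_modEq] at h9
          rw [← QuotientGroup.eq_one_iff, ← orderOf_eq_one_iff]
          refine ((Nat.dvd_prime hp).1 (orderOf_dvd_of_pow_eq_one ?_)).resolve_right
            fun e => hw m h7 h8 (e ▸ h9)
          rw [← QuotientGroup.mk_pow, he, QuotientGroup.mk_one]
      refine W_le (fun k l a e h => ?_) (h6 p p2 le_rfl)
      by_cases e' : i < k
      · exact h.mem (by omega)
      · have := h.le
        rw [(this.2.2.1 (by omega)).2 (by omega)]; exact one_mem _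
  exact mem_bot.1 (W_le (fun i j a e h => mem_bot.2 (h0 i j a h (by omega))) (h5 _ le_rfl))

end

theorem map_adj {G H : Type*} [Group G] [Group H] (f : G →* H) (x y : G) (k : ℕ) :
    f ((adj x)^[k] y) = (adj (f x))^[k] (f y) :=
  (Function.Semiconj.iterate_right (f := f) (ga := adj x) (gb := adj (f x)) (fun a => by simp [adj]) k) y

/-- groups of exponent `p` and class at most `p` satisfy the `(p - 1)`-Engel identity -/
theorem engel {G : Type*} [Group G] [Finite G] {p : ℕ} [hp : Fact p.Prime] (he : ∀ g : G, g ^ p = 1)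
    (hc : γ[p]((⊤ : Subgroup G)) = ⊥) (x y : G) : (adj x)^[p - 1] y = 1 := by
  obtain ⟨g, hg⟩ := IsCyclic.exists_generator (α := (ZMod p)ˣ)
  have ho : orderOf g = p - 1 := by
    rw [orderOf_eq_card_of_forall_mem_zpowers hg, Nat.card_eq_fintype_card, ZMod.card_units]
  let X : (ZMod p)ˣ → G := fun _ => x
  let Y : (ZMod p)ˣ → G := fun k => y ^ (k : ZMod p).val
  let s : ((ZMod p)ˣ → G) →* ((ZMod p)ˣ → G) := MonoidHom.pi fun k => Pi.evalMonoidHom _ (k * g)
  have s1 : s X = X := rfl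
  have s2 : s Y = Y ^ (g : ZMod p).val := funext fun k => by
    change y ^ ((k * g : (ZMod p)ˣ) : ZMod p).val = (y ^ (k : ZMod p).val) ^ (g : ZMod p).val
    rw [← pow_mul, Units.val_mul, ZMod.val_mul, ← pow_eq_pow_mod _ (he y)]
  let Γ := closure {X, Y}
  have mX : X ∈ Γ := subset_closure (by simp)
  have mY : Y ∈ Γ := subset_closure (by simp)
  have h1 : Γ ≤ Γ.comap s := (closure_le _).2 (by
    rintro _ (rfl | rfl)
    exacts [mX, show s Y ∈ Γ from s2 ▸ pow_mem mY _])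
  have h2 := engel_aux (X := (⟨X, mX⟩ : Γ)) (Y := ⟨Y, mY⟩) (σ := (s.comp Γ.subtype).codRestrict Γ fun a => h1 a.2)
    (w := (g : ZMod p).val) (by
      apply map_injective Γ.subtype_injective
      rw [MonoidHom.map_closure, Set.image_pair, ← MonoidHom.range_eq_map, range_subtype]
      rfl) rfl (Subtype.ext s2) hp.out (fun a => Subtype.ext (funext fun k => he _))
    (eq_bot_iff.2 fun a ha => Subtype.ext (funext fun k => by
      have := mem_map_of_mem ((Pi.evalMonoidHom _ k).comp Γ.subtype) ha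
      rw [map_lowerCentralSeries] at this
      exact mem_bot.1 (hc ▸ lowerCentralSeries_mono p le_top this)))
    fun m h3 h4 e => by
      rw [← ZMod.natCast_eq_natCast_iff, Nat.cast_pow, ZMod.natCast_zmod_val, ← Units.val_pow_eq_pow_val,
        Units.val_inj] at e
      have : g ^ (m - 1) = 1 := by
        rw [← mul_left_inj g, ← pow_succ, Nat.sub_add_cancel (by omega), ← e, one_mul]
      have := Nat.le_of_dvd (by omega) (ho ▸ orderOf_dvd_of_pow_eq_one this)
      omega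
  have h3 := congrArg ((Pi.evalMonoidHom _ 1).comp Γ.subtype) h2
  rw [map_adj, map_one] at h3
  simpa [X, Y, ZMod.val_one] using h3

theorem idx_le {G : Type*} [Group G] [Finite G] {p n : ℕ} [hp : Fact p.Prime]
    (h : MaxCl p n (⊤ : Subgroup G)) (H : Subgroup G) : ℧[p](H).relIndex H ≤ p ^ p := by
  have p2 := hp.out.two_le
  by_cases hn : n ≤ p
  · exact (Nat.le_of_dvd (card_pos _) (relIndex_dvd_card _ _)).trans ((card_le le_top).trans
      (h.card.trans_le (Nat.pow_le_pow_right hp.out.pos hn)))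
  obtain ⟨x, hx, c⟩ : ∃ x ∈ (⊤ : Subgroup G), #(⊤ ⊓ C[x]) ≤ p ^ 2 := by
    by_cases h2 : p = 2
    · subst h2
      obtain ⟨m, rfl⟩ : ∃ m, n = m + 1 := ⟨n - 1, by omega⟩
      obtain ⟨a, b, e⟩ := h.mc (by omega)
      exact ⟨b, e.b_mem, e.card_cen1_b.le⟩
    · exact exists_unif h2 n h
  rcases (le_top : H ≤ ⊤).lt_or_eq with hH | rfl
  · exact idx_Mho_lt h hx c hH
  by_contra! hlt
  have hK : ℧[p]((⊤ : Subgroup G)) ≤ γ[p]((⊤ : Subgroup G)) := by
    obtain ⟨j, hj⟩ := (h.pGrp.mono (le_top : ℧[p]((⊤ : Subgroup G)) ≤ ⊤)).card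
    obtain ⟨h1, h2⟩ := relIndex_eq_pow hp.out le_top h.card hj
    rw [h2, Nat.pow_lt_pow_iff_right hp.out.one_lt] at hlt
    rw [h.eq_lcs (Mho_nml p _) hj (by omega)]
    exact lcs_anti _ (by omega)
  obtain ⟨z, hz, z1⟩ := SetLike.not_le_iff_exists.1 (not_lcs_le h (k := 1) (by omega))
  obtain ⟨g, hg, e⟩ := exists_comm_eq (H := ⊤) (x := x) (fun g hg => lcs_comm (i := 0) (j := 0) hg hx le_rfl)
    (by
      have := (FT.card_inf_mul_relIndex C[x] ⊤).symm.trans_le (Nat.mul_le_mul_right _ (inf_comm (⊤ : Subgroup G) _ ▸ c))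
      rw [h.card, show n = 2 + (n - 1 - 1) by omega, pow_add] at this
      exact h.card_lcs le_rfl ▸ Nat.le_of_mul_le_mul_left this (by positivity)) hz
  have h3 := iter_adj_not_mem (isFilt_lcs ⊤) (i := 2) (m := 2) hx (fun j hj y hy y1 e m => by
      obtain ⟨j, rfl⟩ := Nat.exists_eq_add_of_le' (show 1 ≤ j by omega)
      exact not_mem_tsc h hx c (k := j) (by omega) (le_of_lcs_ne h e)
        (mem_tsc_of h (by omega) (inv_mem hy) (fun m => y1 (inv_mem_iff.1 m)) hx m)) le_rfl hz z1 (p - 2)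
    (lcs_ne h (by omega))
  have h4 := engel (G := G ⧸ γ[p]((⊤ : Subgroup G))) (p := p) (fun a => by
      obtain ⟨a, rfl⟩ := QuotientGroup.mk_surjective a
      rw [← QuotientGroup.mk_pow, QuotientGroup.eq_one_iff]
      exact hK (subset_closure ⟨a, mem_top a, by rw [pow_one]⟩)) (by
      rw [← map_top_of_surjective _ (QuotientGroup.mk'_surjective _), ← map_lowerCentralSeries,
        Subgroup.map_eq_bot_iff, QuotientGroup.ker_mk']) (QuotientGroup.mk' _ x) (QuotientGroup.mk' _ g⁻¹)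
  rw [← map_adj, QuotientGroup.mk'_apply, QuotientGroup.eq_one_iff, show p - 1 = p - 2 + 1 by omega,
    Function.iterate_succ_apply, show adj x g⁻¹ = z by rw [adj, inv_inv, e]] at h4
  exact h3 (by rwa [show 2 + (p - 2) + 1 - 1 = p by omega])

end Cfsg.Agent.H9.Eng
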