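import Mathlib
import Cfsg.Agent.H9.EqC1
import Cfsg.Agent.FT.BG04p
import Cfsg.Agent.FT.PLen
import Cfsg.Agent.H3.Two

/-! Groups whose abelian subgroups of equal order are conjugate: quotients. -/

set_option autoImplicit false
set_option linter.unusedSectionVars false
set_option linter.style.haveILetI false

namespace Cfsg.Agent.H9.EqC

open Cfsg Subgroup Cfsg.Agent.FT
open scoped commutatorElement

universe u

variable {G : Type u} [Group G] [Finite G] {p q n m : ℕ} {π : Set ℕ} {M N F H K A B P Q S L T R X : Subgroup G}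
  {a b : G}

/-- abelian subgroups of `M` of equal order are conjugate in `M` -/
def BC (M : Subgroup G) : Prop :=
  ∀ A B : Subgroup G, A ≤ M → B ≤ M → Ab A → Ab B → #A = #B → ∃ g ∈ M, B = cj g A

theorem BC.oc2 (h : BC M) (hp : p.Prime) : OC (p ^ 2) M := fun A B hA hB e1 e2 =>
  h A B hA hB (ab_of_card_sq hp e1) (ab_of_card_sq hp e2) (e1.trans e2.symm)

theorem BC.oc1 (h : BC M) (hp : p.Prime) : OC p M := fun A B hA hB e1 e2 =>
  h A B hA hB (cyc_of_prime (e1 ▸ hp)).ab (cyc_of_prime (e2 ▸ hp)).ab (e1.trans e2.symm)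

theorem OC.prank_le (h : OC p M) (hp : p.Prime) (hN : N ⊴ M) (hc : #N = p) : prank p M ≤ 1 := by
  by_contra hr
  obtain ⟨E, hE⟩ := exists_pnElem_of_lt_prank (not_le.1 hr)
  have : E ≤ N := hE.le_Ohm.trans (Ohm_le_of_forall_pnElem hp fun Y hY =>
    h.le hN.nrm le_rfl hN.le hc hY.le hY.card_one)
  exact hE.not_cyc ((cyc_of_prime (hc ▸ hp)).mono this)

theorem mcq_of_not_ab (hp : p.Prime) (hP : PGrp p P) (hr : prank p P ≤ 1) (h : ¬ Ab P) :
    p = 2 ∧ ∃ a b m, H3.MCQ P a b m := by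
  by_cases h2 : p = 2
  · subst h2
    exact ⟨rfl, (H3.cyc_or_mcq_of_rank hP hr).resolve_left fun hc => h hc.ab⟩
  · obtain ⟨k, hk⟩ := hP.card
    exact absurd ((odd_pgroup_rank1_cyclic hp hP (hk ▸ (hp.odd_of_ne_two h2).pow)).2 hr).ab h

theorem le_of_four (h : H3.MCQ S a b m) (hL : ∀ T, T ≤ S → #T = 2 ^ 2 → T ≤ L) : S ≤ L := by
  have key : ∀ x, H3.MCQ S a x m → x ∈ L := fun x hx =>
    hL ⟪x⟫ (zpowers_le.2 hx.b_mem) (by rw [card_zpowers', hx.ord_b_four (hx.sq ▸ hx.z_ne)]; rfl) (mem_zpowers x)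
  have h1 := key b h
  have h2 := key (a * b) (h.out (h.mul_mem_S (mem_zpowers a)) (h.mul_not_mem (mem_zpowers a)))
  rw [← h.sup]
  refine sup_le (zpowers_le.2 ?_) (zpowers_le.2 h1)
  simpa using mul_mem h2 (inv_mem h1)

theorem OC.le_of_four (ho : OC (2 ^ 2) M) (h : H3.MCQ S a b m) (hS : S ≤ M) (hL : L ⊴ M) (hd : 2 ^ 2 ∣ #L) :
    S ≤ L := EqC.le_of_four h fun _ hT e => ho.le' Nat.prime_two hL hd (hT.trans hS) e

theorem cents_of_not_sq (hp : p.Prime) (hS : PGrp p S) (hT : T ⊴ S) (h : ¬ p ^ 2 ∣ #T) : S ≤ C(T) := by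
  obtain ⟨k, hk⟩ := (hS.mono hT.le).card
  have : k < 2 := by_contra fun h' => h (hk ▸ pow_dvd_pow p (not_lt.1 h'))
  interval_cases k
  · rw [(eq_bot_iff_card' (H := T)).2 (by simpa using hk), cen_bot]; exact le_top
  · exact hS.cents_of_prime (by simpa using hk) hp hT.nrm

theorem sq_dvd_of_cyc_quo (hp : p.Prime) (hS : PGrp p S) (hna : ¬ Ab S) (hn : S ≤ N(K)) (h : Cyc (S /ₛ K)) :
    p ^ 2 ∣ #(S ⊓ K) := by
  by_contra hd
  have h1 : S ⊓ K ⊴ S := nml_inf_of_norms hn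
  exact hna (ab_of_cyc_quo (le_inf inf_le_left (centsC (cents_of_not_sq hp hS h1 hd)))
    (h.quo_mono hn h1.nrm le_rfl))

theorem mcq_two (hs : Sol M) (ho : OC (2 ^ 2) M) (hS : Syl 2 S M) (h : H3.MCQ S a b m) : m = 2 := by
  have hR := ppCore_nml 2 M
  have h1 : S ≤ ppCore 2 M := by
    by_cases hd : 2 ^ 2 ∣ #(S ⊓ ppCore 2 M)
    · exact ho.le_of_four h hS.le hR (hd.trans (card_dvd inf_le_right))
    · exact (le_inf hS.le (cents_of_not_sq Nat.prime_two hS.pi (nml_inf_of_norms (hS.le.trans hR.nrm)) hd)).trans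
        (cent_syl_le_ppCore Nat.prime_two hs hS)
  have h2 := ppCore_sd Nat.prime_two (hS.subl h1 hR.le)
  by_contra hm
  have hm2 := h.two_le
  have hK := pcore_nml {2}ᶜ M
  have h3 : O[{2}ᶜ](M) ⊔ ⁅S, S⁆ ⊴ M := by
    have : O[{2}ᶜ](M) ⊔ ⁅S, S⁆ = O[{2}ᶜ](M) ⊔ ⁅ppCore 2 M, ppCore 2 M⁆ := by
      refine le_antisymm (sup_le_sup_left (der_mono h1) _) (sup_le le_sup_left ?_)
      have := der_sup_le h2.nrm
      rwa [h2.sup] at this
    exact this ▸ hK.sup hR.der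
  have h4 : S ≤ O[{2}ᶜ](M) ⊔ ⁅S, S⁆ := ho.le_of_four h hS.le h3 (Dvd.dvd.trans (by
    rw [h.der, card_zpowers', h.ord_sq]; exact pow_dvd_pow 2 (by omega)) (card_dvd le_sup_right))
  have h5 := inf_sup_right (L := S) ((der_le S).trans h2.nrm) (der_le S)
  rw [inf_eq_left.2 h4, inf_comm, h2.inf, bot_sup_eq, h.der] at h5
  exact h.a_not_mem_sq (h5 ▸ h.a_mem)

theorem syl_of_not_ab (hs : Sol M) (hB : BC M) (hp : p.Prime) (hr : prank p M ≤ 1) (hQ : PGrp p Q) (hle : Q ≤ M)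
    (h : ¬ Ab Q) : Syl p Q M ∧ #Q = 8 := by
  obtain ⟨S, hS, hQS⟩ := hQ.exists_syl hle
  obtain ⟨rfl, a, b, m, hm⟩ := mcq_of_not_ab hp hS.pi (hS.prank_syl ▸ hr) fun h' => h (h'.mono hQS)
  obtain rfl := mcq_two hs (hB.oc2 hp) hS hm
  have hc := hm.card
  have : Q = S := by
    by_contra hne
    have := hS.pi.mul_card_le (lt_of_le_of_ne hQS hne)
    exact h (hQ.ab_of_card_le hp (by omega))
  exact ⟨this ▸ hS, this ▸ hc⟩

theorem BC.quo_aux (hB : BC M) (hN : N ⊴ M) (hπ : PiGrp π N) {U V : Subgroup (Quo N)} (hU : U ≤ M /ₛ N)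
    (hV : V ≤ M /ₛ N) (h1 : Ab U) (h2 : Ab V) (hU' : PiGrp πᶜ U) (e : #U = #V) : ∃ g ∈ M /ₛ N, V = cj g U := by
  obtain ⟨A, hA, rfl, eA, iA⟩ := exists_lift hN hπ hU hU'
  obtain ⟨B, hB', rfl, eB, iB⟩ := exists_lift hN hπ hV (by unfold PiGrp; rw [← e]; exact hU')
  obtain ⟨g, hg, rfl⟩ := hB A B hA hB' (h1.of_quo (hA.trans hN.nrm) iA) (h2.of_quo (hB'.trans hN.nrm) iB)
    (by rw [eA, eB, e])
  exact ⟨_, mem_quo_of_mem (hN.nrm hg) hg, quo_cj (hN.nrm hg) A⟩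

theorem struct_prime (ho : OC p M) (hp : p.Prime) (hN : N ⊴ M) (hc : #N = p) (h1 : N ≤ A) (h2 : A ≤ M)
    (hd : ⁅A, A⁆ ≤ N) (hsq : p ^ 2 ∣ #A) : ∃ P D, Syl p P A ∧ Hall {p}ᶜ D A ∧ Ab D ∧ D ≤ C(P) ∧ P ⊔ D = A := by
  have hpN := pGrp_of_card_prime hp hc
  obtain ⟨P, hP, hNP⟩ := hpN.exists_syl h1
  have hPn : P ⊴ A := nml_of_der_le (hd.trans hNP) hP.le
  obtain ⟨D, hD, s⟩ := hP.exists_compl hPn.nrm
  refine ⟨P, D, hP, hD, ?_, ?_, s.sup⟩
  · exact ab_iff_der.2 (eq_bot_of_le (le_inf ((der_mono hD.le).trans (hd.trans hNP)) (der_le D)) s.inf)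
  · have hcop := hP.pi.cop hD.pi
    have hm := coprime_cent_prod s.nrm hcop hP.pi.sol
    have hcm : ⁅P, D⁆ ≤ N := (commSS hP.le hD.le).trans hd
    have hne : P ⊓ C(D) ≠ ⊥ := fun e => by
      have h3 : P ≤ N := by rw [← hm.sup, e, sup_bot_eq]; exact hcm
      obtain ⟨T, hT, eT⟩ := exists_card_pow_le hp hsq
      have h4 := (hP.card_le (pGrp_of_card hp eT) hT).trans (card_le h3)
      rw [eT, hc] at h4
      have := hp.two_le
      nlinarith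
    obtain ⟨Y, hY, eY⟩ := exists_card_prime_le hp ((hP.pi.inf_left _).dvd hne)
    have h5 := ho.le hN.nrm le_rfl hN.le hc (hY.trans (inf_le_left.trans (hP.le.trans h2))) eY
    have h6 : Y = N := eq_of_card_eq h5 (eY.trans hc.symm)
    exact coprime_cents_of_comm_cents s.nrm hcop (hcm.trans (h6 ▸ hY.trans inf_le_right))

theorem BC.quo_prime (hB : BC M) (hp : p.Prime) (hN : N ⊴ M) (hc : #N = p)
    (hna : ∀ Q, Q ≤ M → PGrp p Q → ¬ Ab Q → Syl p Q M) : BC (M /ₛ N) := fun U V hU hV h1 h2 e => by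
  have hpN := pGrp_of_card_prime hp hc
  by_cases hd : p ∣ #U
  · have st : ∀ U : Subgroup (Quo N), U ≤ M /ₛ N → Ab U → p ∣ #U → ∃ P D, Syl p P qpre(N, U) ∧
        Hall {p}ᶜ D qpre(N, U) ∧ Ab D ∧ D ≤ C(P) ∧ P ⊔ D = qpre(N, U) := fun U hU h1 hd =>
      struct_prime (hB.oc1 hp) hp hN hc (le_qpre U) (qpre_le_of_le_quo hN.le hU)
        (der_le_of_ab_quo (qpre_le U) (by rwa [quo_qpre])) (by rw [card_qpre, hc, pow_two]; exact mul_dvd_mul_left p hd)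
    obtain ⟨P, D, hP, hD, aD, cD, sD⟩ := st U hU h1 hd
    obtain ⟨Q, E, hQ, hE, aE, cE, sE⟩ := st V hV h2 (e ▸ hd)
    have hUM := qpre_le_of_le_quo hN.le hU
    have hVM := qpre_le_of_le_quo hN.le hV
    have e' : #qpre(N, U) = #qpre(N, V) := by rw [card_qpre, card_qpre, e]
    suffices ∃ g ∈ M, qpre(N, V) = cj g qpre(N, U) by
      obtain ⟨g, hg, e'⟩ := this
      exact ⟨_, mem_quo_of_mem (hN.nrm hg) hg, qpre_inj.1 (by rw [e', qpre_cj (hN.nrm hg)])⟩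
    by_cases hab : Ab P ∧ Ab Q
    · exact hB _ _ hUM hVM (sD ▸ hab.1.sup aD cD) (sE ▸ hab.2.sup aE cE) e'
    have ePQ : #P = #Q := by rw [hP.card, hQ.card, e']
    have hsyl : Syl p P M ∧ Syl p Q M := by
      rcases not_and_or.1 hab with h | h
      · have := hna P (hP.le.trans hUM) hP.pi h
        exact ⟨this, this.of_card_eq (hQ.le.trans hVM) ePQ.symm⟩
      · have := hna Q (hQ.le.trans hVM) hQ.pi h
        exact ⟨this.of_card_eq (hP.le.trans hUM) ePQ, this⟩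
    obtain ⟨g, hg, rfl⟩ := hB D E (hD.le.trans hUM) (hE.le.trans hVM) aD aE (by rw [hD.card, hE.card, e'])
    obtain ⟨c, hc', rfl⟩ := ((hsyl.1.cj_mem hg).subl_inf (centsC (cj_cents.2 cD))).syl_trans
      (hsyl.2.subl_inf (centsC cE))
    refine ⟨c * g, mul_mem hc'.1 hg, ?_⟩
    rw [← sD, ← sE, ← cj_cj, cj_sup, cj_sup, cj_of_mem_cen hc'.2]
  · exact hB.quo_aux hN hpN hU hV h1 h2 (p'grp_of_not_dvd hd) e

theorem BC.quo_min (hB : BC M) (hN : MinNml N M) (hle : N ≤ M) (hsN : Sol N) (hs : Sol M ∨ Odd #N) :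
    BC (M /ₛ N) := by
  have hNn : N ⊴ M := ⟨hle, hN.nrm⟩
  obtain ⟨p, hp, hE⟩ := hN.abelem hsN
  by_cases hcy : Cyc N
  · have hc := hE.card_of_cyc hp hcy hN.ne
    have hr := (hB.oc1 hp).prank_le hp hNn hc
    refine hB.quo_prime hp hNn hc fun Q hQ hpQ hna => ?_
    rcases hs with hs | hs
    · exact (syl_of_not_ab hs hB hp hr hpQ hQ hna).1
    · obtain ⟨rfl, -⟩ := mcq_of_not_ab hp hpQ ((prank_mono p hQ).trans hr) hna
      rw [hc] at hs; exact absurd hs (by decide)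
  · have hS : Syl p N M := (hB.oc2 hp).syl hp hNn hE (hE.sq_dvd_card hp hcy)
    exact fun U V hU hV h1 h2 e => hB.quo_aux hNn hS.pi hU hV h1 h2 ((hS.quo_pi' hN.nrm).mono hU) e

theorem bq (n : ℕ) : ∀ {G : Type u} [Group G] [Finite G] (M K : Subgroup G), #M = n → BC M → K ⊴ M → Sol K →
    Odd #K → ∀ A B, K ≤ A → A ≤ M → K ≤ B → B ≤ M → ⁅A, A⁆ ≤ K → ⁅B, B⁆ ≤ K → #A = #B → ∃ g ∈ M, B = cj g A := by
  induction n using Nat.strong_induction_on with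
  | _ n ih =>
  intro G _ _ M K hn hB hK hs ho A B h1 h2 h3 h4 h5 h6 e
  by_cases hb : K = ⊥
  · subst hb
    exact hB A B h2 h4 (ab_iff_der.2 (le_bot_iff.1 h5)) (ab_iff_der.2 (le_bot_iff.1 h6)) e
  obtain ⟨N, hNK, hN⟩ := exists_minNml hb hK.nrm
  have hNn : N ⊴ M := ⟨hNK.trans hK.le, hN.nrm⟩
  have hA : N ⊴ A := hNn.mono (hNK.trans h1) h2
  have hB' : N ⊴ B := hNn.mono (hNK.trans h3) h4
  obtain ⟨g, hg, e'⟩ := exists_cj_sup hNn h2 h4 (ih _ (hn ▸ card_quo_lt hNn hN.ne) (M /ₛ N) (K /ₛ N) rfl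
    (hB.quo_min hN hNn.le (hs.mono hNK) (Or.inr (odd_of_le hNK ho))) (hK.quo N) (hs.quo N) (odd_quo ho N) _ _
    (quo_mono N h1) (quo_mono N h2) (quo_mono N h3) (quo_mono N h4)
    (by rw [← quo_der hA.nrm]; exact quo_mono N h5) (by rw [← quo_der hB'.nrm]; exact quo_mono N h6) (by
      apply Nat.eq_of_mul_eq_mul_left (card_pos N)
      rw [card_quo_mul hA, card_quo_mul hB', e]))
  refine ⟨g, hg, ?_⟩
  rw [sup_eq_right.2 hB'.le, sup_eq_right.2] at e'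
  · exact e'
  · exact (cj_of_mem_nrm (hN.nrm hg)).symm.le.trans (cj_mono g hA.le)

end Cfsg.Agent.H9.EqC
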