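import Mathlib
import Cfsg.Agent.H9.EqC2

/-! Solvable groups whose abelian subgroups of equal order are conjugate. -/

set_option autoImplicit false
set_option linter.unusedSectionVars false
set_option linter.style.haveILetI false

namespace Cfsg.Agent.H9.EqC

open Cfsg Subgroup Cfsg.Agent.FT
open scoped commutatorElement

universe u

variable {G : Type u} [Group G] [Finite G] {p q n m : ℕ} {π : Set ℕ}
  {M N F H K A B P Q S L T R X V : Subgroup G} {a b : G}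

theorem trick (hab : Ab N) (hX : X ≤ N(R)) (hR : R ≤ N(N))
    (htr : ∀ v ∈ N, ∀ w ∈ N, v ≠ 1 → w ≠ 1 → ∃ g ∈ X, ⟪w⟫ = cj g ⟪v⟫) (hT : T ≤ R) (hn : R ≤ N(T))
    (hc : Cop N T) (h : N ⊓ C(T) ≠ ⊥) : T ≤ C(N) := by
  by_contra hne
  obtain ⟨w, hw, hw1⟩ := exists_ne_one (fun e => hne (comm_eq_bot'.1 e) : ⁅N, T⁆ ≠ ⊥)
  obtain ⟨v, hv, hv1⟩ := exists_ne_one h
  have hd := coprime_abelian_cent_dprod (hT.trans hR) hc hab
  have hwN : w ∈ N := hd.left hw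
  have hvw : v * w ≠ 1 := fun e => hw1 (eq_one_of_mem_inf hd.inf hw (by
    rw [eq_inv_of_mul_eq_one_right e]; exact inv_mem hv))
  have h1 : R ⊓ C[v * w] ≤ R ⊓ C[v] ⊓ C[w] := fun r hr => by
    have a1 : r * v * r⁻¹ ∈ N ⊓ C(T) := conj_mem (norms_subcent hR hn hr.1) hv
    have a2 : r * w * r⁻¹ ∈ ⁅N, T⁆ := conj_mem (normsR hR hn hr.1) hw
    have a3 : r * (v * w) = v * w * r := mem_cen1.1 hr.2
    have a4 : v⁻¹ * (r * v * r⁻¹) = w * (r * w * r⁻¹)⁻¹ := by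
      have : r * v * r⁻¹ = v * w * (r * w * r⁻¹)⁻¹ := by
        calc r * v * r⁻¹ = r * (v * w) * (w⁻¹ * r⁻¹) := by group
          _ = _ := by rw [a3]; group
      rw [this]; group
    have a5 : v⁻¹ * (r * v * r⁻¹) = 1 :=
      eq_one_of_mem_inf hd.inf (a4 ▸ mul_mem hw (inv_mem a2)) (mul_mem (inv_mem hv) a1)
    have a6 : w * (r * w * r⁻¹)⁻¹ = 1 := a4 ▸ a5
    refine ⟨⟨hr.1, mem_cen1.2 ?_⟩, mem_cen1.2 ?_⟩
    · calc r * v = v * (v⁻¹ * (r * v * r⁻¹)) * r := by group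
        _ = _ := by rw [a5, mul_one]
    · calc r * w = (w * (r * w * r⁻¹)⁻¹)⁻¹ * w * r := by group
        _ = _ := by rw [a6]; simp
  obtain ⟨g, hg, e⟩ := htr v hv.1 (v * w) (mul_mem hv.1 hwN) hv1 hvw
  have h2 : #(R ⊓ C[v * w]) = #(R ⊓ C[v]) := by
    rw [← cen_zpowers, e, ← cj_cen, cen_zpowers, ← card_cj g (R ⊓ C[v]), cj_inf, cj_of_mem_nrm (hX hg)]
  have h3 := eq_of_card_eq (h1.trans inf_le_left) h2
  have h4 : T ≤ C[w] := (le_inf hT (le_cen1.2 hv.2)).trans (h3.ge.trans (h1.trans inf_le_right))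
  exact hw1 (eq_one_of_mem_inf hd.inf hw ⟨hwN, le_cen1.1 h4⟩)

theorem lines (ho : OC q M) (hq : q.Prime) (hE : Abelem q N) (hN : N ≤ M) (hNF : N ≤ F) (h : MulEq F X M)
    (hF : Ab F) (hn : X ≤ N(F)) : ∀ v ∈ N, ∀ w ∈ N, v ≠ 1 → w ≠ 1 → ∃ g ∈ X, ⟪w⟫ = cj g ⟪v⟫ :=
  fun v hv w hw h1 h2 => by
    obtain ⟨g, hg, e⟩ := ho _ _ (zpowers_le.2 (hN hv)) (zpowers_le.2 (hN hw)) (hE.card_zpowers hq hv h1)
      (hE.card_zpowers hq hw h2)
    obtain ⟨x, hx, e'⟩ := exists_cj_of_mulEq h hF hn (zpowers_le.2 (hNF hv)) hg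
    exact ⟨x, hx, e.trans e'⟩

theorem syl_nml (s : ℕ) (hs' : s.Prime) (n : ℕ) : ∀ {G : Type u} [Group G] [Finite G] (M S : Subgroup G), #M = n →
    Sol M → BC M → Syl s S M → 1 < prank s M → Abelem s S ∧ M ≤ N(S) := by
  induction n using Nat.strong_induction_on with
  | _ n ih =>
  intro G _ _ M S hn hs hB hS hr
  have h1 : M ≠ ⊥ := by rintro rfl; simp [prank_bot] at hr
  obtain ⟨N, hNM, hN⟩ := exists_minNml h1 (le_nrm M)
  have hNn : N ⊴ M := ⟨hNM, hN.nrm⟩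
  obtain ⟨q, hq, hE⟩ := hN.abelem (hs.mono hNM)
  by_cases hqs : q = s
  · subst hqs
    have hcy : ¬ Cyc N := fun hcy =>
      not_le.2 hr ((hB.oc1 hq).prank_le hq hNn (hE.card_of_cyc hq hcy hN.ne))
    have := ((hB.oc2 hq).syl hq hNn hE (hE.sq_dvd_card hq hcy)).uniq_of_nml hN.nrm hS
    exact this ▸ ⟨hE, hN.nrm⟩
  have hN' : PiGrp {s}ᶜ N := (hE.pGrp hq).p' hqs
  have hcop : Cop N S := hN'.cop' hS.pi
  have hSN := hS.le.trans hN.nrm
  obtain ⟨a1, a2⟩ := ih _ (hn ▸ card_quo_lt hNn hN.ne) (M /ₛ N) (S /ₛ N) rfl (hs.quo N)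
    (hB.quo_min hN hNM (hs.mono hNM) (Or.inl hs)) (hS.quo hN.nrm) (by rwa [prank_quo_p' hN' hN.nrm])
  have hA : Abelem s S := a1.of_equiv (quoEquiv hSN hcop.inf).symm
  have h2 : M ≤ N(N ⊔ S) := qpre_quo hSN ▸ norms_qpre hN.nrm a2
  refine ⟨hA, ?_⟩
  have hm := coprime_norm_sup hNn hS.le h2 hcop (Or.inl hE.sol)
  obtain ⟨a, ha, ha1, ha2⟩ := coprime_abelian_exists_cent1_ne hA.ab (not_cyc_of_prank (hS.prank_syl ▸ hr)) hSN
    hcop hN.ne
  have h3 : ⟪a⟫ ≤ C(N) := trick hE.ab inf_le_right hSN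
    (lines (hB.oc1 hq) hq hE hNM le_rfl hm hE.ab (inf_le_left.trans hN.nrm)) (zpowers_le.2 ha)
    (hA.ab.norms (zpowers_le.2 ha)) (hcop.mono_right (zpowers_le.2 ha)) (by rwa [cen_zpowers])
  have h4 : S ≤ C(N) := by
    rw [← hA.Ohm_eq]
    exact Ohm_le_of_forall_pnElem hs' fun Y hY => (hB.oc1 hs').le (norms_cent hN.nrm) h3
      (zpowers_le.2 (hS.le ha)) (hA.card_zpowers hs' ha ha1) (hY.le.trans hS.le) hY.card_one
  exact (hS.subl le_sup_right (sup_le hNM hS.le)).norms_of_nml (sup_le (cents_norm (centsC h4)) (le_nrm S)) h2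

theorem quat_nml (n : ℕ) : ∀ {G : Type u} [Group G] [Finite G] (M S : Subgroup G), #M = n →
    Sol M → BC M → (∀ p, p.Prime → p ≠ 2 → ∀ P, Syl p P M → Cyc P) → prank 2 M ≤ 1 → Syl 2 S M → ¬ Ab S →
    M ≤ N(S) := by
  induction n using Nat.strong_induction_on with
  | _ n ih =>
  intro G _ _ M S hn hs hB hc hr hS hna
  have h1 : M ≠ ⊥ := by rintro rfl; exact hna (ab_bot.mono hS.le)
  obtain ⟨N, hNM, hN⟩ := exists_minNml h1 (le_nrm M)
  have hNn : N ⊴ M := ⟨hNM, hN.nrm⟩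
  obtain ⟨q, hq, hE⟩ := hN.abelem (hs.mono hNM)
  have hSN := hS.le.trans hN.nrm
  have hBq := hB.quo_min hN hNM (hs.mono hNM) (Or.inl hs)
  by_cases hq2 : q = 2
  · subst hq2
    have hcN := hE.card_of_cyc hq (hE.ab.cyc_of_prank (hE.pGrp hq) ((prank_mono 2 hNM).trans hr)) hN.ne
    have hle : N ≤ S := hS.ge_of_nml (hE.pGrp hq) hNn
    have h8 := (syl_of_not_ab hs hB hq hr hS.pi hS.le hna).2
    have h4 : #(S /ₛ N) = 2 ^ 2 := by
      have := card_quo_mul (hNn.mono hle hS.le)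
      rw [hcN, h8] at this; omega
    have hr' : 1 < prank 2 (M /ₛ N) := by
      by_contra h
      have := (ab_of_card_sq hq h4).cyc_of_prank (hS.pi.quo N) ((prank_mono 2 (quo_mono N hS.le)).trans (not_lt.1 h))
      exact hna (ab_of_cyc_quo (le_inf hle (centsC (hS.pi.cents_of_prime hcN hq hSN))) this)
    exact norms_of_quo hN.nrm (hNn.mono hle hS.le)
      (syl_nml 2 hq _ _ _ rfl (hs.quo N) hBq (hS.quo hN.nrm) hr').2
  have hN' : PiGrp {2}ᶜ N := (hE.pGrp hq).p' hq2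
  have hcop : Cop N S := hN'.cop' hS.pi
  have hcN : #N = q := by
    obtain ⟨P, hP, hle⟩ := (hE.pGrp hq).exists_syl hNM
    exact hE.card_of_cyc hq ((hc q hq hq2 P hP).mono hle) hN.ne
  have a2 := ih _ (hn ▸ card_quo_lt hNn hN.ne) (M /ₛ N) (S /ₛ N) rfl (hs.quo N) hBq
    (fun p hp h2 => cyc_syl_quo (hc p hp h2) hN.nrm) (by rwa [prank_quo_p' hN' hN.nrm]) (hS.quo hN.nrm)
    fun h => hna (h.of_quo hSN hcop.inf)
  have h2 : M ≤ N(N ⊔ S) := qpre_quo hSN ▸ norms_qpre hN.nrm a2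
  obtain ⟨-, a, b, m, hm⟩ := mcq_of_not_ab Nat.prime_two hS.pi (hS.prank_syl ▸ hr) hna
  have h4 : S ≤ C(N) := ((hB.oc2 Nat.prime_two).le_of_four hm hS.le (subcent_nml hN.nrm)
    ((sq_dvd_of_cyc_quo Nat.prime_two hS.pi hna (norms_cent hSN) (cyc_quo_cen_of_prime (hcN ▸ hq) hSN)).trans
      (card_dvd (inf_le_inf_right _ hS.le)))).trans inf_le_right
  exact (hS.subl le_sup_right (sup_le hNM hS.le)).norms_of_nml (sup_le (cents_norm (centsC h4)) (le_nrm S)) h2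

theorem eq_cj_of_sup (h : SD F X M) (hA : A ≤ X) (hB : B ≤ X) {f x : G} (hf : f ∈ F) (hx : x ∈ X)
    (e : F ⊔ B = cj (f * x) (F ⊔ A)) : B = cj x A := by
  have key : ∀ B : Subgroup G, B ≤ X → X ⊓ (F ⊔ B) = B := fun B hB => by
    rw [inf_sup_right (hB.trans h.nrm) hB, inf_comm, h.inf, bot_sup_eq]
  rw [← cj_cj, cj_sup, cj_of_mem_nrm (h.nrm hx), cj_of_mem (mem_sup_left hf)] at e
  rw [← key B hB, e, key _ (cj_le_of_mem hx hA)]

theorem BC.compl (hB : BC M) (h : SD F X M) : BC X := fun A B hA hB' h1 h2 e => by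
  obtain ⟨g, hg, e'⟩ := hB A B (hA.trans h.right) (hB'.trans h.right) h1 h2 e
  obtain ⟨f, hf, x, hx, rfl⟩ := h.mulEq.mul g hg
  exact ⟨x, hx, eq_cj_of_sup h hA hB' hf hx (by rw [cj_sup, cj_of_mem_nrm (h.nml.nrm hg), e'])⟩

/-- a group normalising all subgroups of some intermediate order normalises all lines -/
theorem norms_line (hq : q.Prime) (hE : Abelem q N) (hQ : Q ≤ N(N)) (hP : P < N) {v : G} (hv : v ∈ P) (h1 : v ≠ 1)
    (h : ∀ D, D ≤ N → #D = #P → Q ≤ N(D)) : Q ≤ N(⟪v⟫) := fun a ha => by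
  refine H3.mem_nrm_zpowers (by_contra fun hw => ?_)
  have hwN : a * v * a⁻¹ ∈ N := conj_mem (hQ ha) (hP.le hv)
  have hc := hE.card_zpowers hq hwN (conj_ne_one.2 h1)
  obtain ⟨C, hC, hd⟩ := hE.exists_compl_between hq (zpowers_le.2 hwN) (zpowers_le.2 (hP.le hv))
    (prime_inf_of_not_le (hc ▸ hq) fun h' => hw (h' (mem_zpowers _)))
  obtain ⟨k, hk⟩ := (hE.mono hP.le).card hq
  have h2 := (hE.pGrp hq).mul_card_le hP
  rw [hd.card, hc] at h2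
  obtain ⟨D, hD1, hD2, hD⟩ := ((hE.pGrp hq).mono hd.right).exists_between (n := k) hq hC
    (hk ▸ card_le (zpowers_le.2 hv)) (hk ▸ Nat.le_of_mul_le_mul_left h2 hq.pos)
  exact conj_ne_one.2 h1 (eq_one_of_mem_inf hd.inf (mem_zpowers _)
    (hD2 (conj_mem (h D (hD2.trans hd.right) (hD.trans hk.symm) ha) (hD1 (mem_zpowers v)))))

theorem cc_of_bc (hs : Sol M) (hB : BC M) : CC M := by
  let π : Set ℕ := {p | 1 < prank p M}
  have hF : Hall π O[π](M) M := hall_of_forall_syl (pcore_le π M) (pcore_pi π M) fun p hp hπ _ => by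
    obtain ⟨P, hP⟩ := exists_syl p M
    exact ⟨P, hP, pcore_max (hP.pi.pi hπ) ⟨hP.le, (syl_nml p hp _ M P rfl hs hB hP hπ).2⟩⟩
  have hn := pcore_nrm π M
  generalize O[π](M) = F at hF hn
  have hsyl : ∀ p P, p.Prime → Syl p P F → Abelem p P ∧ P ⊴ M := fun p P hp hP => by
    by_cases h1 : P = ⊥
    · exact h1 ▸ ⟨abelem_bot p, nml_bot M⟩
    have hπ : p ∈ π := hF.pi.mem_of_pgrp hP.pi h1 hP.le
    have := syl_nml p hp _ M P rfl hs hB (hF.subHall_syl hπ hP) hπ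
    exact ⟨this.1, hP.le.trans hF.le, this.2⟩
  have hab : Ab F := ab_iff.2 (le_of_forall_syl' fun p P hp hP => centsC (le_of_forall_syl' fun q Q hq hQ => by
    by_cases e : q = p
    · subst e
      rw [hP.uniq_of_nml (hF.le.trans (hsyl q P hp hP).2.nrm) hQ]
      exact (hsyl q P hp hP).1.ab.le_cen
    · exact (hsyl q Q hq hQ).2.cents_of_cop (hsyl p P hp hP).2 (hQ.pi.cop_of_ne hP.pi e)))
  refine cc_of_hall hs hF hn hab (fun U V hU hV e => hB U V (hU.trans hF.le) (hV.trans hF.le) (hab.mono hU)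
    (hab.mono hV) e) fun X V hX hV => ?_
  have sd := hF.sd hn hX
  have hrk : ∀ p P, PGrp p P → P ≤ X → P ≠ ⊥ → prank p M ≤ 1 := fun p P hP hle h1 =>
    not_lt.1 (hX.pi.mem_of_pgrp hP h1 hle)
  have hcyc : ∀ p, p.Prime → p ≠ 2 → ∀ P, PGrp p P → P ≤ X → Cyc P := fun p hp h2 P hP hle => by
    by_cases h1 : P = ⊥
    · exact h1 ▸ cyc_bot
    have hr := (prank_mono p (hle.trans hX.le)).trans (hrk p P hP hle h1)
    exact Ab.cyc_of_prank (by_contra fun h => h2 (mcq_of_not_ab hp hP hr h).1) hP hr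
  have hcL : ∀ p, p.Prime → p ≠ 2 → ∀ P, Syl p P (X ⊓ N(V)) → Cyc P := fun p hp h2 P hP =>
    hcyc p hp h2 P hP.pi (hP.le.trans inf_le_left)
  refine cc_of_dc _ _ 2 rfl (hs.mono (inf_le_left.trans hX.le)) (fun p hp => ?_) hcL
  by_cases h2 : p ≠ 2
  · exact dc_of_cyc (hcL p hp h2)
  obtain rfl := not_not.1 h2
  by_cases hall : ∀ P, Syl 2 P (X ⊓ N(V)) → Cyc P
  · exact dc_of_cyc hall
  push Not at hall
  obtain ⟨Q, hQ, hQc⟩ := hall
  have hQX : Q ≤ X := hQ.le.trans inf_le_left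
  have hQM : Q ≤ M := hQX.trans hX.le
  have hr := hrk 2 Q hQ.pi hQX fun e => hQc (e ▸ cyc_bot)
  have hna : ¬ Ab Q := fun h => hQc (h.cyc_of_prank hQ.pi ((prank_mono 2 hQM).trans hr))
  have hQS := (syl_of_not_ab hs hB hp hr hQ.pi hQM hna).1
  have hXQ : X ≤ N(Q) := quat_nml _ X Q rfl (hs.mono hX.le) (hB.compl sd)
    (fun p hp h2 P hP => hcyc p hp h2 P hP.pi hP.le) ((prank_mono 2 hX.le).trans hr) (hQS.subl hQX hX.le) hna
  obtain ⟨-, a, b, m, hm⟩ := mcq_of_not_ab hp hQ.pi ((prank_mono 2 hQM).trans hr) hna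
  have hcop : Cop F Q := hF.pi.cop (hX.pi.mono hQX)
  intro T U hT hU pT pU e
  have hTQ : T ≤ Q := hQ.le_of_nml (inf_le_left.trans hXQ) pT hT
  have hUQ : U ≤ Q := hQ.le_of_nml (inf_le_left.trans hXQ) pU hU
  by_cases hab' : Ab T ∧ Ab U
  swap
  · refine ⟨1, one_mem _, ?_⟩
    rw [cj_one]
    rcases not_and_or.1 hab' with h | h
    · have := ((syl_of_not_ab hs hB hp hr pT (hTQ.trans hQM) h).1).max hQ.pi hTQ hQM
      exact eq_of_card_eq (this ▸ hUQ) e.symm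
    · have := ((syl_of_not_ab hs hB hp hr pU (hUQ.trans hQM) h).1).max hQ.pi hUQ hQM
      exact (eq_of_card_eq (this ▸ hTQ) e).symm
  have hWF : V ⊓ C(Q) ≤ F := inf_le_left.trans hV
  have hcen : ∀ T : Subgroup G, T ≤ Q → T ≤ C(V ⊓ C(Q)) := fun T hT => hT.trans (centsC inf_le_right)
  have hinf : ∀ T : Subgroup G, T ≤ Q → F ⊓ (V ⊓ C(Q) ⊔ T) = V ⊓ C(Q) := fun T hT => by
    rw [inf_sup_left (cents_norm (hcen T hT)) hWF, (hcop.mono_right hT).inf, sup_bot_eq]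
  have hcard : ∀ T : Subgroup G, T ≤ Q → #(V ⊓ C(Q) ⊔ T) = #(V ⊓ C(Q)) * #T := fun T hT =>
    card_sup_of_inf (cents_norm (hcen T hT)) (hcop.mono hWF hT).inf
  obtain ⟨g, hg, e1⟩ := hB (V ⊓ C(Q) ⊔ T) (V ⊓ C(Q) ⊔ U) (sup_le (hWF.trans hF.le) (hTQ.trans hQM))
    (sup_le (hWF.trans hF.le) (hUQ.trans hQM)) ((hab.mono hWF).sup hab'.1 (hcen T hTQ))
    ((hab.mono hWF).sup hab'.2 (hcen U hUQ)) (by rw [hcard T hTQ, hcard U hUQ, e])
  obtain ⟨f, hf, x, hx, rfl⟩ := sd.mulEq.mul g hg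
  have hW : cj x (V ⊓ C(Q)) = V ⊓ C(Q) := by
    have h1 : cj (f * x) (V ⊓ C(Q)) = V ⊓ C(Q) := by
      conv_lhs => rw [← hinf T hTQ, cj_inf, cj_of_mem_nrm (hn hg), ← e1, hinf U hUQ]
    rwa [← cj_cj, cj_of_mem_nrm (hab.norms (cj_le_of_nrm (sd.nrm hx) hWF) hf)] at h1
  refine ⟨x, ⟨hx, mem_nrm_of_cj_le (cj_le_iff.2 (le_of_forall_syl' fun q P hq hP => cj_le_iff.1 ?_))⟩,
    eq_cj_of_sup sd (hTQ.trans hQX) (hUQ.trans hQX) hf hx ?_⟩
  swap
  · rw [← sup_eq_left.2 hWF, sup_assoc, sup_assoc, e1, cj_sup (f * x) F, cj_of_mem_nrm (hn hg)]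
  by_cases h1 : P = ⊥
  · rw [h1, cj_bot]; exact bot_le
  obtain ⟨R, hR, hPR⟩ := hP.pi.exists_syl (hP.le.trans hV)
  obtain ⟨hE, hRn⟩ := hsyl q R hq hR
  by_cases hPe : P = R
  · rw [cj_of_mem_nrm (hPe ▸ hRn.nrm (hX.le hx))]; exact hP.le
  have hQP : Q ≤ N(P) := (hab.mono hV).nil.norms_hall hP (hQ.le.trans inf_le_right)
  obtain ⟨v, hv, hv1⟩ := exists_ne_one h1
  have hQR := hQM.trans hRn.nrm
  have h3 : Q ≤ N(⟪v⟫) := norms_line hq hE hQR (lt_of_le_of_ne hPR hPe) hv hv1 fun D hD e => by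
    obtain ⟨g, hg, rfl⟩ := hB P D (hPR.trans hRn.le) (hD.trans hRn.le) (hE.ab.mono hPR) (hE.ab.mono hD) e.symm
    obtain ⟨y, hy, e'⟩ := exists_cj_of_mulEq sd.mulEq hab sd.nrm (hPR.trans hR.le) hg
    rw [e', ← cj_of_mem_nrm (hXQ hy), cj_norms]; exact hQP
  have h4 : Q ⊓ C(⟪v⟫) ≤ C(R) := trick hE.ab hXQ hQR (lines (hB.oc1 hq) hq hE hRn.le hR.le sd.mulEq hab sd.nrm)
    inf_le_left (norms_subcent (le_nrm Q) h3) (hcop.mono hR.le inf_le_left)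
    (ne_bot_of_mem ⟨hPR hv, centsC inf_le_right (mem_zpowers v)⟩ hv1)
  have h5 : Q ≤ C(R) := ((hB.oc2 hp).le_of_four hm hQM (subcent_nml hRn.nrm)
    ((sq_dvd_of_cyc_quo hp hQ.pi hna (norms_cent h3)
      (cyc_quo_cen_of_prime (hE.card_zpowers hq (hPR hv) hv1 ▸ hq) h3)).trans
      (card_dvd (le_inf (inf_le_left.trans hQM) h4)))).trans inf_le_right
  exact (cj_mono x (le_inf hP.le (hPR.trans (centsC h5)))).trans (hW.le.trans inf_le_left)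

theorem bc_top (hB : ∀ A B : Subgroup G, IsMulCommutative ↥A → IsMulCommutative ↥B → Nat.card ↥A = Nat.card ↥B →
    ∃ g : G, B = A.map (MulAut.conj g).toMonoidHom) : BC (⊤ : Subgroup G) := fun A B _ _ h1 h2 e =>
  let ⟨g, hg⟩ := hB A B h1 h2 e; ⟨g, mem_top g, hg⟩

theorem quo_of_comap (M : Subgroup G) [M.Normal] {A B : Subgroup (G ⧸ M)} {g : G}
    (h : B.comap (QuotientGroup.mk' M) = cj g (A.comap (QuotientGroup.mk' M))) :
    B = A.map (MulAut.conj (g : G ⧸ M)).toMonoidHom := by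
  ext u
  obtain ⟨x, rfl⟩ := QuotientGroup.mk'_surjective M u
  rw [← mem_comap, h, mem_cj, mem_comap, ← cj_def, mem_cj]
  simp

theorem card_comap (M : Subgroup G) [M.Normal] (A : Subgroup (G ⧸ M)) :
    #(A.comap (QuotientGroup.mk' M)) = #M * #A :=
  H3.card_comap_mk' M A

end Cfsg.Agent.H9.EqC
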