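import Mathlib
import Cfsg.Agent.H23.PB
import Cfsg.Agent.H24.SC
import Cfsg.Agent.H7.Deg3
import Cfsg.Agent.H6.Frobenius
import Cfsg.Agent.S3968

/-!
Groups all of whose nonlinear irreducible characters have prime degree.
-/

set_option autoImplicit false
set_option linter.unusedSectionVars false
set_option linter.unusedVariables false

namespace Cfsg.Agent.H9.Ez

open Cfsg Subgroup Cfsg.Agent.H7 Cfsg.Agent.H24.D1

universe u

def PD (G : Type*) [Group G] : Prop :=
  ∀ χ : G → ℂ, IsIrrCharacter G χ → charDegree χ = 1 ∨ (charDegree χ).Prime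

theorem syl1_of_deg {G : Type*} [Group G] [Finite G] [IsSimpleGroup G] (hG : commutator G = ⊤) {χ : G → ℂ}
    (hχ : IsIrrCharacter G χ) [hp : Fact (charDegree χ).Prime] : ∃ x : G, Syl1 (charDegree χ) x := by
  have h1 : χ ≠ fun _ => 1 := fun e => hp.out.ne_one (by rw [e]; exact charDegree_one)
  have h2 := H6.charKer_eq_bot_of_simple hχ h1
  obtain ⟨x, hx⟩ := exists_prime_orderOf_dvd_card' _ (irr_degree_dvd_card hχ)
  refine ⟨x, Syl1.of_order (fun h => ?_) hx⟩
  have h3 := S3968.result _ hp.out ⟨χ, hχ⟩ (char_one_eq (irr_char hχ))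
    (fun g hg => mem_bot.1 (h2 ▸ (H6.mem_charKer_iff_irr hχ).2 hg)) h
  have h4 := (IsSimpleGroup.eq_bot_or_eq_top_of_normal (center G) inferInstance).resolve_left h3
  refine hp.out.ne_one (comm_iff_deg.1 (fun a b => ?_) χ hχ)
  exact mem_center_iff.1 (h4.ge (mem_top b)) a

theorem PD.solvable {G : Type u} [Group G] [Finite G] (h : PD G) : Group.IsSolvable G := by
  refine H6.isSolvable_of_simple_sections (fun G _ => PD G) (fun G _ _ N _ h θ hθ => ?_)
    (fun G _ _ N _ h θ hθ => ?_) (fun G _ _ _ h => ?_) G h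
  · obtain ⟨χ, hχ, h1⟩ := exists_irr_over N.subtype_injective hθ
    obtain ⟨e, h2, -⟩ := (isNE_subtype N).deg_ratio hθ hχ h1
    rcases h χ hχ with h3 | h3
    · exact Or.inl (Nat.eq_one_of_mul_eq_one_left (h2 ▸ h3))
    · exact (h3.eq_one_or_self_of_dvd _ ⟨e, h2.trans (mul_comm _ _)⟩).imp_right fun e' => by rwa [e']
  · exact deg_comp (QuotientGroup.mk' N) θ ▸ h _ (irr_comp_surjective _ (QuotientGroup.mk'_surjective N) hθ)
  by_cases hc : ∀ a b : G, a * b = b * a
  · exact Group.isSolvable_of_comm hc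
  exfalso
  have hG : commutator G = ⊤ := (IsSimpleGroup.eq_bot_or_eq_top_of_normal _ inferInstance).resolve_left
    fun e => hc fun a b => commutatorElement_eq_one_iff_mul_comm.1
      (mem_bot.1 (e ▸ commutator_mem_commutator (mem_top a) (mem_top b)))
  obtain ⟨χ, hχ, hm⟩ := (irrSet G).exists_max_image charDegree ⟨1, mem_irrSet.2 irr_one⟩
  have hχ := mem_irrSet.1 hχ
  haveI hp : Fact (charDegree χ).Prime := ⟨(h χ hχ).resolve_left fun e => hc (comm_iff_deg.2 fun ψ hψ =>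
    le_antisymm (e ▸ hm ψ (mem_irrSet.2 hψ)) (irr_degree_pos hψ))⟩
  obtain ⟨x, hx⟩ := syl1_of_deg hG hχ
  obtain ⟨M, hM⟩ := exists_isPModular hp.out
  obtain ⟨X, ψ, ε, δ, F, h1⟩ := hx.exists_fam_principal hM
  have h2 := hx.relIndex_ne_one (hG ▸ mem_top x)
  rw [← F.card₀] at h2
  obtain ⟨φ, hφ, h3⟩ := Finset.exists_mem_ne (s := X) (by have := Finset.card_pos.2 ⟨_, h1⟩; omega) (H8.irrOne G)
  have h4 := H23.deg_ne_one hG h3
  have h5 := hm φ.1 (mem_irrSet.2 φ.2)
  haveI hq : Fact (charDegree φ.1).Prime := ⟨(h φ.1 φ.2).resolve_left (by omega)⟩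
  have h6 : charDegree χ = charDegree φ.1 + 1 := by
    have h6 := (F.degX₀ hφ).symm.dvd
    have := hp.out.two_le
    rcases F.sε φ hφ with e | e <;> rw [e] at h6
    · have := Int.le_of_dvd (by omega) h6
      omega
    · have h7 := Int.le_of_dvd (by omega) h6
      by_contra h8
      rw [show charDegree φ.1 = charDegree χ by omega, sub_neg_eq_add, Int.dvd_add_right dvd_rfl] at h6
      have := Int.le_of_dvd one_pos h6
      omega
  have h7 : charDegree φ.1 = 2 := by
    rcases hq.out.eq_two_or_odd with e | e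
    · exact e
    · rcases hp.out.eq_two_or_odd with e' | e' <;> omega
  obtain ⟨y, hy⟩ := syl1_of_deg hG φ.2
  have h8 := hy.relIndex_dvd
  rw [h7] at h8
  exact hy.relIndex_ne_one (hG ▸ mem_top y) (Nat.dvd_one.1 h8)

theorem PD.three {G : Type u} [Group G] [Finite G] (h : PD G) :
    ∃ m n, ∀ χ : G → ℂ, IsIrrCharacter G χ → charDegree χ = 1 ∨ charDegree χ = m ∨ charDegree χ = n := by
  haveI := h.solvable
  by_cases h1 : commutator G = ⊥
  · exact ⟨1, 1, fun χ hχ => Or.inl ((deg_eq_one_iff hχ).2 (h1 ▸ bot_le))⟩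
  obtain ⟨K, _, h2, h3⟩ := exists_max_nonabelian h1
  have h4 : ∀ a ∈ commutator (G ⧸ K), ∀ b ∈ commutator (G ⧸ K), a * b = b * a := by
    have := not_not.mp (mt (h3 _ inferInstance) (H2.commutator_lt_of_isSolvable h2).not_ge)
    exact fun a ha b hb => Subgroup.commutator_eq_bot_iff_le_centralizer.mp this hb a ha
  have hm : ∀ a b : ℕ, a ≠ 1 → b ≠ 1 → ∀ χ, IsIrrCharacter G χ → charDegree χ ≠ a * b := fun a b ha hb χ hχ e =>
    (h χ hχ).elim (fun e' => ha (Nat.eq_one_of_mul_eq_one_right (e ▸ e'))) fun e' =>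
      Nat.not_prime_mul ha hb (e ▸ e')
  obtain ⟨p, hp, h5⟩ | h5 := pgroup_or_frob h2 h3 h4
  · haveI := Fact.mk hp
    haveI := h5.isNilpotent
    obtain ⟨φ, hφ, -, h6, h7⟩ := exists_irr_commutator_le_center (QuotientGroup.mk'_surjective K) h2
    refine ⟨charDegree φ, 1, fun χ hχ => ?_⟩
    by_contra! hc
    haveI := H6.charCenter_normal (irr_cf hφ)
    refine hm _ _ h6 hc.1 _ (irr_mul_of_center hφ hχ (irr_res_of_coprime (isNE_subtype _) hχ ?_))
      (deg_mul (irr_char hφ) (irr_char hχ))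
    rw [Subgroup.range_subtype, ← sq_eq_index_charCenter hφ h7 (char_one_eq (irr_char hφ))]
    exact ((Nat.coprime_primes ((h φ hφ).resolve_left h6) ((h χ hχ).resolve_left hc.1)).2 hc.2.1.symm).pow_left _
  have hF := frobSec_of_quot K h2 h4 h5
  generalize (commutator (G ⧸ K)).comap (QuotientGroup.mk' K) = N at hF
  haveI := hF.nN
  have hN1 : N.index ≠ 1 := mt Subgroup.index_eq_one.mp hF.ne
  obtain ⟨r, hr, h6⟩ := Nat.exists_prime_and_dvd (mt Subgroup.relIndex_eq_one.mp hF.lt.not_ge)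
  haveI := Fact.mk hr
  obtain ⟨R⟩ : Nonempty (Sylow r N) := inferInstance
  obtain ⟨g, hg, h7⟩ := SetLike.not_le_iff_exists.mp fun h3 : (R : Subgroup N) ≤ K.subgroupOf N =>
    R.not_dvd_index (h6.trans (Subgroup.index_dvd_of_le h3))
  obtain ⟨k, hk⟩ := R.isPGroup' ⟨g, hg⟩
  obtain ⟨φ, hφ, e⟩ := mem_degSet.mp hF.index_mem
  refine ⟨N.index, r, fun χ hχ => ?_⟩
  by_contra! hc
  have hq := (h χ hχ).resolve_left hc.1
  have hψ := irr_res_of_coprime (isNE_subtype N) hχ (by
    rw [Subgroup.range_subtype]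
    exact (Nat.coprime_primes ((e ▸ h φ hφ).resolve_left hN1) hq).2 hc.2.1.symm)
  rcases hF.dichotomy hψ with h8 | h8
  · obtain ⟨ξ, hξ, e'⟩ := mem_degSet.mp h8
    exact hm _ _ hN1 hc.1 ξ hξ (e'.trans (by rw [deg_comp]))
  · have := dvd_degree_of_vanish hr (irr_char hψ) (congrArg Subtype.val hk) (not_not.mp (mt (h8 g) h7))
    rw [deg_comp] at this
    exact hc.2.2 ((Nat.prime_dvd_prime_iff_eq hr hq).1 this).symm

end Cfsg.Agent.H9.Ez
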