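import Mathlib
import Cfsg.Agent.H2.Misc
import Cfsg.Agent.H7.Deg2

/-!
Extendible characters of a Sylow normaliser.
-/

set_option autoImplicit false
set_option linter.unusedSectionVars false
set_option linter.unusedVariables false

namespace Cfsg.Agent.H9.Ez

open Cfsg Subgroup Cfsg.Agent.FT Cfsg.Agent.H7
open scoped commutatorElement

variable {G : Type*} [Group G] [Finite G] {p : ℕ} {P A H K : Subgroup G}

theorem closure_inf_le (hP : P ⊴ H) (hi : ¬ p ∣ P.relIndex H) (hA : A ⊴ H) (hd : ⁅P, P⁆ ≤ A)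
    (h : ∀ θ, IsIrrCharacter H θ → ¬ p ∣ charDegree θ → ∃ χ, IsIrrCharacter G χ ∧ ∀ x : H, χ x = θ x) :
    normalClosure (A : Set G) ⊓ H ≤ A := fun x hx => by
  haveI : (A.subgroupOf H).Normal := hA.normal
  haveI : (P.subgroupOf H).Normal := hP.normal
  refine H6.mem_of_forall_irr_charKer (A.subgroupOf H) (g := ⟨x, hx.2⟩) fun θ hθ hk => ?_
  obtain ⟨ψ, hψ, e⟩ := H6.exists_irr_quotient _ hθ hk
  haveI := Subgroup.Normal.map (inferInstance : (P.subgroupOf H).Normal) _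
    (QuotientGroup.mk'_surjective (A.subgroupOf H))
  obtain ⟨χ, hχ, h1⟩ := h θ hθ fun c => hi (c.trans ((degree_dvd_index_of_abelian_normal
    ((P.subgroupOf H).map (QuotientGroup.mk' _)) (by
      rintro _ ⟨a, ha, rfl⟩ _ ⟨b, hb, rfl⟩
      exact ((commutator_mem_iff_commute _ a b).1 (hd (commutator_mem_commutator ha hb))).eq) hψ
    (by rw [← char_one_eq (irr_char hθ), e]; rfl)).trans (index_map_dvd _ (QuotientGroup.mk'_surjective _))))
  haveI := H6.charKer_normal (irr_cf hχ)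
  have h2 : normalClosure (A : Set G) ≤ H6.charKer χ := normalClosure_le_normal fun a ha =>
    (H6.mem_charKer_iff_irr hχ).2 ((h1 ⟨a, hA.le ha⟩).trans
      ((H6.apply_eq_of_mem_charKer (hk ha)).trans (h1 1).symm))
  exact (H6.mem_charKer_iff_irr hθ).2 ((h1 _).symm.trans ((H6.apply_eq_of_mem_charKer (h2 hx.1)).trans (h1 1)))

theorem compl_of_ext (hp : p.Prime) (hP : Syl p P ⊤)
    (h : ∀ θ, IsIrrCharacter N(P) θ → ¬ p ∣ charDegree θ → ∃ χ, IsIrrCharacter G χ ∧ ∀ x : N(P), χ x = θ x) :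
    ∃ K : Subgroup G, K.Normal ∧ K ⊔ N(P) = ⊤ ∧ K ⊓ N(P) = ⊥ := by
  have hi := (hP.subl (le_nrm P) le_top).not_dvd hp
  have h1 := closure_inf_le (nml_nrm P) hi (nml_nrm P) (der_le P) h
  have h2 := closure_inf_le (nml_nrm P) hi (nml_nrm P).der le_rfl h
  have h3 : normalClosure ((⁅P, P⁆ : Subgroup G) : Set G) ≤ normalClosure (P : Set G) :=
    normalClosure_mono (der_le P)
  have h4 : P ≤ normalClosure (P : Set G) := le_normalClosure
  have h5 : ⁅P, P⁆ ≤ normalClosure ((⁅P, P⁆ : Subgroup G) : Set G) := le_normalClosure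
  have n1 : ∀ X : Subgroup G, X ≤ N(normalClosure (P : Set G)) := fun X =>
    le_top.trans (normalizer_eq_top _).ge
  have n2 : ∀ X : Subgroup G, X ≤ N(normalClosure ((⁅P, P⁆ : Subgroup G) : Set G)) := fun X =>
    le_top.trans (normalizer_eq_top _).ge
  generalize normalClosure (P : Set G) = K at *
  generalize normalClosure ((⁅P, P⁆ : Subgroup G) : Set G) = L at *
  have hS := hP.subl h4 le_top
  have hq : NPC p (K /ₛ L) := Burnside_normal_complement (hS.quo (n2 _)) (by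
    refine le_trans ?_ (ab_quo_of_der_le h5).le_cen
    rw [← quo_sup_left (n2 P), ← quo_subnorm K ⟨le_sup_left, n2 _⟩]
    refine quo_mono _ ?_
    rw [← ((hP.subl le_sup_right le_top).frattini (M := K ⊓ N(L ⊔ P))
      ⟨le_inf (sup_le h3 h4) (le_nrm _), inf_le_right⟩).sup]
    exact sup_le le_rfl (le_sup_of_le_right (le_trans (inf_le_inf_right _ inf_le_left) h1)))
  set M := qpre(L, O[{p}ᶜ](K /ₛ L)) with hM
  have n3 : ∀ X : Subgroup G, X ≤ N(M) := fun X => norms_qpre (n2 X) (norms_pcore _ (quo_norms _ (n1 X)))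
  have hMK : M ≤ K := qpre_le_of_le_quo h3 (pcore_le _ _)
  have h6 : M ⊓ P ≤ L := (quo_eq_bot (n2 _)).1 (((hP.pi.inf_right M).quo L).eq_bot
    ((pcore_pi _ _).mono ((quo_le_iff (n2 _)).2 inf_le_left)))
  have hSM := hP.inf_nml' (K := M) ⟨le_top, n3 _⟩
  have h7 := tate_rel hp hP.pi (n3 _) hSM
    ((le_inf h6 (inf_le_right.trans (le_nrm P))).trans (h2.trans (hP.pi.der_le_Phi)))
  have h8 : K ≤ M ⊔ P := by
    have := qpre_mono (K := L) (hq.sd (hS.quo (n2 _))).sup.ge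
    rw [qpre_quo (n2 _), qpre_sup, qpre_quo (n2 _), ← sup_assoc, sup_eq_left.2 (le_qpre _)] at this
    exact le_sup_right.trans this
  refine ⟨O[{p}ᶜ](M), normalizer_eq_top_iff.1 (top_unique (norms_pcore _ (n3 _))), top_unique ?_, ?_⟩
  · rw [← (hS.frattini (M := ⊤) ⟨le_top, n1 _⟩).sup, top_inf_eq]
    refine sup_le (h8.trans (sup_le ?_ (le_sup_of_le_right (le_nrm P)))) le_sup_right
    exact (h7.sd hSM).sup.ge.trans (sup_le_sup_left (inf_le_right.trans (le_nrm P)) _)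
  · exact (hP.pi.mono ((inf_le_inf_right _ ((pcore_le _ _).trans hMK)).trans h1)).eq_bot ((pcore_pi _ _).inf_left _)

theorem ext_of_compl [K.Normal] (h1 : K ⊔ H = ⊤) (h2 : K ⊓ H = ⊥) {θ : H → ℂ} (hθ : IsIrrCharacter H θ) :
    ∃ χ, IsIrrCharacter G χ ∧ ∀ x : H, χ x = θ x := by
  let e := MulEquiv.ofBijective ((QuotientGroup.mk' K).comp H.subtype) ⟨(injective_iff_map_eq_one _).2 fun a ha =>
    Subtype.ext (eq_one_of_mem_inf h2 ((QuotientGroup.eq_one_iff _).1 ha) a.2), fun q => by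
      obtain ⟨g, rfl⟩ := QuotientGroup.mk_surjective q
      obtain ⟨k, hk, y, hy, rfl⟩ := mem_sup_of_normal_left.1 (h1.ge (mem_top g))
      exact ⟨⟨y, hy⟩, by simp [(QuotientGroup.eq_one_iff k).2 hk]⟩⟩
  exact ⟨_, irr_comp_surjective (e.symm.toMonoidHom.comp (QuotientGroup.mk' K))
    (e.symm.surjective.comp (QuotientGroup.mk'_surjective K)) hθ, fun x => congrArg θ (e.symm_apply_apply x)⟩

end Cfsg.Agent.H9.Ez
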