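import Mathlib
import Cfsg.Agent.H7.Gag
import Cfsg.Agent.H7.Deg
import Cfsg.Agent.FT.Elem

/-!
Strongly real characters of even degree of `N ⋊ P`.
-/

set_option autoImplicit false
set_option linter.unusedSectionVars false
set_option linter.unusedVariables false

namespace Cfsg.Agent.H9.Ez

open Cfsg Subgroup Cfsg.Agent.FT Cfsg.Agent.H7
open scoped ComplexConjugate

variable {G : Type*} [Group G] [Finite G] {N P : Subgroup G}

theorem ip_perm_res (hN : ∀ a b : N, a * b = b * a) [N.Normal] (h1 : N ⊓ P = ⊥) (h2 : N ⊔ P = ⊤) {φ : N → ℂ}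
    (hφ : IsIrrCharacter N φ) : ip (fun n : N => ind P.subtype 1 n) φ = 1 := by
  have := ind_comp_of_mul (D := Unit) (f := P.subtype) (k := N.subtype) (a := 1) (b := 1) (by simp)
    (fun _ _ _ _ => rfl) (fun h x e => ⟨1, Subtype.ext (eq_one_of_mem_inf h1 (x.2.out |> fun hx => by
      rw [show (h : G) = x from e]; exact x.2) h.2).symm, Subtype.ext (eq_one_of_mem_inf h1 x.2 (by
      rw [← show (h : G) = x from e]; exact h.2)).symm⟩) (fun g => by
      obtain ⟨k, hk, y, hy, rfl⟩ := mem_sup_of_normal_left.1 (h2.ge (mem_top g))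
      exact ⟨⟨y, hy⟩, ⟨k, hk⟩, rfl⟩) (θ := 1) cf_one
  refine (congrArg (ip · φ) this).trans ?_
  rw [ip_ind_left _ _ (irr_cf hφ), ip_def]
  simp [irr_one_eq_one_of_comm hN hφ]

theorem exists_sreal [Fintype G] (hN : ∀ a b : N, a * b = b * a) [N.Normal] (h1 : N ⊓ P = ⊥) (h2 : N ⊔ P = ⊤)
    (hP : IsPGroup 2 P) (ho : Odd (Nat.card N)) (hN1 : N ≠ ⊥) {z : G} (hz : ∀ n ∈ N, z * n * z⁻¹ = n⁻¹) :
    ∃ χ, IsIrrCharacter G χ ∧ H6.fsInd χ = 1 ∧ 2 ∣ charDegree χ ∧
      ip (fun n : N => χ n) (fun n : N => χ n) = charDegree χ := by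
  letI : Fintype P := Fintype.ofFinite _
  obtain ⟨l, hl, l1⟩ := H6.exists_irr_not_le_charKer (G := N) (N := ⊤)
    (by haveI := (nontrivial_iff_ne_bot N).2 hN1; exact top_ne_bot)
  have hf := isNE_subtype N
  have hπ : IsCharacter G (ind P.subtype 1) := char_ind _ char_one
  have hr := fun φ (hφ : IsIrrCharacter N φ) => ip_perm_res hN h1 h2 hφ
  obtain ⟨χ, hχ, a1, a2⟩ := exists_common_irr (char_cf hπ) (ψ := ind N.subtype l) (by
    rw [ip_ind_right _ _ (char_cf hπ)]; exact (hr l hl).trans_ne one_ne_zero)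
  rw [ip_ind_left _ _ (irr_cf hχ), ip_ne_zero_comm] at a2
  obtain ⟨k, hk⟩ := ip_char_nat hπ (irr_char hχ)
  obtain ⟨m, m1, m2, m3⟩ := exists_mult (char_comp N.subtype (irr_char hχ))
  have key : ∀ φ, IsIrrCharacter N φ → k * m φ ≤ 1 := fun φ hφ => by
    obtain ⟨r, e⟩ := ip_char_nat (char_comp N.subtype (char_sub_smul_irr hπ hχ hk le_rfl)) (irr_char hφ)
    rw [show (fun x => (ind P.subtype 1 - (k : ℂ) • χ) (N.subtype x)) =
      (fun n : N => ind P.subtype 1 n) - (k : ℂ) • fun x => χ (N.subtype x) from rfl, ip_sub_left, ip_smul_left,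
      hr φ hφ, m1 φ hφ, sub_eq_iff_eq_add] at e
    have : 1 = r + k * m φ := by exact_mod_cast e
    omega
  have k0 : k ≠ 0 := fun e => a1 (by rw [hk, e, Nat.cast_zero])
  have m0 : m l ≠ 0 := fun e => a2 (by rw [m1 l hl, e, Nat.cast_zero])
  have k1 : k = 1 := by have := key l hl; nlinarith [Nat.pos_of_ne_zero k0, Nat.pos_of_ne_zero m0]
  have hlz : hf.cjf z l = star l := funext fun n => by
    rw [Pi.star_apply, RCLike.star_def, ← char_inv (irr_char hl), hf.cjf_apply]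
    exact congrArg l (hf.cj_eq (hz n n.2).symm)
  have hre : star χ = χ := by
    by_contra hne
    have b1 : ip (ind P.subtype 1 - χ) (star χ) ≠ 0 := by
      rw [ip_sub_left, ip_irr_ne hχ (irr_star hχ) (Ne.symm hne), sub_zero, ← star_one (R := P → ℂ), ind_star,
        ip_star_star]
      exact ip_ne_zero_comm.1 a1
    obtain ⟨r, e⟩ := ip_char_nat (char_comp N.subtype (char_sub_irr (char_sub_irr hπ hχ a1) (irr_star hχ) b1))
      (irr_char hl)
    rw [show (fun x => (ind P.subtype 1 - χ - star χ) (N.subtype x)) =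
      (fun n : N => ind P.subtype 1 n) - (fun x => χ (N.subtype x)) - star fun x => χ (N.subtype x) from rfl,
      ip_sub_left, ip_sub_left, hr l hl, m1 l hl, ← star_star l, ip_star_star, star_star, ← hlz,
      ip_natCast_comm ((hf.ip_res_cjf (irr_cf hχ) z l).trans (m1 l hl)), sub_sub, sub_eq_iff_eq_add] at e
    have : 1 = r + (m l + m l) := by exact_mod_cast e
    omega
  refine ⟨χ, hχ, ?_, ?_, ?_⟩
  · rw [fsInd_eq_of_odd P.subtype hχ ((H6.conj_eq_iff_im_eq_zero χ).1 hre) irr_one (fun _ => by simp) (m := 1)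
      (ip_natCast_comm (by rw [← ip_ind_left _ _ (irr_cf hχ), hk, k1])) odd_one, H6.fsInd_def]
    simp
  · have b1 := hf.degree_dvd_of_under hχ hl a2 (char_one_eq (irr_char hχ)) (char_one_eq (irr_char hl))
    refine Dvd.dvd.trans ?_ ((dvd_mul_right _ _).trans b1)
    have b2 := index_dvd_of_le (hf.range_le_inertia (irr_cf hl))
    obtain ⟨j, hj⟩ := IsPGroup.iff_card.1 hP
    rw [range_subtype, (isComplement'_of_disjoint_and_mul_eq_univ (disjoint_iff.2 h1)
      (by rw [← normal_mul, h2]; rfl)).symm.index_eq_card, hj] at b2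
    obtain ⟨i, -, hi⟩ := (Nat.dvd_prime_pow Nat.prime_two).1 b2
    rw [hi]
    refine dvd_pow_self _ fun e => l1 ?_
    rw [e, pow_zero, index_eq_one] at hi
    rw [H6.irr_eq_one_of_odd_of_real ho hl (hlz.symm.trans (hf.mem_inertia.1 (hi.ge (mem_top z)))), H6.charKer_one]
  · refine m3.trans (congrArg _ ?_)
    rw [← deg_comp N.subtype, m2]
    refine Finset.sum_congr rfl fun φ hφ => ?_
    have := key φ (mem_irrSet.1 hφ)
    rw [comm_iff_deg.1 hN φ (mem_irrSet.1 hφ)]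
    rw [k1, one_mul] at this
    interval_cases m φ <;> rfl

theorem card_le_ip_res [Fintype (IrrCharacter G)] {Θ : G → ℂ} (hΘ : IsCharacter G Θ) (T : Finset (IrrCharacter G))
    (h : ∀ μ ∈ T, ip Θ μ.1 = 1 ∧ ∀ n : N, μ.1 n = 1) {d : ℕ} (hd : ip (fun n : N => Θ n) 1 = d) : T.card ≤ d := by
  have h1 : ∀ μ : IrrCharacter G, ∃ r : ℕ, ip Θ μ.1 * ip (fun n : N => μ.1 n) 1 = r := fun μ => by
    obtain ⟨a, ha⟩ := ip_char_nat hΘ (irr_char μ.2)
    obtain ⟨b, hb⟩ := ip_char_nat (char_comp N.subtype (irr_char μ.2)) char_one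
    exact ⟨a * b, by rw [ha, Nat.cast_mul, ← hb]; rfl⟩
  choose r hr using h1
  have h2 : (fun n : N => Θ n) = ∑ μ : IrrCharacter G, ip Θ μ.1 • fun n : N => μ.1 n := by
    funext n
    rw [Finset.sum_apply]
    refine (congrFun (cf_expand (char_cf hΘ)) n).trans ?_
    rw [← sum_irr_eq_sum (fun χ => ip Θ χ • χ), Finset.sum_apply]
    rfl
  rw [h2, ip_sum_left] at hd
  simp only [ip_smul_left, hr] at hd
  have h3 : ∑ μ, r μ = d := by exact_mod_cast hd
  rw [← h3, Finset.card_eq_sum_ones]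
  refine (Finset.sum_le_sum fun μ hμ => ?_).trans (Finset.sum_le_sum_of_subset (Finset.subset_univ T))
  have := hr μ
  rw [(h μ hμ).1, funext (h μ hμ).2, one_mul] at this
  exact le_of_eq (by exact_mod_cast ip_one_one.symm.trans this)

theorem acd_le [Fintype G] [Fintype (IrrCharacter G)] (ho : Odd (Nat.card N)) {χ : G → ℂ} (hχ : IsIrrCharacter G χ)
    (h1 : H6.fsInd χ = 1) (h2 : 2 ∣ charDegree χ)
    (h3 : ip (fun n : N => χ n) (fun n : N => χ n) = charDegree χ) (S : Finset (IrrCharacter G))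
    (hS : ∀ φ, φ ∈ S ↔ (charDegree φ.1 = 1 ∨ 2 ∣ charDegree φ.1) ∧ H6.fsInd φ.1 = 1) :
    4 * S.card ≤ 3 * ∑ φ ∈ S, charDegree φ.1 := by
  classical
  set L := S.filter fun φ => charDegree φ.1 = 1 with hLd
  have hL : ∀ μ ∈ L, μ.1 1 = 1 ∧ ∀ g, μ.1 (g * g) = 1 := fun μ hμ => by
    obtain ⟨a, b⟩ := Finset.mem_filter.1 hμ
    have e : μ.1 1 = 1 := by rw [char_one_eq (irr_char μ.2), b, Nat.cast_one]
    refine ⟨e, fun g => ?_⟩
    have := linear_mul_conj (irr_char μ.2) e g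
    rwa [congrFun (not_not.1 (mt (H6.fsInd_eq_zero_iff μ.2).2 (((hS μ).1 a).2.trans_ne one_ne_zero))) g,
      ← linear_map_mul (irr_char μ.2) e] at this
  have hLN : ∀ μ ∈ L, ∀ n : N, μ.1 n = 1 := fun μ hμ n => by
    obtain ⟨k, hk⟩ := ho
    rw [← (hL μ hμ).2 ((n : G) ^ (k + 1)), ← pow_add, show k + 1 + (k + 1) = Nat.card N + 1 by omega, pow_succ,
      ← coe_pow, pow_card_eq_one', coe_one, one_mul]
  let F : IrrCharacter G → IrrCharacter G := fun μ =>
    if h : μ ∈ L then ⟨χ * μ.1, irr_mul_linear hχ (irr_char μ.2) (hL μ h).1⟩ else μ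
  have hF : ∀ μ ∈ L, (F μ).1 = χ * μ.1 := fun μ h => by simp only [F, dif_pos h]
  have a1 := Finset.card_le_mul_card_image (f := F) L (charDegree χ) fun ξ hξ => by
    obtain ⟨ν, hν, rfl⟩ := Finset.mem_image.1 hξ
    refine card_le_ip_res (N := N) (char_mul (irr_char (F ν).2) (char_star (irr_char hχ))) _ (fun μ hμ => ?_) ?_
    · obtain ⟨a, b⟩ := Finset.mem_filter.1 hμ
      refine ⟨?_, hLN μ a⟩
      rw [ip_mul_right, star_star, mul_comm, ← hF μ a, b, ip_irr_self (F ν).2]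
    · rw [← h3, ← ip_one_right_eq (fun n : N => χ n), hF ν hν]
      congr 1
      funext n
      simp [hLN ν hν n]
  have d0 := irr_degree_pos hχ
  have hd : ∀ μ ∈ L, charDegree (F μ).1 = charDegree χ := fun μ h => by
    rw [hF μ h, deg_mul (irr_char hχ) (irr_char μ.2), (Finset.mem_filter.1 h).2, mul_one]
  have a2 : L.image F ⊆ S.filter fun φ => ¬ charDegree φ.1 = 1 := fun ξ hξ => by
    obtain ⟨ν, hν, rfl⟩ := Finset.mem_image.1 hξ
    refine Finset.mem_filter.2 ⟨(hS _).2 ⟨Or.inr (hd ν hν ▸ h2), ?_⟩, by rw [hd ν hν]; omega⟩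
    rw [← h1, hF ν hν]
    simp [H6.fsInd_def, (hL ν hν).2]
  have a3 := Finset.sum_le_sum_of_subset (f := fun φ : IrrCharacter G => charDegree φ.1) a2
  rw [Finset.sum_const_nat (m := charDegree χ) fun ξ hξ => by
    obtain ⟨ν, hν, rfl⟩ := Finset.mem_image.1 hξ
    exact hd ν hν] at a3
  have a4 := Finset.card_nsmul_le_sum (S.filter fun φ => ¬ charDegree φ.1 = 1) (fun φ => charDegree φ.1) 2
    fun φ hφ => by
      obtain ⟨a, b⟩ := Finset.mem_filter.1 hφ
      exact Nat.le_of_dvd (irr_degree_pos φ.2) (((hS φ).1 a).1.resolve_left b)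
  have a5 : ∑ φ ∈ L, charDegree φ.1 = L.card * 1 :=
    Finset.sum_const_nat fun φ hφ => (Finset.mem_filter.1 hφ).2
  rw [← Finset.sum_filter_add_sum_filter_not S (fun φ => charDegree φ.1 = 1),
    ← Finset.card_filter_add_card_filter_not (s := S) (fun φ => charDegree φ.1 = 1), ← hLd]
  rw [smul_eq_mul] at a4
  rw [mul_comm] at a1
  omega

theorem exists_inverting [N.Normal] (hN : Ab N) (hP : IsPGroup 2 P) (hP1 : P ≠ ⊥) (h1 : N ⊓ P = ⊥)
    (h2 : N ⊔ P = ⊤) (hN1 : N ≠ ⊥) (hm : ∀ M : Subgroup G, M.Normal → M ≠ ⊥ → N ≤ M) :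
    ∃ z : G, ∀ n ∈ N, z * n * z⁻¹ = n⁻¹ := by
  have hP' : PGrp 2 P := (pGrp_iff Nat.prime_two).2 hP
  obtain ⟨z, hz, ho⟩ := exists_elt_of_prime_dvd Nat.prime_two ((hP'.mono inf_le_left).dvd (hP'.center_ne_bot hP1))
  have z1 : z ≠ 1 := fun e => by simp [e] at ho
  have hc : P ≤ C[z] := le_cen1.2 hz.2
  have h3 : N ⊓ C[z] = ⊥ := by
    by_contra h
    have h4 := (hm _ (nml_top_iff.1 ⟨le_top, h2.ge.trans (sup_le (hN.nml inf_le_left).nrm
      (normsI (le_top.trans (normalizer_eq_top N).ge) (norms_cen1 hc)))⟩) h).trans inf_le_right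
    have h5 := hm _ (nml_top_iff.1 ⟨le_top, h2.ge.trans (norms_zpowers_of_cen1 (sup_le h4 hc))⟩)
      (zpowers_ne_bot' z1)
    exact hN1 (le_bot_iff.1 (h1 ▸ le_inf le_rfl (h5.trans (zpowers_le.2 hz.1))))
  refine ⟨z, fun n hn => eq_inv_of_mul_eq_one_left (eq_one_of_mem_inf h3
    (N.mul_mem (Normal.conj_mem inferInstance n hn z) hn) (mem_cen1.2 ?_))⟩
  have h4 : z * z = 1 := by rw [← sq, ← ho, pow_orderOf_eq_one]
  have h5 := mem_cen1.1 (hN.le_cen1 hn (Normal.conj_mem inferInstance n hn z))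
  rw [inv_eq_of_mul_eq_one_right h4] at h5 ⊢
  conv_rhs => rw [h5]
  calc z * n * z * n * z = z * (n * (z * n * z)) := by group
    _ = _ := rfl

end Cfsg.Agent.H9.Ez
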