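import Mathlib
import Cfsg.Agent.H7.Base
import Cfsg.Agent.H6.Square

/-!
The small irreducible characters of a 4-transitive group.
-/

set_option autoImplicit false
set_option linter.unusedSectionVars false
set_option linter.unusedVariables false

namespace Cfsg.Agent.H9.Ez

open Cfsg Finset MulAction Cfsg.Agent.H7
open scoped ComplexConjugate

variable {G Ω : Type*} [Group G] [Fintype G] [Fintype Ω] [DecidableEq Ω] [MulAction G Ω]

theorem sum_card_smul_eq {X : Type*} [Fintype X] [DecidableEq X] [Nonempty X] [MulAction G X]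
    [IsPretransitive G X] (τ : X → X) : ∑ g : G, #{x | g • x = τ x} = Fintype.card G := by
  classical
  have h1 : ∀ x : X, Fintype.card X * #{g : G | g • x = τ x} = Fintype.card G := fun x => by
    obtain ⟨a, ha⟩ := exists_smul_eq G x (τ x)
    rw [← card_orbit_mul_card_stabilizer_eq_card_group G x, Fintype.card_subtype fun g => g ∈ stabilizer G x]
    congr 1
    · simp [orbit_eq_univ]
    · refine card_bij (fun g _ => a⁻¹ * g) (fun g hg => ?_) (fun _ _ _ _ e => mul_left_cancel e)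
        fun g hg => ⟨a * g, ?_, by simp⟩
      · simp only [mem_filter, mem_univ, true_and, mem_stabilizer_iff] at hg ⊢
        rw [mul_smul, hg, ← ha, inv_smul_smul]
      · simp only [mem_filter, mem_univ, true_and, mem_stabilizer_iff] at hg ⊢
        rw [mul_smul, hg, ha]
  simp only [card_filter]
  rw [sum_comm]
  simp only [← card_filter]
  refine Nat.eq_of_mul_eq_mul_left (Fintype.card_pos (α := X)) ?_
  simp [mul_sum, h1]

theorem sum_emb [IsMultiplyPretransitive G Ω 4] (h4 : 4 ≤ Fintype.card Ω) {k : ℕ} (hk : k ≤ 4)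
    (σ : Fin k → Fin k) (hσ : Function.Injective σ) :
    ∑ g : G, #{x : Fin k ↪ Ω | ∀ i, g • x i = x (σ i)} = Fintype.card G := by
  haveI : IsPretransitive G (Fin k ↪ Ω) := isMultiplyPretransitive_of_le (n := 4) hk (by simpa)
  haveI : Nonempty (Fin k ↪ Ω) := Function.Embedding.nonempty_of_card_le (by simpa using hk.trans h4)
  rw [← sum_card_smul_eq (G := G) fun x : Fin k ↪ Ω => (⟨σ, hσ⟩ : Fin k ↪ Fin k).trans x]
  refine sum_congr rfl fun g _ => congrArg _ (filter_congr fun x _ => ?_)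
  rw [Function.Embedding.ext_iff]
  rfl

variable (Ω) in
/-- fixed points -/
def FF (g : G) : Finset Ω := {x | g • x = x}

variable (Ω) in
/-- points in orbits of length two -/
def TT (g : G) : Finset Ω := {x | g • x ≠ x ∧ g • g • x = x}

theorem mem_FF {g : G} {x : Ω} : x ∈ FF Ω g ↔ g • x = x := by simp [FF]
theorem mem_TT {g : G} {x : Ω} : x ∈ TT Ω g ↔ g • x ≠ x ∧ g • g • x = x := by simp [TT]

theorem card_FF_sq (g : G) : #(FF Ω (g * g)) = #(FF Ω g) + #(TT Ω g) := by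
  rw [← card_union_of_disjoint (disjoint_left.2 fun x h h' => (mem_TT.1 h').1 (mem_FF.1 h))]
  congr 1
  ext x
  simp only [mem_union, mem_FF, mem_TT, mul_smul]
  grind

theorem cnt_fix (g : G) (k : ℕ) : #{x : Fin k ↪ Ω | ∀ i, g • x i = x (id i)} = (#(FF Ω g)).descFactorial k := by
  have := Fintype.card_congr (Equiv.codRestrict (Fin k) (FF Ω g : Set Ω))
  rw [Fintype.card_embedding_eq, Fintype.card_subtype] at this
  simpa [mem_FF, Fintype.card_subtype, FF] using this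

theorem cnt1 (g : G) : #{x : Fin 2 ↪ Ω | ∀ i, g • x i = x (![1, 0] i)} = #(TT Ω g) := by
  refine card_bij (fun x _ => x 0) (fun x hx => ?_) (fun x hx y hy e => ?_) fun a ha => ?_
  · simp only [mem_filter, mem_univ, true_and, Fin.forall_fin_succ] at hx
    simp_all [mem_TT]
  · simp only [mem_filter, mem_univ, true_and, Fin.forall_fin_succ] at hx hy
    ext i; fin_cases i <;> simp_all
  · rw [mem_TT] at ha
    exact ⟨⟨![a, g • a], fun i j => by fin_cases i <;> fin_cases j <;> simp <;> grind⟩,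
      by simp [Fin.forall_fin_succ]; exact ⟨rfl, ha.2⟩, rfl⟩

theorem cnt2 (g : G) : #{x : Fin 3 ↪ Ω | ∀ i, g • x i = x (![1, 0, 2] i)} = #(TT Ω g) * #(FF Ω g) := by
  rw [← card_product]
  refine card_bij (fun x _ => (x 0, x 2)) (fun x hx => ?_) (fun x hx y hy e => ?_) fun ⟨a, c⟩ ha => ?_
  · simp only [mem_filter, mem_univ, true_and, Fin.forall_fin_succ] at hx
    simp_all [mem_TT, mem_FF]
  · simp only [mem_filter, mem_univ, true_and, Fin.forall_fin_succ] at hx hy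
    ext i; fin_cases i <;> simp_all
  · rw [mem_product, mem_TT, mem_FF] at ha
    exact ⟨⟨![a, g • a, c], fun i j => by fin_cases i <;> fin_cases j <;> simp <;> grind⟩,
      by simp [Fin.forall_fin_succ]; exact ⟨rfl, ha.1.2, ha.2⟩, rfl⟩

theorem cnt3 (g : G) : #{x : Fin 4 ↪ Ω | ∀ i, g • x i = x (![1, 0, 2, 3] i)} =
    #(TT Ω g) * (#(FF Ω g) * #(FF Ω g) - #(FF Ω g)) := by
  rw [← offDiag_card, ← card_product]
  refine card_bij (fun x _ => (x 0, x 2, x 3)) (fun x hx => ?_) (fun x hx y hy e => ?_) fun ⟨a, c, d⟩ ha => ?_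
  · simp only [mem_filter, mem_univ, true_and, Fin.forall_fin_succ] at hx
    simp_all [mem_TT, mem_FF]
  · simp only [mem_filter, mem_univ, true_and, Fin.forall_fin_succ] at hx hy
    ext i; fin_cases i <;> simp_all
  · rw [mem_product, mem_offDiag, mem_TT, mem_FF, mem_FF] at ha
    exact ⟨⟨![a, g • a, c, d], fun i j => by fin_cases i <;> fin_cases j <;> simp <;> grind⟩,
      by simp [Fin.forall_fin_succ]; exact ⟨rfl, ha.1.2, ha.2.1, ha.2.2.1⟩, rfl⟩

theorem cnt4 (g : G) : #{x : Fin 4 ↪ Ω | ∀ i, g • x i = x (![1, 0, 3, 2] i)} + 2 * #(TT Ω g) =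
    #(TT Ω g) * #(TT Ω g) := by
  have : #{x : Fin 4 ↪ Ω | ∀ i, g • x i = x (![1, 0, 3, 2] i)} =
      #((TT Ω g).sigma fun a => ((TT Ω g).erase a).erase (g • a)) := by
    refine card_bij (fun x _ => ⟨x 0, x 2⟩) (fun x hx => ?_) (fun x hx y hy e => ?_) fun ⟨a, c⟩ ha => ?_
    · simp only [mem_filter, mem_univ, true_and, Fin.forall_fin_succ] at hx
      simp_all [mem_TT]
    · simp only [mem_filter, mem_univ, true_and, Fin.forall_fin_succ] at hx hy
      ext i; fin_cases i <;> simp_all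
    · simp only [mem_sigma, mem_erase, mem_TT] at ha
      exact ⟨⟨![a, g • a, c, g • c], fun i j => by fin_cases i <;> fin_cases j <;> simp <;> grind⟩,
        by simp [Fin.forall_fin_succ]; exact ⟨rfl, ha.1.2, rfl, ha.2.2.2.2⟩, rfl⟩
  rw [this, card_sigma, mul_comm 2, ← smul_eq_mul, ← sum_const, ← sum_add_distrib, ← smul_eq_mul, ← sum_const]
  refine sum_congr rfl fun a ha => ?_
  rw [← card_erase_add_one ha, ← card_erase_add_one (a := g • a) (s := (TT Ω g).erase a)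
    (by simp only [mem_erase, mem_TT] at ha ⊢; grind)]


variable (Ω) in
/-- the three small characters -/
noncomputable def sm (j : Fin 3) (g : G) : ℂ :=
  ![(#(FF Ω g) : ℂ) - 1, ((#(FF Ω g) : ℂ) ^ 2 - 3 * #(FF Ω g) - #(TT Ω g) + 2) / 2,
    ((#(FF Ω g) : ℂ) ^ 2 - 3 * #(FF Ω g) + #(TT Ω g)) / 2] j

theorem gen_sm (j : Fin 3) : IsGeneralizedCharacter G (sm Ω j) := by
  have h : IsCharacter G fun g => (#(FF Ω g) : ℂ) := by
    convert H6.isCharacter_perm (G := G) Ω using 3 with g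
    rw [← Nat.card_eq_finsetCard]
    exact Nat.card_congr (Equiv.subtypeEquivRight fun x => mem_FF)
  have h1 := H6.isGen_of_isCharacter h
  fin_cases j
  · exact H6.isGen_sub h1 H6.isGen_one
  · convert H6.isGen_add (H6.isGen_sub (H6.isGen_of_isCharacter (H6.isCharacter_altSq h)) h1) H6.isGen_one using 1
    funext g; simp [sm, card_FF_sq]; ring
  · convert H6.isGen_sub (H6.isGen_sub (H6.isGen_of_isCharacter (H6.isCharacter_symSq h)) h1) h1 using 1
    funext g; simp [sm, card_FF_sq]; ring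

theorem irr_sm [IsMultiplyPretransitive G Ω 4] (h4 : 4 ≤ Fintype.card Ω) (j : Fin 3) :
    IsIrrCharacter G (sm Ω j) := by
  have c : ∀ {F : G → ℕ} {F' : G → ℂ}, ∑ g, F g = Fintype.card G → (∀ g, (F g : ℂ) = F' g) →
      ∑ g, F' g = Fintype.card G := fun h h' => by rw [← h, Nat.cast_sum]; simp only [h']
  have m := fun k (hk : k ≤ 4) => c (sum_emb (G := G) h4 hk id Function.injective_id) fun g => by
    rw [cnt_fix, ← descPochhammer_eval_eq_descFactorial ℂ]
  have m1 := m 1 (by norm_num)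
  have m2 := m 2 (by norm_num)
  have m4 := m 4 le_rfl
  simp only [descPochhammer_succ_eval, descPochhammer_zero, Polynomial.eval_one] at m1 m2 m4
  have t1 := c (sum_emb (G := G) h4 (by norm_num) _ (by decide : Function.Injective ![(1 : Fin 2), 0])) fun g => by
    rw [cnt1]
  have t2 := c (sum_emb (G := G) h4 (by norm_num) _ (by decide : Function.Injective ![(1 : Fin 3), 0, 2])) fun g => by
    rw [cnt2, Nat.cast_mul]
  have t3 := c (sum_emb (G := G) h4 le_rfl _ (by decide : Function.Injective ![(1 : Fin 4), 0, 2, 3])) fun g => by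
    rw [cnt3, Nat.cast_mul, Nat.cast_sub (Nat.le_mul_self _), Nat.cast_mul]
  have t4 := c (sum_emb (G := G) h4 le_rfl _ (by decide : Function.Injective ![(1 : Fin 4), 0, 3, 2])) fun g =>
    eq_sub_of_add_eq (by exact_mod_cast cnt4 (Ω := Ω) g : _ + (2 * #(TT Ω g) : ℂ) = #(TT Ω g) * #(TT Ω g))
  have t0 : ∑ g : G, (1 : ℂ) = Fintype.card G := by simp
  refine H6.isIrr_of_norm_one_of_nonneg (gen_sm j) ?_ ?_
  · rw [← ip_eq_classInner, ip_def, inv_mul_eq_one₀ (card_ne_zero' G), Nat.card_eq_fintype_card]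
    have e : ∀ {a₀ a₁ a₂ a₃ a₄ a₅ a₆ a₇ : ℂ} {F F₁ F₂ F₃ F₄ F₅ F₆ F₇ : G → ℂ} {c : ℂ}, ∑ g : G, (1 : ℂ) = c →
        ∑ g, F₁ g = c → ∑ g, F₂ g = c → ∑ g, F₃ g = c → ∑ g, F₄ g = c → ∑ g, F₅ g = c → ∑ g, F₆ g = c →
        ∑ g, F₇ g = c → a₀ + a₁ + a₂ + a₃ + a₄ + a₅ + a₆ + a₇ = 1 → (∀ g, F g = a₀ * 1 + a₁ * F₁ g + a₂ * F₂ g +
          a₃ * F₃ g + a₄ * F₄ g + a₅ * F₅ g + a₆ * F₆ g + a₇ * F₇ g) → c = ∑ g, F g := by
      intro a₀ a₁ a₂ a₃ a₄ a₅ a₆ a₇ F F₁ F₂ F₃ F₄ F₅ F₆ F₇ c h₀ h₁ h₂ h₃ h₄ h₅ h₆ h₇ h h'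
      simp only [h', sum_add_distrib, ← mul_sum, h₀, h₁, h₂, h₃, h₄, h₅, h₆, h₇, ← add_mul, h, one_mul]
    replace e := fun a₀ a₁ a₂ a₃ a₄ a₅ a₆ a₇ F => @e a₀ a₁ a₂ a₃ a₄ a₅ a₆ a₇ F _ _ _ _ _ _ _ _ t0 m1 m2 m4 t1 t2 t3 t4
    fin_cases j
    · exact e 1 (-1) 1 0 0 0 0 0 _ (by norm_num) fun g => by
        simp [sm, map_ofNat]; ring
    · exact e 1 (-1) (1 / 2) (1 / 4) (-1 / 2) 1 (-1 / 2) (1 / 4) _ (by norm_num) fun g => by
        simp [sm, map_ofNat]; ring
    · exact e 0 1 (-1 / 2) (1 / 4) (1 / 2) (-1) (1 / 2) (1 / 4) _ (by norm_num) fun g => by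
        simp [sm, map_ofNat]; ring
  · have h : (4 : ℝ) ≤ Fintype.card Ω := by exact_mod_cast h4
    fin_cases j <;> simp [sm, FF, TT, sq] <;> nlinarith

theorem exists_van {n : ℕ} (hn : 7 ≤ n) (x : alternatingGroup (Fin n))
    (h : #(FF (Fin n) x) = 1 ∨ (#(TT (Fin n) x) = 0 ∧ #(FF (Fin n) x) ≤ 3)) :
    ∃ χ : IrrCharacter (alternatingGroup (Fin n)), χ.1 x = 0 ∧
      ∃ ψ : IrrCharacter (Equiv.Perm (Fin n)), ∀ y : alternatingGroup (Fin n), ψ.1 y = χ.1 y := by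
  haveI := Equiv.Perm.isMultiplyPretransitive (Fin n) 4
  haveI := alternatingGroup.isMultiplyPretransitive (Fin n)
  haveI : IsMultiplyPretransitive (alternatingGroup (Fin n)) (Fin n) 4 :=
    isMultiplyPretransitive_of_le (n := Nat.card (Fin n) - 2) (by simp; omega) (by omega)
  have h4 : 4 ≤ Fintype.card (Fin n) := by simp; omega
  suffices ∃ j, sm (Fin n) j x = 0 from
    let ⟨j, hj⟩ := this
    ⟨⟨_, irr_sm h4 j⟩, hj, ⟨_, irr_sm h4 j⟩, fun _ => rfl⟩
  rcases h with h | ⟨h, h'⟩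
  · exact ⟨0, by simp [sm, h]⟩
  · interval_cases h1 : #(FF (Fin n) x)
    · exact ⟨2, by simp [sm, h, h1]⟩
    · exact ⟨0, by simp [sm, h1]⟩
    · exact ⟨1, by simp [sm, h, h1]; norm_num⟩
    · exact ⟨2, by simp [sm, h, h1]; norm_num⟩

theorem exists_type {n : ℕ} (m : Multiset ℕ) (h1 : m.sum ≤ n) (h2 : ∀ a ∈ m, 2 ≤ a) (h3 : Even (m.sum + m.card)) :
    ∃ x : alternatingGroup (Fin n), orderOf x = m.lcm ∧ #(FF (Fin n) x) = n - m.sum ∧
      (2 ∉ m → #(TT (Fin n) x) = 0) := by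
  obtain ⟨g, rfl⟩ := (Equiv.Perm.exists_with_cycleType_iff (Fin n)).2 ⟨by simpa, h2⟩
  refine ⟨⟨g, by rw [Equiv.Perm.mem_alternatingGroup, Equiv.Perm.sign_of_cycleType, h3.neg_one_pow]⟩,
    by rw [Equiv.Perm.lcm_cycleType, Subgroup.orderOf_mk], ?_, fun h => card_eq_zero.2 (eq_empty_of_forall_notMem
      fun a ha => h ?_)⟩
  · refine Eq.trans (congrArg _ ?_) ((card_compl g.support).trans (by simp [Equiv.Perm.sum_cycleType]))
    ext a
    simp [mem_FF]
  · obtain ⟨a1, a2⟩ : g a ≠ a ∧ g (g a) = a := mem_TT.1 ha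
    have hc := Equiv.Perm.isCycle_cycleOf g a1
    have h4 : g.cycleOf a ^ 2 = 1 := hc.pow_eq_one_iff.2
      ⟨a, by simpa using a1, by rw [Equiv.Perm.cycleOf_pow_apply_self, sq]; exact a2⟩
    rw [← orderOf_eq_prime h4 hc.ne_one, hc.orderOf, Equiv.Perm.cycleType_def]
    exact Multiset.mem_map.2 ⟨_, Equiv.Perm.cycleOf_mem_cycleFactorsFinset_iff.2 (by simpa using a1), rfl⟩

theorem pow_two_of_lcm {m : Multiset ℕ} (h : ∀ a ∈ m, a ∣ 2 ^ 3) : ∃ j, m.lcm = 2 ^ j :=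
  let ⟨j, _, hj⟩ := (Nat.dvd_prime_pow Nat.prime_two).1 (Multiset.lcm_dvd.2 h)
  ⟨j, hj⟩

theorem exists_two {n : ℕ} (hn : 7 ≤ n) : ∃ x : alternatingGroup (Fin n), (∃ j, orderOf x = 2 ^ j) ∧
    (#(FF (Fin n) x) = 1 ∨ (#(TT (Fin n) x) = 0 ∧ #(FF (Fin n) x) ≤ 3)) := by
  rcases hn.eq_or_lt with rfl | hn
  · obtain ⟨x, h1, h2, -⟩ := exists_type (n := 7) {4, 2} (by simp) (by simp) (by decide)
    exact ⟨x, h1 ▸ pow_two_of_lcm (by simp), Or.inl h2⟩
  obtain ⟨k, h | h⟩ := Nat.even_or_odd' (n / 4)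
  · obtain ⟨x, h1, h2, h3⟩ := exists_type (n := n) (Multiset.replicate (2 * k) 4) (by simp; omega)
      (by simp [Multiset.mem_replicate]) (by simp [parity_simps])
    exact ⟨x, h1 ▸ pow_two_of_lcm (by simp [Multiset.mem_replicate]), Or.inr ⟨h3 (by simp [Multiset.mem_replicate]),
      by simp at h2; omega⟩⟩
  · obtain ⟨k, rfl⟩ : ∃ l, k = l + 1 := ⟨k - 1, by omega⟩
    obtain ⟨x, h1, h2, h3⟩ := exists_type (n := n) (8 ::ₘ Multiset.replicate (2 * k + 1) 4) (by simp; omega)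
      (by simp [Multiset.mem_replicate]) (by simp [parity_simps])
    exact ⟨x, h1 ▸ pow_two_of_lcm (by simp [Multiset.mem_replicate]), Or.inr ⟨h3 (by simp [Multiset.mem_replicate]),
      by simp at h2; omega⟩⟩

theorem exists_three {n : ℕ} (hn : 7 ≤ n) : ∃ x : alternatingGroup (Fin n), orderOf x = 3 ∧
    (#(FF (Fin n) x) = 1 ∨ (#(TT (Fin n) x) = 0 ∧ #(FF (Fin n) x) ≤ 3)) := by
  obtain ⟨x, h1, h2, h3⟩ := exists_type (n := n) (Multiset.replicate (n / 3) 3) (by simp; omega)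
    (by simp [Multiset.mem_replicate]) (by simp [parity_simps])
  refine ⟨x, h1.trans (Nat.dvd_antisymm (Multiset.lcm_dvd.2 (by simp [Multiset.mem_replicate]))
    (Multiset.dvd_lcm (by simp [Multiset.mem_replicate]; omega))), Or.inr ⟨h3 (by simp [Multiset.mem_replicate]),
      by simp at h2; omega⟩⟩

end Cfsg.Agent.H9.Ez
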