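import Mathlib
import Cfsg.Agent.FT.BG04p

/-!
An odd `p`-group acting coprimely: a vector whose stabiliser lies in a proper invariant subgroup.
-/

set_option autoImplicit false
set_option linter.unusedSectionVars false
set_option linter.unusedVariables false

namespace Cfsg.Agent.H9.FM

open Cfsg Subgroup Cfsg.Agent.FT

universe u
variable {X : Type u} [Group X] [Finite X] {V M P K L D B : Subgroup X} {p : ℕ} {x v w : X}

theorem crt {ι : Type*} [DecidableEq ι] (hV : Ab V) (S : Finset ι) (f : ι → X) (hf : ∀ i ∈ S, f i ∈ V) :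
    ∃ v ∈ V, (∀ T : Subgroup X, (∀ i ∈ S, f i ∈ T) → v ∈ T) ∧
      ∀ i ∈ S, ∀ T : Subgroup X, (∀ j ∈ S, j ≠ i → f j ∈ T) → v * (f i)⁻¹ ∈ T := by
  induction S using Finset.induction_on with
  | empty => exact ⟨1, V.one_mem, fun T _ => T.one_mem, fun i hi => absurd hi (Finset.notMem_empty i)⟩
  | insert a S ha ih =>
    obtain ⟨v, hv, h1, h2⟩ := ih fun i hi => hf i (Finset.mem_insert_of_mem hi)
    have haV := hf a (Finset.mem_insert_self a S)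
    refine ⟨f a * v, mul_mem haV hv, fun T hT => mul_mem (hT a (Finset.mem_insert_self a S))
      (h1 T fun i hi => hT i (Finset.mem_insert_of_mem hi)), fun i hi T hT => ?_⟩
    rcases Finset.mem_insert.1 hi with rfl | hi
    · rw [hV.comm haV hv, mul_inv_cancel_right]
      exact h1 T fun j hj => hT j (Finset.mem_insert_of_mem hj) fun e => ha (e ▸ hj)
    · rw [mul_assoc]
      exact mul_mem (hT a (Finset.mem_insert_self a S) fun e => ha (e ▸ hi))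
        (h2 i hi T fun j hj => hT j (Finset.mem_insert_of_mem hj))

theorem proj (hV : Ab V) (hc : Cop V K) (hK : K ≤ N(V)) (hx : x ∈ N(V)) (hxK : x ∈ N(K)) (hw : w ∈ V ⊓ C(K))
    (h : v * w⁻¹ ∈ ⁅V, K⁆) (hxv : x ∈ C[v]) : x ∈ C[w] := by
  have h1 : x * w * x⁻¹ * w⁻¹ ∈ C(K) :=
    mul_mem (conj_mem (norms_cent (zpowers_le.2 hxK) (mem_zpowers x)) hw.2) (inv_mem hw.2)
  have h2 : x * w * x⁻¹ * w⁻¹ ∈ ⁅V, K⁆ := by
    have := mul_mem (conj_mem (normsR (zpowers_le.2 hx) (zpowers_le.2 hxK) (mem_zpowers x)) (inv_mem h)) h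
    convert this using 1
    have e : x⁻¹ * v = v * x⁻¹ := by rw [inv_mul_eq_iff_eq_mul, ← mul_assoc, mem_cen1.1 hxv, mul_inv_cancel_right]
    calc _ = x * w * v⁻¹ * (v * x⁻¹) * w⁻¹ := by group
      _ = _ := by rw [← e]; group
  have := eq_one_of_mem_inf (coprime_abel_cent_TI hK hc hV) h2 h1
  rwa [mul_inv_eq_one, mul_inv_eq_iff_eq_mul, ← mem_cen1] at this

theorem indep (hV : Ab V) (hc : Cop V K) (hK : K ≤ N(V)) (hKL : K ≤ N(L)) (h : V ⊓ C(L) ⊓ C(K) = ⊥) :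
    V ⊓ C(L) ≤ ⁅V, K⁆ := by
  have := (coprime_abelian_cent_dprod (normsI hK (norms_cent hKL)) (hc.mono_left inf_le_left)
    (hV.mono inf_le_left)).sup
  rw [h, sup_bot_eq] at this
  exact this.ge.trans (commSS inf_le_left le_rfl)

theorem conj_cen (t : X) (hw : w ∈ V ⊓ C(K)) (ht : t ∈ N(V)) : t * w * t⁻¹ ∈ V ⊓ C(cj t K) :=
  ⟨conj_mem ht hw.1, by rw [← cj_cen]; exact conj_mem_cj.2 hw.2⟩

theorem cen_conj {t : X} (h : x ∈ C[t * w * t⁻¹]) : t⁻¹ * x * t ∈ C[w] := by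
  rw [← cj_cen1] at h; exact mem_cj.1 h

theorem core (hp : p.Prime) (hodd : Odd p) (hV : Ab V) (hc : Cop V P) (hP : P ≤ N(V)) (V1 : V ≠ ⊥)
    (hs : SemiReg V Z(P)) (hD : D ⊴ P) (hDP : ⁅D, P⁆ ≤ Z(P)) (he : ∀ d ∈ D, d ^ p = 1) (hZ : D ⊓ Z(P) ≠ ⊥) :
    ∃ v ∈ V, P ⊓ C[v] ≤ C(D) := by
  classical
  obtain ⟨B, hZB, ⟨hB, hBD⟩, hm⟩ := exists_max (fun B => Ab B ∧ B ≤ D) (A := D ⊓ Z(P))
    ⟨(ab_center P).mono inf_le_right, inf_le_left⟩
  have hBP := hBD.trans hD.le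
  have hCB : ∀ d ∈ D, d ∈ C(B) → d ∈ B := fun d hd hc =>
    (hm (B ⊔ ⟪d⟫) ⟨hB.sup (ab_zpowers d) (zpowers_le.2 hc), sup_le hBD (zpowers_le.2 hd)⟩ le_sup_left).le
      (mem_sup_right (mem_zpowers d))
  have nB : P ≤ N(B) := norms_of_comm_le
    ((le_inf ((commSS hBD le_rfl).trans (comm_le_left hD.nrm)) ((commSS hBD le_rfl).trans hDP)).trans hZB)
  obtain ⟨K, hK, hi, hVK⟩ : ∃ K, K ≤ B ∧ K.relIndex B = p ∧ ¬ V ⊓ C(K) ≤ ⊥ := by
    by_contra h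
    push Not at h
    exact V1 (le_bot_iff.1 (coprime_abelem_gen_cent hp ⟨hB, fun d hd => he d (hBD hd)⟩ (ne_bot_of_le hZB hZ)
      (hBP.trans hP) (hc.mono_right hBP) h))
  obtain ⟨v, hv, v1⟩ := exists_ne_one (mt le_bot_iff.2 hVK)
  obtain ⟨z, hz, z1⟩ := exists_ne_one hZ
  have hVB : V ⊓ C(B) = ⊥ := eq_bot_of_le (inf_le_inf_left _ (cen_le_cen1 (hZB hz))) (hs z hz.2 z1)
  have cK : ∀ x ∈ P, cj x K ≤ B ∧ (cj x K).relIndex B = p := fun x hx =>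
    ⟨cj_le_of_nrm (nB hx) hK, by rw [← hi, ← relIndex_cj x K B, cj_of_mem_nrm (nB hx)]⟩
  have dis : ∀ x ∈ P, ∀ y ∈ P, cj x K ≠ cj y K → V ⊓ C(cj x K) ⊓ C(cj y K) = ⊥ := fun x hx y hy h => by
    rw [inf_assoc, ← cen_sup, (maxIn_of_prime_relIndex ((cK x hx).2 ▸ hp) (cK x hx).1).sup_eq (cK y hy).1 fun h' =>
      h (eq_of_card_le h' (by rw [card_cj, card_cj])).symm, hVB]
  have ind : ∀ x ∈ P, ∀ y ∈ P, cj x K ≠ cj y K → V ⊓ C(cj x K) ≤ ⁅V, cj y K⁆ := fun x hx y hy h =>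
    indep hV (hc.mono_right ((cK y hy).1.trans hBP)) (((cK y hy).1.trans hBP).trans hP)
      ((cK y hy).1.trans (hB.norms (cK x hx).1)) (dis x hx y hy h)
  have zv : ∀ y ∈ Z(P), y ∈ C[v] → y = 1 := fun y hy h =>
    by_contra fun y1 => v1 (eq_one_of_mem_inf (hs y hy y1) hv.1 (cen1_comm.1 h))
  have hKv : K ≤ C[v] := le_cen1.2 hv.2
  have nc : ∀ x ∈ P, x ∈ N(K) → x ∈ C(B) := fun x hx hn => by
    have e : K ⊔ (D ⊓ Z(P)) = B := (maxIn_of_prime_relIndex (hi ▸ hp) hK).sup_eq hZB fun h =>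
      z1 (zv z hz.2 (hKv (h hz)))
    rw [← e, cen_sup]
    refine ⟨zpowers_le.1 (comm_eq_bot'.1 (le_bot_iff.1 fun y hy => zv y
      (hDP (commSS (hK.trans hBD) (zpowers_le.2 hx) hy)) (hKv (comm_le_left (zpowers_le.2 hn) hy)))), ?_⟩
    exact cen_anti inf_le_right (le_cen_center le_rfl hx)
  by_cases hDB : D ≤ B
  · refine ⟨v, hv.1, fun x hx => cen_anti hDB (nc x hx.1 (cj_eq_self.1 (by_contra fun h => v1 ?_)))⟩
    have := dis x hx.1 1 P.one_mem (by rwa [cj_one])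
    rw [cj_one] at this
    refine eq_one_of_mem_inf this ?_ hv.2
    have := conj_cen x hv (hP hx.1)
    rwa [mem_cen1.1 hx.2, mul_inv_cancel_right] at this
  have hfin : Finite (Subgroup X) := inferInstance
  haveI := Fintype.ofFinite (Subgroup X)
  have : ∀ L : Subgroup X, ∃ t ∈ P, ((∃ d ∈ D, cj d K = L) → t ∈ D ∧ cj t K = L) := fun L => by
    by_cases h : ∃ d ∈ D, cj d K = L
    · obtain ⟨d, hd, e⟩ := h
      exact ⟨d, hD.le hd, fun _ => ⟨hd, e⟩⟩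
    · exact ⟨1, P.one_mem, fun h' => absurd h' h⟩
  choose t tP ht using this
  obtain ⟨S, hS⟩ : ∃ S : Finset (Subgroup X), ∀ L, L ∈ S ↔ (∃ d ∈ D, cj d K = L) ∧ L ≠ K :=
    ⟨Finset.univ.filter fun L => (∃ d ∈ D, cj d K = L) ∧ L ≠ K, fun L => by simp⟩
  have fm : ∀ L ∈ S, ∀ y ∈ P, L ≠ cj y K → t L * v * (t L)⁻¹ ∈ ⁅V, cj y K⁆ := fun L hL y hy h =>
    ind _ (tP L) y hy (by rwa [(ht L ((hS L).1 hL).1).2]) (conj_cen _ hv (hP (tP L)))
  obtain ⟨w, hw, h1, h2⟩ := crt hV S (fun L => t L * v * (t L)⁻¹) fun L _ => conj_mem (hP (tP L)) hv.1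
  have h3 : ∀ L ∈ S, w * (t L * v * (t L)⁻¹)⁻¹ ∈ ⁅V, cj (t L) K⁆ := fun L hL =>
    h2 L hL _ fun L' hL' h => fm L' hL' _ (tP L) (by rwa [(ht L ((hS L).1 hL).1).2])
  have h4 : ∀ y ∈ P, cj y K ∈ S ↔ w ∉ ⁅V, cj y K⁆ := fun y hy => by
    refine ⟨fun h hw' => v1 ?_, fun h => by_contra fun h' => h (h1 _ fun L hL => fm L hL y hy fun e => h' (e ▸ hL))⟩
    have e := (ht _ ((hS _).1 h).1).2
    have a := h3 _ h
    have b := conj_cen _ hv (hP (tP (cj y K)))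
    rw [e] at a b
    have := eq_one_of_mem_inf (coprime_abel_cent_TI (((cK y hy).1.trans hBP).trans hP)
      (hc.mono_right ((cK y hy).1.trans hBP)) hV) (inv_mem_iff.1 ((mul_mem_cancel_left hw').1 a)) b.2
    exact conj_eq_one_iff.1 this
  have hS' : ∀ d ∈ D, d ∉ B → cj d K ∈ S := fun d hd h =>
    (hS _).2 ⟨⟨d, hd, rfl⟩, fun e => h (hCB d hd (nc d (hD.le hd) (cj_eq_self.1 e)))⟩
  refine ⟨w, hw, fun x hx => ?_⟩
  have h5 : ∀ y ∈ P, w ∈ ⁅V, cj (x * y) K⁆ ↔ w ∈ ⁅V, cj y K⁆ := fun y hy => by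
    rw [← cj_cj, ← conj_mem_cj (g := x) (H := ⁅V, cj y K⁆), cj_comm, cj_of_mem_nrm (hP hx.1), mem_cen1.1 hx.2,
      mul_inv_cancel_right]
  have hz' : ∀ d ∈ D, x⁻¹ * (d⁻¹ * x * d) ∈ Z(P) := fun d hd => by
    have := hDP (commutator_mem_commutator (inv_mem hd) (inv_mem hx.1))
    have := inv_mem this
    convert this using 1
    rw [commutatorElement_def]; group
  have hxB : x ∈ C(B) := by
    refine nc x hx.1 (cj_eq_self.1 (by_contra fun h => ?_))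
    obtain ⟨d, hd, hdB⟩ := SetLike.not_le_iff_exists.1 hDB
    have dP := hD.le hd
    obtain ⟨d', hd', e⟩ := ((hS _).1 ((h4 _ (mul_mem hx.1 dP)).2 (mt (h5 d dP).1 ((h4 d dP).1 (hS' d hd hdB))))).1
    have e2 : cj (d⁻¹ * d') K = cj x K := by
      rw [← cj_cj, e, cj_cj, ← mul_assoc, ← mul_inv_cancel_left x (d⁻¹ * x * d), ← cj_cj,
        cj_of_mem_cen (center_le_cen (hK.trans hBP) (hz' d hd))]
    have := (h4 x hx.1).1 ((hS _).2 ⟨⟨_, mul_mem (inv_mem hd) hd', e2⟩, h⟩)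
    rw [← mul_one x, h5 1 P.one_mem] at this
    exact ((hS _).1 ((h4 1 P.one_mem).2 this)).2 (cj_one K)
  have h6 : ∀ d ∈ D, d ∉ B → d⁻¹ * x * d ∈ C[v] := fun d hd h => by
    have hL := hS' d hd h
    obtain ⟨a, e⟩ := ht _ ((hS _).1 hL).1
    have b := (cK _ (tP (cj d K))).1
    have := cen_conj (proj hV (hc.mono_right (b.trans hBP)) ((b.trans hBP).trans hP) (hP hx.1)
      (cen_le_nrm _ (cen_anti b hxB)) (conj_cen _ hv (hP (tP _))) (h3 _ hL) hx.2)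
    have c : d⁻¹ * t (cj d K) ∈ B := hCB _ (mul_mem (inv_mem hd) a)
      (nc _ (hD.le (mul_mem (inv_mem hd) a)) (cj_eq_cj_iff.1 e))
    have c' : d⁻¹ * x * d ∈ C(B) := conj_mem' (norms_cent nB (hD.le hd)) hxB
    convert this using 1
    calc _ = (d⁻¹ * t (cj d K))⁻¹ * (d⁻¹ * t (cj d K) * (d⁻¹ * x * d)) := by group
      _ = _ := by rw [mem_cen.1 c' _ c]; group
  refine mem_cen.2 fun d hd => ?_
  by_cases h : d ∈ B
  · exact mem_cen.1 hxB d h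
  obtain ⟨k, hk⟩ := hodd
  have h' : d * d ∉ B := fun h' => h (by
    have := inv_mem (pow_mem h' k)
    rwa [← sq, ← pow_mul, ← eq_inv_of_mul_eq_one_right (by rw [← pow_succ, ← hk, he d hd] : d ^ (2 * k) * d = 1)] at this)
  have a := mul_mem (inv_mem (h6 d hd h)) (h6 _ (mul_mem hd hd) h')
  have e : (d⁻¹ * x * d)⁻¹ * ((d * d)⁻¹ * x * (d * d)) = x⁻¹ * (d⁻¹ * x * d) := by
    calc _ = d⁻¹ * (x⁻¹ * (d⁻¹ * x * d) * d) := by group
      _ = _ := by rw [← mem_cen.1 (hz' d hd).2 d (hD.le hd)]; group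
  rw [e] at a
  have := zv _ (hz' d hd) a
  rw [inv_mul_eq_one, mul_assoc, eq_inv_mul_iff_mul_eq] at this
  exact this

theorem key (hp : p.Prime) (hodd : Odd p) (n : ℕ) : ∀ {X : Type u} [Group X] [Finite X] (V M P : Subgroup X),
    #V + #P < n → Ab V → PiGrp {p}ᶜ V → PGrp p P → P ⊴ M → M ≤ N(V) → ¬ P ≤ C(V) →
    ∃ v ∈ V, ∃ N : Subgroup X, M ≤ N(N) ∧ ¬ P ≤ N ∧ P ⊓ C[v] ≤ N := by
  classical
  induction n with
  | zero => intro X _ _ V M P h; omega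
  | succ n ih =>
  intro X _ _ V M P hn hV hV' hP hPM hM hPV
  have nP := hPM.le.trans hM
  have hc : Cop V P := hV'.cop' hP
  by_cases h1 : P ⊓ C(V) = ⊥
  swap
  · obtain ⟨C, hC⟩ : ∃ C, C = P ⊓ C(V) := ⟨_, rfl⟩
    have nM : M ≤ N(C) := hC ▸ norms_subcent hPM.nrm hM
    have nV : V ≤ N(C) := cents_norm (centsC (hC.le.trans inf_le_right))
    have := card_quo_le V C
    have := card_quo_lt (K := C) (A := P) ⟨hC.le.trans inf_le_left, hPM.le.trans nM⟩ (hC ▸ h1)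
    obtain ⟨v, hv, N, h2, h3, h4⟩ := ih (V /ₛ C) (M /ₛ C) (P /ₛ C) (by omega) (hV.quo C) (hV'.quo C) (hP.quo C)
      (hPM.quo C) (quo_norms C hM) fun h => hPV (comm_eq_bot.1 (eq_bot_of_le (le_inf (comm_le_right nP)
        (((quo_cents_iff (hPM.le.trans nM) nV).1 h).trans (hC.le.trans inf_le_left))) hc.inf))
    obtain ⟨v, hv0, hv', rfl⟩ := mem_quo.1 hv
    exact ⟨v, hv0, qpre(C, N), norms_qpre nM h2, mt (quo_le_iff (hPM.le.trans nM)).2 h3,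
      (quo_le_iff (inf_le_left.trans (hPM.le.trans nM))).1 ((quo_subcent1_le P hv').trans h4)⟩
  by_cases h2 : V ⊓ C(P) = ⊥
  swap
  · have d := coprime_abelian_cent_dprod nP hc hV
    have := card_lt (d.sd.lt_of_ne h2)
    obtain ⟨v, hv, h⟩ := ih ⁅V, P⁆ M P (by omega) (hV.mono d.left) (hV'.mono d.left) hP hPM (normsR hM hPM.nrm)
      fun h => hPV (coprime_cents_of_comm_cents nP hc (centsC h))
    exact ⟨v, d.left hv, h⟩
  have V1 : V ≠ ⊥ := fun h => hPV (by rw [h, cen_bot]; exact le_top)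
  have P1 : P ≠ ⊥ := fun h => hPV (h.le.trans bot_le)
  obtain ⟨K, -, ⟨hK, hVK⟩, hm⟩ := exists_max (fun K => K ≤ Z(P) ∧ V ⊓ C(K) ≠ ⊥) (A := ⊥)
    ⟨bot_le, by rwa [cen_bot, inf_top_eq]⟩
  by_cases K1 : K = ⊥
  · have hs : SemiReg V Z(P) := fun z hz z1 => by_contra fun h =>
      zpowers_ne_bot' z1 ((hm ⟪z⟫ ⟨zpowers_le.2 hz, by rwa [cen_zpowers]⟩ (K1.le.trans bot_le)).trans K1)
    have hZ : Cyc Z(P) := by_contra fun h => by
      obtain ⟨a, ha, a1, h⟩ := coprime_abelian_exists_cent1_ne (ab_center P) h (inf_le_left.trans nP)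
        (hc.mono_right inf_le_left) V1
      exact h (hs a ha a1)
    by_cases hy : Cyc P
    · obtain ⟨v, hv, v1⟩ := exists_ne_one V1
      refine ⟨v, hv, ⊥, norms_bot M, mt le_bot_iff.1 P1, fun x hx => by_contra fun x1 => v1 ?_⟩
      exact eq_one_of_mem_inf (hs x (hy.ab.center.ge hx.1) x1) hv (cen1_comm.1 hx.2)
    have ho : Odd #P := by
      obtain ⟨k, hk⟩ := hP.card
      rw [hk]; exact hodd.pow
    obtain ⟨h3, h4⟩ := Ohm1_odd_ucn2 hp hP ho hy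
    have hD : Ω[p](ucn 2 P) ⊴ M := ((ucn_char 2 P).nml_trans hPM).Ohm p
    have hD' : Ω[p](ucn 2 P) ⊴ P := (ucn_nml 2 P).Ohm p
    obtain ⟨v, hv, h⟩ := core hp hodd hV hc nP V1 hs hD' ((commSS (Ohm_le _ _) le_rfl).trans (ucn_two_comm P)) h4
      (hP.nil.meet_center hD' fun h => h3 (h ▸ cyc_bot))
    exact ⟨v, hv, _, norms_cent hD.nrm, fun h => h3 (hZ.mono (le_inf hD'.le (centsC h))), h⟩
  have hKP : K ≤ P := hK.trans inf_le_left
  have := card_lt (lt_of_le_of_ne (inf_le_left : V ⊓ C(K) ≤ V) fun h =>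
    K1 (eq_bot_of_le (le_inf hKP (centsC (h.ge.trans inf_le_right))) h1))
  obtain ⟨v, hv, N, h3, h4, h5⟩ := ih (V ⊓ C(K)) (M ⊓ N(K)) P (by omega) (hV.mono inf_le_left) (hV'.mono inf_le_left) hP
    (hPM.mono (le_inf hPM.le (cents_norm (centsC (hK.trans inf_le_right)))) inf_le_left)
    (norms_subcent (inf_le_left.trans hM) inf_le_right) fun h => hVK (eq_bot_of_le (le_inf inf_le_left (centsC h)) h2)
  haveI := Fintype.ofFinite (Subgroup X)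
  have : ∀ L : Subgroup X, ∃ t ∈ M, ((∃ d ∈ M, cj d K = L) → cj t K = L) := fun L => by
    by_cases h : ∃ d ∈ M, cj d K = L
    · obtain ⟨d, hd, e⟩ := h
      exact ⟨d, hd, fun _ => e⟩
    · exact ⟨1, M.one_mem, fun h' => absurd h' h⟩
  choose t tM ht using this
  obtain ⟨S, hS⟩ : ∃ S : Finset (Subgroup X), ∀ L, L ∈ S ↔ ∃ d ∈ M, cj d K = L :=
    ⟨Finset.univ.filter fun L => ∃ d ∈ M, cj d K = L, fun L => by simp⟩
  obtain ⟨w, hw, -, h6⟩ := crt hV S (fun L => t L * v * (t L)⁻¹) fun L _ => conj_mem (hM (tM L)) hv.1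
  have cK : ∀ m ∈ M, cj m K ≤ Z(P) := fun m hm => cj_le_of_nrm (norms_center hPM.nrm hm) hK
  refine ⟨w, hw, ⨅ m : M, cj (m : X) N, le_nrm_iff.2 fun g hg x hx => mem_iInf.2 fun m => ?_,
    fun h => h4 (h.trans ((iInf_le _ 1).trans (cj_one N).le)), fun x hx => mem_iInf.2 fun m => ?_⟩
  · have := mem_cj.1 (mem_iInf.1 hx ⟨g⁻¹ * m, mul_mem (inv_mem hg) m.2⟩)
    rw [mem_cj]
    convert this using 1
    push_cast; group
  · have hL : cj (m : X) K ∈ S := (hS _).2 ⟨m, m.2, rfl⟩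
    have e := ht _ ((hS _).1 hL)
    obtain ⟨s, hs⟩ : ∃ s, s = t (cj (m : X) K) := ⟨_, rfl⟩
    have sM : s ∈ M := hs ▸ tM _
    have b := (cK s sM).trans inf_le_left
    have a : w * (s * v * s⁻¹)⁻¹ ∈ ⁅V, cj s K⁆ := hs ▸ h6 _ hL _ fun L hL h => by
      rw [← hs]
      refine indep hV (hc.mono_right b) (b.trans nP) (b.trans (cents_norm (centsC ((cK _ (tM L)).trans inf_le_right))))
        (by_contra fun h' => h ?_) (conj_cen _ hv (hM (tM L)))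
      rw [inf_assoc, ← cen_sup, ← ne_eq, ← (cj_eq_bot (g := s⁻¹)).ne, cj_inf, cj_cen, cj_sup, cj_inv_cj, cj_cj,
        cj_of_mem_nrm (hM (inv_mem sM))] at h'
      have := le_sup_left.trans (hm _ ⟨sup_le (cK _ (mul_mem (inv_mem sM) (tM L))) hK, h'⟩ le_sup_right).le
      rw [← ht L ((hS L).1 hL), ← e, ← hs]
      exact cj_eq_cj_iff.2 (mem_nrm_of_cj_le this)
    have c := h5 ⟨conj_mem' (hPM.nrm sM) hx.1, cen_conj (proj hV (hc.mono_right b) (b.trans nP) (nP hx.1)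
      (cents_norm (centsC ((cK s sM).trans inf_le_right)) hx.1) (conj_cen _ hv (hM sM)) a hx.2)⟩
    have := conj_mem (h3 (mem_inf.2 ⟨M.mul_mem (M.inv_mem m.2) sM, cj_eq_cj_iff.1 (hs ▸ e)⟩)) c
    rw [mem_cj]
    convert this using 1
    group

theorem main (hp : p.Prime) (hodd : Odd p) (n : ℕ) : ∀ {X : Type u} [Group X] [Finite X] (G A : Subgroup X),
    #G < n → Sol G → PGrp p A → A ≤ G → (∀ c ∈ G, ∃ y ∈ G, Subn A (A ⊔ cj (y * c * y⁻¹) A)) → A ≤ O[{p}](G) := by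
  induction n with
  | zero => intro X _ _ G A h; omega
  | succ n ih =>
  intro X _ _ G A hn hG hA hAG h
  by_cases G1 : G = ⊥
  · exact (hAG.trans G1.le).trans bot_le
  obtain ⟨V, hVG, hV⟩ := exists_minNml G1 (le_nrm G)
  have nV : V ⊴ G := ⟨hVG, hV.nrm⟩
  obtain ⟨q, hq, hV'⟩ := hV.abelem (hG.mono hVG)
  have := card_quo_lt nV hV.ne
  have h1 := ih (G /ₛ V) (A /ₛ V) (by omega) (hG.quo V) (hA.quo V) (quo_mono V hAG) fun c hc0 => by
    obtain ⟨c, hc, hc', rfl⟩ := mem_quo.1 hc0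
    obtain ⟨y, hy, h⟩ := h c hc
    have e := mul_mem (mul_mem hy hc) (inv_mem hy)
    have := h.quo (K := V) ((sup_le hAG (cj_le_of_mem e hAG)).trans nV.nrm)
    rw [quo_sup (hAG.trans nV.nrm) ((cj_le_of_mem e hAG).trans nV.nrm), quo_cj (nV.nrm e),
      coset_mul (nV.nrm (mul_mem hy hc)) (nV.nrm (inv_mem hy)), coset_mul (nV.nrm hy) hc', coset_inv (nV.nrm hy)] at this
    exact ⟨_, mem_quo_of_mem (nV.nrm hy) hy, this⟩
  rw [quo_le_iff (hAG.trans nV.nrm)] at h1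
  obtain ⟨Q, hQ⟩ : ∃ Q, Q = qpre(V, O[{p}](G /ₛ V)) := ⟨_, rfl⟩
  have nQ : Q ⊴ G := hQ ▸ qpre_nml nV (pcore_nml _ _)
  rw [← hQ] at h1
  by_cases e : q = p
  · subst e
    exact h1.trans (pcore_max (hQ ▸ (pcore_pi _ _).qpre (hV'.pGrp hq)) nQ)
  have hp' : PiGrp {p}ᶜ V := (hV'.pGrp hq).p' e
  obtain ⟨S, hS, hAS⟩ := hA.exists_syl h1
  have hVQ : V ≤ Q := hQ ▸ le_qpre _
  have m1 : MulEq V S Q := (Hall.mulEq_of_relIndex (π := {p}) hS hVQ (by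
    rw [hQ, relIndex_qpre_self]; exact pcore_pi _ _)).symm
  have m2 := hS.frattini nQ
  obtain ⟨M, hM⟩ : ∃ M, M = G ⊓ N(S) := ⟨_, rfl⟩
  rw [← hM] at m2
  have hMG : M ≤ G := m2.right
  have hSM : S ⊴ M := hM ▸ nml_subnorm (hS.le.trans nQ.le)
  have dec : ∀ y ∈ G, ∃ u ∈ V, ∃ m ∈ M, y = u * m := fun y hy => by
    obtain ⟨a, ha, b, hb, rfl⟩ := m2.mul y hy
    obtain ⟨u, hu, s, hs, rfl⟩ := m1.mul a ha
    exact ⟨u, hu, s * b, mul_mem (hSM.le hs) hb, mul_assoc _ _ _⟩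
  obtain ⟨P, hPS, ⟨hAP, nP⟩, hm⟩ := exists_min (fun P => A ≤ P ∧ M ≤ N(P)) (A := S) ⟨hAS, hSM.nrm⟩
  have hP : PGrp p P := hS.pi.mono hPS
  by_cases hc : P ≤ C(V)
  · refine hAP.trans (pcore_max hP ⟨hPS.trans (hSM.le.trans hMG), fun y hy => ?_⟩)
    obtain ⟨u, hu, m, hm, rfl⟩ := dec y hy
    exact mul_mem (cents_norm (centsC hc) hu) (nP hm)
  obtain ⟨v, hv, N, h2, h3, h4⟩ := key hp hodd _ V M P (Nat.lt_succ_self _) hV'.1 hp' hP ⟨hPS.trans hSM.le, nP⟩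
    (hMG.trans nV.nrm) hc
  obtain ⟨y, hy, h5⟩ := h v (hVG hv)
  obtain ⟨u, hu, m, hm', rfl⟩ := dec y hy
  have h6 : m * v * m⁻¹ ∈ V := conj_mem (nV.nrm (hMG hm')) hv
  have e : u * m * v * (u * m)⁻¹ = m * v * m⁻¹ := by
    calc _ = u * (m * v * m⁻¹) * u⁻¹ := by group
      _ = _ := by rw [Ab.comm hV'.1 hu h6, mul_inv_cancel_right]
  rw [e] at h5
  obtain ⟨g, hg⟩ : ∃ g, g = m * v * m⁻¹ := ⟨_, rfl⟩
  rw [← hg] at h5 h6
  have h7 : PGrp p (A ⊔ cj g A) := ((pcore_pi _ _).sup (hA.cj g) (le_sup_right.trans (pcore_nml _ _).nrm)).mono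
    (sup_le_sup_right (pcore_max_subn hA h5) _)
  have h8 : A ≤ C[g] := fun a ha => by
    have := eq_one_of_mem_inf (h7.inf_eq_bot hp') (x := g * a * g⁻¹ * a⁻¹)
      (mul_mem (mem_sup_right (conj_mem_cj.2 ha)) (mem_sup_left (inv_mem ha)))
      (by rw [mul_assoc, mul_assoc, ← mul_assoc a]; exact mul_mem h6 (conj_mem (nV.nrm (hAG ha)) (inv_mem h6)))
    rw [mul_inv_eq_one, mul_inv_eq_iff_eq_mul] at this
    exact mem_cen1.2 this.symm
  refine absurd ((hm (P ⊓ N) ⟨le_inf hAP fun a ha => ?_, normsI nP h2⟩ inf_le_left).ge.trans inf_le_right) h3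
  have := conj_mem (h2 hm') (h4 ⟨conj_mem' (nP hm') (hAP ha), cen_conj (hg ▸ h8 ha)⟩)
  convert this using 1
  group

end Cfsg.Agent.H9.FM
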