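import Mathlib
import Cfsg.Agent.H9.AS2

/-!
Principal `2`-blocks on which `χ(1) - χ(u)` is constant: character theory.
-/

set_option autoImplicit false
set_option linter.unusedSectionVars false

namespace Cfsg.Agent.H9

open MonoidAlgebra Cfsg Finset
open Cfsg.Agent.H8 (resField irrOne pPart pReg rd locRing)
open Cfsg.Agent.H7 (ip linFun)
open Subgroup (zpowers)
open scoped ComplexConjugate

local notation "𝐂" Q => Subgroup.centralizer (SetLike.coe (Q : Subgroup _))
local notation "𝐍" Q => Subgroup.normalizer (SetLike.coe (Q : Subgroup _))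
local notation "𝐙" x => Subgroup.centralizer (Singleton.singleton x : Set _)

variable {G : Type*} [Group G] [Finite G]

theorem char_invol_int' {χ : G → ℂ} (hχ : IsCharacter G χ) {t : G} (ht : orderOf t = 2) :
    ∃ x : ℤ, χ t = x := by
  obtain ⟨n, ε, -, h1, h2⟩ := H6.isCharacter_exists_roots hχ t
  have h3 : ∀ i, ∃ x : ℤ, ε i = x := fun i => by
    obtain h | h := sq_eq_one_iff.1 (ht ▸ h1 i)
    · exact ⟨1, by simp [h]⟩
    · exact ⟨-1, by simp [h]⟩
  choose x hx using h3
  exact ⟨∑ i, x i, by simpa [hx] using h2 1⟩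

theorem res_one_class {χ : G → ℂ} (hχ : IsCharacter G χ) {P : Subgroup G} {t : G}
    (h : ∀ v ∈ P, v ≠ 1 → IsConj v t) :
    ∃ a : ℕ, χ 1 + (Nat.card P - 1) * χ t = Nat.card P * a := by
  classical
  have := Fintype.ofFinite P
  obtain ⟨a, ha⟩ := H7.ip_char_nat (H7.char_comp P.subtype hχ) H7.char_one
  refine ⟨a, ?_⟩
  rw [H7.ip_def, ← add_sum_erase _ _ (mem_univ 1), sum_congr rfl (g := fun _ => χ t) fun v hv => by
    simpa using H7.cf_isConj (H7.char_cf hχ) (h v v.2 fun e => ne_of_mem_erase hv (Subtype.ext e)),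
    sum_const, card_erase_of_mem (mem_univ _), card_univ, ← Nat.card_eq_fintype_card, nsmul_eq_mul,
    Nat.cast_pred Nat.card_pos] at ha
  rw [← ha, mul_inv_cancel_left₀ (H7.card_ne_zero' P)]
  simp

theorem exists_dxc {P : Subgroup G} {t : G} (ht : orderOf t = 2) (h : ∀ v ∈ P, v ≠ 1 → IsConj v t)
    (χ : IrrCharacter G) : ∃ (d : ℕ) (x c : ℤ), 0 < d ∧ 0 ≤ c ∧ 0 ≤ x + c ∧ χ.1 1 = d ∧ χ.1 t = x ∧
      χ.1 1 - χ.1 t = Nat.card P * c := by
  have q0 : 0 < Nat.card P := Nat.card_pos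
  obtain ⟨d, d0, hd⟩ := H7.irr_one_pos χ.2
  obtain ⟨x, hx⟩ := char_invol_int' (H7.irr_char χ.2) ht
  obtain ⟨a, ha⟩ := res_one_class (H7.irr_char χ.2) h
  have k1 : χ.1 1 - χ.1 t = Nat.card P * (a - x : ℤ) := by push_cast; rw [← hx]; linear_combination ha
  have k2 := H6.isCharacter_norm_le' (H7.irr_char χ.2) hd t
  rw [hx, Complex.norm_intCast] at k2
  have k3 : x ≤ d := by exact_mod_cast (le_abs_self _).trans k2
  have k4 : (d : ℤ) - x = Nat.card P * (a - x) := by rw [hd, hx] at k1; exact_mod_cast k1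
  exact ⟨d, x, a - x, d0, by nlinarith, by simp, hd, hx, k1⟩

/-- a character of degree three -/
theorem three_ker {χ : G → ℂ} (hχ : IsCharacter G χ) (h3 : χ 1 = 3) {t y : G} (ht : t * t = 1)
    (hc : Commute t y) (hy : Odd (orderOf y)) (h1 : χ t = -1) (h2 : χ (t * y) = -1)
    (hr : conj (χ y) = χ y) : χ y = χ 1 := by
  obtain ⟨n, ε, h4, h5, h6⟩ := H6.isCharacter_exists_roots hχ (t * y)
  obtain rfl : n = 3 := by exact_mod_cast h4.symm.trans h3
  obtain ⟨m, hm⟩ := hy
  have t2 : t ^ 2 = 1 := by rw [sq, ht]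
  have e1 : (t * y) ^ (2 * m + 1) = t := by
    rw [hc.mul_pow, ← hm, pow_orderOf_eq_one, hm, pow_succ, pow_mul, t2]; simp
  have e2 : (t * y) ^ (2 * m + 1 + 1) = y := by rw [pow_succ, e1, ← mul_assoc, ht, one_mul]
  have a1 := h6 (2 * m + 1 : ℕ)
  have a2 := h6 (2 * m + 1 + 1 : ℕ)
  have a3 := h6 1
  simp only [zpow_natCast, e1, e2, zpow_one, Fin.sum_univ_three, h1, h2] at a1 a2 a3
  have b1 : ∀ i, ε i ^ (2 * m + 1) = 1 ∨ ε i ^ (2 * m + 1) = -1 := fun i => sq_eq_one_iff.1 (by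
    obtain ⟨c, hc⟩ := orderOf_dvd_of_pow_eq_one (show (t * y) ^ ((2 * m + 1) * 2) = 1 by
      rw [pow_mul, e1, t2])
    rw [← pow_mul, hc, pow_mul, h5, one_pow])
  have key : ∀ i, ε i ^ (2 * m + 1) = 1 → χ y = 2 * ε i + 1 → χ y = χ 1 := fun i k1 k2 => by
    have k3 : conj (ε i) = ε i := by
      rw [k2] at hr
      simpa [map_ofNat] using hr
    obtain ⟨r, hr⟩ := Complex.conj_eq_iff_real.1 k3
    rw [hr, ← Complex.ofReal_pow, Complex.ofReal_eq_one] at k1
    rw [k2, hr, Odd.pow_injective ⟨m, rfl⟩ (k1.trans (one_pow _).symm), h3]; norm_num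
  simp only [pow_succ (ε _) (2 * m + 1)] at a2
  obtain k0 | k0 := b1 0 <;> obtain k1 | k1 := b1 1 <;> obtain k2 | k2 := b1 2 <;>
    rw [k0, k1, k2] at a1 a2
  all_goals first
    | (norm_num at a1; done)
    | exact key 0 k0 (by linear_combination a2 + a3)
    | exact key 1 k1 (by linear_combination a2 + a3)
    | exact key 2 k2 (by linear_combination a2 + a3)

variable {M : Ideal AlgInt} [hMm : M.IsMaximal] {p : ℕ} [hp : Fact p.Prime] [hM : PMod M p]

theorem orth_prin {g h : G} (e : ¬ IsConj (pPart p g) (pPart p h)) :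
    ∑ χ ∈ bs (principalBlock M G), χ.1 g * conj (χ.1 h) = 0 := by
  classical
  have := H8.finite_irr (G := G)
  have := Fintype.ofFinite (IrrCharacter G)
  rw [bs_eq_filter]
  exact H8.block_orthogonality hM.out (H8.isBlockUnion_of_block H8.isPBlock_principalBlock) e

theorem sum_prin_sq {x : G} (hx : ∃ k : ℕ, orderOf x = p ^ k) :
    ∑ χ ∈ bs (principalBlock M G), χ.1 x * conj (χ.1 x) =
      ∑ ξ ∈ bs (principalBlock M (𝐙 x)), ξ.1 1 * conj (ξ.1 1) := by
  classical
  have := H8.finite_irr (G := G)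
  have := Fintype.ofFinite (IrrCharacter G)
  have := H8.finite_irr (G := (𝐙 x))
  have := Fintype.ofFinite (IrrCharacter (𝐙 x))
  rw [bs_eq_filter, bs_eq_filter]
  simpa using H8.sum_principal_section hM.out hx (y := 1) (c := 1) not_dvd_orderOf_one
    not_dvd_orderOf_one

theorem lin_mem_principal (P : Sylow p G) {lam : G →* ℂˣ} (h : (𝐂 (P : Subgroup G)) ≤ lam.ker) :
    (⟨linFun lam, H7.irr_linFun lam⟩ : IrrCharacter G) ∈ principalBlock M G := fun g => by
  by_cases hg : p ∣ (𝐙 g).index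
  · have e : centralChar (fun _ : G => (1 : ℂ)) g - centralChar (linFun lam) g =
        (𝐙 g).index * (1 - linFun lam g) := by
      simp only [centralChar, H7.linFun_one_apply]; ring
    rw [e]
    exact H8.memLocalIdeal_mul_right ((H8.memLocalIdeal_natCast_iff hM.out _).2 hg)
      (sub_mem (one_mem _) (gen_mem (H6.isGen_of_isCharacter (H7.char_linFun lam)) g))
  · obtain ⟨Q, hQ⟩ := FT.exists_syl p (𝐙 g)
    obtain ⟨c, -, rfl⟩ := (FT.syl_top hp.out P).syl_trans (FT.syl_of_not_dvd le_top hQ.pi (by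
      rw [Subgroup.relIndex_top_right, ← Subgroup.relIndex_mul_index hQ.le]
      exact hp.out.not_dvd_mul (hQ.not_dvd hp.out) hg))
    have h1 : c⁻¹ * g * c ∈ lam.ker := h fun y hy => by
      have := FT.mem_cen1.1 (hQ.le (FT.conj_mem_cj.2 hy))
      calc y * (c⁻¹ * g * c) = c⁻¹ * (c * y * c⁻¹ * g) * c := by group
        _ = _ := by rw [this]; group
    have h2 : lam g = 1 := by simpa [MonoidHom.mem_ker] using h1
    simpa [centralChar, H7.linFun_apply, h2] using H8.memLocalIdeal_zero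

variable (M) in
/-- `χ(1) - χ(u) = k` for the nonprincipal characters of the principal block -/
def Har (u : G) (k : ℂ) : Prop := ∀ χ ∈ principalBlock M G, χ ≠ irrOne G → χ.1 1 - χ.1 u = k

theorem one_mem_bs : irrOne G ∈ bs (principalBlock M G) := mem_bs.2 H8.irrOne_mem_principalBlock

namespace Har

variable {u t : G} {k : ℂ} (h : Har M u k)
include h

omit hMm hp hM in
theorem sum_eq [DecidableEq (IrrCharacter G)] [M.IsMaximal] (f : IrrCharacter G → ℂ) :
    ∑ χ ∈ bs (principalBlock M G), f χ * χ.1 1 - ∑ χ ∈ bs (principalBlock M G), f χ * χ.1 u =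
      k * ∑ χ ∈ (bs (principalBlock M G)).erase (irrOne G), f χ := by
  rw [← sum_sub_distrib, ← add_sum_erase _ _ one_mem_bs, mul_sum,
    show f (irrOne G) * (irrOne G).1 1 - f (irrOne G) * (irrOne G).1 u = 0 from sub_self _, zero_add]
  exact sum_congr rfl fun χ hχ => by
    rw [← h χ (mem_bs.1 (mem_of_mem_erase hχ)) (ne_of_mem_erase hχ)]; ring

theorem exists_int (hu : p ∣ orderOf u) : ∃ n : ℤ, k * n = p ^ (Nat.card G).factorization p := by
  classical
  have hB := H8.isBlockUnion_of_block (H8.isPBlock_principalBlock (M := M) (G := G))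
  have h1 := reg_eq_sum hB (H8.blockPart_of_mem H8.irrOne_mem_principalBlock)
  have h2 := h.sum_eq fun χ => rip p (irrOne G).1 χ.1
  have h3 := congrFun h1 1
  have h4 := congrFun h1 u
  rw [reg_of_not not_dvd_orderOf_one, Finset.sum_apply] at h3
  rw [reg_of_dvd hu, Finset.sum_apply] at h4
  simp only [Pi.smul_apply, smul_eq_mul] at h3 h4
  rw [← h3, ← h4] at h2
  choose! n hn using fun χ (hχ : χ ∈ principalBlock M G) =>
    exists_int_rip (p := p) hχ (H6.isGen_of_irr (irrOne G).2)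
  refine ⟨∑ χ ∈ (bs (principalBlock M G)).erase (irrOne G), n χ, ?_⟩
  rw [Int.cast_sum, sum_congr rfl fun χ hχ => (hn χ (mem_bs.1 (mem_of_mem_erase hχ))).symm, ← mul_sum,
    H8.blockDefect_principal, mul_left_comm, sum_congr rfl fun χ _ => rip_irr_comm χ (irrOne G), ← h2]
  simp [irrOne]

omit hp hM in
theorem isConj [hM : PMod M 2] (k0 : k ≠ 0) {x : G} (hx : ∃ j : ℕ, orderOf x = 2 ^ j) (x1 : x ≠ 1) :
    IsConj x (pPart 2 u) := by
  classical
  have := Fact.mk Nat.prime_two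
  have := H8.charP_resField hM.out
  by_contra h0
  have h1 := orth_prin (M := M) (p := 2) (g := 1) (h := x) (by
    rw [H8.pPart_eq_one_iff.2 not_dvd_orderOf_one, H8.pPart_of_pElt hx]
    exact fun e => x1 (isConj_one_right.1 e))
  have h2 := orth_prin (M := M) (p := 2) (g := u) (h := x) (by
    rw [H8.pPart_of_pElt hx]; exact fun e => h0 e.symm)
  have h3 := h.sum_eq fun χ => conj (χ.1 x)
  simp only [mul_comm (conj _), h1, h2, sub_self] at h3
  have h4 := (mul_eq_zero.1 h3.symm).resolve_left k0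
  have h5 : ∀ χ : IrrCharacter G, rd M (conj (χ.1 x)) = rd M (χ.1 1) := fun χ => by
    rw [← H7.char_inv (H7.irr_char χ.2), H8.rd_char_eq_pReg hM.out (H7.irr_char χ.2),
      H8.pReg_of_pElt (by simpa using hx)]
  have h6 : ∀ χ : IrrCharacter G, conj (χ.1 x) ∈ locRing M := fun χ => by
    rw [← H7.char_inv (H7.irr_char χ.2)]; exact H8.irr_mem_locRing χ _
  have h7 := congrArg (rd M) h1
  have h8 := congrArg (rd M) h4
  rw [H8.rd_sum _ _ fun χ _ => mul_mem (H8.irr_mem_locRing χ _) (h6 χ), H8.rd_zero,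
    sum_congr rfl (g := fun χ => rd M (conj (χ.1 x))) fun χ _ => by
      rw [H8.rd_mul (H8.irr_mem_locRing χ _) (h6 χ), h5]
      obtain ⟨d, -, hd⟩ := H7.irr_one_pos χ.2
      rw [hd, H8.rd_natCast, ← sq, ← frobenius_def, map_natCast], ← add_sum_erase _ _ one_mem_bs] at h7
  rw [H8.rd_sum _ _ fun χ _ => h6 χ, H8.rd_zero] at h8
  rw [h8] at h7
  simp [irrOne] at h7

omit hp hM in
theorem not_lin (k0 : k ≠ 0) (hk : conj k = k) {lam : G →* ℂˣ} (h1 : lam ≠ 1)
    (hB : (⟨linFun lam, H7.irr_linFun lam⟩ : IrrCharacter G) ∈ principalBlock M G) {m : ℕ} (hm : Odd m)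
    (h2 : lam u ^ m = 1) : False := by
  have h3 := h _ hB fun e => h1 (H7.linFun_injective ((congrArg Subtype.val e).trans (map_one _).symm))
  simp only [H7.linFun_apply, map_one, Units.val_one] at h3
  obtain ⟨r, hr⟩ := Complex.conj_eq_iff_real.1 (show conj (lam u : ℂ) = lam u by
    rw [← h3] at hk; simpa using hk)
  have h4 := congrArg Units.val h2
  rw [Units.val_pow_eq_pow_val, hr, Units.val_one, ← Complex.ofReal_pow, Complex.ofReal_eq_one] at h4
  exact k0 (by rw [← h3, hr, hm.pow_injective (h4.trans (one_pow _).symm)]; simp)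

/-- the hypothesis passes to the involution -/
theorem invol (P : Sylow p G) (hu : p ∣ orderOf u) (ht : orderOf t = 2) (hp2 : p ∣ orderOf t)
    (hc : ∀ v ∈ (P : Subgroup G), v ≠ 1 → IsConj v t)
    (hf : ∀ χ ∈ principalBlock M G, χ ≠ irrOne G → χ.1 t ≠ χ.1 1) : Har M t (Nat.card P) := by
  classical
  obtain ⟨n, hn⟩ := h.exists_int hu
  rw [← Nat.cast_pow, ← P.card_eq_multiplicity] at hn
  have q0 : 0 < Nat.card P := Nat.card_pos
  have n0 : (n : ℂ) ≠ 0 := fun e => by simp [e, eq_comm, q0.ne'] at hn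
  choose d _ c d0 c0 _ hd _ hdc using exists_dxc ht hc
  have e1 : ∀ g, p ∣ orderOf g → ¬ IsConj (pPart p g) (pPart p (1 : G)) := fun g hg e => by
    rw [H8.pPart_eq_one_iff.2 not_dvd_orderOf_one, isConj_one_left, H8.pPart_eq_one_iff] at e
    exact e hg
  have h2 := orth_prin (M := M) (e1 u hu)
  have h3 := orth_prin (M := M) (e1 t hp2)
  have h4 : ∑ χ ∈ (bs (principalBlock M G)).erase (irrOne G), ((d χ * (c χ * n - 1) : ℤ) : ℂ) = 0 := by
    have h5 : ∑ χ ∈ bs (principalBlock M G), (χ.1 u - χ.1 t) * conj (χ.1 1) = 0 := by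
      simp only [sub_mul, sum_sub_distrib, h2, h3, sub_self]
    rw [← add_sum_erase _ _ one_mem_bs, show (irrOne G).1 u - (irrOne G).1 t = 0 from sub_self _,
      zero_mul, zero_add] at h5
    refine (mul_eq_zero.1 (?_ : (Nat.card P : ℂ) * _ = 0)).resolve_left (Nat.cast_ne_zero.2 q0.ne')
    rw [← mul_zero (n : ℂ), ← h5, mul_sum, mul_sum]
    refine sum_congr rfl fun χ hχ => ?_
    have h6 := h χ (mem_bs.1 (mem_of_mem_erase hχ)) (ne_of_mem_erase hχ)
    have h7 := hdc χ
    rw [hd, Complex.conj_natCast] at *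
    push_cast
    linear_combination (-(d χ) * n) * h7 + (d χ) * n * h6 + d χ * hn
  rw [← Int.cast_sum, Int.cast_eq_zero] at h4
  have c1 : ∀ χ ∈ (bs (principalBlock M G)).erase (irrOne G), 1 ≤ c χ := fun χ hχ =>
    lt_of_le_of_ne (c0 χ) fun e => hf χ (mem_bs.1 (mem_of_mem_erase hχ)) (ne_of_mem_erase hχ)
      (by have := hdc χ; rw [← e] at this; exact (sub_eq_zero.1 (by simpa using this)).symm)
  intro χ h5 h6
  have h7 := mem_erase.2 ⟨h6, mem_bs.2 h5⟩
  have n1 : n ≠ 0 := by exact_mod_cast n0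
  have h8 : 0 < n := by
    by_contra! h8
    have := (sum_eq_zero_iff_of_nonpos fun ψ hψ => by
      have := c1 ψ hψ
      have := d0 ψ
      exact mul_nonpos_of_nonneg_of_nonpos (by positivity) (by nlinarith)).1 h4 χ h7
    have h9 := (mul_eq_zero.1 this).resolve_left (by exact_mod_cast (d0 χ).ne')
    nlinarith [c1 χ h7]
  have := (sum_eq_zero_iff_of_nonneg fun ψ hψ => by
    have := c1 ψ hψ
    exact mul_nonneg (by positivity) (by nlinarith)).1 h4 χ h7
  have h9 := (mul_eq_zero.1 this).resolve_left (by exact_mod_cast (d0 χ).ne')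
  rw [hdc, show c χ = 1 by nlinarith [c1 χ h7]]
  simp

end Har

end Cfsg.Agent.H9
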