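import Mathlib
import Cfsg.Agent.H9.SP1

/-! Numerical part of the special-class analysis for `3³ : S₄`. -/

set_option autoImplicit false

namespace Cfsg.Agent.H9.SP

open Finset

theorem three {d₁ d₂ d₃ m₁ m₂ m₃ n₁ n₂ n₃ S : ℝ} (h0 : d₁ + d₂ + d₃ = 0)
    (hm : d₁ * m₁ + d₂ * m₂ + d₃ * m₃ = 0) (hn : d₁ * n₁ + d₂ * n₂ + d₃ * n₃ = 0)
    (hS : d₁ * m₁ * n₁ + d₂ * m₂ * n₂ + d₃ * m₃ * n₃ = S) : d₁ * ((m₁ - m₂) * (n₁ - n₃)) = S := by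
  linear_combination hS - n₃ * hm - m₂ * hn + m₂ * n₃ * h0

theorem three0 {d₁ d₂ d₃ m₁ m₂ m₃ : ℝ} (z1 : d₁ ≠ 0) (z2 : d₂ ≠ 0) (z3 : d₃ ≠ 0) (h0 : d₁ + d₂ + d₃ = 0)
    (hm : d₁ * m₁ + d₂ * m₂ + d₃ * m₃ = 0)
    (hS : d₁ * m₁ * m₁ + d₂ * m₂ * m₂ + d₃ * m₃ * m₃ = 0) : m₂ = m₁ ∧ m₃ = m₁ := by
  have h1 := three h0 hm hm hS
  have h2 : d₂ * (m₂ - m₁) + d₃ * (m₃ - m₁) = 0 := by linear_combination hm - m₁ * h0
  obtain c | c := mul_eq_zero.1 ((mul_eq_zero.1 h1).resolve_left z1)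
  · exact ⟨by linarith, sub_eq_zero.1 ((mul_eq_zero.1 (by linear_combination h2 + d₂ * c)).resolve_left z3)⟩
  · exact ⟨sub_eq_zero.1 ((mul_eq_zero.1 (by linear_combination h2 + d₃ * c)).resolve_left z2), by linarith⟩

/-- moment equations of four weighted points -/
structure M4 (d₁ d₂ d₃ d₄ m₁ m₂ m₃ m₄ n₁ n₂ n₃ n₄ P Q R : ℝ) : Prop where
  h0 : d₁ + d₂ + d₃ + d₄ = 0
  hm : d₁ * m₁ + d₂ * m₂ + d₃ * m₃ + d₄ * m₄ = 0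
  hn : d₁ * n₁ + d₂ * n₂ + d₃ * n₃ + d₄ * n₄ = 0
  hP : d₁ * m₁ * m₁ + d₂ * m₂ * m₂ + d₃ * m₃ * m₃ + d₄ * m₄ * m₄ = P
  hQ : d₁ * m₁ * n₁ + d₂ * m₂ * n₂ + d₃ * m₃ * n₃ + d₄ * m₄ * n₄ = Q
  hR : d₁ * n₁ * n₁ + d₂ * n₂ * n₂ + d₃ * n₃ * n₃ + d₄ * n₄ * n₄ = R

section
variable {d₁ d₂ d₃ d₄ m₁ m₂ m₃ m₄ n₁ n₂ n₃ n₄ P Q R : ℝ}
  (h : M4 d₁ d₂ d₃ d₄ m₁ m₂ m₃ m₄ n₁ n₂ n₃ n₄ P Q R)
include h

theorem M4.o1 (h4 : d₄ ≠ 0) :
    d₁ * (R * ((m₂ - m₁) * (m₃ - m₁)) - Q * ((m₂ - m₁) * (n₃ - n₁) + (n₂ - n₁) * (m₃ - m₁)) +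
      P * ((n₂ - n₁) * (n₃ - n₁))) = P * R - Q * Q := by
  obtain ⟨h0, hm, hn, hP, hQ, hR⟩ := h
  have e1 : m₄ = -(d₁ * m₁ + d₂ * m₂ + d₃ * m₃) / d₄ := by field_simp; linarith
  have e2 : n₄ = -(d₁ * n₁ + d₂ * n₂ + d₃ * n₃) / d₄ := by field_simp; linarith
  have e3 : d₁ = -(d₂ + d₃ + d₄) := by linarith
  subst hP hQ hR e1 e2 e3
  field_simp
  ring

theorem M4.s12 : M4 d₂ d₁ d₃ d₄ m₂ m₁ m₃ m₄ n₂ n₁ n₃ n₄ P Q R :=
  ⟨by linarith [h.h0], by linarith [h.hm], by linarith [h.hn], by linarith [h.hP], by linarith [h.hQ],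
    by linarith [h.hR]⟩

theorem M4.s13 : M4 d₃ d₂ d₁ d₄ m₃ m₂ m₁ m₄ n₃ n₂ n₁ n₄ P Q R :=
  ⟨by linarith [h.h0], by linarith [h.hm], by linarith [h.hn], by linarith [h.hP], by linarith [h.hQ],
    by linarith [h.hR]⟩

end

/-- the consequences of the first three relations -/
theorem base {dA dV dW dB dT dX aA aV aW aB aT aX ao bA bV bW bB bT bX bo : ℝ}
    (zA : dA ≠ 0) (zV : dV ≠ 0) (zW : dW ≠ 0) (zB : dB ≠ 0) (zT : dT ≠ 0) (zX : dX ≠ 0)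
    (a0 : dA + dV + dW = 0) (a1 : dA * aA + dV * aV + dW * aW = 0) (a2 : dA * bA + dV * bV + dW * bW = 0)
    (a3 : dA * aA * aA + dV * aV * aV + dW * aW * aW = 0)
    (a5 : dA * bA * bA + dV * bV * bV + dW * bW * bW = -2 / 3)
    (b0 : -dA + dB + dT = 0) (b1 : -dA * aA + dB * aB + dT * aT = 0) (b2 : -dA * bA + dB * bB + dT * bT = 0)
    (b3 : -dA * aA * aA + dB * aB * aB + dT * aT * aT = -8 / 3)
    (b5 : -dA * bA * bA + dB * bB * bB + dT * bT * bT = 0)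
    (c : M4 1 (-dT) (-dV) dX ao aT aV aX bo bT bV bX (8 / 3) (4 / 3) (4 / 3)) :
    ∃ f g p : ℝ, aV = aA ∧ aW = aA ∧ bB = bA ∧ bT = bA ∧ bV = bA + f ∧ bW = bA + g ∧ aT = aA - 4 * f ∧
      aB = aA + g ∧ ao = aA + p ∧ bo = bA + (3 * p + 4 * f - 2 * g) / 2 ∧ f ≠ 0 ∧ g ≠ 0 ∧
      dA * (3 * f * g) = -2 ∧ dV * (3 * f * (f - g)) = -2 ∧ dW * (3 * g * (g - f)) = -2 ∧
      dT * (3 * f * (4 * f + g)) = -2 ∧ dB * (3 * g * (4 * f + g)) = -8 ∧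
      5 * p * p + 8 * f * p - 8 * g * p - 4 * f * g + 4 * g * g = 8 / 3 := by
  obtain ⟨rfl, rfl⟩ := three0 zA zV zW a0 a1 a3
  obtain ⟨rfl, rfl⟩ := three0 (neg_ne_zero.2 zA) zB zT b0 b2 b5
  have A1 := three a0 a2 a2 a5
  have A2 := three (d₁ := dV) (d₂ := dA) (d₃ := dW) (m₁ := bV) (m₂ := bT) (m₃ := bW) (n₁ := bV) (n₂ := bT)
    (n₃ := bW) (S := -2 / 3) (by linarith) (by linarith) (by linarith) (by linarith)
  have A3 := three (d₁ := dW) (d₂ := dA) (d₃ := dV) (m₁ := bW) (m₂ := bT) (m₃ := bV) (n₁ := bW) (n₂ := bT)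
    (n₃ := bV) (S := -2 / 3) (by linarith) (by linarith) (by linarith) (by linarith)
  have B1 := three b0 b1 b1 b3
  have B2 := three (d₁ := dB) (d₂ := -dA) (d₃ := dT) (m₁ := aB) (m₂ := aW) (m₃ := aT) (n₁ := aB) (n₂ := aW)
    (n₃ := aT) (S := -8 / 3) (by linarith) (by linarith) (by linarith) (by linarith)
  have B3 := three (d₁ := dT) (d₂ := -dA) (d₃ := dB) (m₁ := aT) (m₂ := aW) (m₃ := aB) (n₁ := aT) (n₂ := aW)
    (n₃ := aB) (S := -8 / 3) (by linarith) (by linarith) (by linarith) (by linarith)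
  have C1 := c.o1 zX
  have C2 := c.s12.o1 zX
  have C3 := c.s13.o1 zX
  obtain ⟨f, rfl⟩ : ∃ f, bV = bT + f := ⟨bV - bT, by ring⟩
  obtain ⟨g, rfl⟩ : ∃ g, bW = bT + g := ⟨bW - bT, by ring⟩
  obtain ⟨h, rfl⟩ : ∃ h, aT = aW + h := ⟨aT - aW, by ring⟩
  obtain ⟨k, rfl⟩ : ∃ k, aB = aW + k := ⟨aB - aW, by ring⟩
  obtain ⟨p, rfl⟩ : ∃ p, ao = aW + p := ⟨ao - aW, by ring⟩
  obtain ⟨q, rfl⟩ : ∃ q, bo = bT + q := ⟨bo - bT, by ring⟩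
  have E1 : h * k = -4 * f * g := mul_left_cancel₀ zA (by linear_combination -B1 + 4 * A1)
  have E2 : 2 * (h - p) * h + 2 * (h - p) * f + 2 * q * h + 4 * q * f = h * (h - k) :=
    mul_left_cancel₀ zT (by linear_combination -3 / 2 * C2 - B3)
  have E3 : p * (h + f) - q * (h + 2 * f) + h * f + 2 * f * g = 0 :=
    mul_left_cancel₀ zV (by linear_combination -3 / 4 * C3 - 2 * A2)
  have h0 : h ≠ 0 := by rintro rfl; norm_num at B3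
  have f0 : f ≠ 0 := by rintro rfl; norm_num at A1
  have g0 : g ≠ 0 := by rintro rfl; norm_num at A1
  obtain rfl : h = -4 * f := mul_left_cancel₀ h0 (by linear_combination E2 + 2 * E3 - E1)
  obtain rfl : k = g := mul_left_cancel₀ f0 (by linear_combination -E1 / 4)
  obtain rfl : q = (3 * p + 4 * f - 2 * k) / 2 := mul_left_cancel₀ f0 (by linear_combination E3 / 2)
  exact ⟨f, k, p, rfl, rfl, rfl, rfl, rfl, rfl, by ring, rfl, rfl, rfl, f0, g0, by linear_combination 3 * A1,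
    by linear_combination 3 * A2, by linear_combination 3 * A3, by linear_combination 3 / 4 * B3,
    by linear_combination 3 * B2, by linear_combination 3 / 2 * C1⟩

end Cfsg.Agent.H9.SP
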