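import Mathlib
import Cfsg.Agent.H9.Hd5

/-! Combinatorial part of the special-class analysis for `3³ : S₄`. -/

set_option autoImplicit false
set_option maxRecDepth 100000

namespace Cfsg.Agent.H9.SP

open Finset

def tb : Fin 21 → Fin 5 → ℤ := ![![0, 0, 0, 0, 0], ![0, 0, 0, 0, 1], ![0, 0, 0, 1, 0], ![0, 0, 0, 1, 1], ![0, 0, 1, -1, 0], ![0, 0, 1, 0, 0], ![0, 0, 1, 0, 1], ![0, 1, -1, 0, 0], ![0, 1, -1, 1, 0], ![0, 1, -1, 1, 1], ![0, 1, 0, 0, 0], ![0, 1, 0, 0, 1], ![0, 1, 0, 1, 1], ![1, -1, 0, -1, -1], ![1, -1, 0, -1, 0], ![1, -1, 0, 0, 0], ![1, 0, -1, -1, 0], ![1, 0, -1, 0, 0], ![1, 0, 0, -1, 0], ![1, 0, 0, 0, 0], ![1, 0, 0, 0, 1]]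
def gr : Fin 5 → Fin 5 → ℤ := ![![3, -1, -1, -1, 0], ![-1, 3, -1, 1, 1], ![-1, -1, 3, 0, 0], ![-1, 1, 0, 3, 1], ![0, 1, 0, 1, 2]]
def ad : Fin 5 → Fin 5 → ℤ := ![![31, 17, 16, 9, -13], ![17, 34, 17, 0, -17], ![16, 17, 28, 3, -10], ![9, 0, 3, 24, -12], ![-13, -17, -10, -12, 40]]

def f3 (x : Fin 5 → Fin 3) (k : Fin 5) : ℤ := (x k).1 - 1

theorem tyL : ∀ x0 x1 x2 x3 x4 : Fin 3, let t := f3 ![x0, x1, x2, x3, x4]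
    (∑ k, (∑ l, ad k l * t l) * t k) * (∑ k, (∑ l, ad k l * t l) * t k) ≤
      ∑ k, ∑ m, (∑ l, ad k l * t l) * (∑ l, ad m l * t l) * gr k m →
    ∃ c, (∀ k, tb c k = t k) ∨ ∀ k, tb c k = -t k := by decide +kernel

set_option maxHeartbeats 4000000 in
theorem cnt {n : Fin 21 → ℕ} (h : ∀ k l, ∑ c, tb c k * tb c l * n c = gr k l) :
    (n 1 = 0 ∧ n 2 = 1 ∧ n 3 = 1 ∧ n 4 = 0 ∧ n 5 = 1 ∧ n 6 = 0 ∧ n 7 = 1 ∧ n 8 = 0 ∧ n 9 = 0 ∧ n 10 = 0 ∧ n 11 = 1 ∧ n 12 = 0 ∧ n 13 = 0 ∧ n 14 = 1 ∧ n 15 = 0 ∧ n 16 = 0 ∧ n 17 = 1 ∧ n 18 = 0 ∧ n 19 = 1 ∧ n 20 = 0) ∨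
    (n 1 = 0 ∧ n 2 = 2 ∧ n 3 = 0 ∧ n 4 = 0 ∧ n 5 = 1 ∧ n 6 = 0 ∧ n 7 = 1 ∧ n 8 = 0 ∧ n 9 = 0 ∧ n 10 = 1 ∧ n 11 = 0 ∧ n 12 = 0 ∧ n 13 = 1 ∧ n 14 = 0 ∧ n 15 = 0 ∧ n 16 = 0 ∧ n 17 = 1 ∧ n 18 = 0 ∧ n 19 = 0 ∧ n 20 = 1) ∨
    (n 1 = 0 ∧ n 2 = 1 ∧ n 3 = 0 ∧ n 4 = 0 ∧ n 5 = 0 ∧ n 6 = 1 ∧ n 7 = 0 ∧ n 8 = 0 ∧ n 9 = 1 ∧ n 10 = 1 ∧ n 11 = 0 ∧ n 12 = 0 ∧ n 13 = 0 ∧ n 14 = 0 ∧ n 15 = 1 ∧ n 16 = 1 ∧ n 17 = 0 ∧ n 18 = 0 ∧ n 19 = 1 ∧ n 20 = 0) ∨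
    (n 1 = 0 ∧ n 2 = 0 ∧ n 3 = 1 ∧ n 4 = 0 ∧ n 5 = 1 ∧ n 6 = 0 ∧ n 7 = 0 ∧ n 8 = 1 ∧ n 9 = 0 ∧ n 10 = 0 ∧ n 11 = 1 ∧ n 12 = 0 ∧ n 13 = 0 ∧ n 14 = 0 ∧ n 15 = 1 ∧ n 16 = 1 ∧ n 17 = 0 ∧ n 18 = 0 ∧ n 19 = 1 ∧ n 20 = 0) ∨
    (n 1 = 1 ∧ n 2 = 0 ∧ n 3 = 0 ∧ n 4 = 1 ∧ n 5 = 0 ∧ n 6 = 0 ∧ n 7 = 1 ∧ n 8 = 0 ∧ n 9 = 0 ∧ n 10 = 0 ∧ n 11 = 0 ∧ n 12 = 1 ∧ n 13 = 0 ∧ n 14 = 0 ∧ n 15 = 1 ∧ n 16 = 1 ∧ n 17 = 0 ∧ n 18 = 0 ∧ n 19 = 1 ∧ n 20 = 0) ∨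
    (n 1 = 1 ∧ n 2 = 1 ∧ n 3 = 0 ∧ n 4 = 0 ∧ n 5 = 1 ∧ n 6 = 0 ∧ n 7 = 1 ∧ n 8 = 0 ∧ n 9 = 0 ∧ n 10 = 0 ∧ n 11 = 0 ∧ n 12 = 1 ∧ n 13 = 0 ∧ n 14 = 0 ∧ n 15 = 1 ∧ n 16 = 0 ∧ n 17 = 1 ∧ n 18 = 1 ∧ n 19 = 0 ∧ n 20 = 0) := by
  obtain ⟨e1, e2, e3, e4, e5, e6, e7, e8, e9, e10, e11, e12, e13, e14, e15⟩ :
      (0 + n 13 + n 14 + n 15 + n 16 + n 17 + n 18 + n 19 + n 20 : ℤ) = 3 ∧
      (0 - n 13 - n 14 - n 15 : ℤ) = -1 ∧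
      (0 - n 16 - n 17 : ℤ) = -1 ∧
      (0 - n 13 - n 14 - n 16 - n 18 : ℤ) = -1 ∧
      (0 - n 13 + n 20 : ℤ) = 0 ∧
      (0 + n 7 + n 8 + n 9 + n 10 + n 11 + n 12 + n 13 + n 14 + n 15 : ℤ) = 3 ∧
      (0 - n 7 - n 8 - n 9 : ℤ) = -1 ∧
      (0 + n 8 + n 9 + n 12 + n 13 + n 14 : ℤ) = 1 ∧
      (0 + n 9 + n 11 + n 12 + n 13 : ℤ) = 1 ∧
      (0 + n 4 + n 5 + n 6 + n 7 + n 8 + n 9 + n 16 + n 17 : ℤ) = 3 ∧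
      (0 - n 4 - n 8 - n 9 + n 16 : ℤ) = 0 ∧
      (0 + n 6 - n 9 : ℤ) = 0 ∧
      (0 + n 2 + n 3 + n 4 + n 8 + n 9 + n 12 + n 13 + n 14 + n 16 + n 18 : ℤ) = 3 ∧
      (0 + n 3 + n 9 + n 12 + n 13 : ℤ) = 1 ∧
      (0 + n 1 + n 3 + n 6 + n 9 + n 11 + n 12 + n 13 + n 20 : ℤ) = 2 := by
    refine ⟨?_, ?_, ?_, ?_, ?_, ?_, ?_, ?_, ?_, ?_, ?_, ?_, ?_, ?_, ?_⟩
    · have := h 0 0
      simp only [Fin.sum_univ_succ, Fin.sum_univ_zero, tb, gr, Matrix.cons_val_zero, Matrix.cons_val_succ, Matrix.cons_val, Fin.succ_zero_eq_one, Fin.succ_one_eq_two, Fin.reduceSucc] at this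
      omega
    · have := h 0 1
      simp only [Fin.sum_univ_succ, Fin.sum_univ_zero, tb, gr, Matrix.cons_val_zero, Matrix.cons_val_succ, Matrix.cons_val, Fin.succ_zero_eq_one, Fin.succ_one_eq_two, Fin.reduceSucc] at this
      omega
    · have := h 0 2
      simp only [Fin.sum_univ_succ, Fin.sum_univ_zero, tb, gr, Matrix.cons_val_zero, Matrix.cons_val_succ, Matrix.cons_val, Fin.succ_zero_eq_one, Fin.succ_one_eq_two, Fin.reduceSucc] at this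
      omega
    · have := h 0 3
      simp only [Fin.sum_univ_succ, Fin.sum_univ_zero, tb, gr, Matrix.cons_val_zero, Matrix.cons_val_succ, Matrix.cons_val, Fin.succ_zero_eq_one, Fin.succ_one_eq_two, Fin.reduceSucc] at this
      omega
    · have := h 0 4
      simp only [Fin.sum_univ_succ, Fin.sum_univ_zero, tb, gr, Matrix.cons_val_zero, Matrix.cons_val_succ, Matrix.cons_val, Fin.succ_zero_eq_one, Fin.succ_one_eq_two, Fin.reduceSucc] at this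
      omega
    · have := h 1 1
      simp only [Fin.sum_univ_succ, Fin.sum_univ_zero, tb, gr, Matrix.cons_val_zero, Matrix.cons_val_succ, Matrix.cons_val, Fin.succ_zero_eq_one, Fin.succ_one_eq_two, Fin.reduceSucc] at this
      omega
    · have := h 1 2
      simp only [Fin.sum_univ_succ, Fin.sum_univ_zero, tb, gr, Matrix.cons_val_zero, Matrix.cons_val_succ, Matrix.cons_val, Fin.succ_zero_eq_one, Fin.succ_one_eq_two, Fin.reduceSucc] at this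
      omega
    · have := h 1 3
      simp only [Fin.sum_univ_succ, Fin.sum_univ_zero, tb, gr, Matrix.cons_val_zero, Matrix.cons_val_succ, Matrix.cons_val, Fin.succ_zero_eq_one, Fin.succ_one_eq_two, Fin.reduceSucc] at this
      omega
    · have := h 1 4
      simp only [Fin.sum_univ_succ, Fin.sum_univ_zero, tb, gr, Matrix.cons_val_zero, Matrix.cons_val_succ, Matrix.cons_val, Fin.succ_zero_eq_one, Fin.succ_one_eq_two, Fin.reduceSucc] at this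
      omega
    · have := h 2 2
      simp only [Fin.sum_univ_succ, Fin.sum_univ_zero, tb, gr, Matrix.cons_val_zero, Matrix.cons_val_succ, Matrix.cons_val, Fin.succ_zero_eq_one, Fin.succ_one_eq_two, Fin.reduceSucc] at this
      omega
    · have := h 2 3
      simp only [Fin.sum_univ_succ, Fin.sum_univ_zero, tb, gr, Matrix.cons_val_zero, Matrix.cons_val_succ, Matrix.cons_val, Fin.succ_zero_eq_one, Fin.succ_one_eq_two, Fin.reduceSucc] at this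
      omega
    · have := h 2 4
      simp only [Fin.sum_univ_succ, Fin.sum_univ_zero, tb, gr, Matrix.cons_val_zero, Matrix.cons_val_succ, Matrix.cons_val, Fin.succ_zero_eq_one, Fin.succ_one_eq_two, Fin.reduceSucc] at this
      omega
    · have := h 3 3
      simp only [Fin.sum_univ_succ, Fin.sum_univ_zero, tb, gr, Matrix.cons_val_zero, Matrix.cons_val_succ, Matrix.cons_val, Fin.succ_zero_eq_one, Fin.succ_one_eq_two, Fin.reduceSucc] at this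
      omega
    · have := h 3 4
      simp only [Fin.sum_univ_succ, Fin.sum_univ_zero, tb, gr, Matrix.cons_val_zero, Matrix.cons_val_succ, Matrix.cons_val, Fin.succ_zero_eq_one, Fin.succ_one_eq_two, Fin.reduceSucc] at this
      omega
    · have := h 4 4
      simp only [Fin.sum_univ_succ, Fin.sum_univ_zero, tb, gr, Matrix.cons_val_zero, Matrix.cons_val_succ, Matrix.cons_val, Fin.succ_zero_eq_one, Fin.succ_one_eq_two, Fin.reduceSucc] at this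
      omega
  clear h
  obtain c | c : n 14 = 1 ∨ n 14 = 0 := by omega
  · exact .inl (by omega)
  obtain c1 | c1 : n 13 = 1 ∨ n 13 = 0 := by omega
  · exact .inr (.inl (by omega))
  obtain c2 | c2 : n 9 = 1 ∨ n 9 = 0 := by omega
  · exact .inr (.inr (.inl (by omega)))
  obtain c3 | c3 : n 8 = 1 ∨ n 8 = 0 := by omega
  · exact .inr (.inr (.inr (.inl (by omega))))
  obtain c4 | c4 : n 4 = 1 ∨ n 4 = 0 := by omega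
  · exact .inr (.inr (.inr (.inr (.inl (by omega)))))
  · exact .inr (.inr (.inr (.inr (.inr (by omega)))))

/-- the five sums in terms of the types -/
def Mo {ι : Type*} (o : ι) (Γ : Fin 21 → (ι → ℝ) → ℝ) (g : ι → ℝ) (c : Fin 5 → ℝ) : Prop :=
    (c 0 = 0 + Γ 13 g + Γ 14 g + Γ 15 g + Γ 16 g + Γ 17 g + Γ 18 g + Γ 19 g + Γ 20 g) ∧
    (c 1 = 0 + Γ 7 g + Γ 8 g + Γ 9 g + Γ 10 g + Γ 11 g + Γ 12 g - Γ 13 g - Γ 14 g - Γ 15 g) ∧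
    (c 2 = g o + Γ 4 g + Γ 5 g + Γ 6 g - Γ 7 g - Γ 8 g - Γ 9 g - Γ 16 g - Γ 17 g) ∧
    (c 3 = g o + Γ 2 g + Γ 3 g - Γ 4 g + Γ 8 g + Γ 9 g + Γ 12 g - Γ 13 g - Γ 14 g - Γ 16 g - Γ 18 g) ∧
    (c 4 = 0 + Γ 1 g + Γ 3 g + Γ 6 g + Γ 9 g + Γ 11 g + Γ 12 g - Γ 13 g + Γ 20 g)

end Cfsg.Agent.H9.SP
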