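import Mathlib
import Cfsg.Agent.H9.Hd6

/-! The numerical theorem for `3³ : S₄`. -/

set_option autoImplicit false

namespace Cfsg.Agent.H9.SP

open Finset

def uo : Fin 5 → ℤ := ![0, 0, 1, 1, 0]

theorem types {ι : Type*} [Fintype ι] {v : Fin 5 → ι → ℤ} (hG : ∀ k l, ∑ i, v k i * v l i = gr k l) (i : ι) :
    ∃ c, ∃ ε : ℤ, (ε = 1 ∨ ε = -1) ∧ ∀ k, v k i = ε * tb c k := by
  have h1 (k) : ∃ x : Fin 3, v k i = x.1 - 1 := by
    have := hG k k ▸ sq_le_sum (X := v k) i
    have h3 : gr k k ≤ 3 := (by decide : ∀ k, gr k k ≤ 3) k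
    have : -2 < v k i ∧ v k i < 2 := by constructor <;> nlinarith
    exact ⟨⟨(v k i + 1).toNat, by omega⟩, by simp only; omega⟩
  choose x hx using h1
  have e : f3 ![x 0, x 1, x 2, x 3, x 4] = fun k => v k i := funext fun k => by
    rw [hx k]; fin_cases k <;> rfl
  have := tyL (x 0) (x 1) (x 2) (x 3) (x 4)
  simp only [e] at this
  obtain ⟨c, hc | hc⟩ := this (by
    obtain ⟨w, hw⟩ : ∃ w : Fin 5 → ℤ, ∀ k, ∑ l, ad k l * v l i = w k := ⟨_, fun _ => rfl⟩
    simp only [hw, ← hG]
    refine (sq_le_sum (X := fun j => ∑ k, w k * v k j) i).trans (le_of_eq ?_)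
    simp only [sum_mul_sum]
    simp only [mul_sum]
    rw [sum_comm]
    refine sum_congr rfl fun k _ => ?_
    rw [sum_comm]
    exact sum_congr rfl fun l _ => sum_congr rfl fun j _ => by ring)
  · exact ⟨c, 1, .inl rfl, fun k => by rw [hc, one_mul]⟩
  · exact ⟨c, -1, .inr rfl, fun k => by rw [hc]; ring⟩

theorem data {ι : Type*} [Fintype ι] {u : Fin 5 → ι → ℤ} {D : ι → ℤ} {o : ι}
    (hG : ∀ k l, ∑ i, u k i * u l i = gr k l + uo k * uo l) (ho : ∀ k, u k o = uo k) (Do : D o = 1) :
    ∃ (n : Fin 21 → ℕ) (Γ : Fin 21 → (ι → ℝ) → ℝ) (s : Fin 21 → ι) (d : Fin 21 → ℤ),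
      (∀ k l, ∑ c, tb c k * tb c l * n c = gr k l) ∧ (∀ c g, n c = 0 → Γ c g = 0) ∧
      (∀ c g, n c = 1 → Γ c g = d c * g (s c)) ∧ (∀ c, d c = D (s c) ∨ d c = -D (s c)) ∧
      (∀ c k, n c = 1 → tb c k ≠ 0 → u k (s c) ≠ 0) ∧
      ∀ g, Mo o Γ g fun k => ∑ i, u k i * D i * g i := by
  classical
  set v : Fin 5 → ι → ℤ := fun k i => if i = o then 0 else u k i
  have sp {R : Type} [CommRing R] (k) (g : ι → R) : ∑ i, u k i * g i = uo k * g o + ∑ i, v k i * g i := by
    rw [← add_sum_erase _ _ (mem_univ o), ← add_sum_erase _ (fun i => v k i * g i) (mem_univ o), ho]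
    simp only [v, if_true, Int.cast_zero, zero_mul, zero_add]
    congr 1
    exact sum_congr rfl fun i hi => by rw [if_neg (mem_erase.1 hi).1]
  have hv (k l) : ∑ i, v k i * v l i = gr k l := by
    have h1 := sp k (u l)
    have h2 := sp l (v k)
    have h3 : v k o = 0 := if_pos rfl
    simp only [Int.cast_id, hG, ho, h3, mul_comm (v l _), mul_comm (u l _)] at h1 h2
    omega
  choose ty ε h1 h2 using types hv
  have fib {R : Type} [CommRing R] (F : Fin 21 → R) (g : ι → R) :
      ∑ i, F (ty i) * g i = ∑ c, F c * ∑ i with ty i = c, g i := by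
    rw [← sum_fiberwise (s := univ) (g := ty)]
    exact sum_congr rfl fun c _ => by
      rw [mul_sum]; exact sum_congr rfl fun i hi => by rw [(mem_filter.1 hi).2]
  have : ∀ c, ∃ j, (univ.filter (ty · = c)).card = 1 → univ.filter (ty · = c) = {j} := fun c => by
    by_cases e : (univ.filter (ty · = c)).card = 1
    · exact (card_eq_one.1 e).imp fun _ h _ => h
    · exact ⟨o, fun c => absurd c e⟩
  choose s hs using this
  refine ⟨fun c => (univ.filter (ty · = c)).card, fun c g => ∑ i with ty i = c, ε i * D i * g i, s,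
    fun c => ε (s c) * D (s c), fun k l => ?_, fun c g e => by beta_reduce; rw [card_eq_zero.1 e, sum_empty],
    fun c g e => by beta_reduce; rw [hs c e, sum_singleton]; push_cast; rfl, fun c => ?_, fun c k e e' => ?_, fun g => ?_⟩
  · have := fib (fun c => tb c k * tb c l) fun _ => 1
    simp only [sum_const, nsmul_eq_mul, mul_one] at this
    rw [← this, ← hv]
    exact sum_congr rfl fun i _ => by obtain e | e := h1 i <;> rw [h2, h2, e] <;> ring
  · obtain e | e := h1 (s c) <;> simp [e]
  · have t : ty (s c) = c := (mem_filter.1 ((hs c e).ge (mem_singleton_self _))).2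
    have := h2 (s c) k
    rw [t] at this
    intro c0
    have v0 : v k (s c) = 0 := by simp only [v, c0, ite_self]
    obtain e | e := h1 (s c) <;> rw [v0, e] at this <;> omega
  · have k (k) : ∑ i, (u k i * D i * g i : ℝ) =
        uo k * g o + ∑ c, (tb c k : ℝ) * ∑ i with ty i = c, ε i * D i * g i := by
      simp only [mul_assoc]
      rw [sp, Do, ← fib]
      simp only [h2, Int.cast_mul, Int.cast_one, one_mul, mul_assoc, mul_left_comm (ε _ : ℝ)]
    simp only [Mo, k, Fin.sum_univ_succ, Fin.sum_univ_zero, tb, uo, Matrix.cons_val_zero, Matrix.cons_val_succ,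
      Matrix.cons_val, Fin.succ_zero_eq_one, Fin.succ_one_eq_two, Fin.reduceSucc]
    push_cast
    refine ⟨?_, ?_, ?_, ?_, ?_⟩ <;> ring

set_option maxHeartbeats 1000000 in
theorem num6 {ι : Type*} [Fintype ι] {u : Fin 5 → ι → ℤ} {D : ι → ℤ} {a b : ι → ℝ} {o : ι}
    (hG : ∀ k l, ∑ i, u k i * u l i = gr k l + uo k * uo l) (ho : ∀ k, u k o = uo k) (Do : D o = 1)
    (D0 : ∀ i, 0 < D i) (h3 : ∀ i, u 4 i ≠ 0 → ¬ 3 ∣ D i)
    (m1 : ∀ k, ∑ i, (u k i * D i * 1 : ℝ) = 0) (m2 : ∀ k, ∑ i, u k i * D i * a i = 0)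
    (m3 : ∀ k, ∑ i, u k i * D i * b i = 0)
    (m4 : ∀ k, ∑ i, u k i * D i * (a i * a i) = ![0, -8 / 3, 8 / 3, 4 / 3, 0] k)
    (m5 : ∀ k, ∑ i, u k i * D i * (a i * b i) = ![0, 0, 4 / 3, 2 / 3, 0] k)
    (m6 : ∀ k, ∑ i, u k i * D i * (b i * b i) = ![-2 / 3, 0, 4 / 3, 1, 0] k) :
    ∃ i, D i = 2 ∧ a i = a o := by
  obtain ⟨n, Γ, s, d, h1, h2, h4, h5, h6, h7⟩ := data hG ho Do
  have H1 := h7 fun _ => 1
  have H2 := h7 a
  have H3 := h7 b
  have H4 := h7 fun i => a i * a i
  have H5 := h7 fun i => a i * b i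
  have H6 := h7 fun i => b i * b i
  have z (c) : (d c : ℝ) ≠ 0 := Int.cast_ne_zero.2 (by have := D0 (s c); have := h5 c; omega)
  simp only [Mo, m1, m2, m3, m4, m5, m6, Matrix.cons_val_zero, Matrix.cons_val_one, Matrix.cons_val] at *
  obtain ⟨n1, n2, n3, n4, n5, n6, n7, n8, n9, n10, n11, n12, n13, n14, n15, n16, n17, n18, n19, n20⟩ |
    ⟨n1, n2, n3, n4, n5, n6, n7, n8, n9, n10, n11, n12, n13, n14, n15, n16, n17, n18, n19, n20⟩ |
    ⟨n1, n2, n3, n4, n5, n6, n7, n8, n9, n10, n11, n12, n13, n14, n15, n16, n17, n18, n19, n20⟩ |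
    ⟨n1, n2, n3, n4, n5, n6, n7, n8, n9, n10, n11, n12, n13, n14, n15, n16, n17, n18, n19, n20⟩ |
    ⟨n1, n2, n3, n4, n5, n6, n7, n8, n9, n10, n11, n12, n13, n14, n15, n16, n17, n18, n19, n20⟩ |
    ⟨n1, n2, n3, n4, n5, n6, n7, n8, n9, n10, n11, n12, n13, n14, n15, n16, n17, n18, n19, n20⟩ := cnt h1
  all_goals
    simp (disch := assumption) only [h2, h4, add_zero, sub_zero, zero_add, mul_one, zero_sub] at H1 H2 H3 H4 H5 H6
    obtain ⟨a1, b1, c1, d1, e1⟩ := H1
    obtain ⟨a2, b2, c2, d2, e2⟩ := H2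
    obtain ⟨a3, b3, c3, d3, e3⟩ := H3
    obtain ⟨a4, b4, c4, d4, e4⟩ := H4
    obtain ⟨a5, b5, c5, d5, e5⟩ := H5
    obtain ⟨a6, b6, c6, d6, e6⟩ := H6
  · obtain ⟨f, g, p, k1, k2, k3, k4, k5, k6, k7, k8, k9, k10, f0, g0, l1, l2, l3, l4, l5, l6⟩ :=
      base (dA := d 14) (dV := d 17) (dW := d 19) (dB := d 11) (dT := d 7) (dX := d 5)
      (aA := a (s 14)) (aV := a (s 17)) (aW := a (s 19)) (aB := a (s 11)) (aT := a (s 7)) (aX := a (s 5))
      (ao := a o) (bA := b (s 14)) (bV := b (s 17)) (bW := b (s 19)) (bB := b (s 11)) (bT := b (s 7))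
      (bX := b (s 5)) (bo := b o) (z _) (z _) (z _) (z _) (z _) (z _) (by linear_combination -a1)
      (by linear_combination -a2) (by linear_combination -a3) (by linear_combination -a4)
      (by linear_combination -a6) (by linear_combination -b1) (by linear_combination -b2)
      (by linear_combination -b3) (by linear_combination -b4) (by linear_combination -b6)
      ⟨by linear_combination -c1, by linear_combination -c2, by linear_combination -c3,
        by linear_combination -c4, by linear_combination -c5, by linear_combination -c6⟩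
    have q1 : (d 3 : ℝ) = -d 11 := by linear_combination -e1
    have q2 : a (s 3) = a (s 11) := mul_left_cancel₀ (z 11) (by linear_combination e2 + a (s 3) * q1)
    have q3 : b (s 3) = b (s 11) := mul_left_cancel₀ (z 11) (by linear_combination e3 + b (s 3) * q1)
    rw [q1] at d1 d2 d3 d4 d5 d6
    rw [q2] at d2 d4 d5
    rw [q3] at d3 d5 d6
    have M : M4 1 (-d 11) (-d 14) (d 2) (a o) (a (s 11)) (a (s 14)) (a (s 2)) (b o) (b (s 11)) (b (s 14)) (b (s 2)) (4 / 3) (2 / 3) 1 :=
      ⟨by linear_combination -d1, by linear_combination -d2, by linear_combination -d3,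
        by linear_combination -d4, by linear_combination -d5, by linear_combination -d6⟩
    have o1 := M.o1 (z _)
    have o3 := M.s13.o1 (z _)
    rw [k3, k8, k9, k10] at o1 o3
    have r1 : g * g = g * (4 * f) := mul_left_cancel₀ (z 14) (by linear_combination -3 / 2 * o3 - 2 / 3 * l1)
    obtain rfl : g = 4 * f := mul_left_cancel₀ g0 r1
    have r2 : (3 * p * p - 4) * (11 * p * p - 4) = 0 := by
      have t1 : 6 * f * p = 9 / 4 * p * p - 1 := by linear_combination -9 / 8 * o1
      have t2 : 36 * f * f = 3 * p * p - 1 := by linear_combination 3 / 4 * l6 + 3 * t1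
      linear_combination -16 * (6 * f * p + 9 / 4 * p * p - 1) * t1 + 16 * p * p * t2
    have t1 : 6 * f * p = 9 / 4 * p * p - 1 := by linear_combination -9 / 8 * o1
    have t2 : 36 * f * f = 3 * p * p - 1 := by linear_combination 3 / 4 * l6 + 3 * t1
    obtain r | r := mul_eq_zero.1 r2
    · have : (3 * d 17 : ℝ) = 8 := by linear_combination -4 * l2 - d 17 * t2 - d 17 * r
      have : 3 * d 17 = 8 := by exact_mod_cast this
      omega
    · have : (d 11 : ℝ) = -33 := by linear_combination 33 / 8 * l5 - 11 * d 11 * t2 - 3 * d 11 * r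
      have : d 11 = -33 := by exact_mod_cast this
      have := h3 _ (h6 11 4 n11 (by decide))
      have := h5 11
      omega
  · have q1 : (d 20 : ℝ) = d 13 := by linear_combination -e1
    have q3 : b (s 20) = b (s 13) := mul_left_cancel₀ (z 13) (by linear_combination -e3 - b (s 20) * q1)
    have := three (d₁ := d 13) (d₂ := d 17) (d₃ := d 20) (m₁ := b (s 13)) (m₂ := b (s 17)) (m₃ := b (s 20))
      (n₁ := b (s 13)) (n₂ := b (s 17)) (n₃ := b (s 20)) (S := -2 / 3) (by linear_combination -a1)
      (by linear_combination -a3) (by linear_combination -a3) (by linear_combination -a6)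
    rw [q3] at this
    norm_num at this
  · have q1 : (d 6 : ℝ) = -d 9 := by linear_combination -e1
    have q2 : a (s 6) = a (s 9) := mul_left_cancel₀ (z 9) (by linear_combination e2 + a (s 6) * q1)
    have q3 : b (s 6) = b (s 9) := mul_left_cancel₀ (z 9) (by linear_combination e3 + b (s 6) * q1)
    have M : M4 (-d 9) (d 6) 1 (-d 16) (a (s 9)) (a (s 6)) (a o) (a (s 16)) (b (s 9)) (b (s 6)) (b o) (b (s 16))
        (8 / 3) (4 / 3) (4 / 3) := ⟨by linear_combination -c1, by linear_combination -c2,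
        by linear_combination -c3, by linear_combination -c4, by linear_combination -c5,
        by linear_combination -c6⟩
    have o1 := M.o1 (neg_ne_zero.2 (z _))
    rw [q2, q3] at o1
    norm_num at o1
  · obtain ⟨f, g, p, k1, k2, k3, k4, k5, k6, k7, k8, k9, k10, f0, g0, l1, l2, l3, l4, l5, l6⟩ :=
      base (dA := d 15) (dV := d 16) (dW := d 19) (dB := d 11) (dT := d 8) (dX := d 5)
      (aA := a (s 15)) (aV := a (s 16)) (aW := a (s 19)) (aB := a (s 11)) (aT := a (s 8)) (aX := a (s 5))
      (ao := a o) (bA := b (s 15)) (bV := b (s 16)) (bW := b (s 19)) (bB := b (s 11)) (bT := b (s 8))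
      (bX := b (s 5)) (bo := b o) (z _) (z _) (z _) (z _) (z _) (z _) (by linear_combination -a1)
      (by linear_combination -a2) (by linear_combination -a3) (by linear_combination -a4)
      (by linear_combination -a6) (by linear_combination -b1) (by linear_combination -b2)
      (by linear_combination -b3) (by linear_combination -b4) (by linear_combination -b6)
      ⟨by linear_combination -c1, by linear_combination -c2, by linear_combination -c3,
        by linear_combination -c4, by linear_combination -c5, by linear_combination -c6⟩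
    have q1 : (d 3 : ℝ) = -d 11 := by linear_combination -e1
    have q2 : a (s 3) = a (s 11) := mul_left_cancel₀ (z 11) (by linear_combination e2 + a (s 3) * q1)
    have q3 : b (s 3) = b (s 11) := mul_left_cancel₀ (z 11) (by linear_combination e3 + b (s 3) * q1)
    rw [q1] at d1 d2 d3 d4 d5 d6
    rw [q2] at d2 d4 d5
    rw [q3] at d3 d5 d6
    have M : M4 (d 8) (-d 16) (-d 11) 1 (a (s 8)) (a (s 16)) (a (s 11)) (a o) (b (s 8)) (b (s 16)) (b (s 11)) (b o) (4 / 3) (2 / 3) 1 :=
      ⟨by linear_combination -d1, by linear_combination -d2, by linear_combination -d3,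
        by linear_combination -d4, by linear_combination -d5, by linear_combination -d6⟩
    have o1 := M.o1 one_ne_zero
    rw [k1, k3, k4, k5, k7, k8] at o1
    have : (0 : ℝ) = 1 := by linear_combination 9 / 28 * o1 - 5 / 14 * l4
    norm_num at this
  · obtain ⟨f, g, p, k1, k2, k3, k4, k5, k6, k7, k8, k9, k10, f0, g0, l1, l2, l3, l4, l5, l6⟩ :=
      base (dA := d 15) (dV := d 16) (dW := d 19) (dB := d 12) (dT := d 7) (dX := d 4)
      (aA := a (s 15)) (aV := a (s 16)) (aW := a (s 19)) (aB := a (s 12)) (aT := a (s 7)) (aX := a (s 4))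
      (ao := a o) (bA := b (s 15)) (bV := b (s 16)) (bW := b (s 19)) (bB := b (s 12)) (bT := b (s 7))
      (bX := b (s 4)) (bo := b o) (z _) (z _) (z _) (z _) (z _) (z _) (by linear_combination -a1)
      (by linear_combination -a2) (by linear_combination -a3) (by linear_combination -a4)
      (by linear_combination -a6) (by linear_combination -b1) (by linear_combination -b2)
      (by linear_combination -b3) (by linear_combination -b4) (by linear_combination -b6)
      ⟨by linear_combination -c1, by linear_combination -c2, by linear_combination -c3,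
        by linear_combination -c4, by linear_combination -c5, by linear_combination -c6⟩
    have M : M4 1 (-d 16) (d 12) (-d 4) (a o) (a (s 16)) (a (s 12)) (a (s 4)) (b o) (b (s 16)) (b (s 12)) (b (s 4)) (4 / 3) (2 / 3) 1 :=
      ⟨by linear_combination -d1, by linear_combination -d2, by linear_combination -d3,
        by linear_combination -d4, by linear_combination -d5, by linear_combination -d6⟩
    have o1 := M.o1 (neg_ne_zero.2 (z _))
    have o2 := M.s12.o1 (neg_ne_zero.2 (z _))
    have o3 := M.s13.o1 (neg_ne_zero.2 (z _))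
    rw [k1, k3, k5, k8, k9, k10] at o1 o2 o3
    have s2 := mul_left_cancel₀ (z 16) (show d 16 * (3 * (p * g - 2 / 3 * (-p * f + ((3 * p + 4 * f - 2 * g) / 2 - f) * g) -
      4 / 3 * f * ((3 * p + 4 * f - 2 * g) / 2 - f))) = d 16 * (4 * f * (f - g)) by
      linear_combination -3 * o2 - 4 / 3 * l2)
    have s3 := mul_left_cancel₀ (z 12) (show d 12 * (3 * (-g * (p - g) - 2 / 3 * (-g * ((3 * p + 4 * f - 2 * g) / 2) +
      f * (p - g)) + 4 / 3 * f * ((3 * p + 4 * f - 2 * g) / 2))) = d 12 * (-g * (4 * f + g)) by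
      linear_combination 3 * o3 + 1 / 3 * l5)
    obtain rfl : g = -3 * f := mul_left_cancel₀ g0 (by linear_combination (s2 + s3) / 4)
    obtain rfl : p = -2 * f := mul_left_cancel₀ f0 (by linear_combination -s2 / 4)
    have : (0 : ℝ) = 1 := by linear_combination -9 / 8 * o1 + 3 / 4 * l6
    norm_num at this
  · obtain ⟨f, g, p, k1, k2, k3, k4, k5, k6, k7, k8, k9, k10, f0, g0, l1, l2, l3, l4, l5, l6⟩ :=
      base (dA := d 15) (dV := d 17) (dW := d 18) (dB := d 12) (dT := d 7) (dX := d 5)
      (aA := a (s 15)) (aV := a (s 17)) (aW := a (s 18)) (aB := a (s 12)) (aT := a (s 7)) (aX := a (s 5))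
      (ao := a o) (bA := b (s 15)) (bV := b (s 17)) (bW := b (s 18)) (bB := b (s 12)) (bT := b (s 7))
      (bX := b (s 5)) (bo := b o) (z _) (z _) (z _) (z _) (z _) (z _) (by linear_combination -a1)
      (by linear_combination -a2) (by linear_combination -a3) (by linear_combination -a4)
      (by linear_combination -a6) (by linear_combination -b1) (by linear_combination -b2)
      (by linear_combination -b3) (by linear_combination -b4) (by linear_combination -b6)
      ⟨by linear_combination -c1, by linear_combination -c2, by linear_combination -c3,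
        by linear_combination -c4, by linear_combination -c5, by linear_combination -c6⟩
    have M : M4 1 (-d 18) (d 12) (d 2) (a o) (a (s 18)) (a (s 12)) (a (s 2)) (b o) (b (s 18)) (b (s 12)) (b (s 2)) (4 / 3) (2 / 3) 1 :=
      ⟨by linear_combination -d1, by linear_combination -d2, by linear_combination -d3,
        by linear_combination -d4, by linear_combination -d5, by linear_combination -d6⟩
    have o1 := M.o1 (z _)
    have o2 := M.s12.o1 (z _)
    have o3 := M.s13.o1 (z _)
    rw [k2, k3, k6, k8, k9, k10] at o1 o2 o3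
    have s2 := mul_left_cancel₀ (z 18) (show d 18 * (g * (5 * p - 6 * ((3 * p + 4 * f - 2 * g) / 2) + 6 * g)) =
      d 18 * (4 * g * (g - f)) by linear_combination -3 * o2 - 4 / 3 * l3)
    have s3 := mul_left_cancel₀ (z 12) (show d 12 * (3 * (-g * (p - g) - 2 / 3 * (-g * ((3 * p + 4 * f - 2 * g) / 2) +
      g * (p - g)) + 4 / 3 * g * ((3 * p + 4 * f - 2 * g) / 2))) = d 12 * (-g * (4 * f + g)) by
      linear_combination 3 * o3 + 1 / 3 * l5)
    obtain rfl : f = -g := mul_left_cancel₀ g0 (by linear_combination (s2 + s3) / 8)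
    obtain rfl : p = 4 * g := mul_left_cancel₀ g0 (by linear_combination -s2 / 4)
    have : (d 7 : ℝ) = -2 := by linear_combination l4 - 9 / 8 * d 7 * o1
    have : d 7 = -2 := by exact_mod_cast this
    exact ⟨s 7, by have := h5 7; have := D0 (s 7); omega, by rw [k7, k9]; ring⟩

end Cfsg.Agent.H9.SP
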