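import Mathlib
import Cfsg.Agent.H9.Hd7
import Cfsg.Agent.H9.Hd8

/-! The character theory for `3³ : S₄`. -/

set_option autoImplicit false
set_option linter.unusedSectionVars false
set_option synthInstance.maxSize 4000
set_option maxRecDepth 100000

namespace Cfsg.Agent.H9.SP

open Subgroup Cfsg.Agent.FT Cfsg.Agent.GW Cfsg.Agent.H6 Cfsg.Agent.H21 Finset SemidirectProduct
open scoped ComplexConjugate

noncomputable def r3 : ℝ := √3

theorem r3_sq : r3 * r3 = 3 := Real.mul_self_sqrt (by norm_num)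

noncomputable def ev (x : ℤ × ℤ × ℤ × ℤ) : ℂ :=
  (x.1 + x.2.1 * (r3 : ℂ) + Complex.I * (x.2.2.1 + x.2.2.2 * (r3 : ℂ))) / 2

theorem ev_add (x y : ℤ × ℤ × ℤ × ℤ) : ev (x + y) = ev x + ev y := by
  simp only [ev, Prod.fst_add, Prod.snd_add]; push_cast; ring

noncomputable def evh : ℤ × ℤ × ℤ × ℤ →+ ℂ := AddMonoidHom.mk' ev ev_add

def mul4 (x y : ℤ × ℤ × ℤ × ℤ) : ℤ × ℤ × ℤ × ℤ :=
  (x.1 * y.1 + 3 * x.2.1 * y.2.1 - x.2.2.1 * y.2.2.1 - 3 * x.2.2.2 * y.2.2.2,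
    x.1 * y.2.1 + x.2.1 * y.1 - x.2.2.1 * y.2.2.2 - x.2.2.2 * y.2.2.1,
    x.1 * y.2.2.1 + 3 * x.2.1 * y.2.2.2 + x.2.2.1 * y.1 + 3 * x.2.2.2 * y.2.1,
    x.1 * y.2.2.2 + x.2.1 * y.2.2.1 + x.2.2.1 * y.2.1 + x.2.2.2 * y.1)

theorem ev_mul (x y : ℤ × ℤ × ℤ × ℤ) : ev (mul4 x y) = 2 * (ev x * ev y) := by
  have h : (r3 : ℂ) * r3 = 3 := by exact_mod_cast r3_sq
  simp only [ev, mul4]
  push_cast
  linear_combination (-(x.2.1 * y.2.1 - x.2.2.2 * y.2.2.2 + Complex.I * (x.2.1 * y.2.2.2 + x.2.2.2 * y.2.1)) / 2) * h -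
    ((x.2.2.1 + x.2.2.2 * (r3 : ℂ)) * (y.2.2.1 + y.2.2.2 * (r3 : ℂ)) / 2) * Complex.I_mul_I

theorem cz_add : ∀ i j, mul4 (cz i) (cz j) = cz (i + j) + cz (i + j) := by decide +kernel

def KC (c : Fin 8) : Subgroup NC :=
  ⟨⟨⟨{p | kc c p.right}, fun ha hb => (((kc1 c).2.1 _ ha).2.2 _ hb).1⟩, (kc1 c).1⟩,
    fun ha => ((kc1 c).2.1 _ ha).1⟩

instance (c : Fin 8) : DecidablePred (· ∈ KC c) := fun p => inferInstanceAs (Decidable (kc c p.right))

noncomputable def lamC (c : Fin 8) : KC c →* ℂ where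
  toFun p := ev (cz (lv c p.1.left + j0 c p.1.right))
  map_one' := by
    have : cz (lv c (1 : KC c).1.left + j0 c (1 : KC c).1.right) = (2, 0, 0, 0) :=
      (by decide +kernel : ∀ c, cz (lv c 1 + j0 c 1) = (2, 0, 0, 0)) c
    rw [this]; simp [ev]
  map_mul' p q := by
    have h := congrArg ev (cz_add (lv c p.1.left + j0 c p.1.right) (lv c q.1.left + j0 c q.1.right))
    obtain ⟨-, h1, h2⟩ := kc1 c
    have : lv c (p * q).1.left + j0 c (p * q).1.right =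
        lv c p.1.left + j0 c p.1.right + (lv c q.1.left + j0 c q.1.right) := by
      rw [Subgroup.coe_mul, mul_left, mul_right, h2, ((h1 _ p.2).2.2 _ q.2).2,
        show φC p.1.right q.1.left = acC p.1.right q.1.left from rfl, (h1 _ p.2).2.1]
      ring
    rw [ev_mul, ev_add, ← this] at h
    linear_combination -h / 2

def TC : Subgroup NC := (rightHom : NC →* Cu).ker

instance : DecidablePred (· ∈ TC) := fun p => inferInstanceAs (Decidable (p.right = 1))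

variable {G : Type*} [Group G] [Finite G] {e : NC →* G}

theorem conj_cl {p q : NC} (h : cl p = cl q) : IsConj (e p) (e q) := by
  have k (p : NC) : IsConj (e (rp (cl p))) (e p) :=
    isConj_iff.2 ⟨e (cjt p), by rw [← map_inv, ← map_mul, ← map_mul, cl_conj]⟩
  exact (k p).symm.trans (h ▸ k q)

theorem mono (c : Fin 8) (χ : IrrCharacter G) : ∃ n : ℕ, ∑ i, conj (ev (Wt c i)) * χ.1 (e (rp i)) =
    (![648, 324, 216, 216, 108, 81, 108, 54] c : ℕ) * n := by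
  obtain ⟨n, hn⟩ := H7.ip_char_nat (H7.char_comp (e.comp (KC c).subtype) (isCharacter_of_irr χ.2))
    (H7.char_of_hom (lamC c).toHomUnits)
  rw [H7.ip_def, inv_mul_eq_iff_eq_mul₀ (card_ne_zero_complex _), Nat.card_eq_fintype_card,
    Fintype.card_subtype] at hn
  refine ⟨n, ?_⟩
  rw [← (kc2 c).1]
  refine .trans ?_ hn
  simp only [← (kc2 c).2]
  refine .trans ?_ (sum_subtype (univ.filter (· ∈ KC c)) (by simp)
    fun p => χ.1 (e p) * conj (ev (cz (lv c p.left + j0 c p.right))))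
  rw [sum_filter, ← sum_fiberwise (s := univ) (g := cl)]
  refine sum_congr rfl fun i _ => ?_
  rw [show ev = evh from rfl, map_sum, map_sum, sum_mul]
  refine sum_congr rfl fun p hp => ?_
  rw [← isClassFunction_eq_of_isConj (isClassFunction_of_irr χ.2)
    (conj_cl (p := p) ((mem_filter.1 hp).2.trans (cl_rp i).symm))]
  by_cases d : kc c p.right
  · rw [if_pos d, if_pos (show p ∈ KC c from d), mul_comm]
  · rw [if_neg d, if_neg (show p ∉ KC c from d), map_zero, map_zero, zero_mul]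

noncomputable def Fw (e : NC →* G) (w : Fin 9 → ℝ) (χ : IrrCharacter G) : ℂ := ∑ i, w i * χ.1 (e (sr i))

noncomputable def wt : Fin 5 → Fin 9 → ℝ :=
  ![![-3 / 108, 3 / 12, -r3 / 12, r3 / 12, -6 / 54, 0, -9 / 81, 0, 0],
    ![-9 / 108, -3 / 12, r3 / 12, -r3 / 12, 0, 0, 0, 3 / 9, 0],
    ![3 / 108, 3 / 12, 3 / 12, 3 / 12, 6 / 54, 0, 9 / 81, 0, 0],
    ![0, 0, 0, 0, 9 / 54, 3 / 6, 0, 3 / 9, 0], ![0, 0, 0, 0, 0, 0, 0, 3 / 9, -3 / 9]]

theorem Fw_eq (w : Fin 9 → ℝ) (χ : IrrCharacter G) : Fw e w χ = w 0 * χ.1 (e (rp 0)) + w 1 * χ.1 (e (rp 1)) +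
    w 2 * χ.1 (e (rp 2)) + w 3 * χ.1 (e (rp 3)) + w 4 * χ.1 (e (rp 4)) + w 5 * χ.1 (e (rp 5)) +
    w 6 * χ.1 (e (rp 6)) + w 7 * χ.1 (e (rp 7)) + w 8 * χ.1 (e (rp 8)) := by
  rw [Fw, Fin.sum_univ_castSucc, Fin.sum_univ_eight]; rfl

theorem int4 (χ : IrrCharacter G) : (∃ n : ℤ, Fw e (wt 0) χ = n) ∧ (∃ n : ℤ, Fw e (wt 1) χ = n) ∧
    (∃ n : ℤ, Fw e (wt 2) χ = n) ∧ ∃ n : ℤ, Fw e (wt 3) χ = n := by
  choose m hm using fun c => mono (e := e) c χ
  have h0 := hm 0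
  have h1 := hm 1
  have h2 := hm 2
  have h3 := hm 3
  have h4 := hm 4
  have h5 := hm 5
  have h6 := hm 6
  have h7 := hm 7
  simp only [Fin.sum_univ_succ, Fin.sum_univ_zero, Wt, ev, Matrix.cons_val_zero, Matrix.cons_val_succ,
    Matrix.cons_val, Fin.succ_zero_eq_one, Fin.succ_one_eq_two, Fin.reduceSucc, Matrix.cons_val_one,
    Int.cast_zero, zero_mul, add_zero, mul_zero, map_div₀, map_add, map_mul (starRingEnd ℂ), map_intCast,
    Complex.conj_ofReal, map_ofNat, zero_add] at h0 h1 h2 h3 h4 h5 h6 h7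
  simp only [Fw_eq, wt, Matrix.cons_val_zero, Matrix.cons_val_one, Matrix.cons_val]
  push_cast at *
  exact ⟨⟨m 4 - m 2 - m 3, by push_cast; linear_combination h4 / 108 - h2 / 216 - h3 / 216⟩,
    ⟨m 5 - m 4 - m 1, by push_cast; linear_combination h5 / 81 - h4 / 108 - h1 / 324⟩,
    ⟨m 0 + m 1 + m 2 - m 6, by push_cast; linear_combination h0 / 648 + h1 / 324 + h2 / 216 - h6 / 108⟩,
    ⟨m 0 + m 3 + m 5 - m 7, by push_cast; linear_combination h0 / 648 + h3 / 216 + h5 / 81 - h7 / 54⟩⟩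

end Cfsg.Agent.H9.SP
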