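import Mathlib
import Cfsg.Agent.H9.Hd9

/-! The character of degree two for `3³ : S₄`. -/

set_option autoImplicit false
set_option linter.unusedSectionVars false
set_option synthInstance.maxSize 4000
set_option maxRecDepth 100000

namespace Cfsg.Agent.H9.SP

open Subgroup Cfsg.Agent.FT Cfsg.Agent.GW Cfsg.Agent.H6 Cfsg.Agent.H21 Finset SemidirectProduct
open scoped ComplexConjugate

variable {G : Type*} [Group G] [Finite G] {e : NC →* G}

theorem Spc.of_pow {N : Type} [Group N] {e : N →* G} {p : N} (n : ℕ) (h : Spc e (p ^ n)) : Spc e p :=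
  fun g q hg => h g (q ^ n) (by rw [map_pow, map_pow, ← hg, conj_pow])

theorem d1 : (∀ i, (sr i ^ 4 ∈ TC ∧ sr i ^ 4 ≠ 1) ∨ (sr i ^ 3 ∈ TC ∧ sr i ^ 3 ≠ 1)) ∧
    rp 4 * rp 11 = rp 11 * rp 4 ∧ rp 0 * rp 10 = rp 10 * rp 0 ∧
    (univ.filter fun k => k * rp 11 = rp 11 * k).card = 12 ∧ rp 4 ^ 3 = 1 ∧ rp 0 ^ 3 = 1 ∧
    cl (rp 4)⁻¹ = 4 ∧ rp 0 ≠ 1 ∧ rp 4 ≠ 1 ∧ rp 10 ≠ 1 ∧ rp 11 ≠ 1 ∧ cl 1 = 9 := by decide +kernel

theorem d2 : ∀ i ∈ [rp 7, rp 8], i ^ 9 = 1 ∧ i ≠ 1 ∧ (∀ r : Fin 9, ¬ 3 ∣ r.1 → cl i = cl (i ^ r.1)) ∧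
    (i ^ 3) ^ 3 = 1 ∧ cl (i ^ 3) = cl (i ^ 3)⁻¹ := by decide +kernel

/-- the local hypothesis -/
structure Mc (e : NC →* G) : Prop where
  inj : Function.Injective e
  spc : ∀ j ∈ TC, j ≠ 1 → Spc e j

namespace Mc

variable (h : Mc e)
include h

theorem sp (i : Fin 9) : Spc e (sr i) :=
  (d1.1 i).elim (fun c => .of_pow 4 (h.spc _ c.1 c.2)) fun c => .of_pow 3 (h.spc _ c.1 c.2)

theorem col0 (i : Fin 9) {q : NC} (hq : cl q ≠ i.castLE (by decide)) :
    ∑ χ : IrrCharacter G, χ.1 (e (sr i)) * conj (χ.1 (e q)) = 0 := by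
  rw [(h.sp i).col h.inj, Nat.cast_eq_zero, card_eq_zero, filter_eq_empty_iff]
  exact fun k _ c => hq (c ▸ cl_inv i k)

theorem Fcol (w : Fin 9 → ℝ) {q : NC} (hq : 9 ≤ (cl q).1) : ∑ χ, Fw e w χ * conj (χ.1 (e q)) = 0 := by
  simp only [Fw, sum_mul, mul_assoc]
  rw [sum_comm]
  exact sum_eq_zero fun i _ => by
    rw [← mul_sum, h.col0 i (fun c => by have := i.2; simp [c] at hq; omega), mul_zero]

theorem Fcol' (w : Fin 9 → ℝ) (j : Fin 9) : ∑ χ, Fw e w χ * conj (χ.1 (e (sr j))) = w j * ce j := by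
  simp only [Fw, sum_mul, mul_assoc]
  rw [sum_comm, sum_eq_single j (fun i _ ij => ?_) (by simp), ← mul_sum, (h.sp j).col h.inj, ce_eq]
  rw [← mul_sum, h.col0 i (q := sr j) (fun c => ij (Fin.castLE_injective _ (c.symm.trans (cl_rp _)))), mul_zero]

theorem Fgram (w w' : Fin 9 → ℝ) : ∑ χ, Fw e w χ * conj (Fw e w' χ) = ((∑ j, w' j * (w j * ce j) : ℝ) : ℂ) := by
  have (χ : IrrCharacter G) : Fw e w χ * conj (Fw e w' χ) =
      ∑ j, w' j * (Fw e w χ * conj (χ.1 (e (sr j)))) := by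
    rw [Fw.eq_1 e w', map_sum, mul_sum]
    exact sum_congr rfl fun q _ => by rw [map_mul, Complex.conj_ofReal, mul_left_comm]
  rw [sum_congr rfl fun χ _ => this χ, sum_comm]
  push_cast
  exact sum_congr rfl fun q _ => by rw [← mul_sum, h.Fcol']

omit h in
theorem Fnpr (w : Fin 9 → ℝ) (t s : G) :
    (Nat.card G : ℂ) / (#C[t] * #C[s]) * ∑ χ, conj (Fw e w χ) * (χ.1 t * χ.1 s / χ.1 1) =
      ((∑ i, w i * npr t s (e (sr i)) : ℝ) : ℂ) := by
  have (χ : IrrCharacter G) : conj (Fw e w χ) * (χ.1 t * χ.1 s / χ.1 1) =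
      ∑ p, w p * (χ.1 t * χ.1 s * conj (χ.1 (e (sr p))) / χ.1 1) := by
    rw [Fw, map_sum, sum_mul]
    exact sum_congr rfl fun q _ => by rw [map_mul, Complex.conj_ofReal]; ring
  rw [sum_congr rfl fun χ _ => this χ, sum_comm, mul_sum]
  push_cast
  exact sum_congr rfl fun p _ => by rw [← mul_sum, card_class_mul, mul_left_comm]

theorem su : ¬ IsConj (e (rp 10)) (e (rp 11)) := fun c => by
  obtain ⟨-, a1, a2, a3, a4, a5, a6, a7, a8, -⟩ := d1
  obtain ⟨g, hg⟩ := isConj_iff.1 c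
  have cm {p q : NC} : e q ∈ C[e p] ↔ q * p = p * q := by rw [mem_cen1, ← map_mul, ← map_mul, h.inj.eq_iff]
  have e3 : e (rp 4) ^ 3 = 1 := by rw [← map_pow, a4, map_one]
  have hP : #⟪e (rp 4)⟫ = 3 := by
    haveI : Fact (Nat.Prime 3) := ⟨Nat.prime_three⟩
    rw [card_zpowers', orderOf_eq_prime e3 fun c => a8 (h.inj (c.trans e.map_one.symm))]
  have hR : #(C[e (rp 11)] ⊓ e.range : Subgroup G) = 12 := by
    rw [← a3, ← ncard_e h.inj (· ∈ C[e (rp 11)] ⊓ e.range) _ (fun g hg => hg.2) fun k =>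
      ⟨fun c => cm.1 c.1, fun c => ⟨cm.2 c, k, rfl⟩⟩, ← Nat.card_coe_set_eq]
    rfl
  have l1 : ⟪e (rp 4)⟫ ≤ C[e (rp 11)] := zpowers_le.2 (cm.2 a1)
  have l3 : ⟪e (rp 4)⟫ ≤ e.range := zpowers_le.2 ⟨_, rfl⟩
  have hS := syl_of_subnorm l1 ((syl_of_not_dvd (le_inf l1 l3) (pGrp_of_card_prime Nat.prime_three hP) (by
    rw [H3.relIndex_of_card_mul (le_inf l1 l3) (n := 4) (by omega)]; decide)).subl (le_inf l1 (le_nrm _))
    fun x hx => ⟨hx.1, let ⟨q, hq⟩ := l3 (conj_mem hx.2 (mem_zpowers _)); h.sp 4 x q hq.symm⟩)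
  obtain ⟨k, -, hk⟩ := hS.syl_elt (x := g * e (rp 0) * g⁻¹)
    (mem_cen1.2 (by rw [← hg, conj_mul, conj_mul, ← map_mul, ← map_mul, a2]))
    (pElt_of_pow_eq_one Nat.prime_three (by rw [conj_pow, ← map_pow, a5]; simp))
  have k0 {q : NC} (c : k * (g * e (rp 0) * g⁻¹) * k⁻¹ = e q) : cl q = 0 := by
    obtain ⟨y, hy⟩ := ((h.sp 0).conj_iff h.inj).1 (isConj_iff.2 ⟨k * g, by
      rw [← c, show sr 0 = rp 0 from rfl]; group⟩)
    exact hy ▸ cl_inv 0 y
  obtain c | c | c := cube_mem e3 hk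
  · exact absurd (k0 (c.trans e.map_one.symm)) (by decide +kernel)
  · exact absurd (k0 c) (by rw [cl_rp]; decide)
  · exact absurd (k0 (c.trans (map_inv e _).symm)) (by rw [a6]; decide)

theorem csu (k : NC) : (IsConj (e (rp 10)) (e k) ↔ cl k = 10) ∧ (IsConj (e (rp 11)) (e k) ↔ cl k = 11) := by
  obtain ⟨-, -, -, -, -, -, -, -, -, a1, a2, -⟩ := d1
  have a {p : NC} (hp : p * p = 1) (p1 : p ≠ 1) (c : IsConj (e p) (e k)) : cl k = 10 ∨ cl k = 11 := by
    refine (cl_sq k (h.inj ?_)).resolve_left ?_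
    · obtain ⟨g, hg⟩ := isConj_iff.1 c
      rw [map_mul, ← hg, conj_mul, ← map_mul, hp, map_one, mul_one, mul_inv_cancel]
    · rintro rfl
      exact p1 (h.inj (by simpa using c))
  have b (i) (c : cl k = i) : IsConj (e (rp i)) (e k) := conj_cl ((cl_rp i).trans c.symm)
  exact ⟨⟨fun c => (a ((cl_sq' _).1 (cl_rp _)) a1 c).resolve_right fun d => h.su (c.trans (b _ d).symm), b _⟩,
    ⟨fun c => (a ((cl_sq' _).2 (cl_rp _)) a2 c).resolve_left fun d => h.su ((b _ d).trans c.symm), b _⟩⟩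

theorem nine {p : NC} (hp : p ∈ [rp 7, rp 8]) : Zc (e p) ∧ ∀ χ, 3 ∣ zv (e p) χ - zv 1 χ := by
  obtain ⟨a1, a2, a3, a4, a5⟩ := d2 p hp
  have z : Zc (e p) := zc_of fun χ => exists_int_of_isConj_pow (isGen_of_irr χ.2) _ fun k hk => by
    rw [orderOf_injective e h.inj] at hk
    have : 3 ∣ orderOf p := by
      obtain ⟨j, -, hj⟩ := (Nat.dvd_prime_pow Nat.prime_three).1
        (orderOf_dvd_of_pow_eq_one (show p ^ 3 ^ 2 = 1 from a1))
      obtain rfl | j0 := j.eq_zero_or_pos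
      · exact absurd (orderOf_eq_one_iff.1 hj) a2
      · exact hj ▸ dvd_pow_self 3 j0.ne'
    rw [← map_pow, pow_eq_pow_mod k a1]
    exact conj_cl (a3 ⟨k % 9, Nat.mod_lt _ (by norm_num)⟩ fun c => by
      have := Nat.dvd_gcd (show 3 ∣ k by simp only at c; omega) this
      omega)
  have z3 : Zc (e p ^ 3) := zc_cube (by rw [← map_pow, ← map_pow, a4, map_one])
    (by rw [← map_pow, ← map_inv]; exact conj_cl a5)
  have e9 : (e p ^ 3) ^ 3 = 1 := by rw [← map_pow, ← map_pow, a4, map_one]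
  refine ⟨z, fun χ => ?_⟩
  have b1 := zv_pow Nat.prime_three z z3 χ
  have b2 := zv_pow Nat.prime_three z3 (e9 ▸ zc_one) χ
  rw [e9] at b2
  omega

theorem two : ∃ χ, zv (1 : G) χ = 2 ∧ zv (e (rp 10)) χ = 2 := by
  obtain ⟨z7, y7⟩ := h.nine (p := rp 7) (by simp)
  obtain ⟨z8, y8⟩ := h.nine (p := rp 8) (by simp)
  have f4 (χ) : Fw e (wt 4) χ = (zv (e (rp 7)) χ - zv (e (rp 8)) χ) / 3 := by
    simp only [Fw_eq, wt, Matrix.cons_val_zero, Matrix.cons_val_one, Matrix.cons_val, z7 χ, z8 χ]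
    push_cast; ring
  have : ∀ k χ, ∃ n : ℤ, Fw e (wt k) χ = n := fun k χ => by
    obtain ⟨i0, i1, i2, i3⟩ := int4 (e := e) χ
    fin_cases k
    exacts [i0, i1, i2, i3, by
      obtain ⟨n, hn⟩ : 3 ∣ zv (e (rp 7)) χ - zv (e (rp 8)) χ := by have := y7 χ; have := y8 χ; omega
      exact ⟨n, (f4 χ).trans (by rw [← Int.cast_sub, hn]; push_cast; ring)⟩]
  choose u hu using this
  have r := r3_sq
  have ss : e (rp 10) * e (rp 10) = 1 := by rw [← map_mul, (cl_sq' _).1 (cl_rp _), map_one]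
  have uu : e (rp 11) * e (rp 11) = 1 := by rw [← map_mul, (cl_sq' _).2 (cl_rp _), map_one]
  have z1 := zc_one (G := G)
  have d0 (χ) : (zv (1 : G) χ : ℝ) ≠ 0 := Int.cast_ne_zero.2 (zv_pos χ).ne'
  have n0 (g : G) : (#C[g] : ℝ) ≠ 0 := Nat.cast_ne_zero.2 Nat.card_pos.ne'
  set ρ : ℝ := √(Nat.card G / 648)
  have ρ2 : ρ * ρ = Nat.card G / 648 := Real.mul_self_sqrt (by positivity)
  have ρ0 : ρ ≠ 0 := fun c => by
    have : (0 : ℝ) < Nat.card G := Nat.cast_pos.2 Nat.card_pos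
    rw [c] at ρ2; linarith
  have c1 {q : NC} (hq : 9 ≤ (cl q).1) (z : Zc (e q)) (k) : ∑ χ, (u k χ * zv (e q) χ : ℝ) = 0 := by
    have := h.Fcol (wt k) hq
    simp only [hu, z _, map_intCast] at this
    exact_mod_cast this
  have c2 {q : NC} (hq : 9 ≤ (cl q).1) (z : Zc (e q)) (k) (c : ℝ) :
      ∑ χ, u k χ * zv 1 χ * (zv (e q) χ / zv 1 χ * c) = 0 := by
    rw [← mul_zero c, ← c1 hq z k, mul_sum]
    exact sum_congr rfl fun χ _ => by have := d0 χ; field_simp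
  have c3 {t s : G} (ht : Zc t) (hs : Zc s) (k) (c c' : ℝ) :
      ∑ χ, u k χ * zv 1 χ * (zv t χ / zv 1 χ * (c / #C[t] * ρ) * (zv s χ / zv 1 χ * (c' / #C[s] * ρ))) =
        c * c' / 648 * ∑ i, wt k i * npr t s (e (sr i)) := by
    have := Fnpr (e := e) (wt k) t s
    simp only [hu, ht _, hs _, z1 _, map_intCast] at this
    replace this : (Nat.card G : ℝ) / (#C[t] * #C[s]) * ∑ χ, (u k χ * (zv t χ * zv s χ / zv 1 χ) : ℝ) =
      ∑ i, wt k i * npr t s (e (sr i)) := Complex.ofReal_injective (by rw [← this]; push_cast; rfl)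
    rw [← this, mul_sum, mul_sum]
    refine sum_congr rfl fun χ _ => ?_
    have := d0 χ
    have := n0 t
    have := n0 s
    rw [show (Nat.card G : ℝ) = 648 * (ρ * ρ) by rw [ρ2]; ring]
    field_simp
  have p1 (i) := (h.sp i).npr h.inj ss ss _ _ (fun k => (h.csu k).1) fun k => (h.csu k).1
  have p2 (i) := (h.sp i).npr h.inj ss uu _ _ (fun k => (h.csu k).1) fun k => (h.csu k).2
  have p3 (i) := (h.sp i).npr h.inj uu uu _ _ (fun k => (h.csu k).2) fun k => (h.csu k).2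
  have uo' (k) : u k (trivIrr G) = uo k := by
    have := hu k (trivIrr G)
    simp only [Fw_eq, trivIrr_apply, mul_one] at this
    have : wt k 0 + wt k 1 + wt k 2 + wt k 3 + wt k 4 + wt k 5 + wt k 6 + wt k 7 + wt k 8 = u k (trivIrr G) := by
      exact_mod_cast this
    refine Int.cast_injective (α := ℝ) (this.symm.trans ?_)
    fin_cases k <;> simp [wt, uo] <;> ring
  obtain ⟨χ, h1, h2⟩ := num6 (u := u) (D := zv 1) (o := trivIrr G)
    (a := fun χ => zv (e (rp 10)) χ / zv 1 χ * (24 / #C[e (rp 10)] * ρ))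
    (b := fun χ => zv (e (rp 11)) χ / zv 1 χ * (12 / #C[e (rp 11)] * ρ))
    (fun k l => by
      have := h.Fgram (wt k) (wt l)
      simp only [hu, map_intCast] at this
      have : ((∑ χ, u k χ * u l χ : ℤ) : ℝ) = ∑ j, wt l j * (wt k j * ce j) := by exact_mod_cast this
      refine Int.cast_injective (α := ℝ) (this.trans ?_)
      fin_cases k <;> fin_cases l <;> simp [wt, uo, gr, ce, Fin.sum_univ_succ] <;> nlinarith)
    uo' (zv_triv _) zv_pos
    (fun χ c d => by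
      have o : χ ≠ trivIrr G := by rintro rfl; exact c (uo' 4)
      have k (i : Fin 9) (hi : ce i = 9) (z : Zc (e (sr i))) (y : 3 ∣ zv (e (sr i)) χ - zv 1 χ) :
          zv (e (sr i)) χ = 0 := by
        have := (h.sp i).col h.inj (sr i)
        simp only [z _, map_intCast, ce_eq, hi] at this
        have t : ∑ χ, zv (e (sr i)) χ * zv (e (sr i)) χ = 9 := by exact_mod_cast this
        have := t ▸ add_le_sum (f := fun χ => zv (e (sr i)) χ * zv (e (sr i)) χ)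
          (fun _ _ => mul_self_nonneg _) (mem_univ χ) (mem_univ _) o
        rw [zv_triv] at this
        have : -3 < zv (e (sr i)) χ ∧ zv (e (sr i)) χ < 3 := by constructor <;> nlinarith
        omega
      have := (hu 4 χ).symm.trans (f4 χ)
      rw [show zv (e (rp 7)) χ = 0 from k 7 rfl z7 (y7 χ), show zv (e (rp 8)) χ = 0 from k 8 rfl z8 (y8 χ)] at this
      exact c (by simpa using this))
    (fun k => by simpa using c1 (q := 1) (by rw [d1.2.2.2.2.2.2.2.2.2.2.2]; decide) (by rwa [map_one]) k)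
    (fun k => c2 (by rw [cl_rp]; decide) (zc_sq ss) k _) (fun k => c2 (by rw [cl_rp]; decide) (zc_sq uu) k _)
    (fun k => by
      rw [c3 (zc_sq ss) (zc_sq ss)]
      simp only [p1, (npr_t _).1]
      fin_cases k <;> simp [wt, Fin.sum_univ_succ] <;> ring)
    (fun k => by
      rw [c3 (zc_sq ss) (zc_sq uu)]
      simp only [p2, (npr_t _).2.1]
      fin_cases k <;> simp [wt, Fin.sum_univ_succ] <;> ring)
    (fun k => by
      rw [c3 (zc_sq uu) (zc_sq uu)]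
      simp only [p3, (npr_t _).2.2]
      fin_cases k <;> simp [wt, Fin.sum_univ_succ] <;> ring)
  refine ⟨χ, h1, ?_⟩
  have := mul_right_cancel₀ (mul_ne_zero (div_ne_zero (by norm_num) (n0 _)) ρ0) h2
  simp only [zv_triv, h1] at this
  have : (zv (e (rp 10)) χ : ℝ) = 2 := by push_cast at this; linarith
  exact_mod_cast this

end Mc

end Cfsg.Agent.H9.SP
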