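import Mathlib
import Cfsg.Agent.H9.Hd10
import Cfsg.Prelude.Def_TwoFusion
import Cfsg.Prelude.Def_Solvable

/-! Prince's lemma on `3³ : S₄`. -/

set_option autoImplicit false
set_option linter.unusedSectionVars false
set_option synthInstance.maxSize 4000
set_option maxRecDepth 100000

namespace Cfsg.Agent.H9.SP

open Subgroup Cfsg.Agent.FT Cfsg.Agent.GW Cfsg.Agent.H6 Cfsg.Agent.H21 Finset SemidirectProduct

def ιV : V4 →* Cu := MonoidHom.mk' (fun g => match g with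
  | .r i => if i = 0 then cu 0 else cu 3
  | .sr i => if i = 0 then cu 2 else cu 1) (by decide +kernel)

theorem ιV1 : ∀ g m, ac9 g m = acC (ιV g) m := by decide +kernel

def ι9 : N9 →* NC := SemidirectProduct.map (.id _) ιV fun g => MonoidHom.ext (ιV1 g)

theorem d3 : (∀ p, ι9 p = 1 → p = 1) ∧ (∀ i, cl (ι9 (s9 i)) = 10) ∧ rp 0 ∈ KC 5 ∧ rp 0 = ι9 (x9 0) ∧
    (∀ g h : Cu, ∃ v, ∃ c : Fin 3, g * h * g⁻¹ * h⁻¹ = ιV v * cu 15 ^ c.1) ∧
    (∀ g : Cu, (∃ v, ιV v = g) ∨ ∃ k k' v, k * g * k⁻¹ * (k' * g * k'⁻¹) * ιV v = cu 15) ∧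
    (∀ g : Cu, g ≠ 1 → ∃ k k', k * g * k⁻¹ * (k' * g * k'⁻¹) = cu 1) ∧ cu 1 ^ 2 = 1 ∧ cu 1 ≠ 1 ∧
    Fintype.card NC = 648 ∧ (∀ p ∈ TC, p ^ 3 = 1) ∧ rp 0 ∈ TC ∧ ∀ p ∈ TC, ∀ q ∈ TC, p * q = q * p := by
  decide +kernel

theorem d4 : (univ.filter fun k => k * rp 0 = rp 0 * k).card = 108 ∧
    ∀ j ∈ TC, j ≠ 1 → (univ.filter fun k => k * j = j * k).card = 108 → cl j = 0 := by decide +kernel

variable {G : Type*} [Group G] [Finite G] {e : NC →* G}

theorem Mc.top (h : Mc e) : e.range = ⊤ := by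
  obtain ⟨χ, h1, h2⟩ := h.two
  obtain ⟨a1, a2, a3, a4, a5, a6, -, -, -, a7, -⟩ := d3
  have ss : e (rp 10) * e (rp 10) = 1 := by rw [← map_mul, (cl_sq' _).1 (cl_rp _), map_one]
  set K := charKer χ.1
  have hn : K.Normal := charKer_normal (isClassFunction_of_irr χ.2)
  have hs : e (rp 10) ∈ K := (mem_charKer_iff_irr χ.2).2 (by rw [zc_sq ss, zc_one, h1, h2])
  have ks (i) : e (ι9 (s9 i)) ∈ K := by
    obtain ⟨g, hg⟩ := isConj_iff.1 (conj_cl (e := e) ((cl_rp 10).trans (a2 i).symm))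
    exact hg ▸ hn.conj_mem _ hs g
  have kx (j) : e (ι9 (x9 j)) ∈ K := by
    rw [← inv_mem_iff, ← map_inv, ← map_inv, ← h98 _ j (h9a.1 j).1.symm]
    simp only [map_mul, map_inv]
    exact mul_mem (hn.conj_mem _ (ks _) _) (inv_mem (ks _))
  have k9 (p) : e (ι9 p) ∈ K := by
    obtain ⟨a, b, c⟩ := f91.2.2.2.2.2.2.1 p
    rw [c]
    simp only [map_mul, map_pow]
    exact mul_mem (mul_mem (mul_mem (mul_mem (pow_mem (kx _) _) (pow_mem (kx _) _)) (pow_mem (kx _) _))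
      (pow_mem (ks _) _)) (pow_mem (ks _) _)
  have kr (p : NC) : e p ∈ K ↔ e (inr p.right) ∈ K := by
    conv_lhs => rw [← inl_left_mul_inr_right p, map_mul]
    exact mul_mem_cancel_left (k9 (inl p.left))
  have kv (v) : e (inr (ιV v)) ∈ K := k9 (inr v)
  have c1 : #((KC 5).map e) = 81 := by
    rw [show 81 = (univ.filter (· ∈ KC 5)).card from (kc2 5).1.symm, ← ncard_e h.inj (· ∈ (KC 5).map e) _
      (fun g => map_le_range _ _ (x := g)) fun k => mem_map_iff_mem h.inj, ← Nat.card_coe_set_eq]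
    rfl
  have c2 : #e.range = 648 := by
    rw [← Nat.card_congr (MonoidHom.ofInjective h.inj).toEquiv, Nat.card_eq_fintype_card, a7]
  have l : (KC 5).map e ≤ e.range := map_le_range _ _
  have nr {P : Subgroup G} (h1 : e (rp 0) ∈ P) (h2 : P ≤ e.range) : N(P) ≤ e.range := fun g hg =>
    let ⟨q, hq⟩ := h2 (conj_mem hg h1); h.sp 0 g q hq.symm
  have hS := syl_of_subnorm le_top ((syl_of_not_dvd l (pGrp_of_card (n := 4) Nat.prime_three c1) (by
    rw [H3.relIndex_of_card_mul l (n := 8) (by omega)]; decide)).subl (le_inf le_top (le_nrm _))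
    (inf_le_right.trans (nr ⟨_, a3, rfl⟩ l)))
  have fr (g : G) : ∃ k ∈ K, ∃ p, k * e p = g := by
    obtain ⟨k, hk, n, hn', rfl⟩ := ((hS.inf_nml (nml_top_iff.2 hn)).frattini (nml_top_iff.2 hn)).mul g trivial
    obtain ⟨p, rfl⟩ := nr (P := (KC 5).map e ⊓ K) ⟨⟨_, a3, rfl⟩, a4 ▸ k9 _⟩ (inf_le_left.trans l) hn'.2
    exact ⟨k, hk, p, rfl⟩
  have hσ : e (inr (cu 15)) ∉ K := fun c => by
    have := (degree_eq_one_iff_commutator_le χ.2).2 (commutator_le.2 fun g _ g' _ => by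
      obtain ⟨k, hk, p, rfl⟩ := fr g
      obtain ⟨k', hk', q, rfl⟩ := fr g'
      rw [← QuotientGroup.eq_one_iff (N := K), ← QuotientGroup.mk'_apply, map_commutatorElement, map_mul, map_mul,
        QuotientGroup.mk'_apply, QuotientGroup.mk'_apply K k', (QuotientGroup.eq_one_iff k).2 hk,
        (QuotientGroup.eq_one_iff k').2 hk', one_mul, one_mul, ← map_commutatorElement, ← map_commutatorElement,
        QuotientGroup.mk'_apply, QuotientGroup.eq_one_iff, kr]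
      obtain ⟨v, c', d⟩ := a5 p.right q.right
      rw [commutatorElement_def, show (p * q * p⁻¹ * q⁻¹).right = _ from d, map_mul, map_mul, map_pow, map_pow]
      exact mul_mem (kv v) (pow_mem c _))
    rw [zc_one, h1] at this
    norm_num at this
  have k0 (p) (hp : e p ∈ K) : ∃ q, ι9 q = p := by
    obtain ⟨v, hv⟩ | ⟨k, k', v, d⟩ := a6 p.right
    · exact ⟨⟨p.left, v⟩, SemidirectProduct.ext rfl hv⟩
    · refine absurd ?_ hσ
      rw [← d]
      simp only [map_mul, map_inv]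
      exact mul_mem (mul_mem (hn.conj_mem _ ((kr p).1 hp) _) (hn.conj_mem _ ((kr p).1 hp) _)) (kv v)
  have i9 : Function.Injective ι9 := (injective_iff_map_eq_one _).2 a1
  have key := (md9 (e := (e.comp ι9).codRestrict K k9)
    (fun p q c => i9 (h.inj (congrArg Subtype.val c))) fun m hm m1 g ⟨q, _, hq⟩ => by
      obtain ⟨p, hp⟩ := h.spc (ι9 m) (show ιV m.right = 1 by rw [show m.right = 1 from hm, map_one])
        (fun c => m1 (a1 _ c)) g (ι9 q) (congrArg Subtype.val hq).symm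
      obtain ⟨q, rfl⟩ := k0 p (hp ▸ g.2)
      exact ⟨q, Subtype.ext hp⟩).hayden
  refine eq_top_iff.2 fun g _ => ?_
  obtain ⟨k, hk, p, rfl⟩ := fr g
  obtain ⟨q, hq⟩ := key.ge (mem_top ⟨k, hk⟩)
  exact mul_mem ⟨ι9 q, congrArg Subtype.val hq⟩ ⟨p, rfl⟩

theorem prince {H J : Subgroup G} (φ : H ≃* fC.range) (hJ : J = (pCore 3 H).map H.subtype)
    (hC : ∀ j ∈ J, j ≠ 1 → C[j] ≤ H) (hsc : IsStronglyClosed J H) : H = ⊤ := by
  obtain ⟨-, -, -, -, -, -, a1, a2, a3, -, a4, a5, a6⟩ := d3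
  set e0 : NC →* H := φ.symm.toMonoidHom.comp fC.rangeRestrict
  have i0 : Function.Injective e0 := φ.symm.injective.comp
    (fC.rangeRestrict_injective_iff.2 ((injective_iff_map_eq_one _).2 fC1.1))
  have s0 : Function.Surjective e0 := φ.symm.surjective.comp fC.rangeRestrict_surjective
  set e : NC →* G := H.subtype.comp e0
  have inj : Function.Injective e := H.subtype_injective.comp i0
  have r : e.range = H := by
    rw [MonoidHom.range_comp, MonoidHom.range_eq_top.2 s0, ← MonoidHom.range_eq_map, range_subtype]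
  have eJ : J = TC.map e := by
    rw [hJ, ← Subgroup.map_map]
    congr 1
    refine le_antisymm (sSup_le fun N ⟨n1, n2⟩ x hx => ?_) (le_sSup ⟨(MonoidHom.normal_ker _).map _ s0, ?_⟩)
    · obtain ⟨p, rfl⟩ := s0 x
      refine ⟨p, by_contra fun c => ?_, rfl⟩
      obtain ⟨k, k', d⟩ := a1 p.right c
      obtain ⟨n, hn⟩ := n2 ⟨e0 (inr k * p * (inr k)⁻¹ * (inr k' * p * (inr k')⁻¹)), by
        simp only [map_mul, map_inv]
        exact mul_mem (n1.conj_mem _ hx _) (n1.conj_mem _ hx _)⟩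
      have := congrArg rightHom (i0 ((map_pow e0 _ _).trans ((congrArg Subtype.val hn).trans e0.map_one.symm)))
      simp only [map_mul, map_inv, map_pow, rightHom_inr, map_one, rightHom_eq_right, d] at this
      have := orderOf_dvd_of_pow_eq_one this
      rw [orderOf_eq_prime a2 a3] at this
      exact absurd (Nat.prime_two.dvd_of_dvd_pow this) (by decide)
    · rintro ⟨_, p, hp, rfl⟩
      exact ⟨1, Subtype.ext (by rw [SubgroupClass.coe_pow, ← map_pow, pow_one, a4 p hp, map_one]; rfl)⟩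
  subst eJ
  have e1 {p : NC} (p1 : p ≠ 1) : e p ≠ 1 := fun c => p1 (inj (c.trans e.map_one.symm))
  have cc {p : NC} (hp : p ∈ TC) (p1 : p ≠ 1) : #C[e p] = (univ.filter fun k => k * p = p * k).card := by
    rw [← ncard_e inj (· ∈ C[e p]) _ (fun g hg => r.ge (hC _ ⟨p, hp, rfl⟩ (e1 p1) hg)) fun k => by
      rw [mem_cen1, ← map_mul, ← map_mul, inj.eq_iff], ← Nat.card_coe_set_eq]
    rfl
  have a0 := d1.2.2.2.2.2.2.2.1
  rw [← r]
  refine Mc.top ⟨inj, fun j hj j1 g q hq => ?_⟩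
  obtain ⟨j', b1, b2⟩ := hsc.2 _ ⟨j, hj, rfl⟩ g (hq ▸ r.le ⟨q, rfl⟩)
  obtain ⟨t, b3, b4⟩ := hsc.2 _ ⟨_, a5, rfl⟩ g (hC _ ⟨j', b1, b2⟩ (by simpa using e1 j1) (mem_cen1.2 (by
    rw [conj_mul, conj_mul, ← map_mul, ← map_mul, a6 _ a5 _ hj])))
  have t1 : t ≠ 1 := by rintro rfl; exact e1 a0 (by simpa using b4.symm)
  have := d4.2 t b3 t1 (by rw [← cc b3 t1, b4, ← cj_cen1, card_cj, cc a5 a0, d4.1])
  have b5 := cl_conj t
  rw [this] at b5
  have : (e (cjt t))⁻¹ * g ∈ H := hC _ ⟨_, a5, rfl⟩ (e1 a0) (mem_cen1.2 (by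
    rw [← b5, map_mul, map_mul, map_inv] at b4
    calc _ = (e (cjt t))⁻¹ * (g * e (rp 0) * g⁻¹) * g := by group
      _ = _ := by rw [← b4]; group))
  simpa using mul_mem (show e (cjt t) ∈ e.range from ⟨_, rfl⟩) (r.ge this)

end Cfsg.Agent.H9.SP
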