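import Mathlib
import Cfsg.Agent.H9.Hd3

/-! Hayden's lemma: the permutation model. -/

set_option autoImplicit false
set_option linter.unusedSectionVars false
set_option synthInstance.maxSize 4000

namespace Cfsg.Agent.H9.SP

open Subgroup Cfsg.Agent.FT Cfsg.Agent.GW Cfsg.Agent.H6 Cfsg.Agent.H21 Finset SemidirectProduct Equiv

variable {G : Type*} [Group G] [Finite G]

theorem md9 {e : N9 →* G} (inj : Function.Injective e)
    (ti : ∀ m ∈ T9, m ≠ 1 → ∀ g, g * e m * g⁻¹ ∈ T9.map e → g ∈ e.range) : Md T9 e := by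
  refine ⟨m9.1, m9.2.1, m9.2.2.1, m9.2.2.2.1, inj, ti, ?_⟩
  have c1 : #(T9.map e) = 27 := by
    rw [← m9.2.2.2.2.1, ← ncard_e inj (· ∈ T9.map e) _ (fun g => map_le_range _ _ (x := g)) fun k =>
      mem_map_iff_mem inj, ← Nat.card_coe_set_eq]
    rfl
  have c2 : #e.range = 108 := by
    rw [← Nat.card_congr (MonoidHom.ofInjective inj).toEquiv, Nat.card_eq_fintype_card, m9.2.2.2.2.2]
  have l : T9.map e ≤ e.range := map_le_range _ _
  refine syl_of_subnorm le_top ((syl_of_not_dvd l (pGrp_of_card (n := 3) Nat.prime_three c1) (by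
    rw [H3.relIndex_of_card_mul l (n := 4) (by omega)]; decide)).subl (le_inf le_top (le_nrm _)) ?_)
  exact fun g hg => ti (x9 0) rfl (by decide) g (conj_mem hg.2 ⟨_, rfl, rfl⟩)

def pA : Perm (Fin 9) := swap 0 1 * swap 1 2
def pB : Perm (Fin 9) := swap 3 4 * swap 4 5
def pC : Perm (Fin 9) := swap 6 7 * swap 7 8

def fT : M3 →* Perm (Fin 9) := MonoidHom.mk'
  (fun m => pA ^ m.1.toAdd.val * pB ^ m.2.1.toAdd.val * pC ^ m.2.2.toAdd.val) (by decide +kernel)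

def fV : V4 →* Perm (Fin 9) := MonoidHom.mk' (fun g => match g with
  | .r i => if i = 0 then 1 else swap 0 1 * swap 3 4 * (swap 0 1 * swap 6 7)
  | .sr i => if i = 0 then swap 0 1 * swap 6 7 else swap 0 1 * swap 3 4) (by decide +kernel)

theorem fTV : ∀ g m, fT (ac9 g m) = fV g * fT m * (fV g)⁻¹ := by decide +kernel

def f9 : N9 →* Perm (Fin 9) := lift fT fV fun g => MonoidHom.ext (fTV g)

theorem f91 : (∀ p, f9 p = 1 → p = 1) ∧ f9 (x9 0) = swap 0 1 * swap 1 2 ∧ f9 (x9 1) = swap 3 4 * swap 4 5 ∧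
    f9 (x9 2) = swap 6 7 * swap 7 8 ∧ f9 (s9 2) = swap 0 1 * swap 3 4 ∧ f9 (s9 1) = swap 0 1 * swap 6 7 ∧
    (∀ p : N9, ∃ a b : Fin 2, p = x9 0 ^ p.left.1.toAdd.val * x9 1 ^ p.left.2.1.toAdd.val *
      x9 2 ^ p.left.2.2.toAdd.val * s9 2 ^ a.1 * s9 1 ^ b.1) ∧ ∀ p : N9, p ^ 27 = 1 → p ∈ T9 := by
  decide +kernel

theorem f9_range : f9.range = closure ({swap (0 : Fin 9) 1 * swap 1 2, swap (3 : Fin 9) 4 * swap 4 5,
    swap (6 : Fin 9) 7 * swap 7 8, swap (0 : Fin 9) 1 * swap 3 4, swap (0 : Fin 9) 1 * swap 6 7} :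
      Set (Perm (Fin 9))) := by
  obtain ⟨-, a1, a2, a3, a4, a5, a6, -⟩ := f91
  refine le_antisymm ?_ ((closure_le _).2 ?_)
  · rintro _ ⟨p, rfl⟩
    obtain ⟨a, b, c⟩ := a6 p
    rw [c]
    simp only [map_mul, map_pow, a1, a2, a3, a4, a5]
    refine mul_mem (mul_mem (mul_mem (mul_mem ?_ ?_) ?_) ?_) ?_ <;>
      exact pow_mem (subset_closure (by simp)) _
  · rintro _ (rfl | rfl | rfl | rfl | rfl)
    exacts [⟨_, a1⟩, ⟨_, a2⟩, ⟨_, a3⟩, ⟨_, a4⟩, ⟨_, a5⟩]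

theorem hayden {H T : Subgroup G} (φ : H ≃* f9.range) (hTH : T ≤ H) (hT : #T = 27) (hN : N(T) = H)
    (hC : ∀ t ∈ T, t ≠ 1 → C[t] ≤ H) : H = ⊤ := by
  set e : N9 →* G := H.subtype.comp (φ.symm.toMonoidHom.comp f9.rangeRestrict)
  have inj : Function.Injective e := H.subtype_injective.comp (φ.symm.injective.comp
    (f9.rangeRestrict_injective_iff.2 ((injective_iff_map_eq_one _).2 f91.1)))
  have r : e.range = H := by
    rw [MonoidHom.range_comp, MonoidHom.range_eq_top.2 (φ.symm.surjective.comp f9.rangeRestrict_surjective),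
      ← MonoidHom.range_eq_map, range_subtype]
  have k {g : G} (hg : g ∈ H) (h3 : g ^ 27 = 1) : g ∈ T9.map e := by
    obtain ⟨p, rfl⟩ := r.ge hg
    exact ⟨p, f91.2.2.2.2.2.2.2 p (inj (by rw [map_pow, h3, map_one])), rfl⟩
  have c1 : #(T9.map e) = 27 := by
    rw [← m9.2.2.2.2.1, ← ncard_e inj (· ∈ T9.map e) _ (fun g => map_le_range _ _ (x := g)) fun k =>
      mem_map_iff_mem inj, ← Nat.card_coe_set_eq]
    rfl
  have p27 {t : G} (ht : t ∈ T) : t ^ 27 = 1 := by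
    rw [← hT]; exact congrArg Subtype.val (pow_card_eq_one' (x := (⟨t, ht⟩ : T)))
  have eT : T = T9.map e := eq_of_le_of_card_ge (fun t ht => k (hTH ht) (p27 ht)) (by rw [c1, hT])
  rw [← r]
  refine (md9 inj fun m hm m1 g hg => ?_).hayden
  rw [r, ← hN]
  refine mem_nrm.2 fun t ht => eT.ge (k (hC _ (eT.ge hg) (by
    simpa using fun c => m1 (inj (c.trans e.map_one.symm))) (mem_cen1.2 ?_)) (by rw [conj_pow, p27 ht]; simp))
  obtain ⟨q, hq, rfl⟩ := eT.le ht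
  rw [conj_mul, conj_mul, ← map_mul, ← map_mul, m9.1 q hq m hm]

end Cfsg.Agent.H9.SP
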