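import Mathlib
import Cfsg.Agent.FT.Elem
import Cfsg.Agent.H7.Gal
import Cfsg.Agent.H7.Deg

/-!
Groups whose real irreducible characters have degree prime to `p` (Isaacs–Navarro), part 1.
-/

set_option autoImplicit false
set_option linter.unusedSectionVars false
set_option linter.unusedVariables false

namespace Cfsg.Agent.H9.IN

open Cfsg Subgroup Cfsg.Agent.FT Cfsg.Agent.H7
open scoped commutatorElement ComplexConjugate

universe u

variable {G : Type*} [Group G] [Finite G] {p : ℕ}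

/-- the subgroup generated by the `p`-elements -/
abbrev Op (p : ℕ) (G : Type*) [Group G] : Subgroup G := closure {g : G | ∃ k : ℕ, orderOf g = p ^ k}

instance op_normal (p : ℕ) (G : Type*) [Group G] : (Op p G).Normal := by
  refine ⟨fun n hn g => ?_⟩
  have : (Op p G).map (MulAut.conj g).toMonoidHom ≤ Op p G := by
    rw [MonoidHom.map_closure]
    refine closure_mono ?_
    rintro _ ⟨x, ⟨k, hk⟩, rfl⟩
    exact ⟨k, by rw [← hk]; exact (MulAut.conj g).orderOf_eq x⟩
  exact this ⟨n, hn, rfl⟩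

theorem op_index (hp : p.Prime) : ¬ p ∣ (Op p G).index := by
  have := Fact.mk hp
  obtain ⟨P⟩ : Nonempty (Sylow p G) := inferInstance
  refine fun h => P.not_dvd_index (h.trans (index_dvd_of_le fun x hx => subset_closure ?_))
  obtain ⟨k, hk⟩ := IsPGroup.iff_orderOf.1 P.isPGroup' ⟨x, hx⟩
  exact ⟨k, by rw [← hk, Subgroup.orderOf_mk]⟩

theorem op_map {Q : Type*} [Group Q] (hp : p.Prime) (f : G →* Q) : (Op p G).map f ≤ Op p Q := by
  rw [MonoidHom.map_closure]
  refine closure_mono ?_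
  rintro _ ⟨x, ⟨k, hk⟩, rfl⟩
  obtain ⟨j, -, hj⟩ := (Nat.dvd_prime_pow hp).1 (hk ▸ orderOf_map_dvd f x)
  exact ⟨j, hj⟩

/-- all real irreducible characters have degree prime to `p` -/
def RH (p : ℕ) (G : Type*) [Group G] : Prop :=
  ∀ χ : G → ℂ, IsIrrCharacter G χ → (∀ g, (χ g).im = 0) → ¬ p ∣ charDegree χ

theorem RH.quot {Q : Type*} [Group Q] [Finite Q] (h : RH p G) (f : G →* Q)
    (hf : Function.Surjective f) : RH p Q := fun χ hχ hr => by
  rw [← deg_comp f]
  exact h _ (irr_comp_surjective _ hf hχ) fun g => hr _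

theorem real_over (M H : Subgroup G) [M.Normal] (hMH : M ⊓ H = ⊥) {n : ℕ}
    (hn : H.index = Nat.card M * n) (ho : Odd n) {θ : M → ℂ} (hθ : IsIrrCharacter M θ)
    (hd : Odd (charDegree θ)) {g : G} (hg : (isNE_subtype M).cjf g θ = star θ) :
    ∃ χ, IsIrrCharacter G χ ∧ (∀ g, (χ g).im = 0) ∧ ip (fun m : M => χ m) θ ≠ 0 := by
  classical
  have hf := isNE_subtype M
  set π := ind H.subtype (1 : H → ℂ) with hπ
  have hπc : IsCharacter G π := char_ind _ char_one
  have hπs : star π = π := by rw [hπ, ← ind_star, star_one]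
  have h1 : ip (fun m : M => π m) θ = (n * charDegree θ : ℕ) := by
    letI := Fintype.ofFinite M
    rw [ip_def, Finset.sum_eq_single 1 (fun m _ hm => ?_) (by simp)]
    · have := ind_apply_one (f := H.subtype) H.subtype_injective (1 : H → ℂ)
      rw [range_subtype, hn] at this
      rw [OneMemClass.coe_one, hπ, this, char_one_eq (irr_char hθ)]
      have := card_ne_zero' M
      simp only [Pi.one_apply, map_natCast]
      push_cast
      field_simp
    · rw [hπ, ind_apply_eq_zero _ _ fun x h e => absurd ?_ hm, zero_mul]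
      have h2 : (h : G) ∈ M ⊓ H := ⟨by
        rw [show (h : G) = x⁻¹ * m * x⁻¹⁻¹ by rw [inv_inv]; exact e]
        exact Normal.conj_mem ‹_› _ m.2 _, h.2⟩
      rw [hMH, mem_bot] at h2
      have h3 : x⁻¹ * m * x = 1 := e.symm.trans h2
      refine Subtype.ext ?_
      calc (m : G) = x * (x⁻¹ * m * x) * x⁻¹ := by group
        _ = 1 := by rw [h3]; group
  have h2 : ∀ χ, ∃ a : ℕ, IsIrrCharacter G χ → ip π χ * ip (fun m : M => χ m) θ = a := fun χ => by
    by_cases hχ : IsIrrCharacter G χ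
    · obtain ⟨a, ha⟩ := ip_char_nat hπc (irr_char hχ)
      obtain ⟨b, hb⟩ := ip_char_nat (char_comp M.subtype (irr_char hχ)) (irr_char hθ)
      exact ⟨a * b, fun _ => by rw [ha, Nat.cast_mul]; exact congrArg _ hb⟩
    · exact ⟨0, fun h => absurd h hχ⟩
  choose F hF using h2
  have h3 : ∑ χ ∈ irrSet G, F χ = n * charDegree θ := by
    have h4 : (fun m : M => π m) = ∑ χ ∈ irrSet G, ip π χ • fun m : M => χ m := by
      funext m
      conv_lhs => rw [cf_expand (char_cf hπc)]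
      simp [Finset.sum_apply]
    rw [h4, ip_sum_left] at h1
    apply Nat.cast_injective (R := ℂ)
    rw [← h1, Nat.cast_sum]
    exact Finset.sum_congr rfl fun χ hχ => by rw [ip_smul_left, hF χ (mem_irrSet.1 hχ)]
  obtain ⟨χ, hχ, h5, h6⟩ := exists_fixed_of_sum (e := 1) Nat.prime_two (irrSet G) star
    (fun χ hχ => mem_irrSet.2 (irr_star (mem_irrSet.1 hχ))) (fun χ _ => star_star χ) F
    (fun χ hχ => by
      have hχ := mem_irrSet.1 hχ
      apply Nat.cast_injective (R := ℂ)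
      rw [← hF _ (irr_star hχ), ← hF _ hχ]
      obtain ⟨a, ha⟩ := ip_char_nat hπc (irr_char hχ)
      obtain ⟨b, hb⟩ := ip_char_nat (char_comp M.subtype (irr_char hχ)) (irr_char hθ)
      have e1 : ip π (star χ) = ip π χ := by
        rw [ha, ← hπs, ip_star_star, ip_natCast_comm ha]
      have e2 : ip (fun m : M => star χ m) θ = ip (fun m : M => χ m) θ := by
        have e3 := hf.ip_res_cjf (irr_cf hχ) g θ
        rw [hg] at e3
        have e4 : ip (fun m : M => χ m) (star θ) = b := e3.trans hb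
        calc _ = ip (star fun m : M => χ m) (star (star θ)) := by rw [star_star]; rfl
          _ = b := by rw [ip_star_star, ip_natCast_comm e4]
          _ = _ := hb.symm
      rw [e1, e2])
    (by rw [h3]; exact (ho.mul hd).not_two_dvd_nat)
  refine ⟨χ, mem_irrSet.1 hχ, (real_iff_star χ).2 h5, fun e => h6 ?_⟩
  have := hF χ (mem_irrSet.1 hχ)
  rw [e, mul_zero] at this
  rw [Nat.cast_eq_zero.1 this.symm]
  exact dvd_zero 2

theorem not_real (N : Subgroup G) [hN : N.Normal]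
    (h : ∀ θ g, IsIrrCharacter N θ → (isNE_subtype N).cjf g θ = star θ → θ = 1)
    {y g : G} (hy : y ∈ N) (e : g * y * g⁻¹ = y⁻¹) : y = 1 := by
  have hf := isNE_subtype N
  have h1 := H6.card_irr_fixed_eq (G := N) (fun n => hf.cj g n⁻¹) fun χ hχ => by
    have := irr_star (hf.irr_cjf g hχ)
    convert this using 1
    funext n
    exact char_inv (irr_char (hf.irr_cjf g hχ)) n
  have h2 : Nat.card {χ : IrrCharacter N // ∀ n, (χ : N → ℂ) (hf.cj g n⁻¹) = (χ : N → ℂ) n} ≤ 1 := by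
    refine Finite.card_le_one_iff_subsingleton.2 ⟨fun a b => Subtype.ext (Subtype.ext ?_)⟩
    have h3 : ∀ a : {χ : IrrCharacter N // ∀ n, (χ : N → ℂ) (hf.cj g n⁻¹) = (χ : N → ℂ) n},
        (a.1 : N → ℂ) = 1 := fun a => h _ g a.1.2 (funext fun n => by
      have := a.2 n⁻¹
      rw [inv_inv, char_inv (irr_char a.1.2)] at this
      exact this)
    exact (h3 a).trans (h3 b).symm
  rw [h1] at h2
  haveI : Finite (ConjClasses N) := Finite.of_surjective _ ConjClasses.mk_surjective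
  have h4 : ∀ y : N, hf.cj g y⁻¹ = y → ∀ z, ConjClasses.mk z = ConjClasses.mk y →
      IsConj z (hf.cj g z⁻¹) := fun y hy z hz => by
    have a1 := ConjClasses.mk_eq_mk_iff_isConj.1 hz
    obtain ⟨c, rfl⟩ := isConj_iff.1 a1.symm
    refine a1.trans (isConj_iff.2 ⟨hf.cj g c, ?_⟩)
    conv_lhs => rw [← hy]
    simp [mul_assoc]
  have h5 := (Finite.card_le_one_iff_subsingleton.1 h2).elim
    ⟨ConjClasses.mk (⟨y, hy⟩ : N), h4 _ (hf.cj_eq (by
      change y = g * y⁻¹ * g⁻¹
      rw [← inv_inj]; exact e.symm.trans (by group)))⟩ ⟨ConjClasses.mk 1, h4 _ (by simp)⟩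
  have h6 := ConjClasses.mk_eq_mk_iff_isConj.1 (congrArg Subtype.val h5)
  exact congrArg Subtype.val (isConj_one_left.1 h6)

theorem op_cent (N : Subgroup G) [hN : N.Normal]
    (h : ∀ y ∈ N, ∀ g, g * y * g⁻¹ = y⁻¹ → y = 1) : Op 2 G ≤ centralizer (N : Set G) := by
  have h1 : ∀ k : ℕ, ∀ x : G, x ^ 2 ^ k = 1 → x ∈ centralizer (N : Set G) := by
    intro k
    induction k with
    | zero => intro x hx; rw [show x = 1 by simpa using hx]; exact one_mem _
    | succ k ih =>
      intro x hx m hm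
      have h2 := ih (x ^ 2) (by rw [← pow_mul, ← pow_succ', hx]) m⁻¹ (inv_mem hm)
      have h3 := h (m * (x * m⁻¹ * x⁻¹)) (mul_mem hm (hN.conj_mem _ (inv_mem hm) x)) x (by
        calc _ = x * m * x⁻¹ * (x ^ 2 * m⁻¹) * x⁻¹ * x⁻¹ := by rw [sq]; group
          _ = _ := by rw [← h2, sq]; group)
      calc m * x = (m * (x * m⁻¹ * x⁻¹)) * (x * m) := by group
        _ = _ := by rw [h3, one_mul]
  refine (closure_le _).2 ?_
  rintro x ⟨k, hk⟩
  exact h1 k x (hk ▸ pow_orderOf_eq_one x)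

theorem exists_index (M H : Subgroup G) [M.Normal] (hMH : M ⊓ H = ⊥) :
    H.index = Nat.card M * (M ⊔ H).index := by
  have h1 := (mulEq_sup (A := M) (B := H) (le_top.trans (normalizer_eq_top _).ge)).card
  rw [hMH, card_bot, mul_one] at h1
  have h2 := (M ⊔ H).card_mul_index
  rw [h1, ← H.card_mul_index, mul_comm (Nat.card M), mul_assoc] at h2
  exact (Nat.eq_of_mul_eq_mul_left Nat.card_pos h2).symm

theorem cent_of_le_der (hp : p.Prime) (h2 : p ≠ 2) (h : RH p G) {P : Subgroup G} (hP : IsPGroup p P)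
    (M : Subgroup G) [M.Normal] (hM : M ≤ ⁅P, P⁆) : Op 2 G ≤ centralizer (M : Set G) := by
  have := Fact.mk hp
  have := Fact.mk Nat.prime_two
  have hMP : M ≤ P := hM.trans (der_le P)
  obtain ⟨S⟩ : Nonempty (Sylow 2 G) := inferInstance
  have hMS : M ⊓ S = ⊥ := disjoint_iff.1 (IsPGroup.disjoint_of_ne p 2 h2 _ _ (hP.to_le hMP) S.isPGroup')
  refine op_cent M fun y hy g e => not_real M (fun θ g hθ hg => ?_) hy e
  obtain ⟨χ, hχ, h3, h4⟩ := real_over M S hMS (exists_index M S hMS)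
    (Nat.not_even_iff_odd.1 fun e => S.not_dvd_index (e.two_dvd.trans (index_dvd_of_le le_sup_right)))
    hθ (by
      obtain ⟨k, hk⟩ := (hP.to_le hMP).exists_card_eq
      have := H6.degree_dvd_card hθ (char_one_eq (irr_char hθ))
      exact Odd.of_dvd_nat ((hp.odd_of_ne_two h2).pow) (hk ▸ this)) hg
  obtain ⟨μ, hμ, h5, h6⟩ : ∃ μ, IsIrrCharacter P μ ∧ ip (fun x : P => χ x) μ ≠ 0 ∧
      ¬ p ∣ charDegree μ := by
    by_contra! hc
    exact h χ hχ h3 ((deg_comp P.subtype χ) ▸ dvd_deg_of_forall (char_comp P.subtype (irr_char hχ)) hc)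
  have h7 : charDegree μ = 1 := by
    obtain ⟨k, hk⟩ := hP.exists_card_eq
    obtain ⟨j, -, hj⟩ := (Nat.dvd_prime_pow hp).1 (hk ▸ H6.degree_dvd_card hμ (char_one_eq (irr_char hμ)))
    rcases j with _ | j
    · simpa using hj
    · exact absurd (hj ▸ dvd_pow_self p j.succ_ne_zero) h6
  have h8 : (fun m : M => μ (inclusion hMP m)) = 1 := funext fun m => by
    have := (deg_eq_one_iff hμ).1 h7 (x := inclusion hMP m) (by
      have := hM m.2
      rw [← map_subtype_commutator] at this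
      obtain ⟨z, hz, e⟩ := this
      rwa [show inclusion hMP m = z from Subtype.ext e.symm])
    rw [H6.apply_eq_of_mem_charKer this, char_one_eq (irr_char hμ), h7]
    simp
  have h9 := ip_comp_comp_ne_zero P.subtype (inclusion hMP) (irr_char hχ) hμ char_one h5
    (by rw [h8, ip_one_one]; exact one_ne_zero)
  obtain ⟨x, hx⟩ := (isNE_subtype M).mem_orbit.1
    ((isNE_subtype M).mem_orbit_of_under hχ irr_one hθ h9 h4)
  exact hx.symm

theorem main (hp : p.Prime) : ∀ (n : ℕ) {G : Type u} [Group G] [Finite G] (_ : Nat.card G = n)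
    (L : Subgroup G) [L.Normal] (_ : Sol L) (_ : ¬ p ∣ L.index) (_ : RH p G) (U : Subgroup G) [U.Normal]
    (_ : ∀ u ∈ U, ∃ a, u ^ p ^ a ∈ Op 2 G) (P : Sylow p G), ((P : Subgroup G) ⊓ U).Normal := by
  have := Fact.mk hp
  intro n
  induction n using Nat.strong_induction_on with
  | _ n ih =>
  intro G _ _ hn L hL hs hi h U hU hK P
  have nn : ∀ (X Y : Subgroup G) [Y.Normal], X ≤ N(Y) := fun X Y _ =>
    le_top.trans (normalizer_eq_top _).ge
  have hPL : (P : Subgroup G) ≤ L := fun x hx => mem_of_coprime_index L (by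
    obtain ⟨k, hk⟩ := IsPGroup.iff_orderOf.1 P.isPGroup' ⟨x, hx⟩
    rw [Subgroup.orderOf_mk] at hk
    exact hk ▸ ((hp.coprime_iff_not_dvd).2 hi).pow_left k)
  by_cases h0 : L ⊓ U = ⊥
  · rw [le_bot_iff.1 ((inf_le_inf_right U hPL).trans h0.le)]; infer_instance
  obtain ⟨N, hNl, hN⟩ := exists_minNml h0 (nn ⊤ _)
  haveI hNn : N.Normal := normalizer_eq_top_iff.1 (top_le_iff.1 hN.nrm)
  obtain ⟨q, hq, hab⟩ := hN.abelem (hs.mono (hNl.trans inf_le_left))
  have hNU : N ≤ U := hNl.trans inf_le_right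
  have hπ := QuotientGroup.mk'_surjective N
  haveI := hL.map _ hπ
  haveI := hU.map _ hπ
  have h1 := ih _ (hn ▸ H2.card_quotient_lt_of_ne_bot hN.ne) rfl (L.map (QuotientGroup.mk' N))
    (hs.map _) (fun e => hi (e.trans (index_map_dvd _ hπ))) (h.quot _ hπ) (U.map (QuotientGroup.mk' N))
    (by
      rintro _ ⟨u, hu, rfl⟩
      obtain ⟨a, ha⟩ := hK u hu
      exact ⟨a, op_map Nat.prime_two _ ⟨_, ha, map_pow _ _ _⟩⟩) (P.mapSurjective hπ)
  have h2 := h1.comap (QuotientGroup.mk' N)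
  rw [comap_inf, Sylow.coe_mapSurjective, H1.comap_map_mk, H1.comap_map_mk, sup_eq_left.2 hNU,
    sup_comm, inf_comm, FT.inf_sup_left (nn _ _) hNU, inf_comm] at h2
  set R := (P : Subgroup G) ⊓ U with hR
  have hS : Syl p R (N ⊔ R) := ((syl_top hp P).inf_nml ⟨le_top, nn _ _⟩).subl le_sup_right
    (sup_le hNU inf_le_right)
  have hc : N ≤ N(R) → R.Normal := fun e => normalizer_eq_top_iff.1 (top_le_iff.1
    (hS.norms_of_nml (sup_le e (le_nrm R)) (nn ⊤ _)))
  by_cases hqp : q = p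
  · subst hqp
    exact hc ((hS.ge_of_nml (hab.pGrp hp) ⟨le_sup_left, nn _ _⟩).trans (le_nrm R))
  haveI := Fact.mk hq
  have hNq := (hab.pGrp hq).isPGroup
  have hNR : N ⊓ R = ⊥ := disjoint_iff.1 (IsPGroup.disjoint_of_ne q p hqp _ _ hNq hS.pi.isPGroup)
  by_contra hne
  have h3 : ⁅N ⊔ R, N⁆ = N := by
    refine hN.min _ (commutator_le_right _ _) (fun e => hne (hc ?_)) (nn _ _)
    rw [commutator_eq_bot_iff_le_centralizer, ← le_centralizer_iff] at e
    exact (e.trans (centralizer_le (le_sup_right : R ≤ N ⊔ R))).trans (centralizer_le_normalizer _)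
  have h4 : N ⊓ N(R) = ⊥ := by
    by_contra e
    have e1 : N ⊓ N(R) ≤ N ⊓ C(N ⊔ R) := fun x hx => ⟨hx.1, by
      rw [cen_sup]
      refine ⟨hab.ab.le_cen hx.1, fun r hr => ?_⟩
      have : r * x * r⁻¹ * x⁻¹ ∈ N ⊓ R := ⟨N.mul_mem (hNn.conj_mem _ hx.1 r) (N.inv_mem hx.1), by
        rw [show r * x * r⁻¹ * x⁻¹ = r * (x * r⁻¹ * x⁻¹) by group]
        exact R.mul_mem hr ((mem_normalizer_iff.1 hx.2 _).1 (R.inv_mem hr))⟩
      rw [hNR, mem_bot] at this
      calc r * x = r * x * r⁻¹ * x⁻¹ * (x * r) := by group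
        _ = _ := by rw [this, one_mul]⟩
    have e2 := hN.min _ inf_le_left (fun e' => e (le_bot_iff.1 (e1.trans e'.le))) (nn _ (N ⊓ C(N ⊔ R)))
    exact hne (hc ((e2.ge.trans (inf_le_right.trans (centralizer_le (le_sup_right : R ≤ N ⊔ R)))).trans
      (centralizer_le_normalizer _)))
  have h5 : N ⊔ N(R) = ⊤ := by
    have := (hS.frattini ⟨le_top, nn _ _⟩).sup
    rwa [top_inf_eq, sup_assoc, sup_eq_right.2 (le_nrm R)] at this
  have h6 : ∀ y ∈ N, ∀ g, g * y * g⁻¹ = y⁻¹ → y = 1 := fun y hy g e =>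
    not_real N (fun θ g hθ hg => by
      have hf := isNE_subtype N
      have e1 : θ 1 = 1 := irr_one_eq_one_of_comm hab.ab.is_comm.comm hθ
      obtain ⟨χ, hχ, e2, e3⟩ := real_over N N(R) h4 (exists_index _ _ h4) (by rw [h5]; simp) hθ
        (by simp [charDegree, e1]) hg
      obtain ⟨x, hx⟩ := exists_conj_le_of_not_dvd_index hp hS.pi.isPGroup (H := hf.inertia θ)
        fun e => h χ hχ e2 (e.trans ((Nat.dvd_mul_right _ _).trans (hf.degree_dvd_of_under hχ hθ e3
          (char_one_eq (irr_char hχ)) (char_one_eq (irr_char hθ)))))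
      have e4 : N ⊔ R ≤ hf.inertia θ := fun s hs => by
        obtain ⟨m, hm, y, hy, e'⟩ := mem_sup_of_normal_left.mp (h2.conj_mem s hs x)
        rw [show s = x⁻¹ * m * x⁻¹⁻¹ * (x⁻¹ * y * x) by
          rw [← mul_left_inj x⁻¹, ← mul_right_inj x, ← mul_assoc, ← e']; group]
        exact mul_mem (hf.apply_mem_inertia (irr_cf hθ) ⟨_, hNn.conj_mem m hm x⁻¹⟩) (hx y hy)
      obtain ⟨μ, rfl⟩ := exists_hom_of_char_one (irr_char hθ) e1
      have e5 : ⁅N ⊔ R, N⁆ ≤ μ.ker.map N.subtype := commutator_le.2 fun s hs m hm => by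
        have := hf.mem_inertia'.1 (e4 hs) ⟨m, hm⟩
        refine ⟨hf.cj s ⟨m, hm⟩ * ⟨m, hm⟩⁻¹, ?_, by rw [map_mul, hf.cj_spec]; rfl⟩
        rw [SetLike.mem_coe, MonoidHom.mem_ker, map_mul, map_inv, Units.ext this, mul_inv_cancel]
      funext m
      obtain ⟨z, hz, e⟩ := e5 (h3.ge m.2)
      rw [← show z = m from Subtype.ext e, show μ z = 1 from hz]
      simp) hy e
  have h7 := op_cent N h6
  have hq2 : q ≠ 2 := by
    rintro rfl
    refine hN.ne (eq_bot_iff.2 fun y hy => h6 y hy 1 ?_)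
    have := hab.pow hy
    rw [one_mul, inv_one, mul_one, eq_inv_iff_mul_eq_one, ← sq, this]
  have h8 : Op 2 G ≤ N(R) := (closure_le _).2 (by
    rintro x ⟨k, hk⟩
    obtain ⟨m, hm, y, hy, rfl⟩ := mem_sup_of_normal_left.mp (h5.ge (mem_top x))
    have e1 : Commute m (m * y) := h7 (subset_closure ⟨k, hk⟩) m hm
    have e2 : Commute m y := by simpa using (Commute.refl m).inv_right.mul_right e1
    have e3 := pow_orderOf_eq_one (m * y)
    rw [hk, e2.mul_pow, mul_eq_one_iff_eq_inv] at e3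
    have e4 : m ^ 2 ^ k ∈ N ⊓ N(R) := ⟨N.pow_mem hm _, e3 ▸ N(R).inv_mem (N(R).pow_mem hy _)⟩
    rw [h4, mem_bot] at e4
    have e5 : m = 1 := by
      rw [← orderOf_eq_one_iff]
      exact Nat.eq_one_of_dvd_coprimes (((Nat.coprime_primes hq Nat.prime_two).2 hq2).pow_right k)
        (orderOf_dvd_of_pow_eq_one (hab.pow hm)) (orderOf_dvd_of_pow_eq_one e4)
    rw [e5, one_mul]; exact hy)
  refine hN.ne (eq_bot_iff.2 fun y hy => h4.le ⟨hy, h8 ?_⟩)
  obtain ⟨a, ha⟩ := hK y (hNU hy)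
  obtain ⟨m, hm⟩ := exists_pow_eq_self_of_coprime (x := y) (n := p ^ a)
    (Nat.Coprime.coprime_dvd_right (orderOf_dvd_of_pow_eq_one (hab.pow hy))
      (((Nat.coprime_primes hp hq).2 (Ne.symm hqp)).pow_left a))
  rw [← hm]; exact pow_mem ha m

theorem sylow_normal (hp : p.Prime) (hs : Sol (Op p G)) (h : RH p G) (U : Subgroup G) [U.Normal]
    (hK : ∀ u ∈ U, ∃ a, u ^ p ^ a ∈ Op 2 G) (Q : Sylow p U) : (Q : Subgroup U).Normal := by
  have := Fact.mk hp
  obtain ⟨P, hP⟩ := (Q.isPGroup'.map U.subtype).exists_le_sylow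
  have h1 := main hp _ rfl _ hs (op_index hp) h U hK P
  have h2 : (((P : Subgroup G) ⊓ U).subgroupOf U) = Q := Q.is_maximal'
    ((P.isPGroup'.to_le inf_le_left).comap_of_injective _ U.subtype_injective)
    fun x hx => ⟨hP ⟨x, hx, rfl⟩, x.2⟩
  rw [← h2]; infer_instance

end Cfsg.Agent.H9.IN
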