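import Mathlib
import Cfsg.Agent.H9.IN1
import Cfsg.Agent.H7.McKay
import Cfsg.Agent.H27.Real

/-!
Groups whose real irreducible characters have degree prime to `p` (Isaacs–Navarro), part 2.
-/

set_option autoImplicit false
set_option linter.unusedSectionVars false
set_option linter.unusedVariables false

namespace Cfsg.Agent.H9.IN

open Cfsg Subgroup Cfsg.Agent.FT Cfsg.Agent.H7
open scoped commutatorElement ComplexConjugate

variable {G : Type*} [Group G] [Finite G] {p : ℕ} [hp : Fact p.Prime]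

theorem index_modEq (P : Sylow p G) {T : Subgroup G} (h : (P : Subgroup G) ≤ T) :
    (T.index : ZMod p) = T.relIndex N((P : Subgroup G)) := by
  have h1 : ((N((P : Subgroup G))).index : ZMod p) = 1 := by
    have := card_sylow_modEq_one p G
    rw [P.card_eq_index_normalizer] at this
    simpa using (ZMod.natCast_eq_natCast_iff _ _ _).2 this
  have h2 : ((N((P : Subgroup G))).relIndex T : ZMod p) = 1 := by
    have := card_sylow_modEq_one p T
    rw [(P.subtype h).card_eq_index_normalizer] at this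
    have e := subgroupOf_normalizer_eq h
    rw [relIndex, e]
    exact ((ZMod.natCast_eq_natCast_iff _ _ _).2 this).trans Nat.cast_one
  have h3 := relIndex_mul_index (inf_le_left : T ⊓ N((P : Subgroup G)) ≤ T)
  have h4 := relIndex_mul_index (inf_le_right : T ⊓ N((P : Subgroup G)) ≤ _)
  rw [inf_relIndex_left] at h3
  rw [inf_relIndex_right, ← h3] at h4
  have := congrArg (Nat.cast : ℕ → ZMod p) h4
  rw [Nat.cast_mul, Nat.cast_mul, h1, h2, mul_one, one_mul] at this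
  exact this.symm

theorem ipZ_star {H : Type*} [Group H] [Finite H] (a b : H → ℂ) : ipZ (star a) (star b) = ipZ a b := by
  rw [ipZ, ipZ, ip_star_star, ← ip_conj_symm, Complex.conj_re]

/-- the relative Glauberman correspondence as a relation -/
def GR (p : ℕ) (P K : Subgroup G) (θ : K → ℂ) (φ : (K ⊓ N(P) : Subgroup G) → ℂ) : Prop :=
  IsIrrCharacter _ θ ∧ SInv P K θ ∧ IsIrrCharacter _ φ ∧ SInv P _ φ ∧
    (ipZ (fun c => θ (inclusion inf_le_left c)) φ : ZMod p) ≠ 0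

section

variable (P : Sylow p G) (K : Subgroup G) [hK : K.Normal] [hQ : ((P : Subgroup G) ⊓ K).Normal]

include hK hQ

theorem rgl : RGl p (P : Subgroup G) (inf_le_left : K ⊓ N((P : Subgroup G)) ≤ K) := by
  have h : RelAct (P : Subgroup G) K ((P : Subgroup G) ⊓ K) (K ⊓ N((P : Subgroup G))) :=
    ⟨fun s _ g hg => hK.conj_mem g hg s, fun s _ g hg => hQ.conj_mem g hg s, inf_le_right,
      fun s _ g hg => hQ.conj_mem g hg s, fun k => ⟨fun hk => ⟨hk.1, fun x hx => ⟨by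
        rw [show x * k * x⁻¹ * k⁻¹ = x * (k * x⁻¹ * k⁻¹) by group]
        exact (P : Subgroup G).mul_mem hx ((mem_normalizer_iff.1 hk.2 _).1 ((P : Subgroup G).inv_mem hx)),
        K.mul_mem (hK.conj_mem _ hk.1 x) (K.inv_mem hk.1)⟩⟩, fun hk => ⟨hk.1,
          mem_normalizer_fintype fun x hx => by
            have := (P : Subgroup G).mul_mem hx (hk.2 x⁻¹ ((P : Subgroup G).inv_mem hx)).1
            rwa [show x * (x⁻¹ * k * x⁻¹⁻¹ * k⁻¹) = k * x * k⁻¹ by group] at this⟩⟩⟩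
  exact h.rGl hp.out P.isPGroup' (((syl_top hp.out P).inf_nml
    ⟨le_top, le_top.trans (normalizer_eq_top _).ge⟩).not_dvd hp.out)

omit hQ in
theorem nrmC : Nrm N((P : Subgroup G)) (K ⊓ N((P : Subgroup G))) := fun s hs g hg =>
  ⟨hK.conj_mem g hg.1 s, N((P : Subgroup G)).mul_mem (N((P : Subgroup G)).mul_mem hs hg.2)
    (N((P : Subgroup G)).inv_mem hs)⟩

omit hQ in
theorem neC : IsNE (inclusion (inf_le_right : K ⊓ N((P : Subgroup G)) ≤ _)) :=
  isNE_inclusion _ (nrmC P K)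

variable {P K}

theorem GR.rc {θ φ} (h : GR p (P : Subgroup G) K θ φ) :
    RCong p P _ (fun c => θ (inclusion inf_le_left c)) φ := by
  obtain ⟨ξ, h1, h2, h3⟩ := (rgl P K).ex θ h.1 h.2.1
  rwa [h3.eq h.2.2.1 h.2.2.2.1 h.2.2.2.2]

theorem GR.uniq {θ φ φ'} (h : GR p (P : Subgroup G) K θ φ) (h' : GR p (P : Subgroup G) K θ φ') :
    φ' = φ := h.rc.eq h'.2.2.1 h'.2.2.2.1 h'.2.2.2.2

theorem GR.inj {θ θ' φ} (h : GR p (P : Subgroup G) K θ φ) (h' : GR p (P : Subgroup G) K θ' φ) :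
    θ' = θ := (rgl P K).inj _ _ _ h'.1 h'.2.1 h.1 h.2.1 h.2.2.1 h.2.2.2.1 h'.2.2.2.2 h.2.2.2.2

omit hK hQ in
theorem GR.star {θ φ} (h : GR p (P : Subgroup G) K θ φ) :
    GR p (P : Subgroup G) K (star θ) (star φ) :=
  ⟨irr_star h.1, fun s hs g g' e => congrArg Star.star (h.2.1 s hs g g' e), irr_star h.2.2.1,
    fun s hs g g' e => congrArg Star.star (h.2.2.2.1 s hs g g' e),
    (ipZ_star (fun c => θ (inclusion inf_le_left c)) φ).symm ▸ h.2.2.2.2⟩

omit hQ in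
theorem GR.cj {θ φ} (h : GR p (P : Subgroup G) K θ φ) (x : N((P : Subgroup G))) :
    GR p (P : Subgroup G) K ((isNE_subtype K).cjf x θ) ((neC P K).cjf x φ) := by
  have e1 : ∀ g ∈ K, (x : G) * g * (x : G)⁻¹ ∈ K := fun g hg => hK.conj_mem g hg x
  have e2 : ∀ g ∈ (P : Subgroup G), (x : G) * g * (x : G)⁻¹ ∈ (P : Subgroup G) := fun g hg =>
    (mem_normalizer_iff.1 x.2 g).1 hg
  rw [cjf_inclusion (nrmC P K), show (isNE_subtype K).cjf x θ = fun k => θ (cjHom (x : G) e1 k) from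
    cjf_subtype K _ _ _]
  refine ⟨irr_cjHom _ _ h.1, h.2.1.cjHom _ e2, irr_cjHom _ _ h.2.2.1, h.2.2.2.1.cjHom _ e2, ?_⟩
  rw [ipZ_res_cjHom]
  exact h.2.2.2.2

theorem GR.deg {θ φ} (h : GR p (P : Subgroup G) K θ φ) :
    (charDegree φ : ZMod p) = charDegree θ ∨ (charDegree φ : ZMod p) = -charDegree θ := by
  have h1 := RCong.degree hp.out P.isPGroup' ((nrmC P K).mono (le_nrm _))
    (char_comp (inclusion inf_le_left) (irr_char h.1)) (h.2.1.res _) h.2.2.1 h.2.2.2.1 h.rc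
  rw [deg_comp] at h1
  rcases h.rc.1 with e | e <;> rw [e] at h1 <;> simp [h1]

omit hQ in
theorem sInv_iff_le {θ : K → ℂ} : SInv P K θ ↔ (P : Subgroup G) ≤ (isNE_subtype K).inertia θ :=
  ⟨fun h s hs => (isNE_subtype K).mem_inertia'.2 fun n => h s hs _ _ ((isNE_subtype K).cj_spec s n),
    fun h s hs g g' e => by
      rw [← (isNE_subtype K).mem_inertia'.1 (h hs) g, (isNE_subtype K).cj_eq (m := g') e]⟩

theorem GR.inertia {θ φ} (h : GR p (P : Subgroup G) K θ φ) :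
    (neC P K).inertia φ = ((isNE_subtype K).inertia θ).subgroupOf N((P : Subgroup G)) := by
  ext x
  have := h.cj x
  exact ⟨fun e => (show (neC P K).cjf x φ = φ from e) ▸ this |> h.inj,
    fun e => (show (isNE_subtype K).cjf x θ = θ from e) ▸ this |> h.uniq⟩

omit hQ in
theorem cj_of_sInv {θ : K → ℂ} {g : G} (h : SInv P K θ) (h' : SInv P K ((isNE_subtype K).cjf g θ)) :
    ∃ x : N((P : Subgroup G)), (isNE_subtype K).cjf x θ = (isNE_subtype K).cjf g θ := by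
  have hf := isNE_subtype K
  have h1 := sInv_iff_le.1 h
  have h2 : ((g • P : Sylow p G) : Subgroup G) ≤ hf.inertia θ := by
    rintro _ ⟨s, hs, rfl⟩
    have := sInv_iff_le.1 h' hs
    change hf.cjf (g * s * g⁻¹) θ = θ
    rw [hf.cjf_mul, hf.cjf_mul, show hf.cjf s (hf.cjf g θ) = hf.cjf g θ from this, ← hf.cjf_mul,
      mul_inv_cancel, hf.cjf_one]
  obtain ⟨t, ht⟩ := MulAction.exists_smul_eq (hf.inertia θ) ((g • P).subtype h2) (P.subtype h1)
  rw [Sylow.smul_subtype] at ht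
  have h3 := Sylow.subtype_injective ht
  rw [Subgroup.smul_def, ← mul_smul, Sylow.smul_eq_iff_mem_normalizer] at h3
  refine ⟨⟨_, h3⟩, ?_⟩
  rw [hf.cjf_mul, show hf.cjf t θ = θ from t.2]

variable (P K)

theorem core (ho : Odd K.index) (h : RH p G) :
    ∃ f : {χ : IrrCharacter G // ∀ g : G, ((χ : G → ℂ) g).im = 0} →
      {ξ : IrrCharacter N((P : Subgroup G)) // (∀ n, ((ξ : N((P : Subgroup G)) → ℂ) n).im = 0) ∧
        ¬ p ∣ charDegree (ξ : N((P : Subgroup G)) → ℂ)}, Function.Bijective f ∧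
      ∀ χ, ((charDegree ((f χ).1 : N((P : Subgroup G)) → ℂ) : ZMod p) = (charDegree (χ.1 : G → ℂ) : ZMod p) ∨
        (charDegree ((f χ).1 : N((P : Subgroup G)) → ℂ) : ZMod p) = -(charDegree (χ.1 : G → ℂ) : ZMod p)) := by
  have hf := isNE_subtype K
  have hk := neC P K
  have o1 : Odd K.subtype.range.index := by rwa [range_subtype]
  have o2 : Odd (inclusion (inf_le_right : K ⊓ N((P : Subgroup G)) ≤ _)).range.index := by
    rw [inclusion_range]
    exact Odd.of_dvd_nat ho ((inf_relIndex_right K _).dvd.trans (relIndex_dvd_index_of_normal _ _))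
  have u1 : ∀ {χ χ' θ}, IsIrrCharacter G χ → (∀ g, (χ g).im = 0) → IsIrrCharacter G χ' →
      (∀ g, (χ' g).im = 0) → IsIrrCharacter K θ → ip (fun k : K => χ k) θ ≠ 0 →
      ip (fun k : K => χ' k) θ ≠ 0 → χ' = χ ∧ ip (fun k : K => χ k) θ = 1 ∧ ∀ k, (θ k).im = 0 :=
    fun {χ χ' θ} a1 a2 a3 a4 a5 a6 a7 => by
      have a8 := hf.real_under a1 a2 a5 a6 fun e => o1.not_two_dvd_nat
        (e.trans (index_dvd_of_le (hf.range_le_inertia (irr_cf a5))))
      obtain ⟨ψ, -, b1, -, b2⟩ := hf.exists_unique_real o1 a5 a8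
      exact ⟨(b2 _ a3 a7 a4).trans (b2 _ a1 a6 a2).symm, (b2 _ a1 a6 a2).symm ▸ b1, a8⟩
  have u2 : ∀ {χ χ' θ}, IsIrrCharacter N((P : Subgroup G)) χ → (∀ g, (χ g).im = 0) →
      IsIrrCharacter _ χ' → (∀ g, (χ' g).im = 0) → IsIrrCharacter (K ⊓ N((P : Subgroup G)) : Subgroup G) θ →
      ip (fun k => χ (inclusion inf_le_right k)) θ ≠ 0 → ip (fun k => χ' (inclusion inf_le_right k)) θ ≠ 0 →
      χ' = χ ∧ ip (fun k => χ (inclusion inf_le_right k)) θ = 1 ∧ ∀ k, (θ k).im = 0 :=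
    fun {χ χ' θ} a1 a2 a3 a4 a5 a6 a7 => by
      have a8 := hk.real_under a1 a2 a5 a6 fun e => o2.not_two_dvd_nat
        (e.trans (index_dvd_of_le (hk.range_le_inertia (irr_cf a5))))
      obtain ⟨ψ, -, b1, -, b2⟩ := hk.exists_unique_real o2 a5 a8
      exact ⟨(b2 _ a3 a7 a4).trans (b2 _ a1 a6 a2).symm, (b2 _ a1 a6 a2).symm ▸ b1, a8⟩
  let R : (G → ℂ) → (N((P : Subgroup G)) → ℂ) → Prop := fun χ ξ => ∃ θ φ,
    GR p (P : Subgroup G) K θ φ ∧ ip (fun k : K => χ k) θ ≠ 0 ∧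
      ip (fun k => ξ (inclusion inf_le_right k)) φ ≠ 0
  have d1 : ∀ {χ ξ}, IsIrrCharacter G χ → (∀ g, (χ g).im = 0) → IsIrrCharacter _ ξ →
      (∀ g, (ξ g).im = 0) → R χ ξ →
      (charDegree ξ : ZMod p) = charDegree χ ∨ (charDegree ξ : ZMod p) = -charDegree χ := by
    rintro χ ξ a1 a2 a3 a4 ⟨θ, φ, r, b1, b2⟩
    have c1 := hf.clifford_degree a1 r.1 b1
    have c2 := hk.clifford_degree a3 r.2.2.1 b2
    rw [show ip (fun n => χ (K.subtype n)) θ = 1 from (u1 a1 a2 a1 a2 r.1 b1 b1).2.1, one_mul,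
      char_one_eq (irr_char a1), char_one_eq (irr_char r.1)] at c1
    rw [(u2 a3 a4 a3 a4 r.2.2.1 b2 b2).2.1, one_mul, char_one_eq (irr_char a3),
      char_one_eq (irr_char r.2.2.1), r.inertia] at c2
    have c3 : charDegree χ = (hf.inertia θ).index * charDegree θ := by exact_mod_cast c1
    have c4 : charDegree ξ = (hf.inertia θ).relIndex N((P : Subgroup G)) * charDegree φ := by
      exact_mod_cast c2
    rw [c3, c4, Nat.cast_mul, Nat.cast_mul, index_modEq P (sInv_iff_le.1 r.2.1)]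
    rcases r.deg with e | e <;> simp [e]
  have e1 : ∀ χ : {χ : IrrCharacter G // ∀ g : G, ((χ : G → ℂ) g).im = 0},
      ∃ ξ : {ξ : IrrCharacter N((P : Subgroup G)) // (∀ n, ((ξ : N((P : Subgroup G)) → ℂ) n).im = 0) ∧
        ¬ p ∣ charDegree (ξ : N((P : Subgroup G)) → ℂ)}, R χ.1 ξ.1 := by
    rintro ⟨⟨χ, a1⟩, a2⟩
    obtain ⟨θ, b1, b2⟩ := exists_irr_under K.subtype a1
    obtain ⟨x, hx⟩ := exists_conj_le_of_not_dvd_index hp.out P.isPGroup' (H := hf.inertia θ)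
      fun e => h χ a1 a2 (e.trans ((Nat.dvd_mul_right _ _).trans (hf.degree_dvd_of_under a1 b1 b2
        (char_one_eq (irr_char a1)) (char_one_eq (irr_char b1)))))
    have b3 : SInv P K (hf.cjf x⁻¹ θ) := sInv_iff_le.2 fun s hs => by
      change hf.cjf s (hf.cjf x⁻¹ θ) = _
      rw [← hf.cjf_mul, show x⁻¹ * s = x⁻¹ * s * x * x⁻¹ by group, hf.cjf_mul,
        show hf.cjf (x⁻¹ * s * x) θ = θ from hx s hs]
    have b4 := hf.irr_cjf x⁻¹ b1
    rw [← hf.ip_res_cjf (irr_cf a1) x⁻¹] at b2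
    obtain ⟨φ, c1, c2, c3⟩ := (rgl P K).ex _ b4 b3
    have r : GR p (P : Subgroup G) K _ φ := ⟨b4, b3, c1, c2, c3.ne_zero hp.out⟩
    have r' := r.star
    rw [(real_iff_star _).1 (u1 a1 a2 a1 a2 b4 b2 b2).2.2] at r'
    obtain ⟨ξ, c4, c5, c6, -⟩ := hk.exists_unique_real o2 c1 ((real_iff_star _).2 (r.uniq r'))
    have c7 : R χ ξ := ⟨_, _, r, b2, c5 ▸ one_ne_zero⟩
    refine ⟨⟨⟨ξ, c4⟩, c6, fun e => h χ a1 a2 ?_⟩, c7⟩
    have := d1 a1 a2 c4 c6 c7
    rw [(ZMod.natCast_eq_zero_iff _ _).2 e] at this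
    rw [← ZMod.natCast_eq_zero_iff]
    rcases this with e | e
    · exact e.symm
    · exact neg_eq_zero.1 e.symm
  choose F hF using e1
  refine ⟨F, ⟨fun χ χ' e => ?_, fun ξ => ?_⟩, fun χ => d1 χ.1.2 χ.2 (F χ).1.2 (F χ).2.1 (hF χ)⟩
  · obtain ⟨θ, φ, r, b1, b2⟩ := hF χ
    obtain ⟨θ', φ', r', b1', b2'⟩ := hF χ'
    rw [← e] at b2'
    obtain ⟨x, rfl⟩ := hk.mem_orbit.1 (hk.mem_orbit_of_under (F χ).1.2 r.2.2.1 r'.2.2.1 b2 b2')
    rw [(r.cj x).inj r'] at b1'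
    exact Subtype.ext (Subtype.ext (u1 χ.1.2 χ.2 χ'.1.2 χ'.2 r.1 b1
      ((hf.ip_res_cjf (irr_cf χ'.1.2) x θ) ▸ b1')).1.symm)
  · obtain ⟨⟨ξ, a1⟩, a2, a3⟩ := ξ
    obtain ⟨φ, b1, b2⟩ := exists_irr_under (inclusion (inf_le_right : K ⊓ N((P : Subgroup G)) ≤ _)) a1
    obtain ⟨x, hx⟩ := exists_conj_le_of_not_dvd_index hp.out
      (P.isPGroup'.comap_of_injective _ N((P : Subgroup G)).subtype_injective) (H := hk.inertia φ)
      fun e => a3 (e.trans ((Nat.dvd_mul_right _ _).trans (hk.degree_dvd_of_under a1 b1 b2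
        (char_one_eq (irr_char a1)) (char_one_eq (irr_char b1)))))
    have b3 : SInv P _ φ := fun s hs g g' e => by
      have := hx (x * ⟨s, le_nrm _ hs⟩ * x⁻¹) ((mem_normalizer_iff.1 x.2 s).1 hs)
      rw [show x⁻¹ * (x * ⟨s, le_nrm _ hs⟩ * x⁻¹) * x = ⟨s, le_nrm _ hs⟩ by group] at this
      rw [← hk.mem_inertia'.1 this g, hk.cj_eq (g := ⟨s, le_nrm _ hs⟩) (n := g) (m := g') (Subtype.ext e)]
    obtain ⟨θ, c1, c2, c3⟩ := (rgl P K).surj _ b1 b3
    have r : GR p (P : Subgroup G) K θ φ := ⟨c1, c2, b1, b3, c3⟩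
    have r' := r.star
    rw [(real_iff_star _).1 (u2 a1 a2 a1 a2 b1 b2 b2).2.2] at r'
    obtain ⟨χ, c4, c5, c6, -⟩ := hf.exists_unique_real o1 c1 ((real_iff_star _).2 (r.inj r'))
    refine ⟨⟨⟨χ, c4⟩, c6⟩, ?_⟩
    obtain ⟨θ', φ', r', b1', b2'⟩ := hF ⟨⟨χ, c4⟩, c6⟩
    obtain ⟨g, rfl⟩ := hf.mem_orbit.1 (hf.mem_orbit_of_under c4 c1 r'.1 (c5 ▸ one_ne_zero) b1')
    obtain ⟨y, hy⟩ := cj_of_sInv c2 r'.2.1
    rw [← hy] at r'
    rw [(r.cj y).uniq r', hk.ip_res_cjf (irr_cf (F _).1.2)] at b2'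
    exact Subtype.ext (Subtype.ext (u2 a1 a2 (F _).1.2 (F _).2.1 b1 b2 b2').1)

end

theorem card_real (G : Type*) [Group G] [Finite G] :
    Nat.card {χ : IrrCharacter G // ∀ g, (χ.1 g).im = 0} =
      Nat.card {C : ConjClasses G // ∀ g, ConjClasses.mk g = C → IsConj g g⁻¹} :=
  (Nat.card_congr (Equiv.subtypeEquivRight fun χ => real_iff_inv (irr_char χ.2))).trans
    (H6.card_irr_fixed_eq (G := G) (fun g => g⁻¹) fun χ hχ => by
      simp only [char_inv (irr_char hχ)]; exact irr_star hχ)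

theorem real_conj {G : Type*} [Group G] {x : G} (hx : IsConj x x⁻¹) (g : G)
    (e : ConjClasses.mk g = ConjClasses.mk x) : IsConj g g⁻¹ := by
  obtain ⟨u, rfl⟩ := isConj_iff.mp (ConjClasses.mk_eq_mk_iff_isConj.mp e).symm
  obtain ⟨v, hv⟩ := isConj_iff.mp hx
  refine isConj_iff.mpr ⟨u * v * u⁻¹, ?_⟩
  calc _ = u * (v * x * v⁻¹) * u⁻¹ := by group
    _ = _ := by rw [hv]; group

omit hp in
theorem real_mem (K : Subgroup G) [K.Normal] (ho : Odd K.index) {x : G} (hx : IsConj x x⁻¹) :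
    x ∈ K := by
  obtain ⟨g, hg⟩ := isConj_iff.mp hx
  obtain ⟨t, -, ⟨j, hj⟩, ht⟩ := H27.exists_two_elt_inverts hg
  have a1 : t ∈ K := mem_of_coprime_index K (hj ▸ (Nat.coprime_two_left.mpr ho).pow_left j)
  have a3 := congrArg (QuotientGroup.mk (s := K)) ht
  simp only [QuotientGroup.mk_mul, QuotientGroup.mk_inv, (QuotientGroup.eq_one_iff t).mpr a1,
    one_mul, inv_one, mul_one] at a3
  have h7 : (Nat.card (G ⧸ K)).Coprime 2 := Nat.coprime_two_right.mpr ho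
  rw [← QuotientGroup.eq_one_iff]
  refine (powCoprime h7).injective (Eq.trans ?_ (powCoprime_one h7).symm)
  change (x : G ⧸ K) ^ 2 = 1
  rw [sq, mul_eq_one_iff_eq_inv]; exact a3

theorem meets0 (P : Sylow p G) (K : Subgroup G) [hK : K.Normal] (h0 : (P : Subgroup G) ⊓ K = ⊥)
    (ho : Odd K.index) (h : RH p G) {x : G} (hx : IsConj x x⁻¹) :
    ∃ y ∈ N((P : Subgroup G)), IsConj x y := by
  haveI : ((P : Subgroup G) ⊓ K).Normal := h0 ▸ inferInstance
  obtain ⟨f, hf, -⟩ := core P K ho h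
  haveI := finite_irr G
  haveI := finite_irr N((P : Subgroup G))
  haveI : Finite (ConjClasses G) := Finite.of_surjective _ ConjClasses.mk_surjective
  haveI : Finite (ConjClasses N((P : Subgroup G))) := Finite.of_surjective _ ConjClasses.mk_surjective
  have h1 := Nat.card_le_card_of_injective (fun χ => (⟨(f χ).1, (f χ).2.1⟩ :
    {χ : IrrCharacter N((P : Subgroup G)) // ∀ g, (χ.1 g).im = 0}))
    fun a b e => hf.1 (Subtype.ext (Subtype.mk.inj e))
  rw [card_real, card_real] at h1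
  let F : {C : ConjClasses N((P : Subgroup G)) // ∀ g, ConjClasses.mk g = C → IsConj g g⁻¹} →
      {C : ConjClasses G // ∀ g, ConjClasses.mk g = C → IsConj g g⁻¹} := fun C =>
    ⟨ConjClasses.map N((P : Subgroup G)).subtype C.1, by
      obtain ⟨C, hC⟩ := C
      obtain ⟨y, rfl⟩ := ConjClasses.mk_surjective C
      exact real_conj (N((P : Subgroup G)).subtype.map_isConj (hC y rfl))⟩
  have h2 : ∀ y : N((P : Subgroup G)), IsConj y y⁻¹ → (y : G) ∈ C((P : Subgroup G)) := fun y hy r hr => by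
    have a1 := real_mem K ho (N((P : Subgroup G)).subtype.map_isConj hy)
    have : r * y * r⁻¹ * (y : G)⁻¹ ∈ (P : Subgroup G) ⊓ K := ⟨by
      rw [show r * y * r⁻¹ * (y : G)⁻¹ = r * (y * r⁻¹ * (y : G)⁻¹) by group]
      exact (P : Subgroup G).mul_mem hr ((mem_normalizer_iff.1 y.2 _).1 ((P : Subgroup G).inv_mem hr)),
      K.mul_mem (hK.conj_mem _ a1 r) (K.inv_mem a1)⟩
    rw [h0, mem_bot] at this
    calc r * y = r * y * r⁻¹ * (y : G)⁻¹ * (y * r) := by group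
      _ = _ := by rw [this, one_mul]
  have h3 : Function.Injective F := by
    rintro ⟨C, hC⟩ ⟨D, hD⟩ e
    obtain ⟨y, rfl⟩ := ConjClasses.mk_surjective C
    obtain ⟨z, rfl⟩ := ConjClasses.mk_surjective D
    obtain ⟨g, hg⟩ := isConj_iff.1 (ConjClasses.mk_eq_mk_iff_isConj.1 (congrArg Subtype.val e))
    obtain ⟨n, hn, e'⟩ := P.conj_eq_normalizer_conj_of_mem_centralizer y g⁻¹ (h2 y (hC y rfl))
      (by rw [inv_inv]; exact hg ▸ h2 z (hD z rfl))
    refine Subtype.ext (ConjClasses.mk_eq_mk_iff_isConj.2 (isConj_iff.2 ⟨⟨n, hn⟩⁻¹, Subtype.ext ?_⟩))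
    rw [inv_inv] at e'
    exact (by simp : _ = n⁻¹ * y * n).trans (e'.symm.trans hg)
  obtain ⟨⟨C, hC⟩, e⟩ := ((Nat.bijective_iff_injective_and_card F).2
    ⟨h3, (Nat.card_le_card_of_injective F h3).antisymm h1⟩).2 ⟨ConjClasses.mk x, real_conj hx⟩
  obtain ⟨y, rfl⟩ := ConjClasses.mk_surjective C
  exact ⟨y, y.2, (ConjClasses.mk_eq_mk_iff_isConj.1 (congrArg Subtype.val e)).symm⟩

theorem odd_op : Odd (Op 2 G).index :=
  Nat.not_even_iff_odd.1 fun e => op_index Nat.prime_two e.two_dvd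

theorem inf_normal (hs : Sol (Op p G)) (h : RH p G) (P : Sylow p G) :
    ((P : Subgroup G) ⊓ Op 2 G).Normal :=
  main hp.out _ rfl _ hs (op_index hp.out) h _ (fun u hu => ⟨0, by simpa using hu⟩) P

theorem meets (hs : Sol (Op p G)) (h : RH p G) (P : Sylow p G) {x : G} (hx : IsConj x x⁻¹) :
    ∃ y ∈ N((P : Subgroup G)), IsConj x y := by
  haveI := inf_normal hs h P
  set Q := (P : Subgroup G) ⊓ Op 2 G
  have hπ := QuotientGroup.mk'_surjective Q
  haveI := (op_normal 2 G).map _ hπ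
  obtain ⟨y, hy, e⟩ := meets0 (P.mapSurjective hπ) ((Op 2 G).map (QuotientGroup.mk' Q)) (by
    refine comap_injective hπ ?_
    rw [comap_inf, Sylow.coe_mapSurjective, H1.comap_map_mk, H1.comap_map_mk,
      sup_eq_left.2 inf_le_left, sup_eq_left.2 inf_le_right, MonoidHom.comap_bot, QuotientGroup.ker_mk'])
    (Odd.of_dvd_nat odd_op (index_map_dvd _ hπ)) (h.quot _ hπ) ((QuotientGroup.mk' Q).map_isConj hx)
  obtain ⟨g, rfl⟩ := isConj_iff.1 e
  obtain ⟨g, rfl⟩ := hπ g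
  refine ⟨g * x * g⁻¹, ?_, isConj_iff.2 ⟨g, rfl⟩⟩
  have := comap_normalizer_eq_of_surjective ((P.mapSurjective hπ : Sylow p _) : Subgroup _) hπ
  rw [Sylow.coe_mapSurjective, H1.comap_map_mk, sup_eq_left.2 inf_le_left] at this
  rw [← this]
  exact hy

end Cfsg.Agent.H9.IN
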