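import Mathlib
import Cfsg.Agent.H9.AS3
import Cfsg.Agent.H7.Small
import Cfsg.Agent.H7.Ratio

/-!
Knörr's criterion for the `k(GV)` problem: a vector with abelian stabiliser.
-/

set_option autoImplicit false
set_option linter.unusedSectionVars false
set_option linter.unusedVariables false

namespace Cfsg.Agent.H9.Kn

open Cfsg Subgroup Cfsg.Agent.FT Cfsg.Agent.GW Cfsg.Agent.H7

universe u

/-- integral inner products with all characters -/
def IntF {A : Type*} [Group A] [Finite A] (θ : A → ℂ) : Prop :=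
  ∀ μ, IsCharacter A μ → ∃ z : ℤ, ip θ μ = z

/-- `m` bounds the weighted norm of nonzero integral functions from below -/
def Mn {A : Type*} [Group A] [Fintype A] (w : A → ℝ) (m : ℝ) : Prop :=
  ∀ θ : A → ℂ, IntF θ → θ ≠ 0 → m ≤ ∑ x, w x * ‖θ x‖ ^ 2

theorem IntF.sub {A : Type*} [Group A] [Finite A] {θ φ : A → ℂ} (h : IntF θ) (h' : IntF φ) :
    IntF (θ - φ) := fun μ hμ => by
  obtain ⟨a, ha⟩ := h μ hμ
  obtain ⟨b, hb⟩ := h' μ hμ
  exact ⟨a - b, by rw [ip_sub_left, ha, hb]; push_cast; rfl⟩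

theorem intF_zero {A : Type*} [Group A] [Finite A] : IntF (0 : A → ℂ) := fun μ hμ =>
  ⟨0, by rw [ip_zero_left]; simp⟩

theorem sum_sum_norm_sub {ι : Type*} [Fintype ι] (z : ι → ℂ) :
    ∑ i, ∑ j, ‖z i - z j‖ ^ 2 = 2 * (Fintype.card ι * ∑ i, ‖z i‖ ^ 2 - ‖∑ i, z i‖ ^ 2) := by
  have h (u : ℂ) : ‖u‖ ^ 2 = u.re ^ 2 + u.im ^ 2 := by rw [Complex.sq_norm, Complex.normSq_apply]; ring
  have h2 (r : ι → ℝ) : ∑ i, ∑ j, (r i - r j) ^ 2 = 2 * (Fintype.card ι * ∑ i, r i ^ 2 - (∑ i, r i) ^ 2) := by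
    have : ∀ i j, (r i - r j) ^ 2 = r i ^ 2 + r j ^ 2 - 2 * (r i * r j) := fun i j => by ring
    simp only [this, Finset.sum_sub_distrib, Finset.sum_add_distrib, Finset.sum_const, Finset.card_univ,
      nsmul_eq_mul, ← Finset.mul_sum, ← Finset.sum_mul]
    ring
  simp only [h, Complex.sub_re, Complex.sub_im, Finset.sum_add_distrib, h2, Complex.re_sum, Complex.im_sum]
  ring

theorem pair_bound {A : Type*} [Group A] [Fintype A] {w : A → ℝ} {m : ℝ} (hw : ∀ x, 0 ≤ w x)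
    (hm0 : 0 ≤ m) (hm : Mn w m) {ι : Type*} [Fintype ι] (a : ι → A → ℂ) (ha : ∀ i, IntF (a i)) {i₀ i₁ : ι}
    (hne : a i₀ ≠ a i₁) :
    (Fintype.card ι - 1) * m ≤ ∑ x, w x * (Fintype.card ι * ∑ i, ‖a i x‖ ^ 2 - ‖∑ i, a i x‖ ^ 2) := by
  classical
  set T := Finset.univ.filter fun k => a k = a i₀ with hT
  have e1 : 2 * ∑ x, w x * (Fintype.card ι * ∑ i, ‖a i x‖ ^ 2 - ‖∑ i, a i x‖ ^ 2) =
      ∑ i, ∑ j, ∑ x, w x * ‖(a i - a j) x‖ ^ 2 := by
    rw [Finset.mul_sum]
    simp only [Pi.sub_apply]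
    rw [show (∑ i, ∑ j, ∑ x, w x * ‖a i x - a j x‖ ^ 2) = ∑ x, w x * ∑ i, ∑ j, ‖a i x - a j x‖ ^ 2 by
      simp only [Finset.mul_sum]
      exact (Finset.sum_congr rfl fun i _ => Finset.sum_comm).trans Finset.sum_comm]
    refine Finset.sum_congr rfl fun x _ => ?_
    rw [sum_sum_norm_sub]; ring
  have e2 : ∀ i j, ((if i ∈ T then 1 else 0) - (if j ∈ T then 1 else 0) : ℝ) ^ 2 * m ≤
      ∑ x, w x * ‖(a i - a j) x‖ ^ 2 := by
    intro i j
    have h0 : 0 ≤ ∑ x, w x * ‖(a i - a j) x‖ ^ 2 :=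
      Finset.sum_nonneg fun x _ => mul_nonneg (hw x) (sq_nonneg _)
    by_cases hi : i ∈ T <;> by_cases hj : j ∈ T <;> simp only [hi, hj, if_true, if_false]
    · simpa using h0
    · have : a i - a j ≠ 0 := sub_ne_zero.2 fun e => hj (by
        simp only [hT, Finset.mem_filter, Finset.mem_univ, true_and] at hi ⊢; rw [← e, hi])
      simpa using hm _ ((ha i).sub (ha j)) this
    · have : a i - a j ≠ 0 := sub_ne_zero.2 fun e => hi (by
        simp only [hT, Finset.mem_filter, Finset.mem_univ, true_and] at hj ⊢; rw [e, hj])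
      simpa using hm _ ((ha i).sub (ha j)) this
    · simpa using h0
  have e3 := Finset.sum_le_sum fun i (_ : i ∈ Finset.univ) =>
    Finset.sum_le_sum fun j (_ : j ∈ Finset.univ) => e2 i j
  simp only [← Finset.sum_mul] at e3
  have e4 := sum_sum_norm_sub (fun i : ι => ((if i ∈ T then 1 else 0 : ℝ) : ℂ))
  simp only [← Complex.ofReal_sub, ← Complex.ofReal_sum, Complex.norm_real, Real.norm_eq_abs, sq_abs] at e4
  rw [e4] at e3
  have e5 : ∑ i : ι, (if i ∈ T then 1 else 0 : ℝ) = T.card := by simp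
  have e6 : ∑ i : ι, (if i ∈ T then 1 else 0 : ℝ) ^ 2 = T.card := by
    rw [← e5]; exact Finset.sum_congr rfl fun i _ => by split_ifs <;> simp
  rw [e5, e6, ← e1] at e3
  have t1 : (1 : ℝ) ≤ T.card := by
    exact_mod_cast Finset.card_pos.2 ⟨i₀, by simp [hT]⟩
  have t2 : (T.card : ℝ) + 1 ≤ Fintype.card ι := by
    have : T.card < Fintype.card ι := Finset.card_lt_card
      (Finset.ssubset_univ_iff.2 fun e => hne (by
        have : i₁ ∈ T := e ▸ Finset.mem_univ _
        simp only [hT, Finset.mem_filter, Finset.mem_univ, true_and] at this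
        exact this.symm))
    exact_mod_cast this
  have t3 : (Fintype.card ι - 1 : ℝ) ≤ Fintype.card ι * T.card - (T.card : ℝ) ^ 2 := by nlinarith
  nlinarith [mul_le_mul_of_nonneg_right t3 hm0]

section prod
variable {C A : Type*} [Group C] [Fintype C] [Group A] [Fintype A]

theorem card_irr_comm (hC : ∀ a b : C, a * b = b * a) : Fintype.card (irrSet C) = Nat.card C := by
  have := sum_sq_degree C
  rw [Finset.sum_congr rfl fun χ hχ => by rw [irr_one_eq_one_of_comm hC (mem_irrSet.1 hχ)]] at this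
  simpa using this

theorem cf_of_comm (hC : ∀ a b : C, a * b = b * a) (φ : C → ℂ) : IsClassFunction C φ := fun g x => by
  rw [hC x g, mul_inv_cancel_right]

theorem parseval (hC : ∀ a b : C, a * b = b * a) (φ : C → ℂ) :
    ∑ c, ‖φ c‖ ^ 2 = Nat.card C * ∑ l : irrSet C, ‖ip φ l‖ ^ 2 := by
  have h1 := ip_expand (cf_of_comm hC φ) φ
  rw [ip_self_eq_ofReal, ← Finset.sum_coe_sort (irrSet C)] at h1
  have h2 : ∀ l : irrSet C, ip φ l * ip l φ = ((‖ip φ l‖ ^ 2 : ℝ) : ℂ) := fun l => by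
    rw [← ip_conj_symm φ l, Complex.mul_conj, Complex.normSq_eq_norm_sq]
  rw [Finset.sum_congr rfl fun l _ => h2 l, ← Complex.ofReal_sum, Complex.ofReal_inj] at h1
  rw [← h1, mul_inv_cancel_left₀ (by exact_mod_cast Nat.card_pos.ne')]

theorem expand_at (hC : ∀ a b : C, a * b = b * a) (φ : C → ℂ) (c : C) :
    φ c = ∑ l : irrSet C, ip φ l * (l : C → ℂ) c := by
  refine (congrFun (cf_expand (cf_of_comm hC φ)) c).trans ?_
  rw [← Finset.sum_coe_sort, Finset.sum_apply]
  rfl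

theorem expand_one (hC : ∀ a b : C, a * b = b * a) (φ : C → ℂ) : φ 1 = ∑ l : irrSet C, ip φ l := by
  rw [expand_at hC φ 1]
  exact Finset.sum_congr rfl fun l _ => by rw [irr_one_eq_one_of_comm hC (mem_irrSet.1 l.2), mul_one]

theorem IntF.coef {Θ : C × A → ℂ} (h : IntF Θ) {l : C → ℂ} (hl : IsCharacter C l) :
    IntF fun x => ip (fun c => Θ (c, x)) l := fun μ hμ => by
  obtain ⟨z, hz⟩ := h _ (H6.isCharacter_prod_fun hl hμ)
  refine ⟨z, hz ▸ ?_⟩
  simp only [ip_def, Nat.card_prod, Fintype.sum_prod_type_right, map_mul, Finset.mul_sum, Finset.sum_mul]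
  refine Finset.sum_congr rfl fun x _ => Finset.sum_congr rfl fun c _ => ?_
  push_cast
  rw [mul_inv]
  ring

open Classical in
theorem Mn.prod (hC : ∀ a b : C, a * b = b * a) {w : A → ℝ} {m : ℝ} (hw : ∀ x, 0 ≤ w x) (hm0 : 0 ≤ m)
    (hm : Mn w m) :
    Mn (fun y : C × A => (if y.1 = 1 then 1 else (Nat.card C : ℝ) + 1) * w y.2) (Nat.card C ^ 2 * m) := by
  intro Θ hΘ h0
  let a : Option (irrSet C) → A → ℂ := fun o => o.elim 0 fun l x => ip (fun c => Θ (c, x)) l
  obtain ⟨l, hl⟩ : ∃ l, a none ≠ a (some l) := by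
    by_contra! h
    refine h0 (funext fun y => ?_)
    refine (expand_at hC (fun c => Θ (c, y.2)) y.1).trans ?_
    exact Finset.sum_eq_zero fun l _ => mul_eq_zero_of_left (congrFun (h l) y.2).symm _
  have := pair_bound hw hm0 hm a (fun o => by
    cases o with
    | none => exact intF_zero
    | some l => exact hΘ.coef (irr_char (mem_irrSet.1 l.2))) hl
  rw [Fintype.card_option, card_irr_comm hC] at this
  have hn : (0 : ℝ) ≤ Nat.card C := Nat.cast_nonneg _
  refine le_trans (by push_cast; nlinarith) ((mul_le_mul_of_nonneg_left this hn).trans (le_of_eq ?_))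
  rw [Fintype.sum_prod_type_right, Finset.mul_sum]
  refine Finset.sum_congr rfl fun x _ => ?_
  have e1 : ∀ c : C, (if c = 1 then 1 else (Nat.card C : ℝ) + 1) * w x * ‖Θ (c, x)‖ ^ 2 =
      w x * ((Nat.card C + 1) * ‖Θ (c, x)‖ ^ 2 - if c = 1 then Nat.card C * ‖Θ (c, x)‖ ^ 2 else 0) := by
    intro c; split_ifs <;> ring
  simp only [e1, ← Finset.mul_sum, Finset.sum_sub_distrib, Finset.sum_ite_eq', Finset.mem_univ, if_true,
    Fintype.sum_option, a, Option.elim, Pi.zero_apply, norm_zero, zero_add]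
  rw [parseval hC fun c => Θ (c, x), expand_one hC fun c => Θ (c, x)]
  push_cast
  ring

open Classical in
theorem Mn.prod' (hC : ∀ a b : C, a * b = b * a) {w : A → ℝ} {m : ℝ} (hw : ∀ x, 0 ≤ w x) (hm0 : 0 ≤ m)
    (hm : Mn w m) {Θ : C × A → ℂ} (hΘ : IntF Θ) {c : C} {y : A} (c1 : c ≠ 1) (h0 : Θ (c, y) ≠ 0) :
    (Nat.card C - 1) * m ≤ ∑ c, ∑ x, if c = 1 then 0 else w x * ‖Θ (c, x)‖ ^ 2 := by
  let a : irrSet C → A → ℂ := fun l x => ip (fun c => Θ (c, x)) l
  obtain ⟨l, hl⟩ : ∃ l, a ⟨1, mem_irrSet.2 irr_one⟩ ≠ a l := by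
    by_contra! h
    refine h0 ?_
    refine (expand_at hC (fun c => Θ (c, y)) c).trans ?_
    have h1 := congrFun (reg_expand C) c
    rw [if_neg c1, Finset.sum_apply, ← Finset.sum_coe_sort] at h1
    have h2 : ∀ l : irrSet C, ip (fun c => Θ (c, y)) l * (l : C → ℂ) c =
        a ⟨1, mem_irrSet.2 irr_one⟩ y * ((l : C → ℂ) 1 • (l : C → ℂ)) c := fun l => by
      rw [h l, irr_one_eq_one_of_comm hC (mem_irrSet.1 l.2), one_smul]
    simp only [h2, ← Finset.mul_sum, ← h1, mul_zero]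
  have := pair_bound hw hm0 hm a (fun l => hΘ.coef (irr_char (mem_irrSet.1 l.2))) hl
  rw [card_irr_comm hC] at this
  refine this.trans (le_of_eq ?_)
  rw [Finset.sum_comm]
  refine Finset.sum_congr rfl fun x _ => ?_
  have e1 : ∀ c : C, (if c = 1 then 0 else w x * ‖Θ (c, x)‖ ^ 2) =
      w x * (‖Θ (c, x)‖ ^ 2 - if c = 1 then ‖Θ (c, x)‖ ^ 2 else 0) := by
    intro c; split_ifs <;> ring
  simp only [e1, ← Finset.mul_sum, Finset.sum_sub_distrib, Finset.sum_ite_eq', Finset.mem_univ, if_true, a]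
  rw [parseval hC fun c => Θ (c, x), expand_one hC fun c => Θ (c, x)]

theorem Mn.comp (hC : ∀ a b : C, a * b = b * a) {w : C → ℝ} (hm : Mn w (Nat.card C ^ 2))
    {f : A →* C} (hf : Function.Injective f) : Mn (fun a => w (f a)) (Nat.card A ^ 2) := by
  intro θ hθ h0
  have hA : (0 : ℝ) < Nat.card A := by exact_mod_cast Nat.card_pos
  have hCp : (0 : ℝ) < Nat.card C := by exact_mod_cast Nat.card_pos
  have e1 : ∀ g, ind f θ g = ((Nat.card C / Nat.card A : ℝ) : ℂ) * Function.extend f θ 0 g := fun g => by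
    rw [ind_apply_of_injective hf]
    simp only [hC _ g, mul_assoc, mul_inv_cancel, inv_mul_cancel, mul_one, Finset.sum_const, Finset.card_univ,
      nsmul_eq_mul, Nat.card_eq_fintype_card]
    push_cast
    ring
  have := hm (ind f θ) (fun μ hμ => by rw [ip_ind_left _ _ (char_cf hμ)]; exact hθ _ (char_comp f hμ))
    (fun e => h0 (funext fun a => by
      have := congrFun e (f a)
      rw [e1, hf.extend_apply] at this
      exact (mul_eq_zero.1 this).resolve_left (by exact_mod_cast (div_pos hCp hA).ne')))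
  rw [← Finset.sum_subset (Finset.subset_univ (Finset.univ.map ⟨f, hf⟩)) (fun g _ hg => by
    rw [e1, Function.extend_apply' _ _ _ (by simpa using hg)]; simp), Finset.sum_map] at this
  simp only [Function.Embedding.coeFn_mk, e1, hf.extend_apply, norm_mul, mul_pow, Complex.norm_real,
    Real.norm_eq_abs, sq_abs] at this
  rw [show ∑ a, w (f a) * ((Nat.card C / Nat.card A : ℝ) ^ 2 * ‖θ a‖ ^ 2) =
    (Nat.card C / Nat.card A : ℝ) ^ 2 * ∑ a, w (f a) * ‖θ a‖ ^ 2 by
      rw [Finset.mul_sum]; exact Finset.sum_congr rfl fun a _ => by ring, div_pow, div_mul_eq_mul_div,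
      le_div_iff₀ (by positivity)] at this
  exact le_of_mul_le_mul_left this (by positivity)

end prod

theorem mn_unit : Mn (fun _ : PUnit.{u + 1} => (1 : ℝ)) (Nat.card PUnit.{u + 1} ^ 2) := fun θ hθ h0 => by
  obtain ⟨z, hz⟩ := hθ 1 char_one
  simp only [ip_def, Nat.card_unique, Finset.univ_unique, Finset.sum_singleton] at hz ⊢
  simp only [Nat.cast_one, inv_one, one_mul, Pi.one_apply, map_one, mul_one] at hz ⊢
  have : z ≠ 0 := by
    rintro rfl
    exact h0 (funext fun x => by simpa using hz)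
  rw [hz, Complex.norm_intCast, one_pow, sq_abs]
  have : (1 : ℤ) ≤ z ^ 2 := by have := sq_pos_of_ne_zero this; omega
  exact_mod_cast this


variable {X : Type u} [Group X] [Finite X] {p : ℕ}

theorem exists_weight (hp : p.Prime) {H : Subgroup X} (hH : Ab H) (hp' : PiGrp {p}ᶜ H) (n : ℕ) :
    ∀ W : Subgroup X, #W = n → Abelem p W → H ≤ N(W) →
      ∃ (S : Type u) (_ : Group S) (_ : Fintype S) (f : H →* S) (w : S → ℝ), (∀ a b : S, a * b = b * a) ∧
        (∀ s, 0 ≤ w s) ∧ Mn w (Nat.card S ^ 2) ∧ (∀ a, f a = 1 → (a : X) ∈ C(W)) ∧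
        ∀ a, w (f a) * #(W ⊓ C[(a : X)]) ≤ #W := by
  classical
  induction n using Nat.strong_induction_on with
  | _ n ih =>
  intro W hn hW hN
  by_cases W1 : W = ⊥
  · subst W1
    exact ⟨PUnit, inferInstance, inferInstance, 1, fun _ => 1, fun _ _ => rfl, fun _ => zero_le_one, mn_unit,
      fun a _ => cen_bot.ge (mem_top _), fun a => by simp⟩
  obtain ⟨U, hU, hmin⟩ := exists_minNml W1 hN
  obtain ⟨U', hD, hN'⟩ := Maschke_abelem hp hW hp' hU hN hmin.nrm
  have hlt : #U' < n := by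
    rw [← hn, hD.card]
    exact lt_mul_of_one_lt_left Nat.card_pos ((Subgroup.one_lt_card_iff_ne_bot _).2 hmin.ne)
  obtain ⟨S, _, _, f, w, hS, hw, hm, hk, hle⟩ := ih _ hlt U' rfl (hW.mono hD.right) hN'
  have hc : ∀ a b : H, a * b = b * a := fun a b => hH.is_comm.comm a b
  let K : Subgroup H := C(U).subgroupOf H
  haveI : K.Normal := ⟨fun a ha g => by rwa [hc g, mul_inv_cancel_right]⟩
  letI : Fintype (H ⧸ K) := Fintype.ofFinite _
  have hQ : ∀ a b : H ⧸ K, a * b = b * a := fun a b => by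
    obtain ⟨a, rfl⟩ := QuotientGroup.mk_surjective a
    obtain ⟨b, rfl⟩ := QuotientGroup.mk_surjective b
    rw [← QuotientGroup.mk_mul, hc, QuotientGroup.mk_mul]
  have hreg : ∀ a : H, a ∉ K → U ⊓ C[(a : X)] = ⊥ := fun a ha =>
    (hmin.eq_bot_or_eq inf_le_left (normsI hmin.nrm (norms_cen1 (hH.le_cen1 a.2)))).resolve_right fun e =>
      ha (mem_subgroupOf.2 (mem_cen.2 fun u hu => mem_cen1.1 (e.ge hu).2))
  have horb : Nat.card (H ⧸ K) + 1 ≤ #U := by
    obtain ⟨u, hu, u1⟩ := exists_ne_one hmin.ne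
    have := orb_le (R := H) u1 fun n hn => conj_mem (hmin.nrm hn) hu
    refine le_trans (le_of_eq ?_) this
    congr 1
    refine (congrArg Subgroup.index ?_ : K.index = _)
    ext a
    refine ⟨fun h => mem_cen1.2 (mem_cen.1 h u hu).symm, fun h => by_contra fun ha => u1 ?_⟩
    exact mem_bot.1 (hreg a ha ▸ ⟨hu, mem_cen1.2 (mem_cen1.1 h).symm⟩)
  refine ⟨(H ⧸ K) × S, inferInstance, inferInstance, (QuotientGroup.mk' K).prod f, _,
    fun a b => Prod.ext (hQ _ _) (hS _ _), fun s => ?_, by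
      have := hm.prod hQ hw (by positivity)
      rwa [← mul_pow, ← Nat.cast_mul, ← Nat.card_prod] at this, fun a ha => ?_, fun a => ?_⟩
  · exact mul_nonneg (by split_ifs <;> positivity) (hw _)
  · rw [← hD.sup, cen_sup]
    exact ⟨(QuotientGroup.eq_one_iff a).1 (congrArg Prod.fst ha), hk a (congrArg Prod.snd ha)⟩
  · rw [(hD.subcent1 (hmin.nrm a.2) (hN' a.2)).card, hD.card]
    simp only [MonoidHom.prod_apply, QuotientGroup.mk'_apply, QuotientGroup.eq_one_iff]
    push_cast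
    rw [mul_mul_mul_comm]
    refine mul_le_mul ?_ (hle a) (mul_nonneg (hw _) (Nat.cast_nonneg _)) (Nat.cast_nonneg _)
    split_ifs with ha
    · rw [one_mul]; exact_mod_cast card_le_of_le inf_le_left
    · rw [hreg a ha, card_bot]; exact_mod_cast (by simpa using horb)


theorem knorr (hp : p.Prime) {V G : Subgroup X} [V.Normal] (hV : Abelem p V) (hidx : ¬ p ∣ V.index)
    (hself : C(V) = V) (hGV : IsComplement' V G) {v : X} (hv : v ∈ V) (v1 : v ≠ 1) (hH : Ab (G ⊓ C[v])) :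
    Nat.card (ConjClasses X) ≤ #V := by
  classical
  haveI := Fact.mk hp
  set H := G ⊓ C[v] with hHd
  have hVG : V ⊓ G = ⊥ := hGV.disjoint.eq_bot
  have hp' : PiGrp {p}ᶜ H := PiGrp.inf_left ((p'grp_iff_coprime hp).2 (by
    rw [← hGV.symm.index_eq_card]; exact ((Nat.Prime.coprime_iff_not_dvd hp).2 hidx).symm)) _
  have hN : ∀ A : Subgroup X, A ≤ N(V) := fun A => (normalizer_eq_top V).ge.trans' le_top
  obtain ⟨S, _, _, f, w, hS, hw, hm, hk, hle⟩ := exists_weight hp hH hp' _ V rfl hV (hN _)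
  letI : Fintype H := Fintype.ofFinite _
  letI : Fintype ⟪v⟫ := Fintype.ofFinite _
  have hm' := hm.comp hS ((injective_iff_map_eq_one f).2 fun a ha =>
    Subtype.ext (eq_one_of_mem_inf hVG (hself ▸ hk a ha) a.2.1))
  have hC : ∀ a b : ⟪v⟫, a * b = b * a := (ab_zpowers v).is_comm.comm
  have hcv : #⟪v⟫ = p := by rw [card_zpowers', orderOf_eq_prime (hV.2 v hv) v1]
  have hcom : ∀ (c : ⟪v⟫) (a : H), Commute (c : X) (a : X) := fun c a =>
    (mem_cen1.1 (cen1_le_cen1_of_mem_zpowers c.2 a.2.2)).symm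
  let φ : ⟪v⟫ × H →* X := ⟪v⟫.subtype.noncommCoprod H.subtype hcom
  have hφ : ∀ c a, φ (c, a) = c * a := fun c a => rfl
  have h1 : ∀ χ ∈ irrSet X, ((p : ℝ) - 1) * (#H : ℝ) ^ 2 ≤
      ∑ c : ⟪v⟫, ∑ a : H, if c = 1 then 0 else w (f a) * ‖χ (c * a)‖ ^ 2 := fun χ hχ => by
    have hχ := mem_irrSet.1 hχ
    have := hm'.prod' hC (fun _ => hw _) (by positivity) (Θ := fun y => χ (φ y))
      (fun μ hμ => by
        obtain ⟨n, hn⟩ := ip_char_nat (char_comp φ (irr_char hχ)) hμ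
        exact ⟨n, by simpa using hn⟩) (c := ⟨v, mem_zpowers v⟩) (y := 1)
      (fun e => v1 (congrArg Subtype.val e)) (fun e => by
        obtain ⟨d, -, hd⟩ := irr_one_pos hχ
        have h1 := dvd_degree_of_vanish (k := 1) hp (irr_char hχ) (g := v) (by rw [pow_one]; exact hV.2 v hv)
          (by simpa [hφ] using e)
        rw [charDegree, hd, Complex.natCast_re, Nat.floor_natCast] at h1
        exact hidx (h1.trans (degree_dvd_index_of_abelian_normal V
          (fun a ha b hb => congrArg Subtype.val (hV.1.is_comm.comm ⟨a, ha⟩ ⟨b, hb⟩)) hχ hd)))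
    rw [hcv] at this
    convert this using 5
    rfl
  have h2 : ∀ (c : ⟪v⟫) (a : H), c ≠ 1 → #C[(c : X) * a] ≤ #(V ⊓ C[(a : X)]) * #H := fun c a c1 => by
    rw [← (sd_sup (normsI (hN _) (norms_cen1 (hH.le_cen1 a.2)))
      (inf_eq_bot_mono hVG inf_le_left inf_le_left)).card]
    refine card_le fun x hx => ?_
    have hxa : x ∈ C[(a : X)] := by
      have := cen1_le_cen1_pow _ p hx
      rw [(hcom c a).mul_pow, hV.2 _ (zpowers_le.2 hv c.2), one_mul, ← cen_zpowers, zpowers_pow_of_coprime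
        (((p'grp_iff_coprime hp).1 hp').symm.coprime_dvd_right (H.orderOf_dvd_natCard a.2)), cen_zpowers] at this
      exact this
    have hxv : x ∈ C[v] := by
      rw [← cen_zpowers, ← cen1_eq_of_prime (hcv ▸ hp) c.2 fun e => c1 (Subtype.ext e), mem_cen1]
      have e1 := mem_cen1.1 hx
      rw [← mul_assoc, mul_assoc (c : X), ← mem_cen1.1 hxa, ← mul_assoc] at e1
      exact mul_right_cancel e1
    obtain ⟨⟨u, g⟩, rfl⟩ := hGV.2 x
    have hg : (g : X) ∈ H := ⟨g.2, (C[v].mul_mem_cancel_left (Ab.le_cen1 hV.1 hv u.2)).1 hxv⟩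
    exact mul_mem_sup ⟨u.2, (C[(a : X)].mul_mem_cancel_right (hH.le_cen1 a.2 hg)).1 hxa⟩ hg
  letI : Fintype (IrrCharacter X) := @Fintype.ofFinite _ (finite_irr X)
  have h3 := Finset.sum_le_sum h1
  rw [Finset.sum_const, card_irrSet, H6.card_irr_eq_card_conjClasses, nsmul_eq_mul, Finset.sum_comm] at h3
  have h4 : ∀ c : ⟪v⟫, ∑ χ ∈ irrSet X, (∑ a : H, if c = 1 then 0 else w (f a) * ‖χ (c * a)‖ ^ 2) ≤
      (1 - if c = 1 then 1 else 0) * (#V * (#H : ℝ) ^ 2) := fun c => by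
    split_ifs with c1
    · simp
    rw [Finset.sum_comm, sub_zero, one_mul]
    refine (Finset.sum_le_card_nsmul _ _ ((#V : ℝ) * #H) fun a _ => ?_).trans (le_of_eq ?_)
    · rw [← Finset.mul_sum, ← sum_irr_eq_sum (fun χ : X → ℂ => ‖χ (c * a)‖ ^ 2), H6.sum_irr_norm_sq]
      refine (mul_le_mul_of_nonneg_left (Nat.cast_le.2 (h2 c a c1)) (hw _)).trans ?_
      rw [Nat.cast_mul, ← mul_assoc]
      exact mul_le_mul_of_nonneg_right (hle a) (Nat.cast_nonneg _)
    · rw [Finset.card_univ, ← Nat.card_eq_fintype_card, nsmul_eq_mul]; ring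
  have h5 := h3.trans (Finset.sum_le_sum fun c _ => h4 c)
  rw [← Finset.sum_mul, Finset.sum_sub_distrib, Finset.sum_ite_eq', if_pos (Finset.mem_univ _),
    Finset.sum_const, Finset.card_univ, ← Nat.card_eq_fintype_card, hcv, nsmul_eq_mul, mul_one,
    mul_left_comm, ← mul_assoc, ← mul_assoc] at h5
  have p1 : (0 : ℝ) < p - 1 := sub_pos.2 (by exact_mod_cast hp.one_lt)
  have := le_of_mul_le_mul_left (le_of_mul_le_mul_right h5 (by have := card_pos H; positivity)) p1
  exact_mod_cast this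

end Cfsg.Agent.H9.Kn
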