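import Mathlib
import Cfsg.Agent.H3.MaxCl
import Cfsg.Agent.H3.HallPetrescu

/-! Mann's lower bound for the order of a `p`-group of given derived length. -/

set_option autoImplicit false
set_option linter.unusedSectionVars false
set_option linter.style.haveILetI false

namespace Cfsg.Agent.H9.Mann

open Cfsg Subgroup Cfsg.Agent.FT Cfsg.Agent.H3
open scoped commutatorElement

variable {G : Type*} [Group G] [Finite G] {p : ℕ}

theorem der_le_of_gen (K : Subgroup G) [K.Normal] {M N : Subgroup G} {a b : G} (ha : a ∈ N) (hb : b ∈ N)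
    (hN : N ≤ M ⊔ ⟪a⟫ ⊔ ⟪b⟫) (hM : ⁅M, N⁆ ≤ K) (hab : ⁅a, b⁆ ∈ K) : ⁅N, N⁆ ≤ K := by
  let π := QuotientGroup.mk' K
  have hc : ∀ x y : G, ⁅x, y⁆ ∈ K ↔ Commute (π x) (π y) := fun x y => by
    rw [← commutatorElement_eq_one_iff_commute, ← map_commutatorElement]
    exact (QuotientGroup.eq_one_iff _).symm
  have key : ∀ x : G, (∀ m ∈ M, Commute (π x) (π m)) → Commute (π x) (π a) → Commute (π x) (π b) →
      ∀ y ∈ N, Commute (π x) (π y) := fun x h1 h2 h3 y hy => by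
    have : M ⊔ ⟪a⟫ ⊔ ⟪b⟫ ≤ (centralizer {π x}).comap π := by
      refine sup_le (sup_le (fun m hm => ?_) ?_) ?_
      · exact mem_centralizer_singleton_iff.2 (h1 m hm).symm.eq
      · exact (zpowers_le).2 (mem_centralizer_singleton_iff.2 h2.symm.eq)
      · exact (zpowers_le).2 (mem_centralizer_singleton_iff.2 h3.symm.eq)
    exact (mem_centralizer_singleton_iff.1 (this (hN hy))).symm
  have hm : ∀ m ∈ M, ∀ y ∈ N, Commute (π m) (π y) := fun m hm y hy =>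
    (hc _ _).1 (hM (commutator_mem_commutator hm hy))
  rw [commutator_le]
  intro x hx y hy
  rw [hc]
  refine (key y (fun m hm' => (hm m hm' y hy).symm) ?_ ?_ x hx).symm
  · exact (key a (fun m hm' => (hm m hm' a ha).symm) (Commute.refl _) ((hc _ _).1 hab) y hy).symm
  · exact (key b (fun m hm' => (hm m hm' b hb).symm) ((hc _ _).1 hab).symm (Commute.refl _) y hy).symm

theorem iterTop_anti (N : Subgroup G) [N.Normal] {i j : ℕ} (h : i ≤ j) : iterTop N j ≤ iterTop N i := by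
  induction h with
  | refl => exact le_rfl
  | step _ ih =>
    rename_i m _
    haveI := iterTop_normal N m
    exact (commutator_le_left _ _).trans ih

theorem chain (hG : PGrp p (⊤ : Subgroup G)) (N : Subgroup G) [N.Normal] (j t : ℕ)
    (h : iterTop N (j + t) ≠ ⊥) : p ^ t * #(iterTop N (j + t)) ≤ #(iterTop N j) := by
  induction t with
  | zero => simp
  | succ t ih =>
    have h1 : iterTop N (j + t) ≠ ⊥ := ne_bot_of_le (iterTop_anti N (by omega)) h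
    haveI := iterTop_normal N (j + t)
    have h2 : p * #(iterTop N (j + (t + 1))) ≤ #(iterTop N (j + t)) :=
      (hG.mono le_top).mul_card_le (hG.comm_lt (hG.mono le_top) (by rw [normalizer_eq_top]) h1)
    calc p ^ (t + 1) * #(iterTop N (j + (t + 1))) = p ^ t * (p * #(iterTop N (j + (t + 1)))) := by ring
      _ ≤ p ^ t * #(iterTop N (j + t)) := Nat.mul_le_mul_left _ h2
      _ ≤ _ := ih h1

/-- the step when `N / [N, G]` is cyclic -/
theorem step_cyc (hG : PGrp p (⊤ : Subgroup G)) (N : Subgroup G) [N.Normal] {m : ℕ}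
    (hN : N ≤ γ[m]((⊤ : Subgroup G))) (h1 : ⁅N, N⁆ ≠ ⊥) {a : G} (ha : a ∈ N) (h : N ≤ iterTop N 1 ⊔ ⟪a⟫) :
    p ^ (m + 2) * #⁅N, N⁆ ≤ #N ∧ ⁅N, N⁆ ≤ γ[2 * m + 2]((⊤ : Subgroup G)) := by
  haveI := iterTop_normal N 1
  have h2 : ⁅N, N⁆ ≤ ⁅iterTop N 1, N⁆ :=
    der_le_of_gen _ ha ha (h.trans le_sup_left) le_rfl (by simp)
  constructor
  · have h3 : ⁅N, N⁆ ≤ iterTop N (0 + (m + 2)) := by
      refine h2.trans ((commutator_mono le_rfl hN).trans ?_)
      rw [show 0 + (m + 2) = 1 + m + 1 by omega]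
      exact commutator_iterTop_lcs N m 1
    exact (Nat.mul_le_mul_left _ (card_le h3)).trans (chain hG N 0 (m + 2) (ne_bot_of_le h3 h1))
  · refine h2.trans ?_
    rw [show 2 * m + 2 = (m + 1) + m + 1 by omega]
    refine le_trans (commutator_mono ?_ hN) (commutator_lcs_top_le (m + 1) m)
    exact commutator_mono hN le_rfl

theorem step (hp : p.Prime) (hG : PGrp p (⊤ : Subgroup G)) (N : Subgroup G) [N.Normal] {m : ℕ}
    (hN : N ≤ γ[m]((⊤ : Subgroup G))) (h1 : ⁅N, N⁆ ≠ ⊥) :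
    p ^ (m + 3) * #⁅N, N⁆ ≤ #N ∨ (p ^ (m + 2) * #⁅N, N⁆ ≤ #N ∧ ⁅N, N⁆ ≤ γ[2 * m + 2]((⊤ : Subgroup G))) ∨
      (p ^ (m + 2) * #⁅N, N⁆ ≤ #N ∧ ∃ c ∈ ⁅N, N⁆, ⁅N, N⁆ ≤ iterTop ⁅N, N⁆ 1 ⊔ ⟪c⟫) := by
  have hN1 : N ≠ ⊥ := by rintro rfl; simp at h1
  have hlt : iterTop N 1 < N := hG.comm_lt (Q := N) (hG.mono le_top) (by rw [normalizer_eq_top]) hN1
  obtain ⟨a, ha, ha'⟩ := SetLike.exists_of_lt hlt
  by_cases hc : N ≤ iterTop N 1 ⊔ ⟪a⟫
  · exact Or.inr (Or.inl (step_cyc hG N hN h1 ha hc))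
  have hA : iterTop N 1 ⊔ ⟪a⟫ ≤ N := sup_le hlt.le (zpowers_le.2 ha)
  have hA1 : iterTop N 1 < iterTop N 1 ⊔ ⟪a⟫ :=
    lt_of_le_of_ne le_sup_left fun e => ha' (e ▸ mem_sup_right (mem_zpowers a))
  have hA2 : iterTop N 1 ⊔ ⟪a⟫ < N := lt_of_le_of_ne hA fun e => hc e.ge
  obtain ⟨b, hb, hb'⟩ := SetLike.exists_of_lt hA2
  have h3 : ⁅N, N⁆ ≤ iterTop N (1 + m) := by
    refine (commutator_mono le_rfl hN).trans ?_
    rw [show 1 + m = 0 + m + 1 by omega]
    exact commutator_iterTop_lcs N m 0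
  have h4 := chain hG N 1 m (ne_bot_of_le h3 h1)
  have c1 := (hG.mono le_top).mul_card_le hA1
  have c2 := (hG.mono le_top).mul_card_le hA2
  have c3 := card_le h3
  by_cases hd : N ≤ iterTop N 1 ⊔ ⟪a⟫ ⊔ ⟪b⟫
  · by_cases he : ⁅N, N⁆ = iterTop N (1 + m)
    · refine Or.inr (Or.inr ⟨?_, ⁅a, b⁆, commutator_mem_commutator ha hb, ?_⟩)
      · calc p ^ (m + 2) * #⁅N, N⁆ = p * (p * (p ^ m * #⁅N, N⁆)) := by ring
          _ ≤ p * (p * #(iterTop N 1)) := by gcongr; exact (Nat.mul_le_mul_left _ c3).trans h4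
          _ ≤ p * #(iterTop N 1 ⊔ ⟪a⟫) := by gcongr
          _ ≤ _ := c2
      · haveI := iterTop_normal ⁅N, N⁆ 1
        haveI : (iterTop ⁅N, N⁆ 1 ⊔ ⟪⁅a, b⁆⟫).Normal :=
          normal_sup_zpowers _ fun g => commutator_mem_commutator (commutator_mem_commutator ha hb) (mem_top g)
        refine der_le_of_gen _ ha hb hd (le_trans ?_ le_sup_left) (mem_sup_right (mem_zpowers _))
        refine (commutator_mono le_rfl hN).trans ((commutator_iterTop_lcs N m 1).trans ?_)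
        rw [he]; exact le_rfl
    · have c4 := (hG.mono le_top).mul_card_le (lt_of_le_of_ne h3 he)
      left
      calc p ^ (m + 3) * #⁅N, N⁆ = p * (p * (p ^ m * (p * #⁅N, N⁆))) := by ring
        _ ≤ p * (p * #(iterTop N 1)) := by gcongr; exact (Nat.mul_le_mul_left _ c4).trans h4
        _ ≤ p * #(iterTop N 1 ⊔ ⟪a⟫) := by gcongr
        _ ≤ _ := c2
  · have hB : iterTop N 1 ⊔ ⟪a⟫ ⊔ ⟪b⟫ ≤ N := sup_le hA (zpowers_le.2 hb)
    have hB1 : iterTop N 1 ⊔ ⟪a⟫ < iterTop N 1 ⊔ ⟪a⟫ ⊔ ⟪b⟫ :=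
      lt_of_le_of_ne le_sup_left fun e => hb' (e ▸ mem_sup_right (mem_zpowers b))
    have hB2 : iterTop N 1 ⊔ ⟪a⟫ ⊔ ⟪b⟫ < N := lt_of_le_of_ne hB fun e => hd e.ge
    have c5 := (hG.mono le_top).mul_card_le hB1
    have c6 := (hG.mono le_top).mul_card_le hB2
    left
    calc p ^ (m + 3) * #⁅N, N⁆ = p * (p * (p * (p ^ m * #⁅N, N⁆))) := by ring
      _ ≤ p * (p * (p * #(iterTop N 1))) := by gcongr; exact (Nat.mul_le_mul_left _ c3).trans h4
      _ ≤ p * (p * #(iterTop N 1 ⊔ ⟪a⟫)) := by gcongr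
      _ ≤ p * #(iterTop N 1 ⊔ ⟪a⟫ ⊔ ⟪b⟫) := by gcongr
      _ ≤ _ := c6

theorem step' (hp : p.Prime) (hG : PGrp p (⊤ : Subgroup G)) (N : Subgroup G) [N.Normal] {m : ℕ}
    (hN : N ≤ γ[m]((⊤ : Subgroup G))) (h1 : ⁅N, N⁆ ≠ ⊥) : p ^ (m + 2) * #⁅N, N⁆ ≤ #N := by
  rcases step hp hG N hN h1 with h | h | h
  · exact le_trans (Nat.mul_le_mul_right _ (Nat.pow_le_pow_right hp.pos (by omega))) h
  · exact h.1
  · exact h.1

theorem inv (hp : p.Prime) (hG : PGrp p (⊤ : Subgroup G)) (i : ℕ) (h : derivedSeries G i ≠ ⊥) :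
    ∃ m, 2 ^ i = m + 1 ∧ derivedSeries G i ≤ γ[m]((⊤ : Subgroup G)) ∧
      (p ^ (m + 2 * i) * #(derivedSeries G i) ≤ Nat.card G ∨
      (p ^ (m + 2 * i) * #(derivedSeries G i) ≤ p * Nat.card G ∧
        ∃ c ∈ derivedSeries G i, derivedSeries G i ≤ iterTop (derivedSeries G i) 1 ⊔ ⟪c⟫) ∨
      (p ^ (m + 2 * i) * #(derivedSeries G i) ≤ p ^ 2 * Nat.card G ∧
        derivedSeries G i ≤ γ[m + 1]((⊤ : Subgroup G)))) := by
  induction i with
  | zero => exact ⟨0, rfl, le_rfl, Or.inl (by simp)⟩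
  | succ i ih =>
    have h0 : derivedSeries G i ≠ ⊥ := fun e => h (by rw [derivedSeries_succ, e]; simp)
    obtain ⟨m, hm, hle, hcase⟩ := ih h0
    rw [derivedSeries_succ] at h ⊢
    set N := derivedSeries G i with hN
    haveI : N.Normal := derivedSeries_normal G i
    have hp1 : 1 ≤ p := hp.pos
    refine ⟨2 * m + 1, by rw [pow_succ, hm]; ring, ?_, ?_⟩
    · rw [show 2 * m + 1 = m + m + 1 by omega]
      exact (commutator_mono hle hle).trans (commutator_lcs_top_le m m)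
    have e : ∀ x : ℕ, p ^ (2 * m + 1 + 2 * (i + 1)) * x = p ^ (m + 2 * i) * (p ^ (m + 3) * x) := fun x => by ring
    have e' : ∀ x : ℕ, p ^ (2 * m + 1 + 2 * (i + 1)) * x = p * (p ^ (m + 2 * i) * (p ^ (m + 2) * x)) :=
      fun x => by ring
    rcases hcase with hA | ⟨hB, c, hc, hc'⟩ | ⟨hC, hC'⟩
    · rcases step hp hG N hle h with h1 | ⟨h1, h2⟩ | ⟨h1, h2⟩
      · left; rw [e]; exact (Nat.mul_le_mul_left _ h1).trans hA
      · right; right
        refine ⟨?_, h2⟩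
        rw [e']
        calc _ ≤ p * Nat.card G := Nat.mul_le_mul_left _ ((Nat.mul_le_mul_left _ h1).trans hA)
          _ ≤ _ := Nat.mul_le_mul_right _ (by nlinarith)
      · right; left
        refine ⟨?_, h2⟩
        rw [e']
        exact Nat.mul_le_mul_left _ ((Nat.mul_le_mul_left _ h1).trans hA)
    · obtain ⟨h1, h2⟩ := step_cyc hG N hle h hc hc'
      right; right
      refine ⟨?_, h2⟩
      rw [e', pow_two, mul_assoc]
      exact Nat.mul_le_mul_left _ ((Nat.mul_le_mul_left _ h1).trans hB)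
    · right; right
      refine ⟨?_, ?_⟩
      · rw [e]; exact (Nat.mul_le_mul_left _ (step' hp hG N hC' h)).trans hC
      · refine (commutator_mono hC' hC').trans ((commutator_lcs_top_le _ _).trans (lcs_anti _ (by omega)))

theorem main [hp : Fact p.Prime] (n k : ℕ) (hcard : Nat.card G = p ^ n) (hk : derivedSeries G k ≠ ⊥) :
    2 ^ k + 2 * k ≤ n + 2 := by
  have hG : PGrp p (⊤ : Subgroup G) := pGrp_top (IsPGroup.of_card hcard)
  obtain ⟨m, hm, -, hc⟩ := inv hp.out hG k hk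
  have h1 : p * #(⊥ : Subgroup G) ≤ #(derivedSeries G k) :=
    (hG.mono le_top).mul_card_le (bot_lt_iff_ne_bot.2 hk)
  rw [card_bot', mul_one] at h1
  have hp1 : 1 ≤ p := hp.out.pos
  have h2 : p ^ (m + 2 * k) * #(derivedSeries G k) ≤ p ^ 2 * Nat.card G := by
    rcases hc with h | h | h
    · exact h.trans (Nat.le_mul_of_pos_left _ (by positivity))
    · exact h.1.trans (Nat.mul_le_mul_right _ (by nlinarith))
    · exact h.1
  have h3 : p ^ (m + 2 * k + 1) ≤ p ^ (n + 2) := by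
    rw [pow_succ, add_comm n, pow_add p 2, ← hcard]
    exact (Nat.mul_le_mul_left _ h1).trans h2
  have := (Nat.pow_le_pow_iff_right hp.out.one_lt).1 h3
  omega

end Cfsg.Agent.H9.Mann
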