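import Mathlib
import Cfsg.Agent.H9.Knorr
import Cfsg.Agent.H9.NormalP
import Cfsg.Agent.H9.Contr
import Cfsg.Agent.H9.Subs
import Cfsg.Agent.H6.Galois
import Cfsg.Agent.H6.Square
import Cfsg.Agent.H7.Det
import Cfsg.Agent.H7.Perm

/-!
Real vectors for the `k(GV)` problem, I: integral class functions and the counting argument.
-/

set_option autoImplicit false
set_option linter.unusedSectionVars false
set_option linter.unusedVariables false

namespace Cfsg.Agent.H9.RV

open Cfsg Subgroup Cfsg.Agent.FT Cfsg.Agent.GW Cfsg.Agent.H7 ComplexConjugate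

/-- numbers on which every automorphism commutes with complex conjugation -/
def CM : Subfield ℂ where
  carrier := {z | ∀ σ : ℂ ≃+* ℂ, σ (conj z) = conj (σ z)}
  mul_mem' := fun ha hb σ => by simp only [map_mul, ha σ, hb σ]
  add_mem' := fun ha hb σ => by simp only [map_add, ha σ, hb σ]
  one_mem' := fun σ => by simp
  zero_mem' := fun σ => by simp
  neg_mem' := fun ha σ => by simp only [map_neg, ha σ]
  inv_mem' := fun _ ha σ => by simp only [map_inv₀, ha σ]

theorem conj_CM {z : ℂ} (h : z ∈ CM) : conj z ∈ CM := fun σ => by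
  rw [Complex.conj_conj, h σ, Complex.conj_conj]

theorem root_CM {z : ℂ} {n : ℕ} (hn : n ≠ 0) (h : z ^ n = 1) : z ∈ CM := fun σ => by
  have e : ∀ w : ℂ, w ^ n = 1 → conj w = w⁻¹ := fun w hw =>
    (Complex.inv_eq_conj (Complex.norm_eq_one_of_pow_eq_one hw hn)).symm
  rw [e z h, e (σ z) (by rw [← map_pow, h, map_one]), map_inv₀]

theorem char_CM {G : Type*} [Group G] [Finite G] {χ : G → ℂ} (h : IsCharacter G χ) (g : G) : χ g ∈ CM := by
  obtain ⟨n, ε, -, h1, h2⟩ := H6.isCharacter_exists_roots h g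
  have := h2 1
  simp only [zpow_one] at this
  rw [this]
  exact sum_mem fun i _ => root_CM (orderOf_pos g).ne' (h1 i)

theorem card_le_of_sum {ι : Type*} (s : Finset ι) (a : ι → ℂ) (h0 : ∀ i ∈ s, a i ≠ 0)
    (hi : ∀ i ∈ s, IsIntegral ℤ (a i)) (hc : ∀ i ∈ s, a i ∈ CM) (r : ℚ)
    (hr : ∑ i ∈ s, a i * conj (a i) = r) : (s.card : ℝ) ≤ r := by
  have key : ∀ σ : ℂ ≃+* ℂ, Real.log (‖σ (∏ i ∈ s, a i)‖ ^ 2) + s.card ≤ r := fun σ => by
    have h1 := log_prod_add_card_le s (fun i => ‖σ (a i)‖ ^ 2) fun i hi =>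
      pow_pos (norm_pos_iff.2 ((map_ne_zero σ).2 (h0 i hi))) 2
    have h2 : ((∑ i ∈ s, ‖σ (a i)‖ ^ 2 : ℝ) : ℂ) = ((r : ℝ) : ℂ) := by
      rw [Complex.ofReal_ratCast, ← map_ratCast σ, ← hr, map_sum, Complex.ofReal_sum]
      refine Finset.sum_congr rfl fun i hi => ?_
      rw [map_mul, hc i hi σ, Complex.mul_conj, Complex.normSq_eq_norm_sq]
    rw [Complex.ofReal_inj.1 h2, Finset.prod_pow, ← norm_prod, ← map_prod] at h1
    exact h1
  by_contra hlt
  have hne : ∏ i ∈ s, a i ≠ 0 := Finset.prod_ne_zero_iff.2 h0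
  have lt : ∀ σ : ℂ ≃+* ℂ, ‖σ (∏ i ∈ s, a i)‖ < 1 := fun σ => by
    have h1 : Real.log (‖σ (∏ i ∈ s, a i)‖ ^ 2) < 0 := by linarith [key σ, not_le.1 hlt]
    have h2 := (Real.log_neg_iff (pow_pos (norm_pos_iff.2 ((map_ne_zero σ).2 hne)) 2)).1 h1
    exact (pow_lt_one_iff_of_nonneg (norm_nonneg _) two_ne_zero).1 h2
  obtain ⟨n, hn, e⟩ := H6.exists_pow_eq_one_of_conj_le_one (IsIntegral.prod _ hi) hne fun σ => (lt σ).le
  exact (lt (RingEquiv.refl ℂ)).ne (Complex.norm_eq_one_of_pow_eq_one e hn.ne')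

section IntC
variable {H : Type*} [Group H] [Finite H] {f g : H → ℂ}

/-- algebraic-integer combinations of characters -/
def IntC (f : H → ℂ) : Prop := IsClassFunction H f ∧ ∀ μ, IsCharacter H μ → IsIntegral ℤ (ip f μ)

theorem IntC.of_char (h : IsCharacter H f) : IntC f := ⟨char_cf h, fun μ hμ => by
  obtain ⟨n, hn⟩ := ip_char_nat h hμ
  rw [hn]; exact isIntegral_natCast n⟩

theorem IntC.add (h : IntC f) (h' : IntC g) : IntC (f + g) :=
  ⟨cf_add h.1 h'.1, fun μ hμ => by rw [ip_add_left]; exact (h.2 μ hμ).add (h'.2 μ hμ)⟩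

theorem IntC.smul (h : IntC f) {c : ℂ} (hc : IsIntegral ℤ c) : IntC (c • f) :=
  ⟨cf_smul c h.1, fun μ hμ => by rw [ip_smul_left]; exact hc.mul (h.2 μ hμ)⟩

theorem IntC.sum {ι : Type*} (s : Finset ι) {φ : ι → H → ℂ} (h : ∀ i ∈ s, IntC (φ i)) :
    IntC (∑ i ∈ s, φ i) :=
  ⟨cf_sum s fun i hi => (h i hi).1, fun μ hμ => by
    rw [ip_sum_left]; exact IsIntegral.sum _ fun i hi => (h i hi).2 μ hμ⟩

theorem IntC.mul (h : IntC f) (h' : IntC g) : IntC (f * g) := by
  rw [cf_expand h'.1, Finset.mul_sum]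
  refine IntC.sum _ fun τ hτ => ?_
  have hτ := irr_char (mem_irrSet.1 hτ)
  rw [mul_smul_comm]
  refine IntC.smul ⟨cf_mul h.1 (char_cf hτ), fun μ hμ => ?_⟩ (h'.2 τ hτ)
  rw [ip_mul_right]
  exact h.2 _ (char_mul hμ (char_star hτ))

theorem IntC.val (h : IntC f) (a : H) : IsIntegral ℤ (f a) := by
  rw [cf_expand h.1, Finset.sum_apply]
  exact IsIntegral.sum _ fun τ hτ => (h.2 τ (irr_char (mem_irrSet.1 hτ))).mul
    (H6.isCharacter_isIntegral (irr_char (mem_irrSet.1 hτ)) a)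

theorem IntC.prod_sub (h : IntC f) (s : Finset H) :
    ∃ q, IntC q ∧ ∀ a, ∏ y ∈ s, (f y - f a) = ∏ y ∈ s, f y - f a * q a := by
  classical
  induction s using Finset.induction_on with
  | empty => exact ⟨0, .of_char char_zero, by simp⟩
  | insert y s hy ih =>
    obtain ⟨q, hq, e⟩ := ih
    refine ⟨(∏ y ∈ s, f y) • 1 + f y • q + (-1 : ℂ) • (f * q), (((IntC.of_char char_one).smul
      (IsIntegral.prod _ fun y _ => h.val y)).add (hq.smul (h.val y))).add
      ((h.mul hq).smul isIntegral_one.neg), fun a => ?_⟩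
    rw [Finset.prod_insert hy, Finset.prod_insert hy, e]
    simp only [Pi.add_apply, Pi.smul_apply, Pi.mul_apply, Pi.one_apply, smul_eq_mul]
    ring

theorem isIntegral_conj {z : ℂ} (h : IsIntegral ℤ z) : IsIntegral ℤ (conj z) :=
  h.map ((starRingEnd ℂ).toIntAlgHom)

theorem IntC.inv {p : ℕ} (hp : p.Prime) (hH : ¬ p ∣ Nat.card H) (h : IntC f) {ψ : H → ℂ}
    (e : ∀ a, ψ a * f a = f 1) (hi : ∀ a, IsIntegral ℤ (ψ a))
    (hd : ∀ a, ∃ (k : ℕ) (c : ℂ), IsIntegral ℤ c ∧ f a * c = p ^ k) : IntC ψ := by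
  letI := Fintype.ofFinite H
  choose k c hc hk using hd
  have f0 : ∀ a, f a ≠ 0 := fun a h0 => by
    have := hk a
    rw [h0, zero_mul] at this
    exact pow_ne_zero _ (Nat.cast_ne_zero.2 hp.ne_zero) this.symm
  have cf : IsClassFunction H ψ := fun a b => mul_right_cancel₀ (f0 a) (by
    rw [e a, ← h.1 a b, e])
  obtain ⟨q, hq, e2⟩ := h.prod_sub Finset.univ
  have e3 : ((p : ℂ) ^ ∑ a, k a) • ψ = (f 1 * ∏ a, c a) • q := funext fun a => by
    have h1 := e2 a
    rw [Finset.prod_eq_zero (Finset.mem_univ a) (sub_self _), eq_comm, sub_eq_zero] at h1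
    simp only [Pi.smul_apply, smul_eq_mul]
    rw [← Finset.prod_pow_eq_pow_sum, ← Finset.prod_congr rfl fun a _ => hk a, Finset.prod_mul_distrib, h1,
      ← e a]
    ring
  refine ⟨cf, fun μ hμ => ?_⟩
  have i1 : IsIntegral ℤ ((p : ℂ) ^ (∑ a, k a) * ip ψ μ) := by
    rw [← ip_smul_left, e3]
    exact (hq.smul ((h.val 1).mul (IsIntegral.prod _ fun a _ => hc a))).2 μ hμ
  have i2 : IsIntegral ℤ ((Nat.card H : ℂ) * ip ψ μ) := by
    rw [ip_def, mul_inv_cancel_left₀ (card_ne_zero' H)]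
    exact IsIntegral.sum _ fun a _ => (hi a).mul (isIntegral_conj (H6.isCharacter_isIntegral hμ a))
  obtain ⟨u, v, huv⟩ := Nat.isCoprime_iff_coprime.2 (((Nat.Prime.coprime_iff_not_dvd hp).2 hH).pow_left (∑ a, k a))
  have e4 : ip ψ μ = u * ((p : ℂ) ^ (∑ a, k a) * ip ψ μ) + v * ((Nat.card H : ℂ) * ip ψ μ) := by
    have := congrArg (Int.cast : ℤ → ℂ) huv
    push_cast at this
    linear_combination (-ip ψ μ) * this
  rw [e4]
  exact ((isIntegral_intCast u).mul i1).add ((isIntegral_intCast v).mul i2)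

end IntC

/-- a square root of the function `c` in the character ring -/
structure Sq (M : Ideal AlgInt) [M.IsMaximal] {H : Type*} [Group H] [Finite H] (c : H → ℕ) (ψ : H → ℂ) : Prop where
  int : IntC ψ
  one : ψ 1 = 1
  cm : ∀ a, ψ a ∈ CM
  nrm : ∀ a, ψ a * conj (ψ a) = c a
  red : ∀ a, c a ≠ 1 → H8.rd M (ψ a) = 0

variable {M : Ideal AlgInt} [hMm : M.IsMaximal] {p : ℕ} [hp : Fact p.Prime] [hM : PMod M p]

theorem Sq.mul {H : Type*} [Group H] [Finite H] {c d : H → ℕ} {φ ψ : H → ℂ} (h : Sq M c φ) (h' : Sq M d ψ) :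
    Sq M (c * d) (φ * ψ) where
  int := h.int.mul h'.int
  one := by simp [h.one, h'.one]
  cm := fun a => mul_mem (h.cm a) (h'.cm a)
  nrm := fun a => by
    simp only [Pi.mul_apply, map_mul, Nat.cast_mul, ← h.nrm, ← h'.nrm]; ring
  red := fun a ha => by
    rw [Pi.mul_apply, H8.rd_mul (H8.mem_locRing_of_isIntegral M (h.int.val a))
      (H8.mem_locRing_of_isIntegral M (h'.int.val a))]
    by_cases e : c a = 1
    · rw [h'.red a fun e' => ha (by simp [e, e']), mul_zero]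
    · rw [h.red a e, zero_mul]

theorem rd_centralChar {Y : Type*} [Group Y] [Finite Y] {P : Subgroup Y} [P.Normal] (hP : IsPGroup p P)
    (ξ : IrrCharacter Y) {g : Y} (hg : g ∉ centralizer (P : Set Y)) : H8.rd M (centralChar ξ.1 g) = 0 := by
  rw [← H8.lam_classSum (irr_cf ξ.2)]
  refine H8.lam_eq_zero_of_isNilpotent (H8.classSum_mem_Zen g) ?_ ξ
  rw [← csum_top]
  refine nilpotent_of_br_eq_zero hP (fix_mono (normalizer_eq_top P).ge le_top
    (csum_mem_fix top_le_normalizer_top (mem_top g))) (by_contra fun h => hg ?_)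
  obtain ⟨t, -, ht⟩ := br_csum_ne_zero_iff.1 h
  simpa [mul_assoc] using (inferInstance : (centralizer (P : Set Y)).Normal).conj_mem _ ht t⁻¹

theorem centralChar_of_van {Y : Type*} [Group Y] [Finite Y] {ξ : Y → ℂ} (hξ : IsIrrCharacter Y ξ) {g : Y}
    (h : ∀ y, y ∉ centralizer {g} → ξ (y * g * y⁻¹ * g⁻¹) = 0) :
    centralChar ξ g * ξ g⁻¹ = ξ 1 ∧ centralChar ξ g * conj (centralChar ξ g) = (centralizer {g}).index := by
  classical
  letI := Fintype.ofFinite Y
  have h1 := H6.sum_irr_conj_mul hξ g g⁻¹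
  have h0 := irr_one_ne_zero hξ
  have h2 : ∑ y, ξ (y * g * y⁻¹ * g⁻¹) = Nat.card (centralizer {g}) * ξ 1 := by
    rw [← Finset.sum_filter_add_sum_filter_not Finset.univ (· ∈ centralizer {g}),
      Finset.sum_eq_zero (s := Finset.filter (· ∉ centralizer {g}) _) fun y hy => h y (Finset.mem_filter.1 hy).2,
      add_zero, Finset.sum_congr rfl (g := fun _ => ξ 1) fun y hy => by
        rw [mem_centralizer_singleton_iff.1 (Finset.mem_filter.1 hy).2]; simp,
      Finset.sum_const, nsmul_eq_mul, Nat.card_eq_fintype_card, Fintype.card_subtype]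
  have h3 : (Nat.card (centralizer {g}) : ℂ) ≠ 0 := card_ne_zero' _
  have e : centralChar ξ g * ξ g⁻¹ = ξ 1 := by
    rw [h2, ← (centralizer {g}).card_mul_index, Nat.cast_mul] at h1
    rw [centralChar]
    field_simp at h1 ⊢
    linear_combination -h1
  refine ⟨e, ?_⟩
  have h4 : conj (ξ 1) = ξ 1 := by rw [← char_inv (irr_char hξ), inv_one]
  conv_lhs => arg 2; rw [centralChar]
  rw [map_div₀, map_mul, ← char_inv (irr_char hξ), h4, Complex.conj_natCast]
  field_simp
  linear_combination ((centralizer {g}).index : ℂ) * e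

theorem intC_central {X : Type*} [Group X] [Finite X] {χ : X → ℂ} (hχ : IsCharacter X χ) {v : X} {H : Subgroup X}
    (hH : H ≤ C[v]) : IntC fun a : H => χ (v * a) := by
  have hv : v ∈ C[v] := mem_cen1.2 rfl
  have hc := char_comp C[v].subtype hχ
  have e : (fun a : H => χ (v * a)) = ∑ ξ ∈ irrSet C[v], (ip (fun x : C[v] => χ x) ξ * centralChar ξ ⟨v, hv⟩) •
      fun a : H => ξ (inclusion hH a) := funext fun a => by
    have := congrFun (cf_expand (char_cf hc)) (⟨v, hv⟩ * inclusion hH a)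
    rw [Finset.sum_apply] at this ⊢
    refine this.trans (Finset.sum_congr rfl fun ξ hξ => ?_)
    have := H8.irr_central_mul ⟨ξ, mem_irrSet.1 hξ⟩ (z := ⟨v, hv⟩) (fun g => Subtype.ext (mem_cen1.1 g.2).symm)
      (inclusion hH a)
    simp only [Pi.smul_apply, smul_eq_mul] at this ⊢
    rw [this, mul_assoc]
    rfl
  rw [e]
  refine IntC.sum _ fun ξ hξ => (IntC.of_char (char_comp (inclusion hH) (irr_char (mem_irrSet.1 hξ)))).smul ?_
  exact ((IntC.of_char hc).2 _ (irr_char (mem_irrSet.1 hξ))).mul (H8.isIntegral_centralChar ⟨ξ, mem_irrSet.1 hξ⟩ _)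

theorem count {X : Type*} [Group X] [Finite X] {V G : Subgroup X} [V.Normal] (hV : Abelem p V)
    (hidx : ¬ p ∣ V.index) (hGV : IsComplement' V G) {v : X} (hv : v ∈ V) {H : Subgroup X}
    (hHG : H ≤ G) (hHv : H ≤ C[v]) (hGH : G ⊓ C[v] ≤ H) {c : H → ℕ} {ψ : H → ℂ} (hs : Sq M c ψ) (h1 : ∀ a, a ≠ 1 → c a ≠ 1)
    (hle : ∀ a, c a * #(V ⊓ C[(a : X)]) ≤ #V) : Nat.card (ConjClasses X) ≤ #V := by
  classical
  have hVG : V ⊓ G = ⊥ := hGV.disjoint.eq_bot
  have hp' : PiGrp {p}ᶜ H := PiGrp.mono ((p'grp_iff_coprime hp.out).2 (by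
    rw [← hGV.symm.index_eq_card]; exact ((Nat.Prime.coprime_iff_not_dvd hp.out).2 hidx).symm)) hHG
  have hpH : ¬ p ∣ #H := (Nat.Prime.coprime_iff_not_dvd hp.out).1 ((p'grp_iff_coprime hp.out).1 hp').symm
  have hN : ∀ A : Subgroup X, A ≤ N(V) := fun A => (normalizer_eq_top V).ge.trans' le_top
  letI : Fintype H := Fintype.ofFinite _
  have hθ : ∀ χ ∈ irrSet X, IntC (ψ * fun a : H => χ (v * a)) := fun χ hχ =>
    hs.int.mul (intC_central (irr_char (mem_irrSet.1 hχ)) hHv)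
  have loc : ∀ {z : ℂ}, IsIntegral ℤ z → z ∈ H8.locRing M := fun h => H8.mem_locRing_of_isIntegral M h
  have key := card_le_of_sum (irrSet X ×ˢ irrSet H) (fun y => ip (ψ * fun a : H => y.1 (v * a)) y.2)
    (fun y hy => ?_) (fun y hy => (hθ _ (Finset.mem_product.1 hy).1).2 _
      (irr_char (mem_irrSet.1 (Finset.mem_product.1 hy).2))) (fun y hy => ?_)
    ((#H : ℚ)⁻¹ * ∑ a : H, (c a * #C[v * a] : ℕ)) ?_
  · have h2 : ∀ a : H, #C[v * a] ≤ #(V ⊓ C[(a : X)]) * Nat.card (centralizer ({a} : Set H)) := fun a => by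
      have e : Nat.card (centralizer ({a} : Set H)) = #(H ⊓ C[(a : X)]) := by
        rw [← card_map_of_injective H.subtype_injective]
        congr 2
        ext x
        refine ⟨?_, fun hx => ⟨⟨x, hx.1⟩, mem_centralizer_singleton_iff.2 (Subtype.ext (mem_cen1.1 hx.2)), rfl⟩⟩
        rintro ⟨y, hy, rfl⟩
        exact ⟨y.2, mem_cen1.2 (congrArg Subtype.val (mem_centralizer_singleton_iff.1 hy))⟩
      rw [e, ← (sd_sup (normsI (hN _) (norms_cen1 inf_le_right))
        (inf_eq_bot_mono hVG inf_le_left (inf_le_left.trans hHG))).card]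
      refine card_le fun x hx => ?_
      have hcom : Commute v a := (mem_cen1.1 (hHv a.2)).symm
      have hxa : x ∈ C[(a : X)] := by
        have := cen1_le_cen1_pow _ p hx
        rw [hcom.mul_pow, hV.2 _ hv, one_mul, ← cen_zpowers, zpowers_pow_of_coprime
          (((p'grp_iff_coprime hp.out).1 hp').symm.coprime_dvd_right (H.orderOf_dvd_natCard a.2)), cen_zpowers] at this
        exact this
      have hxv : x ∈ C[v] := by
        rw [mem_cen1]
        have e1 := mem_cen1.1 hx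
        rw [← mul_assoc, mul_assoc v, ← mem_cen1.1 hxa, ← mul_assoc] at e1
        exact mul_right_cancel e1
      obtain ⟨⟨u, g⟩, rfl⟩ := hGV.2 x
      have hg : (g : X) ∈ H := hGH ⟨g.2, (C[v].mul_mem_cancel_left (Ab.le_cen1 hV.1 hv u.2)).1 hxv⟩
      have hga : (g : X) ∈ C[(a : X)] := by
        have e1 : (u : X) * g * a = a * (u * g) := mem_cen1.1 hxa
        have : (g : X) * a * (g : X)⁻¹ * (a : X)⁻¹ = 1 := eq_one_of_mem_inf hVG (by
          have : (g : X) * a * (g : X)⁻¹ * (a : X)⁻¹ = (u : X)⁻¹ * (a * u * (a : X)⁻¹) := by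
            calc _ = (u : X)⁻¹ * (u * g * a) * (g : X)⁻¹ * (a : X)⁻¹ := by group
              _ = _ := by rw [e1]; group
          rw [this]
          exact mul_mem (inv_mem u.2) (‹V.Normal›.conj_mem _ u.2 _))
          (mul_mem (mul_mem (mul_mem g.2 (hHG a.2)) (inv_mem g.2)) (inv_mem (hHG a.2)))
        rw [mem_cen1]
        calc (g : X) * a = g * a * (g : X)⁻¹ * (a : X)⁻¹ * (a * g) := by group
          _ = _ := by rw [this, one_mul]
      exact mul_mem_sup ⟨u.2, (C[(a : X)].mul_mem_cancel_right hga).1 hxa⟩ ⟨hg, hga⟩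
    have h3 : ∑ a : H, (c a * #C[v * a] : ℕ) ≤ #V * (#H * Nat.card (ConjClasses H)) := by
      rw [← H6.sum_card_centralizer_univ, Finset.mul_sum]
      refine Finset.sum_le_sum fun a _ => (Nat.mul_le_mul_left _ (h2 a)).trans ?_
      rw [← mul_assoc]
      exact Nat.mul_le_mul_right _ (hle a)
    rw [Finset.card_product, card_irrSet, card_irrSet, H6.card_irr_eq_card_conjClasses,
      H6.card_irr_eq_card_conjClasses] at key
    have hH : (0 : ℝ) < #H := by exact_mod_cast card_pos H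
    have hk : 0 < Nat.card (ConjClasses H) := Nat.card_pos
    refine Nat.le_of_mul_le_mul_right (Nat.le_of_mul_le_mul_left (le_trans ?_ (h3.trans_eq ?_)) (card_pos H)) hk
    · push_cast at key
      rw [le_inv_mul_iff₀ hH] at key
      exact_mod_cast key
    · ring
  · obtain ⟨hχ, hτ⟩ := Finset.mem_product.1 hy
    have hχ' := mem_irrSet.1 hχ
    have hτ := mem_irrSet.1 hτ
    intro h0
    rw [ip_def, mul_eq_zero, or_iff_right (inv_ne_zero (card_ne_zero' H))] at h0
    have i1 : ∀ a, IsIntegral ℤ (conj (y.2 a)) := fun a => isIntegral_conj (H6.isCharacter_isIntegral (irr_char hτ) a)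
    have i2 : ∀ a, IsIntegral ℤ (y.1 a) := fun a => H6.isCharacter_isIntegral (irr_char hχ') a
    have h4 := congrArg (H8.rd M) h0
    rw [(H8.rd_sum _ _ fun a _ => loc (((hθ _ hχ).val a).mul (i1 a))), Finset.sum_eq_single 1 (fun a _ a1 => by
      rw [Pi.mul_apply, mul_assoc, H8.rd_mul (loc (hs.int.val a)) (loc ((i2 _).mul (i1 a))), hs.red a (h1 a a1),
        zero_mul]) (by simp), Pi.mul_apply, hs.one, one_mul, H8.rd_mul (loc (i2 _)) (loc (i1 _)),
      H8.rd_char_eq_pReg hM.out (irr_char hχ'), OneMemClass.coe_one, H8.pReg_mul (x := v) ((Nat.dvd_prime_pow hp.out).1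
        (orderOf_dvd_of_pow_eq_one (n := p ^ 1) (by rw [pow_one]; exact hV.2 v hv)) |>.imp fun _ h => h.2)
        (by simpa using hp.out.ne_one) (Commute.one_right _), ← char_inv (irr_char hτ), inv_one] at h4
    obtain ⟨d, -, hd⟩ := irr_one_pos hχ'
    obtain ⟨d', -, hd'⟩ := irr_one_pos hτ
    rw [hd, hd', H8.rd_zero, mul_eq_zero, H8.rd_natCast_eq_zero_iff hM.out,
      H8.rd_natCast_eq_zero_iff hM.out] at h4
    rcases h4 with h4 | h4
    · exact hidx (h4.trans (degree_dvd_index_of_abelian_normal V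
        (fun a ha b hb => congrArg Subtype.val (hV.1.is_comm.comm ⟨a, ha⟩ ⟨b, hb⟩)) hχ' hd))
    · exact hpH (h4.trans (H6.degree_dvd_card hτ hd'))
  · obtain ⟨hχ, hτ⟩ := Finset.mem_product.1 hy
    rw [ip_def]
    exact mul_mem (inv_mem (natCast_mem _ _)) (sum_mem fun a _ => mul_mem (mul_mem (hs.cm a)
      (char_CM (irr_char (mem_irrSet.1 hχ)) _)) (conj_CM (char_CM (irr_char (mem_irrSet.1 hτ)) _)))
  · letI : Fintype (IrrCharacter X) := @Fintype.ofFinite _ (finite_irr X)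
    rw [Finset.sum_product, Finset.sum_congr rfl fun χ hχ => by
      simp only [ip_conj_symm]
      rw [← ip_expand (hθ χ hχ).1, ip_def], ← Finset.mul_sum, Finset.sum_comm]
    push_cast
    congr 1
    refine Finset.sum_congr rfl fun a _ => ?_
    rw [← H6.sum_irr_mul_conj_of_isConj (IsConj.refl (v * a)), ← hs.nrm,
      sum_irr_eq_sum (fun χ : X → ℂ => χ (v * a) * conj (χ (v * a))), Finset.mul_sum]
    refine Finset.sum_congr rfl fun χ _ => ?_
    simp only [Pi.mul_apply, map_mul]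
    ring

end Cfsg.Agent.H9.RV
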