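import Mathlib
import Cfsg.Agent.H9.RV1

/-!
Real vectors for the `k(GV)` problem, II: Heisenberg groups, Weil characters and Gauss sums.
-/

set_option autoImplicit false
set_option linter.unusedSectionVars false
set_option linter.unusedVariables false

namespace Cfsg.Agent.H9.RV

open Cfsg Subgroup Cfsg.Agent.H7 ComplexConjugate

/-- a bi-additive form on a commutative group -/
structure Bil (p : ℕ) (W : Type*) [CommGroup W] where
  β : W → W → ZMod p
  l : ∀ u u' w, β (u * u') w = β u w + β u' w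
  r : ∀ u w w', β u (w * w') = β u w + β u w'

variable {p : ℕ} {W : Type*} [CommGroup W] {B : Bil p W}

@[simp] theorem Bil.one_l (B : Bil p W) (w : W) : B.β 1 w = 0 := by simpa using B.l 1 1 w
@[simp] theorem Bil.one_r (B : Bil p W) (w : W) : B.β w 1 = 0 := by simpa using B.r w 1 1
theorem Bil.inv_l (B : Bil p W) (u w : W) : B.β u⁻¹ w = -B.β u w :=
  eq_neg_of_add_eq_zero_left (by rw [← B.l]; simp)
theorem Bil.inv_r (B : Bil p W) (u w : W) : B.β u w⁻¹ = -B.β u w :=
  eq_neg_of_add_eq_zero_left (by rw [← B.r]; simp)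

/-- invariance of the form -/
class Invt (B : Bil p W) (H : Type*) [Group H] [MulDistribMulAction H W] : Prop where
  out : ∀ (h : H) u w, B.β (h • u) (h • w) = B.β u w

variable {H : Type*} [Group H] [MulDistribMulAction H W] [hB : Invt B H]

instance (S : Subgroup H) : Invt B S := ⟨fun h => hB.out (h : H)⟩

/-- the Heisenberg group of the form, extended by `H` -/
@[ext] structure Hs (B : Bil p W) (H : Type*) where
  u : W
  a : ZMod p
  h : H

instance : Mul (Hs B H) := ⟨fun x y => ⟨x.u * x.h • y.u, x.a + y.a + B.β x.u (x.h • y.u), x.h * y.h⟩⟩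
instance : One (Hs B H) := ⟨⟨1, 0, 1⟩⟩
instance : Inv (Hs B H) := ⟨fun x => ⟨x.h⁻¹ • x.u⁻¹, -x.a + B.β x.u x.u, x.h⁻¹⟩⟩

@[simp] theorem mul_u (x y : Hs B H) : (x * y).u = x.u * x.h • y.u := rfl
@[simp] theorem mul_a (x y : Hs B H) : (x * y).a = x.a + y.a + B.β x.u (x.h • y.u) := rfl
@[simp] theorem mul_h (x y : Hs B H) : (x * y).h = x.h * y.h := rfl
@[simp] theorem one_u : (1 : Hs B H).u = 1 := rfl
@[simp] theorem one_a : (1 : Hs B H).a = 0 := rfl
@[simp] theorem one_h : (1 : Hs B H).h = 1 := rfl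
@[simp] theorem inv_u (x : Hs B H) : x⁻¹.u = x.h⁻¹ • x.u⁻¹ := rfl
@[simp] theorem inv_a (x : Hs B H) : x⁻¹.a = -x.a + B.β x.u x.u := rfl
@[simp] theorem inv_h (x : Hs B H) : x⁻¹.h = x.h⁻¹ := rfl

instance : Group (Hs B H) := Group.ofLeftAxioms
  (fun x y z => Hs.ext (by simp [mul_smul, mul_assoc]) (by
    simp only [mul_a, mul_u, mul_h, smul_mul', mul_smul, B.l, B.r, hB.out]; ring) (mul_assoc _ _ _))
  (fun x => Hs.ext (by simp) (by simp) (by simp))
  (fun x => Hs.ext (by simp) (by simp only [mul_a, inv_a, inv_u, inv_h, hB.out, B.inv_l, one_a]; ring) (by simp))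

/-- coordinates -/
def eqv (B : Bil p W) (H : Type*) : Hs B H ≃ W × ZMod p × H :=
  ⟨fun x => (x.u, x.a, x.h), fun y => ⟨y.1, y.2.1, y.2.2⟩, fun _ => rfl, fun _ => rfl⟩

variable [hp : Fact p.Prime] [Finite W] [Finite H]

instance : Finite (Hs B H) := Finite.of_equiv _ (eqv B H).symm

theorem card_Hs : Nat.card (Hs B H) = Nat.card W * (p * Nat.card H) := by
  rw [Nat.card_congr (eqv B H), Nat.card_prod, Nat.card_prod, Nat.card_zmod]

/-- change of acting group -/
def mp {K : Type*} [Group K] [MulDistribMulAction K W] [Invt B K] (f : K →* H)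
    (hf : ∀ k (w : W), f k • w = k • w) : Hs B K →* Hs B H where
  toFun x := ⟨x.u, x.a, f x.h⟩
  map_one' := Hs.ext rfl rfl (map_one f)
  map_mul' x y := Hs.ext (by simp [hf]) (by simp [hf]) (map_mul f _ _)

variable (B) in
/-- the complement -/
def sec : H →* Hs B H where
  toFun h := ⟨1, 0, h⟩
  map_one' := rfl
  map_mul' x y := Hs.ext (by simp) (by simp) rfl

variable (B) in
/-- the projection -/
def prj : Hs B H →* H where
  toFun x := x.h
  map_one' := rfl
  map_mul' _ _ := rfl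

variable (B H) in
/-- central elements -/
def zz (k : ZMod p) : Hs B H := ⟨1, k, 1⟩

theorem zz_comm (k : ZMod p) (x : Hs B H) : zz B H k * x = x * zz B H k :=
  Hs.ext (by simp [zz]) (by simp [zz, add_comm]) (by simp [zz])

theorem zz_add (k l : ZMod p) : zz B H (k + l) = zz B H k * zz B H l :=
  Hs.ext (by simp [zz]) (by simp [zz]) (by simp [zz])

theorem exists_theta : ∃ (θ : Hs B H → ℂ) (e : ZMod p → ℂ), IsIrrCharacter _ θ ∧
    (∀ k x, θ (zz B H k * x) = e k * θ x) ∧ (∀ k l, e (k + l) = e k * e l) ∧ e 0 = 1 ∧ ∀ k, e k = 1 → k = 0 := by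
  letI : Fintype (IrrCharacter (Hs B H)) := @Fintype.ofFinite _ (finite_irr _)
  obtain ⟨θ, hθ⟩ : ∃ θ : IrrCharacter (Hs B H), θ.1 (zz B H 1) ≠ θ.1 1 := by
    by_contra! h
    have h1 := H6.sum_irr_mul_conj_of_not_isConj (G := Hs B H) (g := zz B H 1) (h := 1)
      fun c => one_ne_zero (α := ZMod p) (congrArg Hs.a (isConj_one_left.1 c))
    simp only [h] at h1
    rw [H6.sum_irr_mul_conj_of_isConj (IsConj.refl 1)] at h1
    exact card_ne_zero' _ h1
  have h1 : ∀ k x, θ.1 (zz B H k * x) = centralChar θ.1 (zz B H k) * θ.1 x := fun k x =>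
    H8.irr_central_mul θ (zz_comm k) x
  have h0 := irr_one_ne_zero θ.2
  have h2 : ∀ k l, centralChar θ.1 (zz B H (k + l)) = centralChar θ.1 (zz B H k) * centralChar θ.1 (zz B H l) :=
    fun k l => mul_right_cancel₀ h0 (by rw [← h1, zz_add, mul_assoc, h1, h1, mul_assoc])
  have h3 : centralChar θ.1 (zz B H 0) = 1 := centralChar_one' θ
  refine ⟨θ.1, fun k => centralChar θ.1 (zz B H k), θ.2, h1, h2, h3, fun k hk => by_contra fun k0 => hθ ?_⟩
  have h4 : ∀ n : ℕ, centralChar θ.1 (zz B H (n * k)) = 1 := fun n => by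
    induction n with
    | zero => simpa using h3
    | succ n ih => rw [Nat.cast_succ, add_mul, h2, ih, one_mul, one_mul]; exact hk
  have := h4 (k⁻¹).val
  rw [ZMod.natCast_zmod_val, inv_mul_cancel₀ k0] at this
  rw [← mul_one (zz B H 1), h1, this, one_mul]

variable (W) in
/-- fixed points -/
def Fx (a : H) : Subgroup W where
  carrier := {w | a • w = w}
  mul_mem' := fun {x y} hx hy => by simp only [Set.mem_setOf_eq] at *; rw [smul_mul', hx, hy]
  one_mem' := smul_one a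
  inv_mem' := fun {x} hx => by simp only [Set.mem_setOf_eq] at *; rw [smul_inv', hx]

theorem mem_Fx {a : H} {w : W} : w ∈ Fx W a ↔ a • w = w := Iff.rfl

theorem index_cen (hH : ∀ a b : H, a * b = b * a) (a : H) :
    (centralizer {sec B a}).index = (Fx W a).index ∧ ∀ y : Hs B H, y ∈ centralizer {sec B a} ↔ y.u ∈ Fx W a := by
  have h : ∀ y : Hs B H, y ∈ centralizer {sec B a} ↔ y.u ∈ Fx W a := fun y => by
    rw [mem_centralizer_singleton_iff, mem_Fx]
    refine ⟨fun e => by simpa [sec] using (congrArg Hs.u e).symm, fun e => Hs.ext ?_ ?_ (hH _ _)⟩ <;> simp [sec, e]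
  refine ⟨?_, h⟩
  have h1 : Nat.card (centralizer {sec B a}) = Nat.card (Fx W a) * (p * Nat.card H) := by
    refine (Nat.card_congr (β := Fx W a × ZMod p × H) ⟨fun y => (⟨y.1.u, (h _).1 y.2⟩, y.1.a, y.1.h),
      fun y => ⟨⟨y.1, y.2.1, y.2.2⟩, (h _).2 y.1.2⟩, fun _ => rfl, fun _ => rfl⟩).trans ?_
    rw [Nat.card_prod, Nat.card_prod, Nat.card_zmod]
  have h2 := (centralizer {sec B a}).card_mul_index
  rw [h1, card_Hs, ← (Fx W a).card_mul_index, mul_right_comm] at h2
  exact Nat.eq_of_mul_eq_mul_left Nat.card_pos (Nat.eq_of_mul_eq_mul_right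
    (Nat.mul_pos hp.out.pos Nat.card_pos) h2)

theorem range_mp : (mp (B := B) (⊥ : Subgroup H).subtype fun _ _ => rfl).range = (prj B).ker := by
  ext x
  refine ⟨?_, fun h => ⟨⟨x.u, x.a, 1⟩, Hs.ext rfl rfl (Eq.symm h)⟩⟩
  rintro ⟨y, rfl⟩
  exact mem_bot.1 y.h.2

theorem card_bot_Hs (hW : IsPGroup p W) : ∃ n, Nat.card (Hs B (⊥ : Subgroup H)) = p ^ n := by
  obtain ⟨n, hn⟩ := IsPGroup.iff_card.1 hW
  exact ⟨n + 1, by rw [card_Hs, hn, card_bot, mul_one, pow_succ]⟩

variable {M : Ideal AlgInt} [hMm : M.IsMaximal] [hM : PMod M p]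

theorem weil (hW : IsPGroup p W) (hH : ¬ p ∣ Nat.card H) (nd : ∀ u, (∀ w, B.β u w = B.β w u) → u = 1) :
    ∃ ψ, Sq M (fun a : H => (Fx W a).index) ψ := by
  obtain ⟨θ, e, hθ, h1, -, -, h2⟩ := exists_theta (B := B) (H := (⊥ : Subgroup H))
  have van : ∀ x, x.u ≠ 1 → θ x = 0 := fun x hx => by
    obtain ⟨w, hw⟩ := not_forall.1 (mt (nd _) hx)
    have e1 := irr_cf hθ x ⟨w, 0, 1⟩
    have e2 : (⟨w, 0, 1⟩ : Hs B (⊥ : Subgroup H)) * x * (⟨w, 0, 1⟩ : Hs B (⊥ : Subgroup H))⁻¹ =
        zz B _ (B.β w x.u - B.β x.u w) * x := by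
      have : x.h = 1 := Subsingleton.elim _ _
      refine Hs.ext (by simp [zz, this]) ?_ (Subsingleton.elim _ _)
      simp [zz, this, B.l, B.inv_r]
      ring
    rw [e2, h1] at e1
    by_contra h0
    exact hw (sub_eq_zero.1 (h2 _ (mul_right_cancel₀ h0 (e1.trans (one_mul _).symm)))).symm
  let j := mp (B := B) (⊥ : Subgroup H).subtype fun _ _ => rfl
  have hj : IsNE j := ⟨fun x y h => Hs.ext (congrArg Hs.u h :) (congrArg Hs.a h :) (Subsingleton.elim _ _),
    range_mp (B := B) (H := H) ▸ inferInstance⟩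
  obtain ⟨n, hn⟩ := card_bot_Hs (B := B) (H := H) hW
  obtain ⟨d, d0, hd⟩ := irr_one_pos hθ
  have hdn := H6.degree_dvd_card hθ hd
  obtain ⟨χ, hχ, hext, -⟩ := hj.exists_ext_of_hall (by
    rw [range_mp, index_ker, hn]
    exact (((Nat.Prime.coprime_iff_not_dvd hp.out).2 hH).symm.coprime_dvd_left (card_subgroup_dvd_card _)).pow_right n)
    hθ (fun g => funext fun x => by
      have e1 := hj.cj_spec g x
      rw [hj.cjf_apply]
      by_cases hx : x.u = 1
      · have : j x = zz B H x.a := Hs.ext hx rfl (mem_bot.1 x.h.2)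
        rw [this, ← zz_comm, mul_inv_cancel_right, ← this] at e1
        rw [hj.inj e1]
      · rw [van x hx, van]
        have e2 := congrArg Hs.u e1
        have e3 : (j x).h = 1 := mem_bot.1 x.h.2
        simp only [mul_u, inv_u, mul_h, e3, mul_one, smul_inv_smul, mul_inv_cancel_comm] at e2
        exact fun h => hx (MulAction.injective g.h ((e2.symm.trans h).trans (smul_one _).symm))) hd hdn
  rw [hn] at hdn
  obtain ⟨k, -, rfl⟩ := (Nat.dvd_prime_pow hp.out).1 hdn
  let ι := fun a : H => mp (B := B) (zpowers a).subtype fun _ _ => rfl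
  let ι' := fun a : H => mp (B := B) (inclusion (bot_le : ⊥ ≤ zpowers a)) fun _ _ => rfl
  let s := fun a : H => sec B (⟨a, mem_zpowers a⟩ : zpowers a)
  have hc : ∀ (a : H) (x y : zpowers a), x * y = y * x := fun a x y => mul_comm' x y
  have hξ : ∀ a, IsIrrCharacter _ fun y => χ (ι a y) := fun a =>
    irr_of_irr_comp (ι' a) (char_comp _ (irr_char hχ)) (by
      convert hθ using 2 with x
      exact hext x)
  have key := fun a : H => centralChar_of_van (hξ a) (g := s a) fun y hy => by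
    rw [(index_cen (hc a) _).2] at hy
    have : ι a (y * s a * y⁻¹ * (s a)⁻¹) = j ⟨(y * s a * y⁻¹ * (s a)⁻¹).u, (y * s a * y⁻¹ * (s a)⁻¹).a, 1⟩ :=
      Hs.ext rfl rfl (by simp [ι, j, mp, s, sec, hc a y.h])
    rw [this, hext, van]
    intro h
    apply hy
    simp only [s, sec, MonoidHom.coe_mk, OneHom.coe_mk, mul_u, inv_u, mul_h, inv_h, smul_one, mul_one, inv_one,
      hc a y.h, mul_smul, smul_inv_smul, smul_inv'] at h
    exact (mul_inv_eq_one.1 h).symm
  have hf := char_star (char_comp (sec B) (irr_char hχ))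
  have h3 : χ 1 = (p : ℂ) ^ k := by rw [← map_one j, hext, hd, Nat.cast_pow]
  have h4 : ∀ a : H, centralChar (fun y => χ (ι a y)) (s a) * star (fun a => χ (sec B a)) a = (p : ℂ) ^ k := fun a => by
    rw [← h3, ← map_one (ι a), ← (key a).1, map_inv, char_inv (irr_char hχ)]
    rfl
  have h5 : star (fun a => χ (sec B a)) (1 : H) = (p : ℂ) ^ k := by simp [h3]
  have hi := fun a : H => H8.isIntegral_centralChar ⟨_, hξ a⟩ (s a)
  refine ⟨fun a => centralChar (fun y => χ (ι a y)) (s a), (IntC.of_char hf).inv hp.out hH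
    (fun a => (h4 a).trans h5.symm) hi fun a => ⟨k, _, hi a, by rw [mul_comm, h4]⟩, ?_, fun a => ?_, fun a => ?_,
    fun a ha => ?_⟩
  · have := h4 1
    rw [h5] at this
    exact mul_right_cancel₀ (pow_ne_zero _ (Nat.cast_ne_zero.2 hp.out.ne_zero)) (this.trans (one_mul _).symm)
  · exact div_mem (mul_mem (natCast_mem _ _) (char_CM (irr_char (hξ a)) _)) (char_CM (irr_char (hξ a)) _)
  · rw [(key a).2, (index_cen (hc a) _).1]
    rfl
  · obtain ⟨m, hm⟩ := IsPGroup.iff_card.1 hW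
    refine rd_centralChar (P := (prj B).ker) ?_ ⟨_, hξ a⟩ fun h => ha (index_eq_one.2 (top_le_iff.1 fun w _ => ?_))
    · obtain ⟨m, hm⟩ := card_bot_Hs (B := B) (H := zpowers a) hW
      rw [← range_mp, MonoidHom.range_eq_map]
      exact ((IsPGroup.of_card hm).to_subgroup ⊤).map _
    · simpa [s, sec, mem_Fx] using (congrArg Hs.u (h ⟨w, 0, 1⟩ rfl)).symm

theorem sum_mul_conj {f : W → ℂ} {e : ZMod p → ℂ} (hf : ∀ x y, f x * f y = e (B.β x y) * f (x * y))
    (h1 : ∀ x, f x * conj (f x) = 1) (he : ∀ k l, e (k + l) = e k * e l) (he0 : e 0 = 1) (he1 : ∀ k, e k = 1 → k = 0)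
    (S : Subgroup W) [Fintype S] (nd : ∀ z ∈ S, (∀ y ∈ S, B.β y z = 0) → z = 1) :
    (∑ w : S, f w) * conj (∑ w : S, f w) = Nat.card S := by
  classical
  have f0 : ∀ x, f x ≠ 0 := fun x h => by simpa [h] using h1 x
  have f1 : f 1 = 1 := mul_left_cancel₀ (f0 1) (by rw [hf, B.one_l, he0, one_mul, mul_one, mul_one])
  have e1 : ∀ y z, f (y * z) * conj (f y) = f z * e (-B.β y z) := fun y z => by
    have h2 := he (B.β y z) (-B.β y z)
    rw [add_neg_cancel, he0] at h2
    linear_combination (f (y * z) * conj (f y)) * h2 - (e (-B.β y z) * conj (f y)) * hf y z +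
      (f z * e (-B.β y z)) * h1 y
  rw [map_sum, Finset.sum_mul_sum, Finset.sum_comm, Finset.sum_congr rfl fun (y : S) _ =>
    (Equiv.sum_comp (Equiv.mulLeft y) fun x : S => f x * conj (f y)).symm, Finset.sum_comm]
  simp only [Equiv.coe_mulLeft, Subgroup.coe_mul, e1]
  rw [Finset.sum_eq_single 1 (fun z _ z1 => ?_) (by simp)]
  · simp [f1, he0]
  obtain ⟨y, hy, h⟩ : ∃ y ∈ S, B.β y z ≠ 0 := by
    by_contra! h
    exact z1 (Subtype.ext (nd z z.2 h))
  have h2 := Equiv.sum_comp (Equiv.mulLeft (⟨y, hy⟩ : S)) fun x : S => e (-B.β x z)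
  simp only [Equiv.coe_mulLeft, Subgroup.coe_mul, B.l, neg_add, he, ← Finset.mul_sum] at h2
  rw [← Finset.mul_sum, mul_eq_zero]
  exact .inr (by_contra fun h0 => h (neg_eq_zero.1 (he1 _ (mul_right_cancel₀ h0 (h2.trans (one_mul _).symm)))))

theorem exists_quad (hW : IsPGroup p W) (hH : ¬ p ∣ Nat.card H) (sy : ∀ u w, B.β u w = B.β w u) :
    ∃ (f : W → ℂ) (e : ZMod p → ℂ) (n : ℕ), (∀ x y, f x * f y = e (B.β x y) * f (x * y)) ∧ (∀ x, f x ^ p ^ n = 1) ∧
      (∀ (h : H) x, f (h • x) = f x) ∧ (∀ k l, e (k + l) = e k * e l) ∧ e 0 = 1 ∧ ∀ k, e k = 1 → k = 0 := by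
  obtain ⟨θ, e, hθ, h1, h2, h3, h4⟩ := exists_theta (B := B) (H := (⊥ : Subgroup H))
  obtain ⟨n, hn⟩ := card_bot_Hs (B := B) (H := H) hW
  obtain ⟨d, d0, hd⟩ := irr_one_pos hθ
  have d1 := degree_dvd_index_of_abelian_normal ⊤ (fun x _ y _ => Hs.ext
    (by simp [Subsingleton.elim x.h 1, Subsingleton.elim y.h 1, mul_comm])
    (by simp [Subsingleton.elim x.h 1, Subsingleton.elim y.h 1, add_comm, sy x.u]) (Subsingleton.elim _ _)) hθ hd
  rw [index_top, Nat.dvd_one] at d1
  rw [d1, Nat.cast_one] at hd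
  obtain ⟨μ, rfl⟩ := exists_hom_of_char_one (irr_char hθ) hd
  letI := Fintype.ofFinite H
  refine ⟨fun w => ∏ h : H, μ ⟨h • w, 0, 1⟩, fun k => e k ^ Nat.card H, n, fun x y => ?_, fun x => ?_,
    fun g x => ?_, fun k l => by simp only [h2, mul_pow], by simp only [h3, one_pow], fun k hk => h4 k ?_⟩
  · beta_reduce
    rw [← Finset.prod_mul_distrib, Nat.card_eq_fintype_card, ← Finset.card_univ, ← Finset.prod_const,
      ← Finset.prod_mul_distrib]
    refine Finset.prod_congr rfl fun h _ => ?_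
    rw [← h1, ← Units.val_mul, ← map_mul]
    congr 2
    exact Hs.ext (by simp [zz]) (by simp [zz, hB.out]) rfl
  · rw [← Finset.prod_pow]
    refine Finset.prod_eq_one fun h _ => ?_
    rw [← Units.val_pow_eq_pow_val, ← map_pow, ← hn, pow_card_eq_one', map_one, Units.val_one]
  · simp only [← mul_smul]
    exact Equiv.prod_comp (Equiv.mulRight g) fun h : H => (μ ⟨h • x, 0, 1⟩ : ℂ)
  · have h5 : ∀ m : ℕ, e (m * k) = e k ^ m := fun m => by
      induction m with
      | zero => simpa using h3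
      | succ m ih => rw [Nat.cast_succ, add_mul, h2, ih, one_mul, pow_succ]
    have h6 := h5 p
    rw [ZMod.natCast_self, zero_mul, h3] at h6
    exact (pow_eq_one_iff_of_coprime ((Nat.Prime.coprime_iff_not_dvd hp.out).2 hH)).1 ⟨h6.symm, hk⟩

variable (W) in
/-- the commutator map -/
def dd (a : H) : W →* W where
  toFun w := a • w * w⁻¹
  map_one' := by simp
  map_mul' x y := by rw [smul_mul', mul_inv, mul_mul_mul_comm]

theorem ker_dd (a : H) : (dd W a).ker = Fx W a := Subgroup.ext fun _ => mul_inv_eq_one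

theorem isCompl_dd (hW : IsPGroup p W) (hH : ¬ p ∣ Nat.card H) (a : H) :
    IsComplement' (Fx W a) (dd W a).range := by
  refine isComplement'_of_card_mul_and_disjoint (by rw [← index_ker, ker_dd, card_mul_index])
    (disjoint_def.2 fun {w} h1 h2 => ?_)
  obtain ⟨x, hx⟩ := h2
  have h3 : ∀ n : ℕ, a ^ n • x = w ^ n * x := fun n => by
    induction n with
    | zero => simp
    | succ n ih =>
      rw [pow_succ', mul_smul, ih, smul_mul', (pow_mem h1 n : a • w ^ n = _), pow_succ, mul_assoc, ← hx]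
      simp [dd]
  have h4 := h3 (Nat.card H)
  rw [pow_card_eq_one', one_smul, eq_comm, mul_eq_right] at h4
  obtain ⟨k, hk⟩ := hW w
  exact (pow_eq_one_iff_of_coprime (((Nat.Prime.coprime_iff_not_dvd hp.out).2 hH).pow_left k)).1 ⟨hk, h4⟩

theorem intC_fix {f : W → ℂ} (hi : ∀ x, IsIntegral ℤ (f x)) (hf : ∀ (h : H) x, f (h • x) = f x)
    [∀ a : H, Fintype (Fx W a)] : IntC fun a : H => ∑ w : Fx W a, f w := by
  classical
  letI := Fintype.ofFinite W
  let S : ℂ → SubMulAction H W := fun c => ⟨{w | f w = c}, fun h x hx => (hf h x).trans hx⟩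
  have : (fun a : H => ∑ w : Fx W a, f w) =
      ∑ c ∈ Finset.univ.image f, c • fun a : H => (Nat.card (MulAction.fixedBy (S c) a) : ℂ) := funext fun a => by
    rw [Finset.sum_apply, ← Finset.sum_fiberwise_of_maps_to (t := Finset.univ.image f) (g := fun w : Fx W a => f w)
      fun w _ => Finset.mem_image_of_mem _ (Finset.mem_univ _)]
    refine Finset.sum_congr rfl fun c _ => ?_
    rw [Finset.sum_congr rfl fun w hw => (Finset.mem_filter.1 hw).2, Finset.sum_const, nsmul_eq_mul, mul_comm,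
      Pi.smul_apply, smul_eq_mul, ← Fintype.card_subtype, ← Nat.card_eq_fintype_card]
    congr 2
    exact Nat.card_congr ⟨fun w => ⟨⟨w.1, w.2⟩, Subtype.ext w.1.2⟩, fun w => ⟨⟨w.1, congrArg Subtype.val w.2⟩, w.1.2⟩,
      fun _ => rfl, fun _ => rfl⟩
  rw [this]
  refine IntC.sum _ fun c hc => (IntC.of_char (H6.isCharacter_perm (S c))).smul ?_
  obtain ⟨x, -, rfl⟩ := Finset.mem_image.1 hc
  exact hi x

theorem gauss (hW : IsPGroup p W) (hH : ¬ p ∣ Nat.card H) (sy : ∀ u w, B.β u w = B.β w u)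
    (nd : ∀ u, (∀ w, B.β w u = 0) → u = 1) : ∃ ψ, Sq M (fun a : H => (Fx W a).index) ψ := by
  classical
  obtain ⟨f, e, n, hf, h1, h2, he, he0, he1⟩ := exists_quad (B := B) hW hH sy
  have pn : p ^ n ≠ 0 := pow_ne_zero _ hp.out.ne_zero
  have h3 : ∀ x, f x * conj (f x) = 1 := fun x => by
    rw [Complex.mul_conj, Complex.normSq_eq_norm_sq, Complex.norm_eq_one_of_pow_eq_one (h1 x) pn]; simp
  have hi : ∀ x, IsIntegral ℤ (f x) := fun x => IsIntegral.of_pow (Nat.pos_of_ne_zero pn) (h1 x ▸ isIntegral_one)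
  letI := Fintype.ofFinite W
  have orth : ∀ (a : H), ∀ c ∈ Fx W a, ∀ i ∈ (dd W a).range, B.β c i = 0 := by
    rintro a c hc _ ⟨x, rfl⟩
    change B.β c (a • x * x⁻¹) = 0
    rw [B.r, B.inv_r, ← hB.out a c x, mem_Fx.1 hc, add_neg_cancel]
  have hc := isCompl_dd hW hH (H := H)
  have h4 : ∀ a : H, (∑ w : (dd W a).range, f w) * ∑ w : Fx W a, f w = ∑ w, f w := fun a => by
    rw [mul_comm, Finset.sum_mul_sum, ← Fintype.sum_prod_type' fun (x : Fx W a) (y : (dd W a).range) => f x * f y]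
    refine Fintype.sum_bijective (fun x : Fx W a × (dd W a).range => (x.1 : W) * x.2) (hc a) _ f fun x => ?_
    rw [hf, orth a _ x.1.2 _ x.2.2, he0, one_mul]
  have h5 : ∑ w : Fx W (1 : H), f w = ∑ w, f w :=
    Fintype.sum_equiv (Equiv.subtypeUnivEquiv fun w => one_smul H w) _ _ fun _ => rfl
  have h6 : (∑ w, f w) * conj (∑ w, f w) = Nat.card W := by
    have := sum_mul_conj hf h3 he he0 he1 ⊤ fun z _ h => nd z fun w => h w trivial
    rwa [Fintype.sum_equiv (Equiv.subtypeUnivEquiv mem_top) (fun w : (⊤ : Subgroup W) => f w) f fun _ => rfl,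
      card_top] at this
  obtain ⟨m, hm⟩ := IsPGroup.iff_card.1 hW
  have hi' : ∀ a : H, IsIntegral ℤ (∑ w : (dd W a).range, f w) := fun a => IsIntegral.sum _ fun w _ => hi w
  have cd : ∀ a : H, (Fx W a).index = Nat.card (dd W a).range := fun a => by rw [← ker_dd, index_ker]
  refine ⟨fun a => ∑ w : (dd W a).range, f w, (intC_fix hi h2).inv hp.out hH (fun a => (h4 a).trans h5.symm) hi'
    fun a => ⟨m, _ * conj (∑ w, f w), (hi' a).mul (isIntegral_conj (IsIntegral.sum _ fun w _ => hi w)), by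
      rw [← mul_assoc, mul_comm (∑ w : Fx W a, f w), h4, h6, hm, Nat.cast_pow]⟩, ?_,
    fun a => sum_mem fun w _ => root_CM pn (h1 w), fun a => ?_, fun a ha => ?_⟩
  · have := h4 1
    rw [h5] at this
    exact mul_right_cancel₀ (left_ne_zero_of_mul (h6 ▸ card_ne_zero' W)) (this.trans (one_mul _).symm)
  · rw [cd]
    refine sum_mul_conj hf h3 he he0 he1 _ fun z hz h => nd z fun w => ?_
    obtain ⟨⟨x, y⟩, rfl⟩ := (hc a).2 w
    rw [B.l, orth a _ x.2 _ hz, h _ y.2, add_zero]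
  · rw [H8.rd_sum _ _ fun (w : (dd W a).range) _ => (H8.rd_eq_one_of_pow_eq_one hM.out (h1 w)).1,
      Finset.sum_congr rfl fun (w : (dd W a).range) _ => (H8.rd_eq_one_of_pow_eq_one hM.out (h1 w)).2, Finset.sum_const,
      nsmul_one, Finset.card_univ, ← Nat.card_eq_fintype_card, ← cd, ← H8.rd_natCast, H8.rd_natCast_eq_zero_iff hM.out]
    obtain ⟨k, -, hk⟩ := (Nat.dvd_prime_pow hp.out).1 (hm ▸ (Fx W a).index_dvd_card)
    rw [hk] at ha ⊢
    exact dvd_pow_self p fun k0 => ha (by rw [k0, pow_zero])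

end Cfsg.Agent.H9.RV
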