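import Mathlib
import Cfsg.Agent.H9.RV2

/-!
Real vectors for the `k(GV)` problem, III: the criterion.
-/

set_option autoImplicit false
set_option linter.unusedSectionVars false
set_option linter.unusedVariables false

namespace Cfsg.Agent.H9.RV

open Cfsg Subgroup Cfsg.Agent.FT Cfsg.Agent.GW Cfsg.Agent.H7

variable {M : Ideal AlgInt} [hMm : M.IsMaximal] {p : ℕ} [hp : Fact p.Prime] [hM : PMod M p]
variable {X : Type*} [Group X] [Finite X] {H U : Subgroup X} {β : X → X → ZMod p}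

theorem amb (hU : Abelem p U) (hN : H ≤ N(U)) (hH : ¬ p ∣ #H)
    (l : ∀ u ∈ U, ∀ u' ∈ U, ∀ w ∈ U, β (u * u') w = β u w + β u' w)
    (r : ∀ u ∈ U, ∀ w ∈ U, ∀ w' ∈ U, β u (w * w') = β u w + β u w')
    (i : ∀ h ∈ H, ∀ u ∈ U, ∀ w ∈ U, β (h * u * h⁻¹) (h * w * h⁻¹) = β u w)
    (h : (∀ u ∈ U, (∀ w ∈ U, β u w = β w u) → u = 1) ∨
      (∀ u ∈ U, ∀ w ∈ U, β u w = β w u) ∧ ∀ u ∈ U, (∀ w ∈ U, β w u = 0) → u = 1) :
    ∃ (c : H → ℕ) (ψ : H → ℂ), Sq M c ψ ∧ ∀ a : H, c a * #(U ⊓ C[(a : X)]) = #U := by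
  letI : CommGroup U := { (inferInstance : Group U) with mul_comm := hU.1.is_comm.comm }
  letI : MulDistribMulAction H U :=
    { smul := fun h u => ⟨h * u * (h : X)⁻¹, conj_mem (hN h.2) u.2⟩
      one_smul := fun u => Subtype.ext (show ((1 : H) : X) * u * ((1 : H) : X)⁻¹ = u by simp)
      mul_smul := fun a b u => Subtype.ext
        (show ((a * b : H) : X) * u * ((a * b : H) : X)⁻¹ = a * (b * u * (b : X)⁻¹) * (a : X)⁻¹ by push_cast; group)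
      smul_mul := fun a u w => Subtype.ext
        (show (a : X) * (u * w) * (a : X)⁻¹ = a * u * (a : X)⁻¹ * (a * w * (a : X)⁻¹) by group)
      smul_one := fun a => Subtype.ext (show (a : X) * 1 * (a : X)⁻¹ = 1 by group) }
  let B : Bil p U := ⟨fun u w => β u w, fun u u' w => l _ u.2 _ u'.2 _ w.2, fun u w w' => r _ u.2 _ w.2 _ w'.2⟩
  haveI : Invt B H := ⟨fun h u w => i _ h.2 _ u.2 _ w.2⟩
  have hW : IsPGroup p U := fun u => ⟨1, Subtype.ext (by simpa using hU.2 _ u.2)⟩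
  obtain ⟨ψ, hψ⟩ : ∃ ψ, Sq M (fun a : H => (Fx U a).index) ψ := by
    rcases h with h | ⟨h1, h2⟩
    · exact weil (B := B) hW hH fun u hu => Subtype.ext (h _ u.2 fun w hw => hu ⟨w, hw⟩)
    · exact gauss (B := B) hW hH (fun u w => h1 _ u.2 _ w.2) fun u hu => Subtype.ext (h2 _ u.2 fun w hw => hu ⟨w, hw⟩)
  refine ⟨_, ψ, hψ, fun a => ?_⟩
  rw [← (Fx U a).index_mul_card, ← card_map_of_injective U.subtype_injective]
  congr 3
  ext x
  refine ⟨fun hx => ⟨⟨x, hx.1⟩, Subtype.ext (show (a : X) * x * (a : X)⁻¹ = x by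
    rw [← mem_cen1.1 hx.2, mul_inv_cancel_right]), rfl⟩, ?_⟩
  rintro ⟨y, hy, rfl⟩
  exact ⟨y.2, mem_cen1.2 (mul_inv_eq_iff_eq_mul.1 (congrArg Subtype.val hy)).symm⟩

theorem real_vec {V G : Subgroup X} [V.Normal] (hV : Abelem p V) (hidx : ¬ p ∣ V.index)
    (hGV : IsComplement' V G) {v : X} (hv : v ∈ V) (hUV : U ≤ V) (hN : G ⊓ C[v] ≤ N(U))
    (hf : ∀ h ∈ G ⊓ C[v], h ∈ C(U) → h = 1)
    (l : ∀ u ∈ U, ∀ u' ∈ U, ∀ w ∈ U, β (u * u') w = β u w + β u' w)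
    (r : ∀ u ∈ U, ∀ w ∈ U, ∀ w' ∈ U, β u (w * w') = β u w + β u w')
    (i : ∀ h ∈ G ⊓ C[v], ∀ u ∈ U, ∀ w ∈ U, β (h * u * h⁻¹) (h * w * h⁻¹) = β u w)
    (nd : ∀ u ∈ U, (∀ w ∈ U, β u w = 0) → u = 1) : Nat.card (ConjClasses X) ≤ #V := by
  obtain ⟨M, hM⟩ := exists_pmod p
  haveI := hM.2.1
  haveI : PMod M p := ⟨hM⟩
  obtain ⟨H, hH⟩ : ∃ H, H = G ⊓ C[v] := ⟨_, rfl⟩
  rw [← hH] at hN hf i
  have hp' : PiGrp {p}ᶜ H := PiGrp.mono ((p'grp_iff_coprime hp.out).2 (by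
    rw [← hGV.symm.index_eq_card]; exact ((Nat.Prime.coprime_iff_not_dvd hp.out).2 hidx).symm)) (hH.le.trans inf_le_left)
  have hpH : ¬ p ∣ #H := (Nat.Prime.coprime_iff_not_dvd hp.out).1 ((p'grp_iff_coprime hp.out).1 hp').symm
  have hU := hV.mono hUV
  have l1 : ∀ w ∈ U, β 1 w = 0 := fun w hw => by simpa using l 1 U.one_mem 1 U.one_mem w hw
  have r1 : ∀ w ∈ U, β w 1 = 0 := fun w hw => by simpa using r w hw 1 U.one_mem 1 U.one_mem
  have li : ∀ u ∈ U, ∀ w ∈ U, β u⁻¹ w = -β u w := fun u hu w hw =>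
    eq_neg_of_add_eq_zero_left (by rw [← l _ (inv_mem hu) _ hu _ hw, inv_mul_cancel, l1 _ hw])
  have ri : ∀ u ∈ U, ∀ w ∈ U, β u w⁻¹ = -β u w := fun u hu w hw =>
    eq_neg_of_add_eq_zero_left (by rw [← r _ hu _ (inv_mem hw) _ hw, inv_mul_cancel, r1 _ hu])
  have i1 : ∀ h ∈ H, ∀ u ∈ U, ∀ w ∈ U, β u (h * w * h⁻¹) = β (h⁻¹ * u * h) w := fun h hh u hu w hw => by
    rw [← i h hh _ (conj_mem' (hN hh) hu) _ hw]; congr 1; group
  have i2 : ∀ h ∈ H, ∀ u ∈ U, ∀ w ∈ U, β (h * w * h⁻¹) u = β w (h⁻¹ * u * h) := fun h hh u hu w hw => by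
    rw [← i h hh _ hw _ (conj_mem' (hN hh) hu)]; congr 1; group
  let K : Subgroup X :=
    { carrier := {u | u ∈ U ∧ ∀ w ∈ U, β u w = β w u}
      mul_mem' := fun {a b} ha hb => ⟨mul_mem ha.1 hb.1, fun w hw => by
        rw [l _ ha.1 _ hb.1 _ hw, r _ hw _ ha.1 _ hb.1, ha.2 w hw, hb.2 w hw]⟩
      one_mem' := ⟨U.one_mem, fun w hw => by rw [l1 w hw, r1 w hw]⟩
      inv_mem' := fun {a} ha => ⟨inv_mem ha.1, fun w hw => by rw [li _ ha.1 _ hw, ri _ hw _ ha.1, ha.2 w hw]⟩ }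
  have hKU : K ≤ U := fun _ h => h.1
  have nK : H ≤ N(K) := fun h hh => mem_normalizer_fintype fun a ha => ⟨conj_mem (hN hh) ha.1, fun w hw => by
    rw [i1 h hh _ hw _ ha.1, i2 h hh _ hw _ ha.1, ha.2 _ (conj_mem' (hN hh) hw)]⟩
  let R : Subgroup X :=
    { carrier := {u | u ∈ K ∧ ∀ w ∈ K, β w u = 0}
      mul_mem' := fun {a b} ha hb => ⟨mul_mem ha.1 hb.1, fun w hw => by
        rw [r _ hw.1 _ ha.1.1 _ hb.1.1, ha.2 w hw, hb.2 w hw, add_zero]⟩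
      one_mem' := ⟨K.one_mem, fun w hw => r1 w hw.1⟩
      inv_mem' := fun {a} ha => ⟨inv_mem ha.1, fun w hw => by rw [ri _ hw.1 _ ha.1.1, ha.2 w hw, neg_zero]⟩ }
  have hRK : R ≤ K := fun _ h => h.1
  have nR : H ≤ N(R) := fun h hh => mem_normalizer_fintype fun a ha => ⟨conj_mem (nK hh) ha.1, fun w hw => by
    rw [i1 h hh _ hw.1 _ ha.1.1, ha.2 _ (conj_mem' (nK hh) hw)]⟩
  obtain ⟨A, hA, nA⟩ := Maschke_abelem hp.out hU hp' hKU hN nK
  obtain ⟨D, hD, nD⟩ := Maschke_abelem hp.out (hU.mono hKU) hp' hRK nK nR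
  have hAU := hA.right
  have hDK := hD.right
  have hDU := hDK.trans hKU
  obtain ⟨c, ψ, h1, h2⟩ := amb (M := M) (β := β) (hU.mono hAU) nA hpH
    (fun u hu u' hu' w hw => l _ (hAU hu) _ (hAU hu') _ (hAU hw))
    (fun u hu u' hu' w hw => r _ (hAU hu) _ (hAU hu') _ (hAU hw))
    (fun h hh u hu w hw => i h hh _ (hAU hu) _ (hAU hw))
    (.inl fun u hu h => eq_one_of_mem_inf hA.inf ⟨hAU hu, fun w hw => by
      obtain ⟨x, hx, y, hy, rfl⟩ := hA.mulEq.mul _ hw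
      rw [r _ (hAU hu) _ hx.1 _ (hAU hy), l _ hx.1 _ (hAU hy) _ (hAU hu), hx.2 _ (hAU hu), h y hy]⟩ hu)
  obtain ⟨d, φ, h3, h4⟩ := amb (M := M) (β := β) (hU.mono hDU) nD hpH
    (fun u hu u' hu' w hw => l _ (hDU hu) _ (hDU hu') _ (hDU hw))
    (fun u hu u' hu' w hw => r _ (hDU hu) _ (hDU hu') _ (hDU hw))
    (fun h hh u hu w hw => i h hh _ (hDU hu) _ (hDU hw))
    (.inr ⟨fun u hu w hw => (hDK hu).2 _ (hDU hw), fun u hu h => eq_one_of_mem_inf hD.inf ⟨hDK hu, fun w hw => by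
      obtain ⟨x, hx, y, hy, rfl⟩ := hD.mulEq.mul _ hw
      rw [l _ hx.1.1 _ (hDU hy) _ (hDU hu), hx.1.2 _ (hDU hu), hx.2 _ (hDK hu), h y hy, add_zero]⟩ hu⟩)
  refine count hV hidx hGV hv (hH.le.trans inf_le_left) (hH.le.trans inf_le_right) hH.ge (h1.mul h3)
    (fun a a1 e => a1 (Subtype.ext (hf _ a.2 ?_))) fun a => ?_
  · have e1 := h2 a
    have e2 := h4 a
    rw [Nat.eq_one_of_mul_eq_one_right e, one_mul] at e1
    rw [Nat.eq_one_of_mul_eq_one_left e, one_mul] at e2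
    have c1 : A ≤ C[(a : X)] := (eq_of_le_of_card_ge inf_le_left e1.ge).ge.trans inf_le_right
    have c2 : D ≤ C[(a : X)] := (eq_of_le_of_card_ge inf_le_left e2.ge).ge.trans inf_le_right
    have c3 : R ≤ C[(a : X)] := fun x hx => by
      have hx' : (a : X) * x * (a : X)⁻¹ * x⁻¹ ∈ R := mul_mem (conj_mem (nR a.2) hx) (inv_mem hx)
      have := nd _ hx'.1.1 fun w hw => by
        rw [hx'.1.2 w hw]
        obtain ⟨y, hy, z, hz, rfl⟩ := hA.mulEq.mul _ hw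
        rw [l _ hy.1 _ (hAU hz) _ hx'.1.1, hx'.2 _ hy, zero_add,
          r _ (hAU hz) _ (conj_mem (hN a.2) hx.1.1) _ (inv_mem hx.1.1), i1 _ a.2 _ (hAU hz) _ hx.1.1,
          ri _ (hAU hz) _ hx.1.1, mul_assoc, mem_cen1.1 (c1 hz), inv_mul_cancel_left, add_neg_cancel]
      rw [mem_cen1, ← mul_inv_eq_iff_eq_mul, eq_comm, ← mul_inv_eq_one]
      rw [← this]
      group
    have : U ≤ C[(a : X)] := by
      rw [← hA.sup, ← hD.sup]
      exact sup_le (sup_le c3 c2) c1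
    exact mem_cen.2 fun u hu => mem_cen1.1 (this hu)
  · have e1 : (c * d) a * #(U ⊓ C[(a : X)]) ≤ #U := by
      rw [(hA.subcent1 (nK a.2) (nA a.2)).card, (hD.subcent1 (nR a.2) (nD a.2)).card, hA.card, hD.card, ← h2 a, ← h4 a,
        Pi.mul_apply]
      have := card_le_of_le (inf_le_left : R ⊓ C[(a : X)] ≤ R)
      calc _ = #(R ⊓ C[(a : X)]) * (d a * #(D ⊓ C[(a : X)]) * (c a * #(A ⊓ C[(a : X)]))) := by ring
        _ ≤ _ := by rw [mul_assoc #R]; exact Nat.mul_le_mul_right _ this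
    rw [← card_inf_mul_relIndex C[(a : X)] U, inf_comm, mul_comm] at e1
    rw [← card_inf_mul_relIndex C[(a : X)] V, inf_comm, mul_comm]
    exact Nat.mul_le_mul_left _ ((Nat.le_of_mul_le_mul_left e1 (card_pos _)).trans
      (relIndex_le_of_le_right hUV (relIndex_pos _ _).ne'))

end Cfsg.Agent.H9.RV
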