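import Cfsg.Agent.L1.Se0
import Cfsg.Agent.H12.Ae0

/-! The `3`-local characterization of `S₈`: fusion of the transpositions. -/

set_option autoImplicit false

namespace Cfsg.Agent.L1Se

open Subgroup Equiv

universe u
variable {G : Type u} [Group G] [Finite G] {f : Perm (Fin 8) →* G}

theorem pA2_type {a : Perm (Fin 8)} {p : ℕ} (hp : p.Prime) (ho : orderOf a = p) :
    ∃ n, a.cycleType = Multiset.replicate (n + 1) p ∧ a.support.card = (n + 1) * p ∧
      Nat.card (centralizer ({a} : Set (Perm (Fin 8)))) = (8 - (n + 1) * p).factorial * p ^ (n + 1) *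
        (n + 1).factorial := by
  obtain ⟨n, hn⟩ := Perm.cycleType_prime_order (σ := a) (ho ▸ hp)
  rw [ho] at hn
  refine ⟨n, hn, ?_, ?_⟩
  · rw [← Perm.sum_cycleType, hn, Multiset.sum_replicate, smul_eq_mul]
  · rw [Perm.nat_card_centralizer, hn, Multiset.sum_replicate, smul_eq_mul, Multiset.prod_replicate,
      Multiset.toFinset_replicate, if_neg (by omega), Finset.prod_singleton, Multiset.count_replicate_self,
      Fintype.card_fin]

theorem pA2_conj {a b : Perm (Fin 8)} {p : ℕ} (hp : p.Prime) (ha : orderOf a = p) (hb : orderOf b = p)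
    (hc : a.support.card = b.support.card) : IsConj a b := by
  obtain ⟨n, h1, h2, -⟩ := pA2_type hp ha
  obtain ⟨m, h3, h4, -⟩ := pA2_type hp hb
  have : n + 1 = m + 1 := Nat.eq_of_mul_eq_mul_right hp.pos (by rw [← h2, ← h4, hc])
  rw [Perm.isConj_iff_cycleType_eq, h1, h3, this]

omit [Finite G] in
theorem pA2_dvd (hf : Function.Injective f) (a : Perm (Fin 8)) :
    Nat.card (centralizer ({a} : Set (Perm (Fin 8)))) ∣ Nat.card (centralizer ({f a} : Set G)) := by
  rw [← card_map_of_injective hf]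
  refine card_dvd_of_le ?_
  rintro _ ⟨b, hb, rfl⟩
  rw [mem_centralizer_singleton_iff, ← map_mul, ← map_mul, mem_centralizer_singleton_iff.1 hb]

omit [Finite G] in
theorem pA2_eq (hf : Function.Injective f) {a : Perm (Fin 8)} (hC : ∀ g, Commute g (f a) → g ∈ f.range) :
    Nat.card (centralizer ({f a} : Set G)) = Nat.card (centralizer ({a} : Set (Perm (Fin 8)))) := by
  rw [← card_map_of_injective hf]
  congr 2
  ext g
  constructor
  · intro hg
    obtain ⟨b, rfl⟩ := hC g (mem_centralizer_singleton_iff.1 hg)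
    refine ⟨b, mem_centralizer_singleton_iff.2 (hf ?_), rfl⟩
    rw [map_mul, map_mul]
    exact mem_centralizer_singleton_iff.1 hg
  · rintro ⟨b, hb, rfl⟩
    rw [mem_centralizer_singleton_iff, ← map_mul, ← map_mul, mem_centralizer_singleton_iff.1 hb]

theorem pA2_card {a : Perm (Fin 8)} {p n : ℕ} (hp : p.Prime) (h1 : a ≠ 1) (h2 : a ^ p = 1)
    (hc : a.support.card = (n + 1) * p) : orderOf a = p ∧
      Nat.card (centralizer ({a} : Set (Perm (Fin 8)))) = (8 - (n + 1) * p).factorial * p ^ (n + 1) *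
        (n + 1).factorial := by
  haveI : Fact p.Prime := ⟨hp⟩
  have ho := orderOf_eq_prime h2 h1
  obtain ⟨m, -, h3, h4⟩ := pA2_type hp ho
  have : n + 1 = m + 1 := Nat.eq_of_mul_eq_mul_right hp.pos (by rw [← h3, hc])
  exact ⟨ho, by rw [h4, this]⟩

theorem pA2 (h : SH f) : FU f := by
  intro g a ha
  obtain ⟨ot, ct⟩ := pA2_card (a := swap 6 7) (n := 0) Nat.prime_two (by decide) (by decide) (by decide)
  obtain ⟨oz, cz⟩ := pA2_card (a := swap 0 1 * swap 1 2) (n := 0) Nat.prime_three (by decide) (by decide) (by decide)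
  obtain ⟨oy, cy⟩ := pA2_card (a := swap 0 1 * swap 1 2 * (swap 3 4 * swap 4 5)) (n := 1) Nat.prime_three
    (by decide) (by decide) (by decide)
  obtain ⟨o0, -⟩ := pA2_card (a := swap 0 3 * swap 1 4 * swap 2 5) (n := 2) Nat.prime_two
    (by decide) (by decide) (by decide)
  have oc : ∀ (g : G) (a b : Perm (Fin 8)), g * f a * g⁻¹ = f b → orderOf b = orderOf a := fun g a b e => by
    rw [← orderOf_injective f h.inj b, ← e, ← orderOf_injective f h.inj a]
    exact (MulAut.conj g).orderOf_eq _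
  have oa : orderOf a = 2 := (oc _ _ _ ha).trans ot
  obtain ⟨n, h1, h2, h3⟩ := pA2_type Nat.prime_two oa
  have h4 := pA2_dvd h.inj a
  rw [← ha, H12.Ae.card_cen_conj, pA2_eq h.inj h.cT, ct, h3] at h4
  have h5 : (n + 1) * 2 ≤ 8 := by rw [← h2]; simpa using Finset.card_le_univ a.support
  have h6 : n = 0 ∨ n = 1 ∨ n = 2 ∨ n = 3 := by omega
  rcases h6 with rfl | rfl | rfl | rfl
  · exact Perm.isSwap_iff_cycleType.2 h1
  · exact absurd h4 (by decide)
  swap
  · exact absurd h4 (by decide)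
  exfalso
  obtain ⟨k, hk⟩ := isConj_iff.1 (pA2_conj Nat.prime_two oa o0 (by rw [h2]; decide))
  have hs : (f k * g) * f (swap 6 7) * (f k * g)⁻¹ = f (swap 0 3 * swap 1 4 * swap 2 5) := by
    rw [← hk, map_mul, map_mul, map_inv, ← ha]
    group
  generalize f k * g = g' at hs
  have c0 : Commute (g' * f (swap 0 1 * swap 1 2) * g'⁻¹) (f (swap 0 3 * swap 1 4 * swap 2 5)) := by
    have : Commute (f (swap 0 1 * swap 1 2)) (f (swap 6 7)) :=
      Commute.map (by unfold Commute SemiconjBy; decide) f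
    rw [← hs]
    exact this.map (MulAut.conj g')
  have c1 : Commute (f (swap 0 1 * swap 1 2 * (swap 3 4 * swap 4 5))) (f (swap 0 3 * swap 1 4 * swap 2 5)) :=
    Commute.map (by unfold Commute SemiconjBy; decide) f
  obtain ⟨c, hc, e⟩ := H12.Ae.syl_comm h.syl (centralizer {f (swap 0 3 * swap 1 4 * swap 2 5)})
    (mem_centralizer_singleton_iff.2 c0) (mem_centralizer_singleton_iff.2 c1)
    (by rw [conj_pow, ← map_pow, ← oz, pow_orderOf_eq_one, map_one]; group)
    (by rw [← map_pow, ← oy, pow_orderOf_eq_one, map_one])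
  have hc' : Commute c (f (swap 0 3 * swap 1 4 * swap 2 5)) := mem_centralizer_singleton_iff.1 hc
  have hxs := (hc'.mul_left c0).mul_left hc'.inv_left
  obtain ⟨b, hb⟩ := h.cy _ e
  rw [← hb] at hxs
  have hb' : (c * g') * f (swap 0 1 * swap 1 2) * (c * g')⁻¹ = f b := by rw [hb]; group
  have ob : orderOf b = 3 := (oc _ _ _ hb').trans oz
  obtain ⟨m, -, h7, -⟩ := pA2_type Nat.prime_three ob
  have h8 : (m + 1) * 3 ≤ 8 := by rw [← h7]; simpa using Finset.card_le_univ b.support
  have h9 : m = 0 ∨ m = 1 := by omega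
  rcases h9 with rfl | rfl
  · obtain ⟨r, rfl⟩ := isConj_iff.1 (pA2_conj Nat.prime_three oz ob (by rw [h7]; decide))
    have e1 : r * (swap 0 1 * swap 1 2) * r⁻¹ = swap (r 0) (r 1) * swap (r 1) (r 2) := by
      rw [← conj_mul, swap_apply_apply, swap_apply_apply]
    have e2 := h.inj ((map_mul f _ _).trans (hxs.eq.trans (map_mul f _ _).symm))
    rw [e1] at e2
    have key : ∀ p q r : Fin 8, p ≠ q → p ≠ r → q ≠ r →
        swap p q * swap q r * (swap 0 3 * swap 1 4 * swap 2 5) ≠
          swap 0 3 * swap 1 4 * swap 2 5 * (swap p q * swap q r) := by decide +kernel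
    exact key _ _ _ (r.injective.ne (by decide)) (r.injective.ne (by decide)) (r.injective.ne (by decide)) e2
  · obtain ⟨r, rfl⟩ := isConj_iff.1 (pA2_conj Nat.prime_three oy ob (by rw [h7]; decide))
    have e1 := pA2_dvd h.inj (swap 0 1 * swap 1 2)
    rw [← H12.Ae.card_cen_conj (c * g'), hb', map_mul, map_mul, map_inv, H12.Ae.card_cen_conj,
      pA2_eq h.inj h.cy, cy, cz] at e1
    exact absurd e1 (by decide)

end Cfsg.Agent.L1Se
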