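import Cfsg.Agent.L1.Se0
import Cfsg.Agent.H12.Ae0

/-! The `3`-local characterization of `S₈`: conjugates of `τ` centralizing `z z'`. -/

set_option autoImplicit false

namespace Cfsg.Agent.L1Se

open Subgroup Equiv

universe u
variable {G : Type u} [Group G] [Finite G] {ε : W →* G} {σ : G} {x : W}

/-- the elements of `C(D)` -/
def pN_d (i j : Fin 3) (k : Fin 2) : W := zE ^ i.val * zF ^ j.val * tE ^ k.val

omit [Finite G] in
theorem pN_nr (h : SA ε σ x) : σ ∉ ε.range := by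
  rintro ⟨w, rfl⟩
  have := h.sz
  rw [← map_inv, ← map_mul, ← map_mul] at this
  have h1 := congrArg Prod.fst (h.inj this)
  have h2 : w.1 * zE.1 * w.1⁻¹ = 1 := h1
  rw [mul_inv_eq_one, mul_eq_left] at h2
  revert h2
  decide

omit [Finite G] in
theorem pN_sw (h : SA ε σ x) (i j : Fin 3) (k : Fin 2) : σ * ε (pN_d i j k) * σ⁻¹ = ε (pN_d j i k) := by
  have hs : σ⁻¹ = σ := inv_eq_of_mul_eq_one_right h.ss
  have sz' : σ * ε zF * σ⁻¹ = ε zE := by
    rw [← h.sz, hs]
    calc _ = (σ * σ) * ε zE * (σ * σ) := by group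
      _ = _ := by rw [h.ss]; group
  have e : pN_d j i k = zF ^ i.val * zE ^ j.val * tE ^ k.val := by revert i j k; decide
  rw [e, pN_d]
  simp only [map_mul, map_pow]
  rw [← conj_mul, ← conj_mul, ← conj_pow, ← conj_pow, ← conj_pow, h.sz, sz', h.st]

theorem pN_cy (h : SA ε σ x) {g : G} (hg : Commute g (ε zE * ε zF)) :
    ∃ i j k, g = ε (pN_d i j k) ∨ g = ε (pN_d i j k) * σ := by
  have c1 : ∀ i j k, Commute (ε (pN_d i j k)) (ε zE * ε zF) := fun i j k => by
    rw [← map_mul]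
    refine Commute.map ?_ ε
    revert i j k
    unfold Commute SemiconjBy
    decide
  have c2 : Commute σ (ε zE * ε zF) := by
    have := pN_sw h 1 1 0
    rw [mul_inv_eq_iff_eq_mul, show pN_d 1 1 0 = zE * zF by decide, map_mul] at this
    exact this
  let φ : Fin 3 × Fin 3 × Fin 2 × Fin 2 → centralizer ({ε zE * ε zF} : Set G) := fun p =>
    ⟨ε (pN_d p.1 p.2.1 p.2.2.1) * σ ^ p.2.2.2.val, mem_centralizer_singleton_iff.2
      ((c1 _ _ _).mul_left (c2.pow_left _))⟩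
  have k1 : ∀ i j k i' j' k', pN_d i j k = pN_d i' j' k' → i = i' ∧ j = j' ∧ k = k' := by decide
  have k2 : ∀ a b : W, ε a * σ ≠ ε b := fun a b e =>
    pN_nr h ⟨a⁻¹ * b, by rw [map_mul, map_inv, ← e, inv_mul_cancel_left]⟩
  have hb : Function.Bijective φ := by
    refine (Nat.bijective_iff_injective_and_card _).2 ⟨?_, by simp [h.cy]⟩
    rintro ⟨i, j, k, l⟩ ⟨i', j', k', l'⟩ e
    have e1 : ε (pN_d i j k) * σ ^ l.val = ε (pN_d i' j' k') * σ ^ l'.val := congrArg Subtype.val e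
    fin_cases l <;> fin_cases l' <;> simp only [pow_zero, pow_one, mul_one, mul_left_inj] at e1
    · obtain ⟨rfl, rfl, rfl⟩ := k1 _ _ _ _ _ _ (h.inj e1); rfl
    · exact absurd e1.symm (k2 _ _)
    · exact absurd e1 (k2 _ _)
    · obtain ⟨rfl, rfl, rfl⟩ := k1 _ _ _ _ _ _ (h.inj e1); rfl
  obtain ⟨⟨i, j, k, l⟩, e⟩ := hb.2 ⟨g, mem_centralizer_singleton_iff.2 hg⟩
  have e1 : ε (pN_d i j k) * σ ^ l.val = g := congrArg Subtype.val e
  refine ⟨i, j, k, ?_⟩
  fin_cases l <;> simp only [pow_zero, pow_one, mul_one] at e1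
  · exact Or.inl e1.symm
  · exact Or.inr e1.symm

theorem pN (h : SA ε σ x) (hx : x = eA ∨ x = eB) : NY ε := by
  intro g hg
  set s := g * ε tE * g⁻¹ with hs
  have z3 : ε zE ^ 3 = 1 := by rw [← map_pow, show zE ^ 3 = 1 by decide, map_one]
  have y3 : (ε zE * ε zF) ^ 3 = 1 := by rw [← map_mul, ← map_pow, show (zE * zF) ^ 3 = 1 by decide, map_one]
  have c0 : Commute (g * ε zE * g⁻¹) s := by
    have : Commute (ε zE) (ε tE) := Commute.map (show zE * tE = tE * zE by decide) ε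
    exact this.map (MulAut.conj g)
  obtain ⟨c, hc, e⟩ := H12.Ae.syl_comm h.syl (centralizer {s}) (mem_centralizer_singleton_iff.2 c0)
    (mem_centralizer_singleton_iff.2 hg.symm) (by rw [conj_pow, z3]; group) y3
  have hc' : Commute c s := mem_centralizer_singleton_iff.1 hc
  have hxs : Commute (c * (g * ε zE * g⁻¹) * c⁻¹) s := (hc'.mul_left c0).mul_left hc'.inv_left
  have x3 : (c * (g * ε zE * g⁻¹) * c⁻¹) ^ 3 = 1 := by rw [conj_pow, conj_pow, z3]; group
  have xc : Nat.card (centralizer ({c * (g * ε zE * g⁻¹) * c⁻¹} : Set G)) = 360 := by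
    rw [H12.Ae.card_cen_conj, H12.Ae.card_cen_conj, h.cz]
  have x1 : c * (g * ε zE * g⁻¹) * c⁻¹ ≠ 1 := by
    rw [Ne, conj_eq_one_iff, conj_eq_one_iff, ← map_one ε, h.inj.eq_iff]
    decide
  generalize c * (g * ε zE * g⁻¹) * c⁻¹ = v at *
  obtain ⟨i, j, k, rfl | rfl⟩ := pN_cy h e
  · rw [← map_pow, ← map_one ε, h.inj.eq_iff] at x3
    rw [Ne, ← map_one ε, h.inj.eq_iff] at x1
    have key : ∀ i j k, pN_d i j k ^ 3 = 1 → pN_d i j k ≠ 1 → pN_d i j k = zE * zF ∨ pN_d i j k = (zE * zF)⁻¹ ∨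
        ∃ a b : Fin 3, zE = pN_d i j k ^ a.val * (zE * zF) ^ b.val := by decide
    rcases key i j k x3 x1 with e1 | e1 | ⟨a, b, e1⟩
    · rw [e1, map_mul, h.cy] at xc
      omega
    · have : centralizer ({ε (pN_d i j k)} : Set G) ≤ centralizer {ε zE * ε zF} := fun t ht => by
        rw [mem_centralizer_singleton_iff] at ht ⊢
        rw [e1, map_inv, map_mul] at ht
        exact (Commute.inv_right_iff.1 ht).eq
      have := card_le_of_le this
      rw [h.cy] at this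
      omega
    · rw [e1, map_mul, map_pow, map_pow, map_mul]
      exact (hxs.symm.pow_right _).mul_right (hg.pow_right _)
  · exfalso
    have hs' : σ⁻¹ = σ := inv_eq_of_mul_eq_one_right h.ss
    have e2 : (ε (pN_d i j k) * σ) ^ 2 = ε (pN_d i j k * pN_d j i k) := by
      rw [map_mul, ← pN_sw h i j k, hs', pow_two]
      simp only [mul_assoc]
    have e3 : ε (pN_d i j k) * σ = ε ((pN_d i j k * pN_d j i k) ^ 2) := by
      rw [map_pow, ← e2, ← pow_mul, show 2 * 2 = 3 + 1 from rfl, pow_succ, x3, one_mul]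
    exact pN_nr h ⟨(pN_d i j k)⁻¹ * (pN_d i j k * pN_d j i k) ^ 2, by
      rw [map_mul, map_inv, ← e3, inv_mul_cancel_left]⟩

end Cfsg.Agent.L1Se
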