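import Mathlib
import Cfsg.Agent.H9.Contr
import Cfsg.Agent.H8.Real
import Cfsg.Agent.H8.Principal
import Cfsg.Agent.H6.Galois
import Cfsg.Agent.H6.Misc

/-!
Characters fixed by the Galois automorphism fixing `2`-power roots of unity and inverting the roots
of unity of odd order.
-/

set_option autoImplicit false
set_option linter.unusedSectionVars false

namespace Cfsg.Agent.H9

open Cfsg Finset
open Cfsg.Agent.H8 (locRing resField rd)
open Cfsg.Agent.H7 (ip)
open scoped ComplexConjugate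

local notation "𝐙" x => Subgroup.centralizer (Singleton.singleton x)

theorem two_mul_dvd_card {H X : Type*} [Group H] [Finite H] [DecidableEq X]
    (ρ : H →* Equiv.Perm X) (φ : X → X) (m : ℕ) (P : Finset X)
    (hP : ∀ a ∈ P, (∀ h, ρ h a ∈ P) ∧ φ a ∈ P ∧ φ (φ a) = a ∧ (∀ h, φ (ρ h a) = ρ h (φ a)) ∧
      (∀ h, ρ h a ≠ φ a) ∧ m ∣ ((MulAction.stabilizer (Equiv.Perm X) a).comap ρ).index) :
    2 * m ∣ P.card := by
  have := Fintype.ofFinite H
  induction P using Finset.strongInduction with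
  | H P ih =>
  rcases P.eq_empty_or_nonempty with rfl | ⟨a, ha⟩
  · simp
  obtain ⟨h1, h2, h3, h4, h5, h6⟩ := hP a ha
  have hi : ∀ h b, ρ h⁻¹ (ρ h b) = b := fun h b => by simp
  have hm : ∀ h k b, ρ h (ρ k b) = ρ (h * k) b := fun h k b => by rw [map_mul]; rfl
  set O := univ.image fun h => ρ h a with hO
  have h7 : m ∣ O.card := by
    letI := MulAction.compHom X ρ
    have := MulAction.index_stabilizer H a
    rw [show MulAction.orbit H a = O by ext; simp [hO, MulAction.mem_orbit_iff]; rfl,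
      Set.ncard_coe_finset] at this
    exact this ▸ h6
  have h8 : O ⊆ P := image_subset_iff.2 fun h _ => h1 h
  have h9 : (O.image φ).card = O.card := card_image_of_injOn fun b hb c hc h => by
    rw [← (hP b (h8 hb)).2.2.1, h, (hP c (h8 hc)).2.2.1]
  have h10 : O ∪ O.image φ ⊆ P :=
    union_subset h8 (image_subset_iff.2 fun b hb => (hP b (h8 hb)).2.1)
  have h11 : ∀ b, b ∈ O ∪ O.image φ ↔ ∃ h, ρ h a = b ∨ ρ h (φ a) = b := fun b => by
    simp [hO, h4, exists_or]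
  have h12 : Disjoint O (O.image φ) := disjoint_left.2 fun b hb hc => by
    simp only [hO, mem_image, mem_univ, true_and, exists_exists_eq_and, h4] at hb hc
    obtain ⟨h, rfl⟩ := hb
    obtain ⟨k, hk⟩ := hc
    exact h5 (k⁻¹ * h) (by rw [← hm, ← hk, hi])
  rw [← card_sdiff_add_card_eq_card h10, card_union_of_disjoint h12, h9, ← two_mul]
  refine dvd_add (ih _ (sdiff_ssubset h10 ⟨a, (h11 a).2 ⟨1, by simp⟩⟩) fun b hb => ?_)
    (mul_dvd_mul_left _ h7)
  obtain ⟨k1, k2⟩ := mem_sdiff.1 hb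
  obtain ⟨k3, k4, k5, k6⟩ := hP b k1
  refine ⟨fun h => mem_sdiff.2 ⟨k3 h, fun k7 => k2 ?_⟩, mem_sdiff.2 ⟨k4, fun k7 => k2 ?_⟩, k5, k6⟩
  · obtain ⟨k, k7⟩ := (h11 _).1 k7
    exact (h11 _).2 ⟨h⁻¹ * k, k7.imp (fun e => by rw [← hm, e, hi]) fun e => by rw [← hm, e, hi]⟩
  · obtain ⟨k, k7⟩ := (h11 _).1 k7
    exact (h11 _).2 ⟨k, k7.symm.imp (fun e => by rw [← k5, ← e, (hP _ h2).2.2.2.1, h3])
      fun e => by rw [← k5, ← e, h4]⟩

variable {G : Type*} [Group G] [Finite G]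

theorem card_pairs_modEq [Fintype G] [DecidableEq G] (S : Subgroup G) [DecidablePred (· ∈ S)]
    [DecidableRel (IsConj : G → G → Prop)] (hS : ∀ a ∈ S, ∀ b ∈ S, a * b = b * a) {x : G}
    (hx : Odd (orderOf x)) (hr : IsConj x x⁻¹) {m : ℕ} (h1 : m ∣ (𝐙 x).index)
    (h2 : m.Coprime S.index) : (𝐙 x).index ≡
      #{q : G × G | IsConj x q.1 ∧ IsConj x q.2 ∧ q.1 * q.2 ∈ S} [MOD 2 * m] := by
  classical
  let ρ : S →* Equiv.Perm (G × G) :=
    (MulAction.toPermHom (MulAut G) (G × G)).comp (MulAut.conj.comp S.subtype)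
  have hρ : ∀ (s : S) (q : G × G), ρ s q = (s * q.1 * (s : G)⁻¹, s * q.2 * (s : G)⁻¹) :=
    fun _ _ => rfl
  have h3 : ∀ q : G × G, IsConj x q.1 →
      m ∣ ((MulAction.stabilizer (Equiv.Perm (G × G)) q).comap ρ).index := fun q hq => by
    refine h2.dvd_of_dvd_mul_right (h1.trans ?_)
    rw [← Subgroup.index_map_subtype, H6.index_centralizer_of_isConj hq]
    refine Subgroup.index_dvd_of_le ?_
    rintro _ ⟨s, hs, rfl⟩
    exact Subgroup.mem_centralizer_singleton_iff.2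
      (mul_inv_eq_iff_eq_mul.1 (congrArg Prod.fst (show ρ s q = q from hs)))
  have h4 : ∀ y, IsConj x y → IsConj x y⁻¹ := fun y hy => hr.trans (by
    obtain ⟨c, rfl⟩ := isConj_iff.1 hy
    exact isConj_iff.2 ⟨c, by group⟩)
  have h5 : ∀ (s y : G), IsConj x y → IsConj x (s * y * s⁻¹) := fun s y hy =>
    hy.trans (isConj_iff.2 ⟨s, rfl⟩)
  have h6 : ∀ (s : S) (y z : G), y * z ∈ S → s * y * (s : G)⁻¹ * (s * z * (s : G)⁻¹) ∈ S :=
    fun s y z h => by rw [conj_mul]; exact mul_mem (mul_mem s.2 h) (inv_mem s.2)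
  set Y : Finset (G × G) := {q | IsConj x q.1 ∧ IsConj x q.2 ∧ q.1 * q.2 ∈ S} with hY
  have h7 := two_mul_dvd_card ρ (fun q => (q.2⁻¹, q.1⁻¹)) m
    {q ∈ Y | ¬ ∃ s ∈ S, q.2 = s * q.1⁻¹ * s⁻¹} fun ⟨y, z⟩ hq => by
      simp only [hY, mem_filter, mem_univ, true_and, hρ] at hq ⊢
      obtain ⟨⟨k1, k2, k3⟩, k4⟩ := hq
      refine ⟨fun s => ⟨⟨h5 _ _ k1, h5 _ _ k2, h6 _ _ _ k3⟩, fun ⟨t, ht, e⟩ => k4
        ⟨s⁻¹ * t * s, mul_mem (mul_mem (inv_mem s.2) ht) s.2, ?_⟩⟩, ⟨⟨h4 _ k2, h4 _ k1,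
        by simpa using inv_mem k3⟩, fun ⟨t, ht, e⟩ => k4 ⟨t⁻¹, inv_mem ht, by rw [e]; group⟩⟩,
        by simp, fun s => by simp [mul_assoc], fun s e => k4 ⟨s, s.2, ?_⟩, h3 _ k1⟩
      · rw [show z = (s : G)⁻¹ * (s * z * (s : G)⁻¹) * s by group, e]
        simp [mul_assoc]
      · rw [← inv_inv z, ← show _ = z⁻¹ from (Prod.ext_iff.1 e).1]
        group
  have h8 := two_mul_dvd_card ρ (fun q => (q.1⁻¹, q.1 * q.2⁻¹ * q.1⁻¹)) m
    {q ∈ Y | (∃ s ∈ S, q.2 = s * q.1⁻¹ * s⁻¹) ∧ q.2 ≠ q.1⁻¹} fun ⟨y, z⟩ hq => by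
      simp only [hY, mem_filter, mem_univ, true_and, hρ] at hq ⊢
      obtain ⟨⟨k1, k2, k3⟩, ⟨t, ht, rfl⟩, k4⟩ := hq
      have k5 : y * t * y⁻¹ ∈ S := by simpa [mul_assoc] using mul_mem k3 ht
      refine ⟨fun s => ⟨⟨h5 _ _ k1, h5 _ _ k2, h6 _ _ _ k3⟩, ⟨s * t * (s : G)⁻¹,
        mul_mem (mul_mem s.2 ht) (inv_mem s.2), by group⟩, fun e => k4 (by
          rwa [conj_inv, mul_left_inj, mul_right_inj] at e)⟩, ⟨⟨h4 _ k1, h5 _ _ (h4 _ k2), by
          simpa [mul_assoc] using inv_mem k3⟩, ⟨_, k5, by group⟩, fun e => k4 ?_⟩, by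
          simp [mul_assoc], fun s => by simp [mul_assoc], fun s e => k4 ?_, h3 _ k1⟩
      · rw [inv_inv, mul_inv_eq_iff_eq_mul, mul_right_inj] at e
        exact inv_eq_iff_eq_inv.1 e
      have k6 : s * y * (s : G)⁻¹ = y⁻¹ := (Prod.ext_iff.1 e).1
      have k7 : Commute t (y ^ 2) := by
        have k8 : s * (y * t * y⁻¹) * (s : G)⁻¹ =
          s * y * (s : G)⁻¹ * (s * t * (s : G)⁻¹) * (s * y * (s : G)⁻¹)⁻¹ := by group
        rw [k6, ← hS _ k5 _ s.2, ← hS _ ht _ s.2, mul_inv_cancel_right, mul_inv_cancel_right,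
          inv_inv] at k8
        calc t * y ^ 2 = y * (y⁻¹ * t * y) * y := by simp [sq, mul_assoc]
          _ = y ^ 2 * t := by rw [← k8]; simp [sq, mul_assoc]
      obtain ⟨n, hn⟩ := show Odd (orderOf y) by
        obtain ⟨c, rfl⟩ := isConj_iff.1 k1
        exact (MulAut.conj c).orderOf_eq x ▸ hx
      have k8 : Commute t y := by
        have := k7.pow_right (n + 1)
        rwa [← pow_mul, show 2 * (n + 1) = 2 * n + 1 + 1 by ring, ← hn, pow_add, pow_orderOf_eq_one, one_mul,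
          pow_one] at this
      rw [k8.inv_right.eq, mul_inv_cancel_right]
  have h9 : #{q ∈ Y | (∃ s ∈ S, q.2 = s * q.1⁻¹ * s⁻¹) ∧ ¬ q.2 ≠ q.1⁻¹} = (𝐙 x).index := by
    rw [← H6.card_isConj_eq_index, Nat.subtype_card (univ.filter (IsConj x)) (by simp)]
    refine card_nbij' (·.1) (fun y => (y, y⁻¹)) (fun q hq => ?_) (fun y hy => ?_) (fun q hq => ?_)
      fun _ _ => rfl
    · simp only [hY, coe_filter, mem_filter, mem_univ, true_and, Set.mem_setOf_eq] at hq ⊢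
      exact hq.1.1
    · simp only [hY, coe_filter, mem_filter, mem_univ, true_and, Set.mem_setOf_eq] at hy ⊢
      exact ⟨⟨hy, h4 _ hy, by simp⟩, ⟨1, one_mem _, by simp⟩, by simp⟩
    · simp only [hY, coe_filter, not_not, Set.mem_setOf_eq] at hq
      exact Prod.ext rfl hq.2.2.symm
  rw [← card_filter_add_card_filter_not (s := Y) fun q => ∃ s ∈ S, q.2 = s * q.1⁻¹ * s⁻¹,
    ← card_filter_add_card_filter_not (s := Y.filter _) fun q => q.2 ≠ q.1⁻¹, filter_filter _ _ Y,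
    filter_filter _ _ Y, h9, add_comm #_, add_assoc]
  exact (Nat.modEq_iff_dvd' (Nat.le_add_right _ _)).2 (by simpa using dvd_add h8 h7)

/-- `k` induces the Galois automorphism fixing the roots of unity of `2`-power order and inverting
those of odd order. -/
structure SigExp (G : Type*) [Group G] (k : ℕ) : Prop where
  two : ∀ g : G, (∃ j : ℕ, orderOf g = 2 ^ j) → g ^ k = g
  odd : ∀ g : G, Odd (orderOf g) → g ^ k = g⁻¹

namespace SigExp

variable {k : ℕ} (h : SigExp G k)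
include h

theorem coprime : k.Coprime (Nat.card G) := Nat.coprime_of_dvd fun q hq h1 h2 => by
  have := Fact.mk hq
  obtain ⟨g, hg⟩ := exists_prime_orderOf_dvd_card' q h2
  have h3 : g ^ k = 1 := orderOf_dvd_iff_pow_eq_one.1 (hg ▸ h1)
  have h4 : g ≠ 1 := fun e => hq.ne_one (by rw [← hg, e, orderOf_one])
  rcases hq.eq_two_or_odd' with rfl | h5
  · exact h4 ((h.two g ⟨1, hg⟩).symm.trans h3)
  · exact h4 (inv_eq_one.1 ((h.odd g (hg ▸ h5)).symm.trans h3))

theorem pow_pow (g : G) : (g ^ k) ^ k = g := by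
  have h1 := H8.commute_pPart_pReg (p := 2) g
  have h2 := Nat.two_dvd_ne_zero.1 (H8.not_dvd_orderOf_pReg (p := 2) g)
  rw [← H8.pPart_mul_pReg 2 g, h1.mul_pow, h.two _ (H8.orderOf_pPart g), h.odd _ (Nat.odd_iff.2 h2),
    h1.inv_right.mul_pow, h.two _ (H8.orderOf_pPart g), inv_pow, h.odd _ (Nat.odd_iff.2 h2), inv_inv]

/-- The Galois conjugate character. -/
def sg (χ : IrrCharacter G) : IrrCharacter G := ⟨fun g => χ.1 (g ^ k), H6.isIrr_comp_pow χ.2 h.coprime⟩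

theorem sg_sg (χ : IrrCharacter G) : h.sg (h.sg χ) = χ :=
  Subtype.ext (funext fun g => congrArg χ.1 (h.pow_pow g))

theorem deg_sg (χ : IrrCharacter G) : charDegree (h.sg χ).1 = charDegree χ.1 := by
  simp [sg, charDegree]

theorem exists_principal {M : Ideal AlgInt} [M.IsMaximal] [hM : PMod M 2] (h2 : 2 ∣ Nat.card G) :
    ∃ χ ∈ principalBlock M G, (χ : G → ℂ) ≠ (fun _ => 1) ∧ h.sg χ = χ := by
  classical
  have := Fintype.ofFinite G
  by_contra! h1
  have h3 := factorization_sum_sq (p := 2) (H8.isPBlock_principalBlock (M := M) (G := G))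
  have h4 : blockDefect 2 (principalBlock M G) ≤ (Nat.card G).factorization 2 := by
    rw [H8.blockDefect_eq]; omega
  have h5 := Nat.prime_two.factorization_pos_of_dvd Nat.card_pos.ne' h2
  have h6 := (ZMod.natCast_eq_zero_iff _ 2).2 (Nat.dvd_of_factorization_pos (by omega) :
    2 ∣ ∑ χ ∈ bs (principalBlock M G), charDegree (χ : G → ℂ) ^ 2)
  have h7 : ∀ χ ∈ principalBlock M G, h.sg χ ∈ principalBlock M G := fun χ hχ => by
    rw [H8.mem_principal_iff_sum hM.out] at hχ ⊢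
    rwa [sum_nbij' (t := {x | ¬ 2 ∣ orderOf x}) (f := (h.sg χ).1) (g := χ.1) (·⁻¹) (·⁻¹) (by simp) (by simp)
      (by simp) (by simp) fun x hx => congrArg χ.1 (h.odd x (by simpa [Nat.odd_iff] using hx))]
  have h8 : h.sg (H8.irrOne G) = H8.irrOne G := rfl
  rw [← add_sum_erase _ _ (mem_bs.2 H8.irrOne_mem_principalBlock), Nat.cast_add, Nat.cast_sum,
    sum_involution (fun χ _ => h.sg χ) (fun χ _ => by
      rw [h.deg_sg, ← two_mul]; exact mul_eq_zero_of_left rfl _)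
    (fun χ hχ _ => h1 χ (mem_bs.1 (mem_erase.1 hχ).2) fun e => (mem_erase.1 hχ).1 (Subtype.ext e))
    (fun χ hχ => mem_erase.2 ⟨fun e => (mem_erase.1 hχ).1 (by rw [← h.sg_sg χ, e, h8]),
      mem_bs.2 (h7 χ (mem_bs.1 (mem_erase.1 hχ).2))⟩) fun χ _ => h.sg_sg χ] at h6
  simp [charDegree, H8.irrOne] at h6

theorem exists_even {M : Ideal AlgInt} [M.IsMaximal] [hM : PMod M 2] (S : Sylow 2 G)
    (hS : ∀ a ∈ (S : Subgroup G), ∀ b ∈ (S : Subgroup G), a * b = b * a) {x : G}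
    (hx : Odd (orderOf x)) (hr : IsConj x x⁻¹) (h2 : 2 ∣ (𝐙 x).index) :
    ∃ χ : IrrCharacter G, Even (charDegree χ.1) ∧ h.sg χ = χ := by
  classical
  have := Fintype.ofFinite G
  have := H8.finite_irr (G := G)
  have := Fintype.ofFinite (IrrCharacter G)
  have := H8.charP_resField hM.out
  by_contra! h1
  have h3 := (𝐙 x).index_ne_zero_of_finite
  obtain ⟨v, u, hu, h4⟩ := Nat.exists_eq_two_pow_mul_odd h3
  have h5 : ¬ 2 ∣ (S : Subgroup G).index := S.not_dvd_index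
  have h6 := card_pairs_modEq S hS hx hr (m := 2 ^ v) ⟨u, h4⟩
    (((Nat.Prime.coprime_iff_not_dvd Nat.prime_two).2 h5).pow_left v)
  set Y : Finset (G × G) := {q | IsConj x q.1 ∧ IsConj x q.2 ∧ q.1 * q.2 ∈ (S : Subgroup G)}
  obtain ⟨w, hw⟩ : 2 ^ v ∣ #Y := (h6.of_mul_left 2).dvd_iff dvd_rfl |>.1 ⟨u, h4⟩
  rw [h4, hw, mul_comm 2] at h6
  have h7 := Nat.ModEq.mul_left_cancel' (by positivity) h6
  choose n hn using fun χ : IrrCharacter G =>
    H7.ip_char_nat H7.char_one (H7.char_comp (S : Subgroup G).subtype (H8.irr_isChar χ))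
  have h8 : (((S : Subgroup G).index * w : ℕ) : ℂ) =
      u * ∑ χ : IrrCharacter G, n χ * χ.1 x * centralChar χ.1 x := by
    have k1 : (#Y : ℂ) = ∑ c : S, (Nat.card {q : G × G // IsConj x q.1 ∧ IsConj x q.2 ∧
        q.1 * q.2 = c} : ℂ) := by
      rw [card_eq_sum_card_fiberwise (f := fun q => q.1 * q.2) (t := {c | c ∈ (S : Subgroup G)})
        fun q hq => mem_coe.2 (mem_filter.2 ⟨mem_univ _, (mem_filter.1 hq).2.2.2⟩), Nat.cast_sum,
        sum_subtype (p := (· ∈ (S : Subgroup G))) _ (by simp)]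
      refine sum_congr rfl fun c _ => congrArg _ (Nat.subtype_card _ fun q => ?_).symm
      simp only [Y, mem_filter, mem_univ, true_and, and_assoc]
      exact and_congr_right fun _ => and_congr_right fun _ => and_iff_right_of_imp fun e => e ▸ c.2
    have k2 := (S : Subgroup G).card_mul_index
    have k3 := (𝐙 x).card_mul_index
    have k4 : (Nat.card (S : Subgroup G) : ℂ) ≠ 0 := by simp
    have k5 : (Nat.card (𝐙 x) : ℂ) ≠ 0 := by simp
    have k6 : ∀ χ : IrrCharacter G, ∑ c : S, conj (χ.1 c) = Nat.card (S : Subgroup G) * n χ :=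
      fun χ => by rw [← hn, H7.ip_def, mul_inv_cancel_left₀ k4]; simp
    simp only [H6.card_class_mul, ← mul_sum] at k1
    rw [sum_comm, sum_congr rfl (g := fun χ => (Nat.card (S : Subgroup G) : ℂ) / (𝐙 x).index *
      (n χ * χ.1 x * centralChar χ.1 x)) fun χ _ => by
        rw [← sum_div, ← mul_sum, k6, centralChar]; field_simp, ← mul_sum, hw, ← k3] at k1
    have k7 : ((S : Subgroup G).index : ℂ) = Nat.card (𝐙 x) * (𝐙 x).index / Nat.card (S : Subgroup G) := by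
      rw [eq_div_iff k4, mul_comm]; exact_mod_cast k2.trans k3.symm
    rw [Nat.cast_mul, k7, ← mul_right_inj' (show (2 : ℂ) ^ v ≠ 0 by simp), mul_left_comm,
      show (2 : ℂ) ^ v * w = _ by exact_mod_cast k1, ← mul_assoc (2 ^ v),
      show (2 : ℂ) ^ v * u = (𝐙 x).index by exact_mod_cast h4.symm]
    push_cast
    field_simp
  have h9 : ∀ χ : IrrCharacter G, n χ * χ.1 x ∈ locRing M := fun χ => mul_mem (natCast_mem _ _)
    (H8.mem_locRing_of_isIntegral M (H8.char_isIntegral (H8.irr_isChar χ) x))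
  have h10 := fun χ : IrrCharacter G => mul_mem (h9 χ) (H8.centralChar_mem_locRing (M := M) χ x)
  have h11 := congrArg (rd M) h8
  rw [H8.rd_mul (natCast_mem _ _) (sum_mem fun χ _ => h10 χ), H8.rd_sum _ _ fun χ _ => h10 χ,
    sum_involution (fun χ _ => h.sg χ) (fun χ _ => ?_) (fun χ _ h11 e => h11 ?_) (by simp)
      fun χ _ => h.sg_sg χ, mul_zero, H8.rd_natCast_eq_zero_iff hM.out] at h11
  · rcases (Nat.Prime.dvd_mul Nat.prime_two).1 h11 with h12 | h12
    · exact h5 h12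
    · exact hu.not_two_dvd_nat ((h7.dvd_iff dvd_rfl).2 h12)
  · have k1 : (h.sg χ).1 x = χ.1 x := by
      obtain ⟨c, hc⟩ := isConj_iff.1 hr
      exact (congrArg χ.1 ((h.odd x hx).trans hc.symm)).trans (H8.irr_isClassFunction χ _ _)
    have k2 : (n (h.sg χ) : ℂ) = n χ := by
      rw [← hn, ← hn]
      exact congrArg _ (funext fun s => congrArg χ.1 (h.two _ (H8.pElt_of_mem S.isPGroup' s.2)))
    rw [k2, centralChar, centralChar, k1, show (h.sg χ).1 1 = χ.1 1 by simp [sg],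
      CharTwo.add_self_eq_zero]
  · rw [H8.rd_mul (h9 χ) (H8.centralChar_mem_locRing χ x), H8.rd_centralChar hM.out
      (fun e' => h1 χ (even_iff_two_dvd.2 e') e), (CharP.cast_eq_zero_iff _ 2 _).2 h2]
    simp

end SigExp

end Cfsg.Agent.H9
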