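import Mathlib
import Cfsg.Agent.FT.BG01
import Cfsg.Agent.H1.PLow
import Cfsg.Agent.H7.PSB
import Cfsg.Agent.H7.M9

/-!
Character degrees and two primes in groups that are `p`-solvable and `q`-solvable.
-/

set_option autoImplicit false
set_option linter.unusedSectionVars false
set_option linter.unusedVariables false

namespace Cfsg.Agent.H9.TP

open Cfsg Subgroup Cfsg.Agent.FT Cfsg.Agent.H7

universe u
variable {G : Type u} [Group G] [Finite G] {p q : ℕ} [hp : Fact p.Prime] [hq : Fact q.Prime] {K P Q R U : Subgroup G}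

/-- irreducible characters over `K` of degree prime to `p` have degree prime to `q` -/
def Hyp (p q : ℕ) (K : Subgroup G) : Prop :=
  ∀ χ, IsIrrCharacter G χ → K ≤ H6.charKer χ → ¬ p ∣ charDegree χ → ¬ q ∣ charDegree χ

theorem Hyp.map {G' : Type*} [Group G'] [Finite G'] (h : Hyp p q K) (f : G →* G') (hf : Function.Surjective f)
    {K' : Subgroup G'} (hK : K.map f ≤ K') : Hyp p q K' := fun χ hχ h1 h2 => by
  have := h _ (irr_comp_surjective f hf hχ) (fun x hx y => by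
    show χ (f (x * y)) = _
    rw [map_mul, h1 (hK (mem_map_of_mem f hx))]) (by rwa [deg_comp])
  rwa [deg_comp] at this

theorem exo (hU : ¬ p ∣ U.index) {ψ : U → ℂ} (hψ : IsIrrCharacter U ψ) (h : ¬ p ∣ charDegree ψ) :
    ∃ χ, IsIrrCharacter G χ ∧ ¬ p ∣ charDegree χ ∧ ip (fun x : U => χ x) ψ ≠ 0 := by
  obtain ⟨χ, h1, h2, h3⟩ := m9_exists_constituent (p := p) (char_ind U.subtype (irr_char hψ)) (by
    rw [deg_ind U.subtype_injective (irr_char hψ), range_subtype, hp.out.dvd_mul]; tauto)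
  rw [ip_ind_left _ _ (irr_cf h1), ip_ne_zero_comm] at h2
  exact ⟨χ, h1, h3, h2⟩

theorem inert (h : Hyp p q (⊥ : Subgroup G)) [R.Normal] (hR : R ≤ U) (hU : ¬ p ∣ U.index) {ψ : U → ℂ}
    (hψ : IsIrrCharacter U ψ) (hd : ¬ p ∣ charDegree ψ) {θ : R → ℂ} (hθ : IsIrrCharacter R θ)
    (e : ∀ n, ψ (inclusion hR n) = θ n) : ¬ q ∣ ((isNE_subtype R).inertia θ).index := by
  obtain ⟨χ, h1, h2, h3⟩ := exo hU hψ hd
  have := (isNE_subtype R).degree_dvd_of_under h1 hθ (ip_comp_comp_ne_zero U.subtype (inclusion hR) (irr_char h1) hψ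
    (irr_char hθ) h3 (by rw [funext e, ip_irr_self hθ]; exact one_ne_zero)) (char_one_eq (irr_char h1))
    (char_one_eq (irr_char hθ))
  exact fun h' => h χ h1 bot_le h2 ((h'.mul_right _).trans this)

theorem exR (h1 : IsPSolvable p G) (h2 : IsPSolvable q G) (h : (⊤ : Subgroup G) ≠ ⊥) :
    ∃ R : Subgroup G, R.Normal ∧ R ≠ ⊥ ∧ (PGrp p R ∨ PGrp q R ∨ (PiGrp {p}ᶜ R ∧ PiGrp {q}ᶜ R)) := by
  by_cases a : O[{p}]((⊤ : Subgroup G)) = ⊥
  swap
  · exact ⟨_, nml_top_iff.1 (pcore_nml _ _), a, .inl (pcore_pi _ _)⟩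
  have b : O[{p}ᶜ]((⊤ : Subgroup G)) ≠ ⊥ := fun b => h ((H1.psol_top hp.out h1).core hp.out a b)
  by_cases c : O[{q}](O[{p}ᶜ]((⊤ : Subgroup G))) = ⊥
  swap
  · exact ⟨_, nml_top_iff.1 ((pcore_char _ _).nml_trans (pcore_nml _ _)), c, .inr (.inl (pcore_pi _ _))⟩
  exact ⟨_, nml_top_iff.1 ((pcore_char _ _).nml_trans (pcore_nml _ _)),
    fun d => b (((H1.psol_top hq.out h2).mono hq.out le_top).core hq.out c d),
    .inr (.inr ⟨(pcore_pi _ _).mono (pcore_le _ _), pcore_pi _ _⟩)⟩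

theorem syl_map (h : Syl p P ⊤) (R : Subgroup G) [R.Normal] : Syl p (P.map (QuotientGroup.mk' R)) ⊤ := by
  have := h.map (QuotientGroup.mk' R)
  rwa [map_top_of_surjective _ (QuotientGroup.mk'_surjective R)] at this

theorem comm_le [R.Normal] (h : P.map (QuotientGroup.mk' R) ≤ C(Q.map (QuotientGroup.mk' R))) : ⁅P, Q⁆ ≤ R := by
  rw [← comm_eq_bot, ← map_commutator, Subgroup.map_eq_bot_iff, QuotientGroup.ker_mk'] at h
  exact h

theorem card_lt' (R : Subgroup G) [R.Normal] (h : R ≠ ⊥) : Nat.card (G ⧸ R) < Nat.card G := by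
  rw [card_eq_card_quotient_mul_card_subgroup R]
  exact lt_mul_of_one_lt_right Nat.card_pos (one_lt_card h)

theorem nml_le [R.Normal] (hR : PGrp p R) (hU : ¬ p ∣ U.index) : R ≤ U := by
  obtain ⟨T, hT⟩ := exists_syl p U
  have : Syl p T ⊤ := syl_of_not_dvd le_top hT.pi (by
    rw [← relIndex_mul hT.le le_top, hp.out.dvd_mul, relIndex_top_right]
    exact not_or.2 ⟨hT.not_dvd hp.out, hU⟩)
  exact ((pcore_max hR (nml_top_iff.2 inferInstance)).trans this.pcore_le).trans hT.le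

theorem gs (hpq : p ≠ q) (n : ℕ) : ∀ {G : Type u} [Group G] [Finite G], Nat.card G < n → IsPSolvable p G →
    IsPSolvable q G → Hyp p q (⊥ : Subgroup G) → ∀ P Q : Subgroup G, Syl p P ⊤ → Syl q Q ⊤ → Q ≤ N(P) →
    P ≤ C(Q) ∧ ∀ U, P ≤ U → ¬ q ∣ U.index → Q ≤ U := by
  induction n with
  | zero => intro G _ _ h; omega
  | succ n ih =>
  intro G _ _ hn s1 s2 h P Q hP hQ nP
  by_cases G1 : (⊤ : Subgroup G) = ⊥
  · exact ⟨(le_top.trans G1.le).trans bot_le, fun U _ _ => (le_top.trans G1.le).trans bot_le⟩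
  obtain ⟨R, _, R1, hR⟩ := exR s1 s2 G1
  have nR : ∀ X : Subgroup G, X ≤ N(R) := fun X => le_top.trans (nml_top_iff.2 inferInstance).nrm
  have := card_lt' R R1
  have hf := QuotientGroup.mk'_surjective R
  obtain ⟨h1, h2⟩ := ih (G := G ⧸ R) (by omega) (H1.isPSolvable_quotient hp.out s1 R)
    (H1.isPSolvable_quotient hq.out s2 R) (h.map _ hf (Subgroup.map_bot _).le) _ _ (syl_map hP R) (syl_map hQ R) (map_norms _ nP)
  replace h1 := comm_le h1
  replace h2 : ∀ U, P ≤ U → ¬ q ∣ U.index → Q ≤ R ⊔ U := fun U a b => by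
    have := h2 _ (map_mono a) fun c => b (c.trans (index_map_dvd U hf))
    rwa [map_le_iff_le_comap, comap_map_eq, QuotientGroup.ker_mk', sup_comm] at this
  have iP : ¬ p ∣ P.index := relIndex_top_right P ▸ hP.not_dvd hp.out
  have cP : PiGrp {p}ᶜ R → P ≤ C(Q) := fun h =>
    comm_eq_bot.1 (eq_bot_of_le (le_inf (comm_le_left nP) h1) (hP.pi.inf_eq_bot h))
  rcases hR with hR | hR | ⟨hR, hR'⟩
  · have hRP := nml_le hR iP
    replace h2 : ∀ U, P ≤ U → ¬ q ∣ U.index → Q ≤ U := fun U a b => (h2 U a b).trans (sup_le (hRP.trans a) le_rfl)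
    have hc : Cop P Q := hP.pi.cop_of_ne hQ.pi hpq
    refine ⟨centsC (coprime_nil_cent_der hP.pi.nil hc ?_), h2⟩
    rw [← coprime_commGid nP hc, commC]
    refine (commSS le_rfl h1).trans (commutator_le.2 fun y hy r hr => ?_)
    have a := conj_mem (nR Q hy) hr
    rw [der_eq_map]
    refine ⟨⟨y * r * y⁻¹, hRP a⟩ * ⟨r, hRP hr⟩⁻¹, H6.mem_of_forall_irr_charKer _ fun χ hχ hk => ?_, rfl⟩
    have e := (H6.degree_eq_one_iff_commutator_le hχ).2 hk
    have hθ := irr_of_char_one (char_comp (inclusion hRP) (irr_char hχ)) (by rw [map_one, e])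
    have := h2 _ (fun x hx => (isNE_subtype R).mem_inertia'.2 fun n => (congrArg χ (Subtype.ext
      ((isNE_subtype R).cj_spec x n))).trans (irr_cf hχ (inclusion hRP n) ⟨x, hx⟩)) (inert h hRP iP hχ (by
        rw [(deg_eq_one_iff hχ).2 hk]; exact hp.out.not_dvd_one) hθ fun _ => rfl) hy
    have := (isNE_subtype R).mem_inertia'.1 this ⟨r, hr⟩
    rw [H6.mem_charKer_iff_irr hχ, linear_map_mul (irr_char hχ) e, ← mul_inv_cancel (⟨r, hRP hr⟩ : P),
      linear_map_mul (irr_char hχ) e]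
    exact congrArg (· * _) ((congrArg χ (Subtype.ext ((isNE_subtype R).cj_spec y ⟨r, hr⟩).symm)).trans this)
  · exact ⟨cP (hR.p' hpq.symm), fun U a b => (h2 U a b).trans (sup_le (nml_le hR b) le_rfl)⟩
  have hPQ := cP hR
  have hA : CopAct P R (R ⊓ C(P)) := ⟨nrm_of_le_normalizer (nR P), hR.cop' hP.pi, rfl⟩
  have nD : Q ≤ N(R ⊓ C(P)) := norms_subcent (nR Q) nP
  have hD : R ⊓ C(P) ≤ C(Q) := le_centralizer_of_sInv (nrm_of_le_normalizer nD) (hQ.pi.cop (hR'.mono inf_le_left))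
    (.inl hQ.pi.nil.sol) fun β hβ => (sInv_iff (nrm_of_le_normalizer nD)).2 fun y hy => by
      obtain ⟨φ, hφ, hi, e⟩ := (hA.glP hp.out hP.pi.isPGroup).surj β hβ
      have a : R ⊔ P ≤ (isNE_subtype R).inertia φ := sup_le
        ((range_subtype R).ge.trans ((isNE_subtype R).range_le_inertia (irr_cf hφ)))
        fun x hx => (isNE_subtype R).mem_inertia'.2 fun n => hi x hx n _ ((isNE_subtype R).cj_spec x n)
      have hk := isNE_inclusion_of_normal (le_sup_left : R ≤ R ⊔ P)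
      have hd := irr_degree_dvd_card hφ
      obtain ⟨ψ, hψ, e', -⟩ := hk.exists_ext_of_hall (by
          rw [inclusion_range]
          exact ((hR.cop' hP.pi).symm.coprime_dvd_left ((relIndex_sup_norm (nR P)).dvd.trans (relIndex_dvd _ _)))) hφ
        (hk.inv_iff_inertia.2 (by
          rw [(isNE_subtype R).inertia_comp hk (ι := (R ⊔ P).subtype) fun _ => rfl]
          exact eq_top_iff.2 fun x _ => a x.2)) (char_one_eq (irr_char hφ)) hd
      have b := (h2 _ (le_sup_right.trans a) (inert h le_sup_left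
        (fun c => iP (c.trans (index_dvd_of_le le_sup_right))) hψ (by
          rw [← deg_comp (inclusion le_sup_left), funext e']
          exact fun c => (p'grp_iff hp.out).1 hR (c.trans hd)) hφ e')).trans (sup_le (le_sup_left.trans a) le_rfl) hy
      have c := e.comp (cjHom y (nrm_of_le_normalizer nD y hy))
      refine PCong.unique hp.out ?_ e (irr_cjHom _ _ hβ) hβ
      convert c using 2 with d
      exact ((isNE_subtype R).mem_inertia'.1 b _).symm.trans (congrArg φ (Subtype.ext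
        ((isNE_subtype R).cj_spec y _)))
  refine ⟨hPQ, fun U a b => ?_⟩
  have m := (mulEq_sup (nR U)).inf_left (le_sup_left : R ≤ R ⊔ Q)
  rw [inf_eq_left.2 (sup_le le_sup_left (h2 U a b))] at m
  have nL : P ≤ N(R ⊔ Q) := normsY (nR P) (cents_norm hPQ)
  have cL : Cop (R ⊔ Q) P := (hR.sup (hQ.pi.p' hpq.symm) (nR Q)).cop' hP.pi
  obtain ⟨T, hT, nT⟩ := coprime_Sylow_exists q (normsI nL (norms_of_le a)) (cL.mono_left inf_le_left)
    (.inr hP.pi.nil.sol)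
  have hT' : Syl q T (R ⊔ Q) := syl_of_not_dvd (hT.le.trans inf_le_left) hT.pi (by
    rw [← relIndex_mul hT.le inf_le_left, hq.out.dvd_mul, m.relIndex_right]
    exact not_or.2 ⟨hT.not_dvd hq.out, fun c => (p'grp_iff hq.out).1 hR' (c.trans (relIndex_dvd _ _))⟩)
  obtain ⟨c, hc, e⟩ := coprime_Sylow_trans nL cL (.inr hP.pi.nil.sol) (hQ.subl le_sup_right le_top) (cents_norm hPQ) hT' nT
  obtain ⟨r, hr, y, hy, rfl⟩ := (mem_sup_norm (nR Q)).1 hc.1
  rw [cj_of_mem_nrm (mul_mem (cen_le_nrm Q (hD ⟨hr, (mul_mem_cancel_right (centsC hPQ hy)).1 hc.2⟩)) (le_nrm Q hy))] at e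
  exact e.ge.trans (hT.le.trans inf_le_right)

theorem lift (R : Subgroup G) [R.Normal] {S : Subgroup (G ⧸ R)} (h : Syl p S ⊤) :
    ∃ P, Syl p P ⊤ ∧ P.map (QuotientGroup.mk' R) = S := by
  obtain ⟨P, hP⟩ := exists_syl p (⊤ : Subgroup G)
  obtain ⟨g, -, e⟩ := (syl_map hP R).syl_trans h
  obtain ⟨g, rfl⟩ := QuotientGroup.mk'_surjective R g
  exact ⟨_, hP.cj_mem (mem_top g), by rw [map_cj, e]⟩

theorem gs' (hpq : p ≠ q) (s1 : IsPSolvable p G) (s2 : IsPSolvable q G) (h : Hyp p q O[{p}ᶜ]((⊤ : Subgroup G)))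
    (hP : Syl p P ⊤) (hQ : Syl q Q ⊤) (nP : Q ≤ N(P)) : P ≤ C(Q) := by
  haveI := nml_top_iff.1 (pcore_nml {p}ᶜ (⊤ : Subgroup G))
  have := comm_le (gs hpq _ (Nat.lt_succ_self _) (H1.isPSolvable_quotient hp.out s1 _)
    (H1.isPSolvable_quotient hq.out s2 _) (h.map _ (QuotientGroup.mk'_surjective _) ((Subgroup.map_eq_bot_iff _).2
      (QuotientGroup.ker_mk' _).ge).le) _ _ (syl_map hP _) (syl_map hQ _) (map_norms _ nP)).1
  exact comm_eq_bot.1 (eq_bot_of_le (le_inf (comm_le_left nP) this) (hP.pi.inf_eq_bot (pcore_pi _ _)))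

theorem mn (hpq : p ≠ q) (n : ℕ) : ∀ {G : Type u} [Group G] [Finite G], Nat.card G < n → IsPSolvable p G →
    IsPSolvable q G → Hyp p q O[{p}ᶜ]((⊤ : Subgroup G)) → Hyp q p O[{q}ᶜ]((⊤ : Subgroup G)) →
    ∃ P Q : Subgroup G, Syl p P ⊤ ∧ Syl q Q ⊤ ∧ P ≤ C(Q) := by
  induction n with
  | zero => intro G _ _ h; omega
  | succ n ih =>
  intro G _ _ hn s1 s2 h h'
  by_cases G1 : (⊤ : Subgroup G) = ⊥
  · obtain ⟨P, hP⟩ := exists_syl p (⊤ : Subgroup G)
    obtain ⟨Q, hQ⟩ := exists_syl q (⊤ : Subgroup G)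
    exact ⟨P, Q, hP, hQ, (le_top.trans G1.le).trans bot_le⟩
  obtain ⟨R, _, R1, hR⟩ := exR s1 s2 G1
  have nR : ∀ X : Subgroup G, X ≤ N(R) := fun X => le_top.trans (nml_top_iff.2 inferInstance).nrm
  have := card_lt' R R1
  have hf := QuotientGroup.mk'_surjective R
  obtain ⟨P', Q', hP0, hQ0, h1⟩ := ih (G := G ⧸ R) (by omega) (H1.isPSolvable_quotient hp.out s1 R)
    (H1.isPSolvable_quotient hq.out s2 R) (h.map _ hf ((map_pcore_le _ _ _).trans (by rw [map_top_of_surjective _ hf])))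
    (h'.map _ hf ((map_pcore_le _ _ _).trans (by rw [map_top_of_surjective _ hf])))
  obtain ⟨P, hP, rfl⟩ := lift R hP0
  obtain ⟨Q, hQ, rfl⟩ := lift R hQ0
  replace h1 := comm_le h1
  rcases hR with hR | hR | ⟨hR, hR'⟩
  · exact ⟨P, Q, hP, hQ, gs' hpq s1 s2 h hP hQ (norms_of_comm_le (h1.trans
      (nml_le hR (relIndex_top_right P ▸ hP.not_dvd hp.out))))⟩
  · exact ⟨P, Q, hP, hQ, centsC (gs' hpq.symm s2 s1 h' hQ hP (norms_of_comm_le ((commC Q P).le.trans (h1.trans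
      (nml_le hR (relIndex_top_right Q ▸ hQ.not_dvd hq.out))))))⟩
  have h2 : ⁅R ⊔ Q, P⁆ ≤ R := comm_sup_le (nR _) (comm_le_left (nR P)) ((commC Q P).le.trans h1)
  obtain ⟨T, hT, nT⟩ := coprime_Sylow_exists q (norms_of_comm_le (h2.trans le_sup_left))
    ((hR.sup (hQ.pi.p' hpq.symm) (nR Q)).cop' hP.pi) (.inr hP.pi.nil.sol)
  refine ⟨P, T, hP, syl_of_not_dvd le_top hT.pi ?_, comm_eq_bot'.1 (eq_bot_of_le (le_inf (comm_le_left nT)
    ((commSS hT.le le_rfl).trans h2)) (hT.pi.inf_eq_bot hR'))⟩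
  rw [← relIndex_mul hT.le le_top, hq.out.dvd_mul]
  exact not_or.2 ⟨hT.not_dvd hq.out, fun c => hQ.not_dvd hq.out (c.trans (FT.relIndex_dvd_of_le (le_sup_right : Q ≤ R ⊔ Q) ⊤))⟩

theorem le_core (hpq : p ≠ q) (s1 : IsPSolvable p G) (hP : Syl p P ⊤) (hQ : PGrp q Q) (h : P ≤ C(Q)) :
    Q ≤ O[{p}ᶜ]((⊤ : Subgroup G)) := by
  haveI := nml_top_iff.1 (pcore_nml {p}ᶜ (⊤ : Subgroup G))
  have h1 := (H1.psol_top hp.out s1).quo (K := O[{p}ᶜ]((⊤ : Subgroup G))) hp.out (pcore_nml _ _).nrm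
  have h2 := h1.cen hp.out (.inr rfl) (pcore_quo_pcore _ _)
  rw [compl_compl] at h2
  have h3 := (hP.quo (pcore_nml {p}ᶜ ⊤).nrm).pcore_le
  rw [← quo_eq_bot (le_top.trans (pcore_nml _ _).nrm)]
  exact ((pcore_pi _ _).mono ((le_inf (quo_mono _ le_top) (centsS h3 (quo_cents _ (centsC h)))).trans h2)).eq_bot
    ((hQ.p' hpq.symm).quo _)

theorem Hyp.of_le (h : Syl q Q ⊤) [K.Normal] (hK : Q ≤ K) : Hyp p q K := fun χ hχ h1 _ h2 => by
  obtain ⟨ψ, hψ, rfl⟩ := H6.exists_irr_quotient K hχ h1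
  have := irr_degree_dvd_card hψ
  rw [← deg_comp (QuotientGroup.mk' K)] at this
  exact h.not_dvd hq.out ((h2.trans this).trans ((index_dvd_of_le hK).trans (relIndex_top_right Q).symm.dvd))

variable {M : Ideal AlgInt}

theorem hyp_iff (hM : IsPModular p M) (s : IsPSolvable p G) : Hyp p q O[{p}ᶜ]((⊤ : Subgroup G)) ↔
    ∀ χ : IrrCharacter G, χ ∈ principalBlock M G → ¬ p ∣ charDegree (χ : G → ℂ) → ¬ q ∣ charDegree (χ : G → ℂ) := by
  haveI := hM.2.1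
  simp only [mem_principal_iff_of_psolv hM s, pcore_top, piCore_compl_singleton hp.out]
  exact ⟨fun h χ => h _ χ.2, fun h χ hχ => h ⟨χ, hχ⟩⟩

theorem main (hpq : p ≠ q) (s1 : IsPSolvable p G) (s2 : IsPSolvable q G) :
    Hyp p q O[{p}ᶜ]((⊤ : Subgroup G)) ∧ Hyp q p O[{q}ᶜ]((⊤ : Subgroup G)) ↔
      ∃ P Q : Subgroup G, Syl p P ⊤ ∧ Syl q Q ⊤ ∧ P ≤ C(Q) := by
  refine ⟨fun h => mn hpq _ (Nat.lt_succ_self _) s1 s2 h.1 h.2, fun ⟨P, Q, hP, hQ, h⟩ => ?_⟩
  haveI := nml_top_iff.1 (pcore_nml {p}ᶜ (⊤ : Subgroup G))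
  haveI := nml_top_iff.1 (pcore_nml {q}ᶜ (⊤ : Subgroup G))
  exact ⟨.of_le hQ (le_core hpq s1 hP hQ.pi h), .of_le hP (le_core hpq.symm s2 hQ hP.pi (centsC h))⟩

theorem exists_ker (hP : Syl p P ⊤) (h1 : P ≠ ⊥) [K.Normal] (hK : PiGrp {p}ᶜ K) :
    ∃ χ, IsIrrCharacter G χ ∧ K ≤ H6.charKer χ ∧ ¬ p ∣ charDegree χ ∧ ¬ P ≤ H6.charKer χ := by
  have hS := syl_map hP K
  obtain ⟨S, e⟩ : ∃ S, S = P.map (QuotientGroup.mk' K) := ⟨_, rfl⟩
  rw [← e] at hS
  have S1 : S ≠ ⊥ := fun h => h1 (eq_bot_of_le (le_inf le_rfl (by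
    rwa [e, Subgroup.map_eq_bot_iff, QuotientGroup.ker_mk'] at h)) (hP.pi.inf_eq_bot hK))
  obtain ⟨x, hx, hx'⟩ := SetLike.exists_of_lt (hS.pi.nil.sol.der_lt S1)
  have : ¬ ∀ χ, IsIrrCharacter S χ → commutator S ≤ H6.charKer χ → (⟨x, hx⟩ : S) ∈ H6.charKer χ := fun h =>
    hx' (der_eq_map S ▸ ⟨_, H6.mem_of_forall_irr_charKer _ h, rfl⟩)
  push Not at this
  obtain ⟨ψ, hψ, h2, h3⟩ := this
  obtain ⟨χ, h4, h5, h6⟩ := exo (relIndex_top_right S ▸ hS.not_dvd hp.out) hψ (by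
    rw [(deg_eq_one_iff hψ).2 h2]; exact hp.out.not_dvd_one)
  refine ⟨_, H6.isIrr_inflate K h4, H6.le_charKer_inflate K χ, by rwa [← deg_comp (QuotientGroup.mk' K)] at h5,
    fun h => h3 (charKer_le_of_ip (char_comp S.subtype (irr_char h4)) hψ h6 ?_)⟩
  rw [H6.mem_charKer_iff (char_comp S.subtype (irr_char h4))]
  obtain ⟨y, hy, rfl⟩ := e.le hx
  have := H6.apply_eq_of_mem_charKer (h hy)
  exact this

end Cfsg.Agent.H9.TP
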