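import Mathlib
import Cfsg.Agent.H7.BR6
import Cfsg.Agent.H7.Sect

/-!
Degree `3 p` with Sylow normalizer of order `2 p`: character-theoretic lemmas.
-/

set_option autoImplicit false
set_option linter.unusedSectionVars false
set_option linter.unusedVariables false
set_option linter.style.haveILetI false

namespace Cfsg.Agent.H9.Tp

open Cfsg Subgroup Finset Cfsg.Agent.H24.D1 Cfsg.Agent.H23 Cfsg.Agent.H7 MulAction
open scoped MatrixGroups ComplexConjugate

variable {G : Type*} [Group G] [Finite G] {p : ℕ} [hp : Fact p.Prime] {x : G}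

theorem fam2 (h : SC p x) (he : (CC x).relIndex (NN x) = 2) (hp3 : 3 < p)
    (hG : commutator G = ⊤) {θ : G → ℂ} (hθ : IsCharacter G θ)
    (h0 : ∀ g, p ∣ orderOf g → θ g = 0) (h1 : ip θ 1 = 1) :
    ∃ (χ ψ : IrrCharacter G) (e : ℤ) (Φ : G → ℂ) (a b t : ℕ), χ ≠ H8.irrOne G ∧
      (e = 1 ∨ e = -1) ∧ (p : ℤ) ∣ charDegree χ.1 - e ∧ (∀ g, p ∣ orderOf g → χ.1 g = e) ∧
      (∀ g, ¬ p ∣ orderOf g → (e : ℂ) * ψ.1 g = 1 + e * χ.1 g) ∧
      Φ = 1 + (e : ℂ) • χ.1 - (e : ℂ) • ψ.1 ∧ (∀ g, ¬ p ∣ orderOf g → Φ g = 0) ∧ ip Φ 1 = 1 ∧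
      ip θ χ.1 = a ∧ 1 + e * a = e * b ∧ t * 2 = p - 1 ∧
      e * charDegree ψ.1 = 1 + e * charDegree χ.1 ∧
      1 + a * charDegree χ.1 + t * (b * charDegree ψ.1) ≤ charDegree θ ∧
      (charDegree θ = 1 + a * charDegree χ.1 + t * (b * charDegree ψ.1) →
        ∀ g, ¬ p ∣ orderOf g → θ g = 1 + a * χ.1 g + t * (b * ψ.1 g)) := by
  classical
  obtain ⟨M, hM⟩ := H9.exists_pmod p
  obtain ⟨X, ψ, ε, δ, F, hX1⟩ := h.syl1.exists_fam_principal hM
  obtain ⟨t, ht⟩ := exists_t h.syl1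
  obtain ⟨Y, hY, hYc⟩ : ∃ Y : Finset (IrrCharacter G), (∀ φ ∈ Y, ∃ j, ψ j = φ) ∧ Y.card = t :=
    ⟨_, fun φ hφ => by simpa using hφ, card_image_psi F ht⟩
  obtain ⟨χ, hχ⟩ := card_eq_one.1 (show (X.erase (H8.irrOne G)).card = 1 by
    rw [card_erase_of_mem hX1, F.card₀, he])
  have hχ' := mem_erase.1 (hχ ▸ mem_singleton_self χ)
  have hXe : X = {H8.irrOne G, χ} := by rw [← insert_erase hX1, hχ]
  choose m hm using fun φ : IrrCharacter G => ip_char_nat hθ (irr_char φ.2)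
  have hm1 : m (H8.irrOne G) = 1 := by
    have := hm (H8.irrOne G)
    rw [show ip θ (H8.irrOne G).1 = 1 from h1] at this
    exact_mod_cast this.symm
  have hrel : ∀ j, 1 + ε χ * m χ = δ * m (ψ j) := fun j => by
    have h2 : ip (Phi p x (fun _ => 1) j) θ = ip (Phi p x (fun _ => 1) j) 0 :=
      ip_congr_sing (fun g hg => h.syl1.Phi_reg _ _ hg) h0
    rw [ip_zero_right, ip_eq_zero_comm, F.phi, hXe, sum_pair hχ'.1.symm, ip_sub_right, ip_add_right,
      ip_smul_right, ip_smul_right, ip_smul_right, hm, hm, hm, hm1, PB.eps_one F hX1] at h2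
    simp only [map_intCast] at h2
    have : ((1 + ε χ * m χ : ℤ) : ℂ) = (δ * m (ψ j) : ℤ) := by
      push_cast at h2 ⊢; linear_combination h2
    exact_mod_cast this
  have hdeg : ∀ j, δ * charDegree (ψ j).1 = 1 + ε χ * charDegree χ.1 := fun j => by
    rw [F.deg_rel j, hXe, sum_pair hχ'.1.symm, PB.eps_one F hX1,
      show charDegree (H8.irrOne G).1 = 1 from charDegree_one]
    simp
  have hmj : ∀ j, m (ψ j) = m (ψ 1) := fun j => by
    have a1 := hrel j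
    have a2 := hrel 1
    rcases F.sδ with e | e <;> rw [e] at a1 a2 <;> omega
  have hdisj : Disjoint X Y := disjoint_left.2 fun φ a b => by
    obtain ⟨j, rfl⟩ := hY φ b
    exact F.notMem j a
  have hsum : ∑ φ ∈ X ∪ Y, m φ * charDegree φ.1 =
      1 + m χ * charDegree χ.1 + t * (m (ψ 1) * charDegree (ψ 1).1) := by
    rw [sum_union hdisj, hXe, sum_pair hχ'.1.symm, hm1,
      show charDegree (H8.irrOne G).1 = 1 from charDegree_one,
      sum_congr rfl (g := fun _ => m (ψ 1) * charDegree (ψ 1).1) fun φ hφ => by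
        obtain ⟨j, rfl⟩ := hY φ hφ
        rw [hmj, F.deg_eq j 1], sum_const, hYc, smul_eq_mul]
  have h2 := deg_ne_one hG hχ'.1
  have hδ : δ = ε χ := by
    have r2 := hdeg 1
    rcases F.sε χ hχ'.2 with e | e <;> rw [e] at r2 ⊢
    · exact F.sδ.resolve_right fun e' => by rw [e'] at r2; omega
    · exact F.sδ.resolve_left fun e' => by rw [e'] at r2; omega
  have hreg : ∀ j g, ¬ p ∣ orderOf g → (ε χ : ℂ) * (ψ j).1 g = 1 + ε χ * χ.1 g := fun j g hg => by
    have := F.reg j hg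
    rw [hXe, sum_pair hχ'.1.symm, PB.eps_one F hX1, hδ, H8.irrOne_apply] at this
    simpa using this
  refine ⟨χ, ψ 1, ε χ, Phi p x (fun _ => 1) (1 : (ZMod p)ˣ), m χ, m (ψ 1), t, hχ'.1,
    F.sε χ hχ'.2, (F.degX₀ hχ'.2).symm.dvd, fun g hg => F.val₀ hχ'.2 hg, hreg 1, ?_,
    fun g hg => h.syl1.Phi_reg _ _ hg, h.syl1.ip_Phi_one 1, hm χ, hδ ▸ hrel 1, he ▸ ht,
    hδ ▸ hdeg 1, ?_, fun hd g hg => ?_⟩
  · rw [F.phi, hXe, sum_pair hχ'.1.symm, PB.eps_one F hX1, hδ]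
    ext g; simp
  · rw [← hsum]
    exact sum_deg_le hθ (X ∪ Y) m fun φ _ => ⟨_, hm φ, le_rfl⟩
  · have h3 := eq_sum_of_deg hθ (X ∪ Y) m (fun φ _ => ⟨_, hm φ, le_rfl⟩)
      (by rw [hsum, ← hd, char_one_eq hθ])
    have h4 := congrFun h3 g
    have hε : (ε χ : ℂ) ≠ 0 := by
      rcases F.sε χ hχ'.2 with e | e <;> rw [e] <;> simp
    rw [Finset.sum_apply, sum_union hdisj, hXe, sum_pair hχ'.1.symm, hm1,
      sum_congr rfl (g := fun _ => (m (ψ 1) : ℂ) * (ψ 1).1 g) fun φ hφ => by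
        obtain ⟨j, rfl⟩ := hY φ hφ
        rw [hmj, Pi.smul_apply, smul_eq_mul,
          mul_left_cancel₀ hε ((hreg j g hg).trans (hreg 1 g hg).symm)], sum_const, hYc] at h4
    rw [h4]
    simp [H8.irrOne_apply]

theorem inv_reg (hp2 : p ≠ 2) {i : G} (hi : orderOf i = 2) : ¬ p ∣ orderOf i := fun hd' =>
  hp2 ((Nat.prime_dvd_prime_iff_eq hp.out Nat.prime_two).1 (hi ▸ hd'))

theorem pairF [Fintype G] (hp2 : p ≠ 2) {χ ψ : IrrCharacter G} {e : ℤ} {Φ : G → ℂ}
    (hε : e = 1 ∨ e = -1)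
    (hreg : ∀ g, ¬ p ∣ orderOf g → (e : ℂ) * ψ.1 g = 1 + e * χ.1 g)
    (hΦ : Φ = 1 + (e : ℂ) • χ.1 - (e : ℂ) • ψ.1) {i : G} (hi : orderOf i = 2) :
    (Nat.card (CC i) : ℂ) * Nat.card (CC i) * H6.pairSum i i Φ * (χ.1 1 * (χ.1 1 + e)) =
      (Nat.card G : ℂ) ^ 2 * (χ.1 1 - χ.1 i) ^ 2 := by
  have r1 := hreg i (inv_reg hp2 hi)
  have r2 := hreg 1 H9.not_dvd_orderOf_one
  have n1 : χ.1 1 ≠ 0 := by
    rw [H8.irr_one_eq]; exact Nat.cast_ne_zero.2 (deg_pos χ).ne'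
  have n2 : ψ.1 1 ≠ 0 := by
    rw [H8.irr_one_eq]; exact Nat.cast_ne_zero.2 (deg_pos ψ).ne'
  have a1 := H6.card_mul_pairSum_irr i i (irr_one (G := G))
  have a2 := H6.card_mul_pairSum_irr i i χ.2
  have a3 := H6.card_mul_pairSum_irr i i ψ.2
  rw [hΦ, H6.pairSum_sub, H6.pairSum_add, H6.pairSum_smul, H6.pairSum_smul]
  simp only [Pi.one_apply] at a1
  change (Nat.card (CC i) : ℂ) * Nat.card (CC i) * _ = _ at a1 a2 a3
  generalize (Nat.card (CC i) : ℂ) * Nat.card (CC i) = c at a1 a2 a3 ⊢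
  have b2 : c * H6.pairSum i i χ.1 * χ.1 1 = (Nat.card G : ℂ) ^ 2 * (χ.1 i * χ.1 i) := by
    rw [a2]; field_simp
  have b3 : c * H6.pairSum i i ψ.1 * ψ.1 1 = (Nat.card G : ℂ) ^ 2 * (ψ.1 i * ψ.1 i) := by
    rw [a3]; field_simp
  rcases hε with rfl | rfl
  · have s1 : ψ.1 i = 1 + χ.1 i := by simpa using r1
    have s2 : ψ.1 1 = 1 + χ.1 1 := by simpa using r2
    rw [s1, s2] at b3
    push_cast
    linear_combination (χ.1 1 * (χ.1 1 + 1)) * a1 + (χ.1 1 + 1) * b2 - χ.1 1 * b3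
  · have s1 : ψ.1 i = χ.1 i - 1 := by push_cast at r1; linear_combination -r1
    have s2 : ψ.1 1 = χ.1 1 - 1 := by push_cast at r2; linear_combination -r2
    rw [s1, s2] at b3
    push_cast
    linear_combination (χ.1 1 * (χ.1 1 - 1)) * a1 - (χ.1 1 - 1) * b2 + χ.1 1 * b3

theorem sum_sub' [Fintype G] (K : Subgroup G) [Fintype K] [DecidablePred (· ∈ K)] (f : G → ℂ) :
    ∑ g : K, f g = ∑ g ∈ univ.filter (· ∈ K), f g :=
  (Finset.sum_subtype _ (by simp) f).symm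

theorem resN (h : SC p x) (he : (CC x).relIndex (NN x) = 2) (hp3 : 3 < p) {χ : G → ℂ}
    (hχ : IsCharacter G χ) (hs : ∀ g, p ∣ orderOf g → χ g = -1) (h1 : χ 1 = 2 * p - 1) {j : G}
    (hj : orderOf j = 2) (hN : j ∈ NN x) : χ j = 1 ∨ χ j = -1 := by
  classical
  haveI := Fintype.ofFinite G
  have hp2 : p ≠ 2 := by omega
  have hp0 : (p : ℂ) ≠ 0 := Nat.cast_ne_zero.2 hp.out.ne_zero
  obtain ⟨a, ha⟩ := ip_char_nat (char_comp (zpowers x).subtype hχ) char_one
  obtain ⟨b, hb⟩ := ip_char_nat (char_comp (NN x).subtype hχ) char_one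
  have hle : b ≤ a := ip_one_le_of_comp (inclusion (zp_le_NN x)) (char_comp (NN x).subtype hχ) hb ha
  have hNc : Nat.card (NN x) = p * 2 := by rw [h.card_NN, he]
  have s1 := sum_eq_card_mul_ip (fun g : zpowers x => χ g)
  have s2 := sum_eq_card_mul_ip (fun g : NN x => χ g)
  rw [show ip (fun g : zpowers x => χ g) 1 = a from ha, h.syl1.card_zp, sum_sub'] at s1
  rw [show ip (fun g : NN x => χ g) 1 = b from hb, hNc, sum_sub'] at s2
  have c1 : #(univ.filter (· ∈ zpowers x)) = p := by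
    rw [← H20.natCard_subtype_eq_filter]; exact h.syl1.card_zp
  have c2 : #(univ.filter (· ∈ NN x)) = p * 2 := by
    rw [← H20.natCard_subtype_eq_filter]; exact hNc
  have hsub : univ.filter (· ∈ zpowers x) ⊆ univ.filter (· ∈ NN x) := fun g hg => by
    simp only [mem_filter, mem_univ, true_and] at hg ⊢
    exact zp_le_NN x hg
  have m1 : (1 : G) ∈ univ.filter (· ∈ zpowers x) := by simp
  have t1 : ∑ g ∈ univ.filter (· ∈ zpowers x), χ g = p := by
    rw [← add_sum_erase _ _ m1, sum_congr rfl (g := fun _ => (-1 : ℂ)) fun g hg => by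
      obtain ⟨g1, g2⟩ := mem_erase.1 hg
      exact hs g ((h.syl1.orderOf_eq (mem_filter.1 g2).2 g1).symm ▸ dvd_rfl), sum_const,
      card_erase_of_mem m1, c1, h1, nsmul_eq_mul, Nat.cast_sub hp.out.one_le]
    push_cast; ring
  have hjP : j ∉ zpowers x := fun e => SC_inv_notMem h hp2 hj (zp_le_CC x e)
  have hidx : ((zpowers x).subgroupOf (NN x)).index = 2 := by
    have := he
    rwa [h.cent] at this
  rw [← sum_sdiff hsub, t1, sum_congr rfl (g := fun _ => χ j) fun g hg => by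
      obtain ⟨g1, g2⟩ := mem_sdiff.1 hg
      simp only [mem_filter, mem_univ, true_and] at g1 g2
      have h3 : j⁻¹ * g ∈ zpowers x := by
        have := (mul_mem_iff_of_index_two hidx (a := ⟨j⁻¹, inv_mem hN⟩) (b := ⟨g, g1⟩)).2 (by
          simp only [mem_subgroupOf, inv_mem_iff]
          exact ⟨fun e => absurd e hjP, fun e => absurd e g2⟩)
        exact this
      have h4 := (SC_inv_iff h hp2 hj hN).2 h3
      obtain ⟨s, rfl⟩ := isConj_iff.1 (SC_inv_conj h hp2 hj hN h4.1 h4.2)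
      exact char_cf hχ j s, sum_const, card_sdiff_of_subset hsub, c1, c2,
    show p * 2 - p = p by omega, nsmul_eq_mul] at s2
  rw [t1] at s1
  have ha1 : a = 1 := by
    have : (a : ℂ) = 1 := mul_left_cancel₀ hp0 (by rw [← s1, mul_one])
    exact_mod_cast this
  have hy : χ j = 2 * b - 1 := mul_left_cancel₀ hp0 (by push_cast at s2; linear_combination s2)
  have : b = 0 ∨ b = 1 := by omega
  rcases this with rfl | rfl
  · right; rw [hy]; norm_num
  · left; rw [hy]; norm_num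

omit hp in
theorem even_count {χ : G → ℂ} (hχ : IsIrrCharacter G χ) (hne : χ ≠ 1)
    (h : ∀ g, Even (orderOf g) → χ g = 1) :
    2 * Nat.card {g : G // Even (orderOf g)} < Nat.card G := by
  classical
  haveI := Fintype.ofFinite G
  have h1 : ip (χ + 1) (χ + 1) = 2 := by
    rw [ip_add_left, ip_add_right, ip_add_right, ip_irr_self hχ, ip_irr_ne hχ irr_one hne,
      ip_irr_ne irr_one hχ hne.symm, ip_irr_self irr_one]
    norm_num
  rw [ip_self_eq_ofReal] at h1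
  have h2 : (Nat.card G : ℝ)⁻¹ * ∑ g : G, ‖(χ + 1) g‖ ^ 2 = 2 := by exact_mod_cast h1
  have hG0 : (0 : ℝ) < Nat.card G := by exact_mod_cast Nat.card_pos
  rw [inv_mul_eq_iff_eq_mul₀ hG0.ne'] at h2
  obtain ⟨n, hn, e⟩ := irr_one_pos hχ
  have h3 : ∑ g ∈ univ.filter (fun g : G => Even (orderOf g)), ‖(χ + 1) g‖ ^ 2 <
      ∑ g : G, ‖(χ + 1) g‖ ^ 2 := by
    refine sum_lt_sum_of_subset (subset_univ _) (mem_univ 1) (by simp) ?_ fun _ _ _ => by positivity
    have : (χ + 1) 1 ≠ 0 := by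
      rw [Pi.add_apply, e, Pi.one_apply]
      exact_mod_cast Nat.succ_ne_zero n
    positivity
  rw [sum_congr rfl (g := fun _ => (4 : ℝ)) fun g hg => by
    rw [Pi.add_apply, h g (mem_filter.1 hg).2, Pi.one_apply]; norm_num, sum_const, h2,
    ← H20.natCard_subtype_eq_filter, nsmul_eq_mul] at h3
  have : (2 * Nat.card {g : G // Even (orderOf g)} : ℝ) < Nat.card G := by linarith
  exact_mod_cast this

theorem not_dvd_cen (h : SC p x) (hp2 : p ≠ 2) {j : G} (hj : orderOf j = 2) :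
    ¬ p ∣ Nat.card (CC j) := fun hd => by
  obtain ⟨w, hw⟩ := exists_prime_orderOf_dvd_card' (G := CC j) p hd
  rw [← orderOf_coe] at hw
  obtain ⟨s, hs, h1⟩ := SC_sing h (g := w) (hw ▸ dvd_rfl)
  refine SC_inv_notMem h hp2 ((H20.orderOf_conj s j).trans hj) ?_
  rw [← h.syl1.CC_eq hs h1, mem_CC]
  have := (mem_CC.1 w.2).eq
  change s * w * s⁻¹ * (s * j * s⁻¹) = s * j * s⁻¹ * (s * w * s⁻¹)
  calc s * w * s⁻¹ * (s * j * s⁻¹) = s * (w * j) * s⁻¹ := by group
    _ = s * (j * w) * s⁻¹ := by rw [this]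
    _ = _ := by group

omit hp in
theorem odd_index_cen {j : G} (hj : orderOf j = 2) (hc : ∀ i : G, orderOf i = 2 → IsConj j i) :
    ¬ 2 ∣ (CC j).index := by
  obtain ⟨T⟩ := Sylow.nonempty (p := 2) (G := G)
  have h : 2 ∣ Nat.card G := hj ▸ orderOf_dvd_natCard j
  haveI : Nontrivial (T : Subgroup G) := (nontrivial_iff_ne_bot _).2 (T.ne_bot_of_dvd_card h)
  haveI := IsPGroup.center_nontrivial T.isPGroup'
  obtain ⟨n, hn0, hn⟩ := (T.isPGroup'.to_subgroup (center T)).nontrivial_iff_card.1 inferInstance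
  obtain ⟨z, hz⟩ := exists_prime_orderOf_dvd_card' (G := center (T : Subgroup G)) 2
    (hn ▸ dvd_pow_self 2 hn0.ne')
  have hz2 : orderOf ((z : T) : G) = 2 := by rw [orderOf_coe, orderOf_coe, hz]
  have hle : (T : Subgroup G) ≤ CC ((z : T) : G) := fun t ht => mem_CC.2
    (congrArg Subtype.val (mem_center_iff.1 z.2 ⟨t, ht⟩)).symm
  have h1 := H20.card_cent_of_isConj (hc _ hz2)
  have h2 : (CC j).index = (CC ((z : T) : G)).index := by
    have a1 := (CC j).index_mul_card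
    have a2 := (CC ((z : T) : G)).index_mul_card
    rw [show Nat.card (CC j) = Nat.card (CC ((z : T) : G)) from h1, ← a2] at a1
    exact Nat.eq_of_mul_eq_mul_right Nat.card_pos a1
  rw [h2]
  exact fun hd => T.not_dvd_index (hd.trans (index_dvd_of_le hle))

omit hp in
theorem four_dvd [IsSimpleGroup G] (hG : ¬ IsMulCommutative G) {j : G} (hj : orderOf j = 2) :
    4 ∣ Nat.card G := by
  have h2 : Even (Nat.card G) := even_iff_two_dvd.2 (hj ▸ orderOf_dvd_natCard j)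
  by_contra h4
  obtain ⟨T⟩ := Sylow.nonempty (p := 2) (G := G)
  have := card_sylow_eq (even_iff_two_dvd.1 h2) h4 T
  obtain ⟨H, hH⟩ := H20.exists_index_two_of_cyclic_sylow h2 T (isCyclic_of_prime_card this)
  exact H20.simple_index_ne_two hG H hH

end Cfsg.Agent.H9.Tp
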