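import Mathlib
import Cfsg.Agent.H9.TpA1

/-!
Degree `3 p` with Sylow normalizer of order `2 p`: the order formulas.
-/

set_option autoImplicit false
set_option linter.unusedSectionVars false
set_option linter.unusedVariables false
set_option linter.style.haveILetI false

namespace Cfsg.Agent.H9.Tp

open Cfsg Subgroup Finset Cfsg.Agent.H24.D1 Cfsg.Agent.H23 Cfsg.Agent.H7 MulAction
open scoped MatrixGroups ComplexConjugate

theorem tpA0 {G : Type*} [Group G] [Finite G] [IsSimpleGroup G] (hG : ¬ IsMulCommutative G)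
    {p : ℕ} [hp : Fact p.Prime] {x : G} (h : SC p x) (he : (CC x).relIndex (NN x) = 2)
    (hp3 : 3 < p) {θ : G → ℂ} (hθ : IsCharacter G θ) (h0 : ∀ g, p ∣ orderOf g → θ g = 0)
    (h1 : ip θ 1 = 1) (hθ1 : θ 1 = (3 * p : ℕ))
    (hθn : ∀ u ∈ NN x, orderOf u = 2 → ∃ n : ℕ, θ u = n ∧ n ≤ 3)
    (hM1 : (∀ i : G, orderOf i = 2 → θ i = 1) →
      ∃ M : Subgroup G, IsStronglyEmbedded M ∧ M.index = 3 * p)
    (hν : ∀ [Fintype G] (χ : G → ℂ), IsIrrCharacter G χ → charDegree χ = p - 1 →
      Cfsg.Agent.H6.fsInd χ ≠ -1)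
    (hse : ∀ M : Subgroup G, IsStronglyEmbedded M → ¬ p ∣ Nat.card M → ∃ χ : G → ℂ,
      IsIrrCharacter G χ ∧ charDegree χ + 1 = M.index ∧ (∀ g, p ∣ orderOf g → χ g = -1) ∧
        ∀ i, orderOf i = 2 → χ i = 0) :
    (∀ i j : G, orderOf i = 2 → orderOf j = 2 → IsConj i j) ∧ ∃ (u : G) (c : ℕ), orderOf u = 2 ∧
      u ∈ NN x ∧ Nat.card (centralizer ({u} : Set G)) = c ∧
      ((c = p - 1 ∧ (∀ w ∈ centralizer ({u} : Set G), w * w = 1) ∧
          Nat.card G = p * (p - 1) * (p - 2)) ∨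
        ((∀ M : Subgroup G, IsStronglyEmbedded M → p ∣ Nat.card M) ∧
          ((Nat.card G * (2 * p - 2) = p * c ^ 2 * (2 * p - 1) ∧
            2 * Nat.card {g : G // Even (orderOf g)} < Nat.card G) ∨
          Nat.card G * (3 * p - 3) ^ 2 = p * c ^ 2 * ((3 * p - 1) * (3 * p - 2)))) ∨
        (∃ M : Subgroup G, IsStronglyEmbedded M ∧ M.index = 3 * p ∧
          Nat.card G * (3 * p - 1) = p * c ^ 2 * (3 * p - 2))) := by
  classical
  haveI := Fintype.ofFinite G
  have hp2 : p ≠ 2 := by omega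
  have hcom := H20.simple_commutator_eq_top hG
  obtain ⟨χ, ψ, e, Φ, a, b, t, hne, hε, hdvd, hsing, hreg, hΦ, hΦ0, hΦ1, hχa, hab, ht, hdz, hle,
    hdec⟩ := fam2 h he hp3 hcom hθ h0 h1
  have hne' : χ.1 ≠ 1 := fun e => hne (Subtype.ext e)
  have hθd : charDegree θ = 3 * p := charDegree_eq hθ1
  rw [hθd] at hle hdec
  have hd2 := deg_ne_one hcom hne
  have hfa : ∀ g, χ.1 g = χ.1 1 → g = 1 := fun g hg => by
    have hn := H6.charKer_normal (irr_cf χ.2)
    rcases hn.eq_bot_or_eq_top with e | e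
    · exact mem_bot.1 (e ▸ (H6.mem_charKer_iff_irr χ.2).2 hg)
    · exact absurd (H6.irr_eq_one_of_charKer_eq_top χ.2 e) hne'
  obtain ⟨j, hj, hN⟩ := SC_exists_inv_NN h (by rw [he]; exact even_two)
  have hG0 := card_ne_zero' G
  have hconj : ∀ i : G, orderOf i = 2 → IsConj j i := fun i hi => by
    by_contra hc
    have h2 := pairF hp2 hε hreg hΦ hi
    rw [SC_pairSum_zero h hi (fun y hy => hc ((SC_inv_conj h hp2 hj hN
      ((H20.orderOf_conj' y i).trans hi) hy).trans (isConj_iff.2 ⟨y, by group⟩))) hΦ0,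
      mul_zero, zero_mul] at h2
    have h3 := (mul_eq_zero.1 h2.symm).resolve_left (pow_ne_zero 2 hG0)
    exact H20.ne_one_of_orderOf_two hi (hfa i (sub_eq_zero.1 (pow_eq_zero_iff two_ne_zero |>.1 h3)).symm)
  refine ⟨fun i i' hi hi' => (hconj i hi).symm.trans (hconj i' hi'), ?_⟩
  obtain ⟨k, hk⟩ := char_invol (irr_char χ.2) (H20.mul_self_of_orderOf_two hj)
  have hχ1 := H8.irr_one_eq χ
  have hψ1 := H8.irr_one_eq ψ
  set d := charDegree χ.1 with hd
  set z := charDegree ψ.1 with hz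
  set c := Nat.card (CC j) with hc
  set I := (CC j).index with hI
  have hIc : I * c = Nat.card G := (CC j).index_mul_card
  have hI2 : ¬ 2 ∣ I := odd_index_cen hj hconj
  have hpc : ¬ p ∣ c := not_dvd_cen h hp2 hj
  have hc0 : 0 < c := Nat.card_pos
  have hord : (c : ℤ) ^ 2 * p * (d * (d + e)) = Nat.card G * (2 * k) ^ 2 := by
    have h2 := pairF hp2 hε hreg hΦ hj
    rw [SC_pairSum h hp2 hj hN hΦ0, hΦ1, hk, hχ1, ← hc] at h2
    have h3 : (c : ℂ) ^ 2 * p * (d * (d + e)) = Nat.card G * (2 * k) ^ 2 := by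
      apply mul_left_cancel₀ hG0
      linear_combination h2
    exact_mod_cast h3
  obtain ⟨n, hn, hn3⟩ := hθn j hN hj
  have hjr := inv_reg hp2 hj
  have hcf : ∀ {φ : G → ℂ}, IsCharacter G φ → ∀ i : G, orderOf i = 2 → φ i = φ j :=
    fun hφ i hi => by
      obtain ⟨s, rfl⟩ := isConj_iff.1 (hconj i hi)
      exact char_cf hφ j s
  rcases hε with rfl | rfl
  · exfalso
    have hd1 : p + 1 ≤ d := by
      have := Int.le_of_dvd (by omega) hdvd
      omega
    have hb : 1 ≤ b := by omega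
    have hzd : z = d + 1 := by omega
    have h2 : t * (p + 2) ≤ t * (b * z) := Nat.mul_le_mul_left _ (by nlinarith)
    have hp5 : p = 5 := by
      have h3 : p = 2 * t + 1 := by omega
      have h4 : t ≤ 2 := by
        by_contra h5
        have : t * (p + 2) + 1 ≤ 3 * p := by omega
        nlinarith
      omega
    subst hp5
    have ht2 : t = 2 := by omega
    subst ht2
    have hb1 : b = 1 := by
      by_contra h5
      have : 2 * z ≤ b * z := Nat.mul_le_mul_right _ (by omega)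
      omega
    subst hb1
    have ha0 : a = 0 := by omega
    subst ha0
    have hd6 : d = 6 := by omega
    have h3 := hdec (by omega) j hjr
    have h4 := hreg j hjr
    rw [hn] at h3
    rw [hk, hχ1, hd6] at h4
    have h5 : (n : ℂ) + 4 * k = 15 := by
      push_cast at h3 h4
      linear_combination h3 + 2 * h4
    have h6 : n + 4 * k = 15 := by exact_mod_cast h5
    have hk3 : k = 3 := by omega
    rw [hk3, hd6, ← hIc] at hord
    have h7 : (c : ℤ) * (35 * c) = c * (6 * I) := by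
      push_cast at hord
      linarith
    have h8 : (35 * c : ℤ) = 6 * I := mul_left_cancel₀ (by omega) h7
    have h9 : 4 ∣ c := by
      have := four_dvd hG hj
      rw [← hIc] at this
      exact (Nat.Coprime.pow_left 2 ((Nat.Prime.coprime_iff_not_dvd Nat.prime_two).2 hI2)
        : Nat.Coprime 4 I).dvd_of_dvd_mul_left this
    omega
  have ha : a = b + 1 := by omega
  have hzd : z + 1 = d := by omega
  obtain ⟨m, hm⟩ : p ∣ d + 1 := by
    have : ((d + 1 : ℕ) : ℤ) = d - -1 := by push_cast; ring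
    exact Int.natCast_dvd_natCast.1 (this ▸ hdvd)
  have hsing' : ∀ g, p ∣ orderOf g → χ.1 g = -1 := fun g hg => by rw [hsing g hg]; simp
  have huniq : χ.1 j ≠ 0 → ∀ M : Subgroup G, IsStronglyEmbedded M → p ∣ Nat.card M :=
    fun hj0 M hM => by
      by_contra hpM
      obtain ⟨χ', hχ', -, hs', hi'⟩ := hse M hM hpM
      refine hj0 ?_
      suffices χ.1 = χ' by rw [this]; exact hi' j hj
      by_contra hne2
      have h2 : ip Φ χ' = ip Φ ((-1 : ℂ) • (1 : G → ℂ)) :=
        ip_congr_sing hΦ0 fun g hg => by simp [hs' g hg]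
      rw [ip_smul_right, hΦ1, hΦ, ip_sub_left, ip_add_left, ip_smul_left, ip_smul_left,
        ip_irr_ne χ.2 hχ' hne2] at h2
      obtain ⟨r, hr⟩ := ip_char_nat (char_one (G := G)) (irr_char hχ')
      obtain ⟨s, hs⟩ := ip_char_nat (irr_char ψ.2) (irr_char hχ')
      rw [show ip 1 χ' = r from hr, hs] at h2
      have h3 : ((r + s + 1 : ℕ) : ℂ) = 0 := by
        simp only [map_neg, map_one] at h2
        push_cast at h2 ⊢
        linear_combination h2
      exact Nat.succ_ne_zero _ (Nat.cast_eq_zero.1 h3)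
  have hda : d ≤ a * d := Nat.le_mul_of_pos_left _ (by omega)
  have hm0 : 0 < m := Nat.pos_of_ne_zero fun e => by rw [e] at hm; omega
  have hm3 : m ≤ 3 := by
    by_contra h5
    have : p * 4 ≤ p * m := Nat.mul_le_mul_left _ (by omega)
    omega
  obtain ⟨q, rfl⟩ : ∃ q, p = q + 4 := ⟨p - 4, by omega⟩
  have hb0 : m ≠ 1 → b = 0 := fun hm1 => by
    by_contra h5
    have : 2 * d ≤ a * d := Nat.mul_le_mul_right _ (by omega)
    have : (q + 4) * 2 ≤ (q + 4) * m := Nat.mul_le_mul_left _ (by omega)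
    omega
  interval_cases m
  · obtain ⟨u, hu, huN, -, hC, hall, hcard, -⟩ :=
      e2_main h he hp3 χ.2 (by omega) hfa fun {_} => hν χ.1 χ.2 (by omega)
    exact ⟨u, _, hu, huN, rfl, Or.inl ⟨hC, hall, hcard⟩⟩
  · have hd' : d = 2 * q + 7 := by omega
    have hy := resN h he hp3 (irr_char χ.2) hsing' (by rw [hχ1, hd']; push_cast; ring) hj hN
    have hy1 : χ.1 j = 1 := hy.resolve_right fun e => by
      rw [hk, hχ1, hd'] at e
      have h2 : ((q + 4 : ℕ) : ℂ) = k := by push_cast at e ⊢; linear_combination e / 2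
      have h3 : q + 4 = k := by exact_mod_cast h2
      rw [← h3, hd', ← hIc] at hord
      have h4 : c * ((2 * q + 7) * (2 * q + 6)) = (q + 4) * (4 * I) := by
        have h5 : (c : ℤ) * (q + 4) * (c * ((2 * q + 7) * (2 * q + 6))) =
            c * (q + 4) * ((q + 4) * (4 * I)) := by
          push_cast at hord
          linear_combination hord
        have := mul_left_cancel₀ (by positivity) h5
        exact_mod_cast this
      have h5 : q + 4 ∣ c * ((2 * q + 7) * (2 * q + 6)) := ⟨_, h4⟩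
      rcases (Nat.Prime.dvd_mul hp.out).1 h5 with h6 | h6
      · exact hpc h6
      rcases (Nat.Prime.dvd_mul hp.out).1 h6 with h7 | h7
      · have := (Nat.dvd_sub_iff_right (show 2 * q + 7 ≤ 2 * (q + 4) by omega)
          (dvd_mul_left (q + 4) 2)).2 h7
        have := Nat.le_of_dvd (by omega) this
        omega
      · have := (Nat.dvd_sub_iff_right (show 2 * q + 6 ≤ 2 * (q + 4) by omega)
          (dvd_mul_left (q + 4) 2)).2 h7
        have := Nat.le_of_dvd (by omega) this
        omega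
    have hk' : k = q + 3 := by
      rw [hk, hχ1, hd'] at hy1
      have h2 : ((q + 3 : ℕ) : ℂ) = k := by push_cast at hy1 ⊢; linear_combination hy1 / 2
      exact_mod_cast h2.symm
    have hfor : Nat.card G * (2 * q + 6) = (q + 4) * c ^ 2 * (2 * q + 7) := by
      rw [hk', hd'] at hord
      have h5 : (2 * q + 6 : ℤ) * (Nat.card G * (2 * q + 6)) =
          (2 * q + 6) * ((q + 4) * c ^ 2 * (2 * q + 7)) := by
        push_cast at hord
        linear_combination -hord
      have := mul_left_cancel₀ (by positivity) h5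
      exact_mod_cast this
    refine ⟨j, c, hj, hN, rfl, Or.inr (Or.inl ⟨huniq (by rw [hy1]; exact one_ne_zero),
      Or.inl ⟨hfor, even_count χ.2 hne' fun g hg => ?_⟩⟩)⟩
    have hz' : z = 2 * q + 6 := by omega
    have hfac : (Nat.card G).factorization 2 ≤ (charDegree ψ.1).factorization 2 := by
      rw [← hz, hz']
      have h2 : 2 ^ (Nat.card G).factorization 2 ∣ c := by
        have := Nat.ordProj_dvd (Nat.card G) 2
        rw [← hIc] at this ⊢
        exact (Nat.Coprime.pow_left _ ((Nat.Prime.coprime_iff_not_dvd Nat.prime_two).2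
          hI2)).dvd_of_dvd_mul_left this
      have h3 : I * (2 * q + 6) = c * ((q + 4) * (2 * q + 7)) := by
        apply Nat.eq_of_mul_eq_mul_left hc0
        rw [← hIc] at hfor
        linear_combination hfor
      have h4 : 2 ^ (Nat.card G).factorization 2 ∣ I * (2 * q + 6) := h3 ▸ h2.mul_right _
      exact (Nat.prime_two.pow_dvd_iff_le_factorization (by omega)).1
        ((Nat.Coprime.pow_left _ ((Nat.Prime.coprime_iff_not_dvd Nat.prime_two).2
          hI2)).dvd_of_dvd_mul_left h4)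
    have hv := defectZero_vanish Nat.prime_two ψ.2 hfac (even_iff_two_dvd.1 hg)
    have hgr : ¬ (q + 4) ∣ orderOf g := fun hd => by
      obtain ⟨s, hs, h1⟩ := SC_sing h hd
      have := h.syl1.orderOf_eq hs h1
      rw [H20.orderOf_conj] at this
      rw [this] at hg
      exact hp2 ((Nat.Prime.even_iff hp.out).1 hg)
    have := hreg g hgr
    rw [hv] at this
    push_cast at this
    linear_combination this
  · have hd' : d = 3 * q + 11 := by omega
    have hb := hb0 (by omega)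
    subst hb
    subst ha
    have hth : ∀ i : G, orderOf i = 2 → θ i = 1 + χ.1 j := fun i hi => by
      rw [hcf hθ i hi, hdec (by omega) j hjr]
      simp
    have h3 := hth j hj
    rw [hn, hk, hχ1, hd'] at h3
    have h4 : n + 2 * k = 3 * q + 12 := by
      have : ((n + 2 * k : ℕ) : ℂ) = (3 * q + 12 : ℕ) := by
        push_cast at h3 ⊢; linear_combination h3
      exact_mod_cast this
    have hqo : ¬ 2 ∣ q + 4 := fun hd =>
      hp2 ((Nat.prime_dvd_prime_iff_eq Nat.prime_two hp.out).1 hd).symm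
    have h5 : 2 * k = 3 * q + 11 ∨ 2 * k = 3 * q + 9 := by omega
    rcases h5 with h5 | h5
    · have hy0 : χ.1 j = 0 := by
        rw [hk, hχ1, hd']
        have : ((2 * k : ℕ) : ℂ) = (3 * q + 11 : ℕ) := by rw [h5]
        push_cast at this ⊢
        linear_combination -this
      obtain ⟨M, hM, hMi⟩ := hM1 fun i hi => by rw [hth i hi, hy0, add_zero]
      refine ⟨j, c, hj, hN, rfl, Or.inr (Or.inr ⟨M, hM, hMi, ?_⟩)⟩
      have h6 : (2 * k : ℤ) = 3 * q + 11 := by exact_mod_cast h5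
      rw [h6, hd'] at hord
      have h7 : (3 * q + 11 : ℤ) * (Nat.card G * (3 * q + 11)) =
          (3 * q + 11) * ((q + 4) * c ^ 2 * (3 * q + 10)) := by
        push_cast at hord
        linear_combination -hord
      have := mul_left_cancel₀ (by positivity) h7
      rw [show 3 * (q + 4) - 1 = 3 * q + 11 by omega, show 3 * (q + 4) - 2 = 3 * q + 10 by omega]
      exact_mod_cast this
    · have hy2 : χ.1 j = 2 := by
        rw [hk, hχ1, hd']
        have : ((2 * k : ℕ) : ℂ) = (3 * q + 9 : ℕ) := by rw [h5]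
        push_cast at this ⊢
        linear_combination -this
      refine ⟨j, c, hj, hN, rfl, Or.inr (Or.inl ⟨huniq (by rw [hy2]; exact two_ne_zero),
        Or.inr ?_⟩)⟩
      have h6 : (2 * k : ℤ) = 3 * q + 9 := by exact_mod_cast h5
      rw [h6, hd'] at hord
      have h7 : (Nat.card G * (3 * q + 9) ^ 2 : ℤ) =
          (q + 4) * c ^ 2 * ((3 * q + 11) * (3 * q + 10)) := by
        push_cast at hord
        linear_combination -hord
      rw [show 3 * (q + 4) - 1 = 3 * q + 11 by omega, show 3 * (q + 4) - 2 = 3 * q + 10 by omega,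
        show 3 * (q + 4) - 3 = 3 * q + 9 by omega]
      exact_mod_cast h7

theorem tpA {G : Type*} [Group G] [Finite G] [IsSimpleGroup G] (hG : ¬ IsMulCommutative G) {p : ℕ} [Fact p.Prime] (hp3 : 3 < p) (P : Sylow p G) (hN : Nat.card (normalizer ((P : Subgroup G) : Set G)) = 2 * p) {Ω : Type*} [Finite Ω] [MulAction G Ω] [FaithfulSMul G Ω] [IsPretransitive G Ω] (hΩ : Nat.card Ω = 3 * p) (hf : ∀ u ∈ normalizer ((P : Subgroup G) : Set G), orderOf u = 2 → Nat.card (fixedBy Ω u) ≤ 3) (hν : ∀ [Fintype G] (χ : G → ℂ), IsIrrCharacter G χ → charDegree χ = p - 1 → Cfsg.Agent.H6.fsInd χ ≠ -1) (hse : ∀ M : Subgroup G, IsStronglyEmbedded M → ¬ p ∣ Nat.card M → ∃ χ : G → ℂ, IsIrrCharacter G χ ∧ charDegree χ + 1 = M.index ∧ (∀ g, p ∣ orderOf g → χ g = -1) ∧ ∀ i, orderOf i = 2 → χ i = 0) : (∀ i j : G, orderOf i = 2 → orderOf j = 2 → IsConj i j) ∧ ∃ (u : G) (c : ℕ), orderOf u = 2 ∧ u ∈ normalizer ((P : Subgroup G) : Set G) ∧ Nat.card (centralizer ({u} : Set G)) = c ∧ ((c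 = p - 1 ∧ (∀ w ∈ centralizer ({u} : Set G), w * w = 1) ∧ Nat.card G = p * (p - 1) * (p - 2)) ∨ ((∀ M : Subgroup G, IsStronglyEmbedded M → p ∣ Nat.card M) ∧ ((Nat.card G * (2 * p - 2) = p * c ^ 2 * (2 * p - 1) ∧ 2 * Nat.card {g : G // Even (orderOf g)} < Nat.card G) ∨ Nat.card G * (3 * p - 3) ^ 2 = p * c ^ 2 * ((3 * p - 1) * (3 * p - 2)))) ∨ (∃ M : Subgroup G, IsStronglyEmbedded M ∧ M.index = 3 * p ∧ Nat.card G * (3 * p - 1) = p * c ^ 2 * (3 * p - 2))) := by
  classical
  have hp : p.Prime := Fact.out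
  haveI := Fintype.ofFinite G
  obtain ⟨a⟩ : Nonempty Ω := (Nat.card_pos_iff.1 (by omega)).1
  haveI : Nonempty Ω := ⟨a⟩
  have hp2 : p ≠ 2 := by omega
  have hGH := H16.card_eq_card_mul_stabilizer (G := G) a
  set H := stabilizer G a with hH
  rw [hΩ] at hGH
  have hH0 : 0 < Nat.card H := Nat.card_pos
  have hpG : p ∣ Nat.card G := hGH ▸ (dvd_mul_left p 3).mul_right _
  have hP : Nat.card P = p := by
    obtain ⟨k, hk⟩ := P.isPGroup'.exists_card_eq
    have h1 : Nat.card P ∣ 2 * p := hN ▸ card_dvd_of_le le_normalizer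
    have h2 : k ≠ 0 := fun e => P.ne_bot_of_dvd_card hpG (card_eq_one.1 (by rw [hk, e, pow_zero]))
    rw [hk] at h1 ⊢
    have h3 := ((Nat.coprime_primes hp Nat.prime_two).2 hp2).pow_left k |>.dvd_of_dvd_mul_left h1
    have h4 := (Nat.pow_dvd_pow_iff_le_right hp.one_lt).1 (h3.trans (pow_one p).symm.dvd)
    rw [show k = 1 by omega, pow_one]
  obtain ⟨x, hx, hxP⟩ := exists_syl1 P hP
  rw [← hxP] at hN hf ⊢
  have he1 : (CC x).relIndex (NN x) ≠ 1 := fun e => by
    obtain ⟨Q, K, hK, hKQ⟩ := hx.hasNPC e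
    have h1 := hKQ.card_mul_card
    rw [card_sylow_eq hpG hx.not_sq_dvd Q] at h1
    rcases hK.eq_bot_or_eq_top with h2 | h2
    · rw [h2, card_bot, one_mul, hGH] at h1
      nlinarith
    · rw [h2, card_top] at h1
      have : 0 < Nat.card G := Nat.card_pos
      nlinarith
  obtain ⟨h, he⟩ := SC_of_card hx hN he1
  have hHp : ¬ p ∣ Nat.card H := fun hd => hx.not_sq_dvd (by
    rw [hGH, pow_two, mul_comm 3, mul_assoc]
    exact Nat.mul_dvd_mul_left p (hd.mul_left 3))
  have hHreg : ∀ g ∈ H, ¬ p ∣ orderOf g := fun g hg hd =>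
    hHp (hd.trans (orderOf_dvd_natCard H hg))
  set θ := ind H.subtype (fun _ => (1 : ℂ)) with hθ
  have hθc : IsCharacter G θ := char_ind _ char_one
  have hθf : ∀ g, (Nat.card (fixedBy Ω g) : ℂ) = θ g := fun g => by
    rw [hθ, ind_subtype, ← H6.perm_eq_indFun Ω a]
  have hθ1 : θ 1 = (3 * p : ℕ) := by rw [← hθf, fixedBy_one_eq_univ, Nat.card_univ, hΩ]
  have hθi : ip θ 1 = 1 := by
    rw [hθ, ip_ind_left _ _ cf_one]; exact ip_irr_self irr_one
  have hHi : H.index = 3 * p := by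
    have := H.index_mul_card
    rw [hGH] at this
    exact Nat.eq_of_mul_eq_mul_right hH0 this
  refine tpA0 hG h he hp3 hθc (fun g hg =>
    ind_apply_eq_zero _ _ fun y k e => absurd (by
      rw [show (k : G) = y⁻¹ * g * y from e, orderOf_conj']; exact hg) (hHreg k k.2)) hθi hθ1
    (fun u hu h2 => ⟨_, (hθf u).symm, hf u hu h2⟩) (fun hi => ⟨H, ?_, hHi⟩) hν hse
  have hfx : ∀ i : G, orderOf i = 2 → Nat.card (fixedBy Ω i) = 1 := fun i h2 => by
    have := (hθf i).trans (hi i h2)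
    exact_mod_cast this
  have htop : H ≠ ⊤ := fun e => by
    rw [e, index_top] at hHi
    omega
  refine ⟨htop, ?_, fun g hg => ?_⟩
  · obtain ⟨j, hj, -⟩ := SC_exists_inv_NN h (by rw [he]; exact even_two)
    obtain ⟨⟨ω, hω⟩⟩ : Nonempty (fixedBy Ω j) := (Nat.card_pos_iff.1 (by rw [hfx j hj]; omega)).1
    obtain ⟨s, rfl⟩ := MulAction.exists_smul_eq G a ω
    have h2 : s⁻¹ * j * s ∈ H := by
      rw [hH, mem_stabilizer_iff, mul_smul, mul_smul, mem_fixedBy.1 hω, inv_smul_smul]
    exact even_iff_two_dvd.2 (((H20.orderOf_conj' s j).trans hj) ▸ orderOf_dvd_natCard H h2)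
  · by_contra hodd
    obtain ⟨i, hi⟩ := exists_prime_orderOf_dvd_card' 2
      (even_iff_two_dvd.1 (Nat.not_odd_iff_even.1 hodd))
    rw [← orderOf_coe] at hi
    obtain ⟨hi1, y, hy, hi2⟩ := i.2
    haveI := (Nat.card_eq_one_iff_unique.1 (hfx i hi)).1
    have m1 : a ∈ fixedBy Ω (i : G) := hi1
    have m2 : g • a ∈ fixedBy Ω (i : G) := by
      rw [mem_fixedBy, ← hi2]
      change (g * y * g⁻¹) • g • a = g • a
      rw [mul_smul, mul_smul, inv_smul_smul, mem_stabilizer_iff.1 hy]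
    exact hg (congrArg Subtype.val (Subsingleton.elim (⟨_, m2⟩ : fixedBy Ω (i : G)) ⟨_, m1⟩))

end Cfsg.Agent.H9.Tp
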